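import Cfsg.Agent.Lib.U4.Defs

/-!
Elements, normality, commutators, orders and `dg` calculus in the Sylow subgroup of `SU₄(q)`.
-/

set_option autoImplicit false

namespace Cfsg.Agent.U4

open Cfsg.Agent.Fus Cfsg.Agent.Fus2 Subgroup
open Cfsg.Agent.U5 (Uf map_star' k0 mem_k0 exists_trace card_k0 card_K exists_q_pow
  eq_zero_of_real exists_k0_ne)

universe u v

section Elt

variable {K : Type v} [Field K] [StarRing K]

/-- The element of `J` with coordinates `c, t, z`. -/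
def xj (c t z : K) (ht : star t = -t) (hz : star z = -z) : P K :=
  ⟨0, c, t, z, by simp [ht], by simp [hz]⟩

@[simp] theorem xj_a (c t z : K) (ht hz) : (xj c t z ht hz).a = 0 := rfl
@[simp] theorem xj_c (c t z : K) (ht hz) : (xj c t z ht hz).c = c := rfl
@[simp] theorem xj_t (c t z : K) (ht hz) : (xj c t z ht hz).t = t := rfl
@[simp] theorem xj_z (c t z : K) (ht hz) : (xj c t z ht hz).z = z := rfl

/-- The element with prescribed `a, c, t` and `z = -a c̄`. -/
def xe (a c t : K) (ht : star t = -t) : P K :=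
  ⟨a, c, t, -(a * star c), by simp [ht], by simp [mul_comm]⟩

@[simp] theorem xe_a (a c t : K) (ht) : (xe a c t ht).a = a := rfl
@[simp] theorem xe_c (a c t : K) (ht) : (xe a c t ht).c = c := rfl
@[simp] theorem xe_t (a c t : K) (ht) : (xe a c t ht).t = t := rfl
@[simp] theorem xe_z (a c t : K) (ht) : (xe a c t ht).z = -(a * star c) := rfl

theorem star_z_J {x : P K} (hx : x ∈ J K) : star x.z = -x.z := by
  rw [P.star_z, mem_J.1 hx]; simp

theorem conj_a (g x : P K) : (g * x * g⁻¹).a = x.a := by simp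
theorem conj_t (g x : P K) : (g * x * g⁻¹).t = x.t := by simp
theorem conj_c (g x : P K) : (g * x * g⁻¹).c = x.c + g.a * x.t - x.a * g.t := by simp; ring
theorem conj_z (g x : P K) : (g * x * g⁻¹).z = x.z + x.c * star g.a - g.a * star x.c +
    x.a * star g.c - g.c * star x.a + g.a * star g.a * x.t - g.a * star x.a * x.t := by
  simp [P.star_t, P.star_z]; ring

theorem conj_z_J (g : P K) {x : P K} (hx : x ∈ J K) : (g * x * g⁻¹).z =
    x.z + x.c * star g.a - g.a * star x.c + g.a * star g.a * x.t := by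
  rw [conj_z, mem_J.1 hx]; simp

theorem icj_a (g x : P K) : (x⁻¹ * (g * x * g⁻¹)).a = 0 := by simp
theorem icj_t (g x : P K) : (x⁻¹ * (g * x * g⁻¹)).t = 0 := by simp
theorem icj_c (g x : P K) : (x⁻¹ * (g * x * g⁻¹)).c = g.a * x.t - x.a * g.t := by simp; ring
theorem icj_z (g x : P K) : (x⁻¹ * (g * x * g⁻¹)).z = x.c * star g.a - g.a * star x.c +
    x.a * star g.c - g.c * star x.a + (g.a * star g.a - g.a * star x.a - x.a * star g.a) * x.t +
    x.a * star x.a * g.t := by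
  simp [P.star_t, P.star_z]; ring

/-- Commuting elements, coordinate by coordinate. -/
theorem commute_iff {x y : P K} : x * y = y * x ↔ x.a * y.t = y.a * x.t ∧
    x.a * (star y.c + star y.a * y.t) + x.c * star y.a =
      y.a * (star x.c + star x.a * x.t) + y.c * star x.a := by
  rw [P.ext_iff]
  simp only [P.mul_a, P.mul_c, P.mul_t, P.mul_z]
  exact ⟨fun ⟨_, h₁, _, h₂⟩ => ⟨by linear_combination h₁, by linear_combination -h₂⟩,
    fun ⟨h₁, h₂⟩ => ⟨by ring, by linear_combination h₁, by ring, by linear_combination -h₂⟩⟩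

instance : (J K).Normal := ⟨fun x hx g => by rw [mem_J, conj_a]; exact hx⟩
instance : (Q K).Normal := ⟨fun x hx g => by rw [mem_Q, conj_t]; exact hx⟩
instance : (Z2 K).Normal := ⟨fun x hx g => by rw [mem_Z2, conj_a, conj_t]; exact hx⟩
instance : (Z K).Normal := ⟨fun x hx g => by
  rw [mem_Z, conj_a, conj_t, conj_c]; simp [hx.1, hx.2.1, hx.2.2]⟩
instance (a₀ : K) : (Ea a₀).Normal := ⟨fun x hx g => by rw [mem_Ea, conj_a]; exact hx⟩

theorem Z_le_Z2 : Z K ≤ Z2 K := fun _ h => ⟨h.1, h.2.1⟩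
theorem Z2_le_J : Z2 K ≤ J K := fun _ h => h.1
theorem Z2_le_Q : Z2 K ≤ Q K := fun _ h => h.2
theorem Z_le_J : Z K ≤ J K := fun _ h => h.1
theorem Z_le_Q : Z K ≤ Q K := fun _ h => h.2.1
theorem J_le_Ea (a₀ : K) : J K ≤ Ea a₀ := fun _ h => by simp [mem_Ea, mem_J.1 h]

theorem icj_mem_Z2 (g x : P K) : x⁻¹ * (g * x * g⁻¹) ∈ Z2 K := ⟨icj_a g x, icj_t g x⟩

theorem icj_mem_Z (g : P K) {x : P K} (hx : x ∈ Z2 K) : x⁻¹ * (g * x * g⁻¹) ∈ Z K := by
  rw [mem_Z, icj_a, icj_t, icj_c]; simp [hx.1, hx.2]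

theorem icj_mem_Z' {g : P K} (hg : g ∈ Z2 K) (x : P K) : x⁻¹ * (g * x * g⁻¹) ∈ Z K := by
  rw [mem_Z, icj_a, icj_t, icj_c]; simp [hg.1, hg.2]

theorem icj_Q {g x : P K} (hg : g ∈ Q K) (hx : x ∈ Q K) : x⁻¹ * (g * x * g⁻¹) ∈ Z K := by
  rw [mem_Z, icj_a, icj_t, icj_c]; simp [mem_Q.1 hg, mem_Q.1 hx]

theorem comm_Z {x : P K} (hx : x ∈ Z K) (y : P K) : x * y = y * x := by
  rw [commute_iff]; simp [hx.1, hx.2.1, hx.2.2]

theorem comm_J {x y : P K} (hx : x ∈ J K) (hy : y ∈ J K) : x * y = y * x := by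
  rw [commute_iff]; simp [mem_J.1 hx, mem_J.1 hy]

theorem conj_Z {x : P K} (hx : x ∈ Z K) (g : P K) : g * x * g⁻¹ = x := by
  rw [← comm_Z hx g, mul_inv_cancel_right]

theorem conj_J {x g : P K} (hx : x ∈ J K) (hg : g ∈ J K) : g * x * g⁻¹ = x := by
  rw [← comm_J hx hg, mul_inv_cancel_right]

theorem eq_of_z {x y : P K} (hx : x ∈ Z K) (hy : y ∈ Z K) (h : x.z = y.z) : x = y :=
  P.ext (hx.1.trans hy.1.symm) (hx.2.2.trans hy.2.2.symm) (hx.2.1.trans hy.2.1.symm) h

end Elt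

section Card

variable {K : Type v} [Field K] [Fintype K] [Uf K]

theorem mem_J_of_comm {x : P K} (h : ∀ y ∈ Z2 K, x * y = y * x) : x ∈ J K := by
  refine eq_zero_of_real (K := K) fun y => ?_
  have := (commute_iff.1 (h (xj (star y) 0 0 (by simp) (by simp)) ⟨rfl, rfl⟩)).2
  simp at this
  rw [star_mul', this, mul_comm]

theorem mem_Z_of_comm {x : P K} (h : ∀ y ∈ Q K, x * y = y * x) : x ∈ Z K := by
  have ha : x.a = 0 := mem_J_of_comm fun y hy => h y (Z2_le_Q hy)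
  have ht : x.t = 0 := by simpa [ha] using (commute_iff.1 (h (xe 1 0 0 (by simp)) rfl)).1.symm
  refine ⟨ha, ht, eq_zero_of_real fun y => ?_⟩
  have := (commute_iff.1 (h (xe (star y) 0 0 (by simp)) rfl)).2
  simp [ha, ht] at this
  rw [star_mul', this, mul_comm]

/-- The index of the kernel of a coordinate that is additive on `A`. -/
theorem card_step {A B : Subgroup (P K)} (φ : P K → K) (R : AddSubgroup K)
    (hφ : ∀ x ∈ A, ∀ y ∈ A, φ (x * y) = φ x + φ y) (hB : ∀ x, x ∈ B ↔ x ∈ A ∧ φ x = 0)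
    (hR : ∀ r, r ∈ R ↔ ∃ x ∈ A, φ x = r) : Nat.card A = Nat.card B * Nat.card R := by
  let f : A →* Multiplicative K := MonoidHom.mk' (fun x => Multiplicative.ofAdd (φ x))
    fun x y => congrArg Multiplicative.ofAdd (hφ x x.2 y y.2)
  have hk : f.ker = B.subgroupOf A := by
    ext x
    rw [MonoidHom.mem_ker, mem_subgroupOf, hB]
    exact ⟨fun h => ⟨x.2, h⟩, fun h => h.2⟩
  have hr : f.range = R.toSubgroup := by
    ext r
    exact ⟨fun ⟨x, hx⟩ => (hR _).2 ⟨x, x.2, hx⟩, fun h => by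
      obtain ⟨x, hx, e⟩ := (hR _).1 h
      exact ⟨⟨x, hx⟩, e⟩⟩
  rw [← f.ker.card_mul_index, index_ker, hk, hr,
    Nat.card_congr (subgroupOfEquivOfLe (fun x hx => ((hB x).1 hx).1)).toEquiv]
  rfl

variable (K)

theorem card_Z : Nat.card (Z K) = Uf.q K := by
  rw [card_step (A := Z K) (B := ⊥) P.z (k0 K) (fun x hx y hy => by
      simp [hx.1, hx.2.2]) (fun x => ⟨by rintro rfl; exact ⟨one_mem _, rfl⟩,
      fun ⟨h, h'⟩ => P.ext h.1 h.2.2 h.2.1 h'⟩) fun r => ⟨fun hr =>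
      ⟨xj 0 0 r (by simp) hr, ⟨rfl, rfl, rfl⟩, rfl⟩, by
        rintro ⟨x, hx, rfl⟩
        exact star_z_J hx.1⟩, card_k0, card_bot, one_mul]

theorem card_Z2 : Nat.card (Z2 K) = Uf.q K ^ 3 := by
  rw [card_step (A := Z2 K) (B := Z K) P.c ⊤ (fun x hx y hy => by simp [hx.1])
    (fun x => by simp [mem_Z, mem_Z2, and_assoc]) fun r => ⟨fun _ =>
      ⟨xj r 0 0 (by simp) (by simp), ⟨rfl, rfl⟩, rfl⟩, fun _ => trivial⟩, card_Z,
    AddSubgroup.card_top, card_K]
  ring

theorem card_J : Nat.card (J K) = Uf.q K ^ 4 := by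
  rw [card_step (A := J K) (B := Z2 K) P.t (k0 K) (fun x hx y hy => by simp)
    (fun x => by simp [mem_J, mem_Z2]) fun r => ⟨fun hr =>
      ⟨xj 0 r 0 hr (by simp), rfl, rfl⟩, by
        rintro ⟨x, -, rfl⟩
        exact x.star_t⟩, card_Z2, card_k0]
  ring

theorem card_Q : Nat.card (Q K) = Uf.q K ^ 5 := by
  rw [card_step (A := Q K) (B := Z2 K) P.a ⊤ (fun x hx y hy => by simp)
    (fun x => by simp only [mem_Q, mem_Z2]; tauto) fun r => ⟨fun _ =>
      ⟨xe r 0 0 (by simp), rfl, rfl⟩, fun _ => trivial⟩, card_Z2, AddSubgroup.card_top, card_K]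
  ring

theorem card_top : Nat.card (⊤ : Subgroup (P K)) = Uf.q K ^ 6 := by
  rw [card_step (A := ⊤) (B := J K) P.a ⊤ (fun x hx y hy => by simp)
    (fun x => by simp [mem_J]) fun r => ⟨fun _ =>
      ⟨xe r 0 0 (by simp), trivial, rfl⟩, fun _ => trivial⟩, card_J, AddSubgroup.card_top, card_K]
  ring

theorem card_P : Nat.card (P K) = Uf.q K ^ 6 := by rw [← card_top, Subgroup.card_top]

theorem pg_top (p : ℕ) [Fact p.Prime] [CharP K p] : IsPGroup p (⊤ : Subgroup (P K)) := by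
  obtain ⟨n, -, hn⟩ := exists_q_pow K p
  exact IsPGroup.of_card (n := n * 6) (by rw [card_top, hn, pow_mul])

theorem pg (p : ℕ) [Fact p.Prime] [CharP K p] : IsPGroup p (P K) :=
  (pg_top K p).of_equiv topEquiv

variable {K}

/-- A field automorphism acts on the units of the fixed field. -/
def kmap (σ : K ≃+* K) (m : ku K) : ku K :=
  ⟨Units.map (σ : K →* K) m, by
    show star (σ ((m : Kˣ) : K)) = σ ((m : Kˣ) : K)
    rw [← map_star', star_ku]⟩

@[simp] theorem kmap_val (σ : K ≃+* K) (m : ku K) :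
    (((kmap σ m : ku K) : Kˣ) : K) = σ ((m : Kˣ) : K) := rfl

theorem dg_mul (l l' : Kˣ) (m m' : ku K) (σ σ' : K ≃+* K) : dg l m σ * dg l' m' σ' =
    dg (l * Units.map (σ : K →* K) l') (m * kmap σ m') (σ'.trans σ) := by
  ext x <;> simp [map_star'] <;> ring

theorem dg_one : dg 1 1 (RingEquiv.refl K) = 1 := by ext x <;> simp

theorem dg_inv (l : Kˣ) (m : ku K) (σ : K ≃+* K) : (dg l m σ)⁻¹ =
    dg (Units.map (σ.symm : K →* K) l⁻¹) (kmap σ.symm m⁻¹) σ.symm := by
  rw [inv_eq_iff_mul_eq_one, dg_mul, ← dg_one]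
  congr 1
  · ext; simp
  · ext; simp
  · ext; simp

theorem eta_a (ρ : ku K) (x : P K) : (eta ρ x).a = x.a / (ρ : Kˣ) := by
  simp [eta, div_eq_inv_mul]
theorem eta_c (ρ : ku K) (x : P K) : (eta ρ x).c = (ρ : Kˣ) * x.c := by
  have := (ρ : Kˣ).ne_zero
  simp [eta]; left; field_simp
theorem eta_t (ρ : ku K) (x : P K) : (eta ρ x).t = ((ρ : Kˣ) : K) ^ 2 * x.t := by simp [eta]
theorem eta_z (ρ : ku K) (x : P K) : (eta ρ x).z = x.z := by
  have := (ρ : Kˣ).ne_zero
  simp [eta, star_ku]; field_simp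

theorem hh_a (μ : Kˣ) (x : P K) : (hh μ x).a = (μ : K) ^ 2 * x.a := by simp [hh]
theorem hh_c (μ : Kˣ) (x : P K) : (hh μ x).c = μ / star (μ : K) * x.c := by
  have := μ.ne_zero
  have := star_ne_zero.2 this
  simp [hh]; left; field_simp
theorem hh_t (μ : Kˣ) (x : P K) : (hh μ x).t = x.t / (μ * star (μ : K)) := by
  simp [hh, div_eq_inv_mul]
theorem hh_z (μ : Kˣ) (x : P K) : (hh μ x).z = μ * star (μ : K) * x.z := by
  have := μ.ne_zero
  have := star_ne_zero.2 this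
  simp [hh]; left; field_simp

variable {F F' F'' : FusionSystem (⊤ : Subgroup (P K))} {f : P K → P K}

theorem Au.surj {E R : Subgroup (P K)} (hf : Au F E f) (hR : R ≤ E) (h : ∀ x ∈ R, f x ∈ R)
    {y : P K} (hy : y ∈ R) : ∃ x ∈ R, f x = y := by
  rw [← (hf.1.mono hR).img_eq_self h] at hy
  exact (hf.1.mono hR).homOn.mem_img.1 hy

theorem Au.icj {E : Subgroup (P K)} (hf : Au F E f) {g y : P K} (hg : g ∈ E) (hy : y ∈ E) :
    f (y⁻¹ * (g * y * g⁻¹)) = (f y)⁻¹ * (f g * f y * (f g)⁻¹) := by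
  have h := hf.1.homOn
  rw [h.map_mul (inv_mem hy) (mul_mem (mul_mem hg hy) (inv_mem hg)),
    h.map_mul (mul_mem hg hy) (inv_mem hg), h.map_mul hg hy, h.map_inv hy, h.map_inv hg]

theorem Au.comm {E : Subgroup (P K)} (hf : Au F E f) {x y : P K} (hx : x ∈ E) (hy : y ∈ E)
    (h : x * y = y * x) : f x * f y = f y * f x := by
  rw [← hf.1.homOn.map_mul hx hy, h, hf.1.homOn.map_mul hy hx]

theorem Au.Z_of_Q (hf : Au F (Q K) f) {x : P K} (hx : x ∈ Z K) : f x ∈ Z K :=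
  mem_Z_of_comm fun y hy => by
    obtain ⟨w, hw, rfl⟩ := hf.surj le_rfl hf.2 hy
    exact hf.comm (Z_le_Q hx) hw (comm_Z hx w)

theorem au_afn {E : Subgroup (P K)} {β : MulAut E} (hβ : β ∈ F.autGroup E) : Au F E (afn β) :=
  ⟨M_afn le_top hβ, fun _ hx => afn_mem β hx⟩

theorem exists_iso (θ : MulAut (P K)) (F : FusionSystem (⊤ : Subgroup (P K))) :
    ∃ F' : FusionSystem (⊤ : Subgroup (P K)), IsoM F F' θ θ.symm :=
  have hG : GIso (⊤ : Subgroup (P K)) ⊤ θ θ.symm := ⟨homOn_hom ⊤ θ.toMonoidHom, fun _ _ => trivial,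
    fun _ _ => trivial, fun x _ => θ.symm_apply_apply x, fun x _ => θ.apply_symm_apply x⟩
  hG.exists_isoM F

theorem M_of_iso {θ : MulAut (P K)} (h : IsoM F F' θ θ.symm) {E : Subgroup (P K)}
    (hE : ∀ x, θ x ∈ E ↔ x ∈ E) : M F' E f ↔ M F E fun x => θ.symm (f (θ x)) := by
  have e : img E θ = E := by
    ext y
    rw [h.mem_img le_top, ← hE, MulEquiv.apply_symm_apply]
    simp
  refine ⟨fun hf => h.pull' le_top (e.symm ▸ hf), fun hf => ?_⟩
  have := h.M_of hf (g := f) fun x _ => by simp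
  rwa [e] at this

theorem au_of_iso {θ : MulAut (P K)} (h : IsoM F F' θ θ.symm) {E : Subgroup (P K)}
    (hE : ∀ x, θ x ∈ E ↔ x ∈ E) : Au F' E f ↔ Au F E fun x => θ.symm (f (θ x)) :=
  and_congr (M_of_iso h hE) ⟨fun H x hx => (hE _).1 (by simpa using H _ ((hE x).2 hx)),
    fun H x hx => by simpa using (hE _).2 (H (θ.symm x) ((hE _).1 (by simpa using hx)))⟩

theorem Iso.refl (F : FusionSystem (⊤ : Subgroup (P K))) : Iso F F := ⟨1, isoM_refl F⟩

theorem Iso.trans (h : Iso F F') (h' : Iso F' F'') : Iso F F'' :=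
  ⟨h'.choose * h.choose, h.choose_spec.trans h'.choose_spec⟩

theorem Iso.core (h : Iso F F') (hF : F.core = ⊥) : F'.core = ⊥ := by
  rw [h.choose_spec.core_eq, hF, img_bot (map_one _)]

theorem Iso.saturated {p : ℕ} [Fact p.Prime] [CharP K p] (h : Iso F F') (hF : F.IsSaturated p) :
    F'.IsSaturated p := h.choose_spec.saturated (pg_top K p) hF

theorem Iso.real {p : ℕ} [Fact p.Prime] (h : Iso F F') (hF : F'.IsRealizable p) :
    F.IsRealizable p := U5.real_of_isoM h.choose_spec hF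

/-- Change of the field. -/
theorem exists_field_iso {K₀ : Type u} [Field K₀] [Fintype K₀] [Uf K₀] (h : Uf.q K = Uf.q K₀)
    (F : FusionSystem (⊤ : Subgroup (P K))) :
    ∃ (F₀ : FusionSystem (⊤ : Subgroup (P K₀))) (a : P K → P K₀) (b : P K₀ → P K),
      IsoM F F₀ a b := by
  let e : K ≃+* K₀ := FiniteField.ringEquivOfCardEq (by rw [Uf.card_eq, Uf.card_eq, h])
  have hs : ∀ x, e (star x) = star (e x) := fun x => by rw [Uf.star_eq, Uf.star_eq, map_pow, h]
  have hs' : ∀ x, e.symm (star x) = star (e.symm x) := fun x => by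
    rw [Uf.star_eq, Uf.star_eq, map_pow, h]
  let a : P K → P K₀ := fun x => ⟨e x.a, e x.c, e x.t, e x.z, by
    simpa only [map_add, hs, map_zero] using congrArg e x.ht, by
    simpa only [map_add, map_mul, hs, map_zero] using congrArg e x.hz⟩
  let b : P K₀ → P K := fun x => ⟨e.symm x.a, e.symm x.c, e.symm x.t, e.symm x.z, by
    simpa only [map_add, hs', map_zero] using congrArg e.symm x.ht, by
    simpa only [map_add, map_mul, hs', map_zero] using congrArg e.symm x.hz⟩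
  have hG : GIso (⊤ : Subgroup (P K)) (⊤ : Subgroup (P K₀)) a b :=
    ⟨fun x _ y _ => by ext <;> simp [a, hs], fun _ _ => trivial, fun _ _ => trivial,
      fun x _ => by ext <;> simp [a, b], fun x _ => by ext <;> simp [a, b]⟩
  obtain ⟨F₀, h₀⟩ := hG.exists_isoM F
  exact ⟨F₀, a, b, h₀⟩

/-- It suffices to treat one field of each order. -/
theorem real_of_field {K₀ : Type u} [Field K₀] [Fintype K₀] [Uf K₀] (h : Uf.q K = Uf.q K₀)
    {p : ℕ} [Fact p.Prime] [CharP K p] (h₀ : ∀ F₀ : FusionSystem (⊤ : Subgroup (P K₀)),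
      F₀.IsSaturated p → F₀.core = ⊥ → F₀.IsRealizable p) (hF : F.IsSaturated p)
    (hc : F.core = ⊥) : F.IsRealizable p := by
  obtain ⟨F₀, a, b, e⟩ := exists_field_iso h F
  exact U5.real_of_isoM e (h₀ F₀ (e.saturated (pg_top K p) hF)
    (by rw [e.core_eq, hc, img_bot e.hom.map_one]))

end Card

end Cfsg.Agent.U4
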