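import Cfsg.Agent.Lib.U4.Ess
import Cfsg.Agent.Lib.U5.CmpG

/-!
Rows ALP and CMP.
-/

set_option autoImplicit false

namespace Cfsg.Agent.U4

open Cfsg.Agent.Fus Cfsg.Agent.Fus2 Subgroup
open Cfsg.Agent.U5 (Uf exists_k0_ne klin eq_zero_of_lin van_of_fix)

universe v

theorem alp (hE : EssStmt.{v}) (hX : ExtStmt.{v}) : AlpStmt.{v} := by
  intro K _ _ _ p _ _ F F' hF ⟨_, ⟨w, hw, ew⟩, hB⟩ hM ⟨w', hw', ew'⟩ hQ
  have key : ∀ f, Au F (J K) f → (∀ x ∈ Z K, f x ∈ Z K) → M F' (J K) f := fun f hf h => by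
    obtain ⟨g, hg, e⟩ := (hX hF).2 f hf h
    exact ((hM g hg).mono le_top).congr e
  have hs : ∀ s : P K, ∀ x ∈ J K, s * x * s⁻¹ ∈ J K := fun s x hx =>
    (inferInstance : (J K).Normal).conj_mem x hx s
  refine alperin_le (pg_top K p) hF ?_
  rintro E (rfl | hEs)
  · exact fun α hα => (hM _ (M_afn le_rfl hα)).mem_autGroup fun _ _ => rfl
  rcases hE hF hEs with rfl | rfl | ⟨-, a₀, ha₀, rfl⟩
  · exact fun α hα => (hQ _ (au_afn hα)).mem_autGroup fun _ _ => rfl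
  · intro α hα
    have hf := au_afn hα
    rcases hB _ hf with h | ⟨s, h⟩
    · exact (key _ hf h).mem_autGroup fun _ _ => rfl
    have hj : ∀ x ∈ J K, s * afn α x * s⁻¹ ∈ J K := fun x hx => hs s _ (hf.2 x hx)
    have h₁ := key (fun x => w (s * afn α x * s⁻¹)) ⟨(hf.1.comp (M_conj F le_top (mem_top s))
      hf.2).comp hw.1 hj, fun x hx => hw.2 _ (hj x hx)⟩ fun x hx => by
        obtain ⟨e₁, e₂, -⟩ := ew _ (hj x hx.1)
        exact ⟨hw.2 _ (hj x hx.1), by rw [e₁, (h x hx).2], by rw [e₂, (h x hx).1, star_zero]⟩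
    refine ((h₁.comp hw'.1 fun x hx => hw.2 _ (hj x hx)).comp (M_conj F' le_top (mem_top s⁻¹))
      fun x hx => hw'.2 _ (hw.2 _ (hj x hx))).mem_autGroup fun x hx => ?_
    obtain ⟨e₁, e₂, e₃⟩ := ew _ (hj x hx)
    obtain ⟨e₄, e₅, e₆⟩ := ew' _ (hw.2 _ (hj x hx))
    rw [show w' (w (s * afn α x * s⁻¹)) = s * afn α x * s⁻¹ from
      P.ext ((hw'.2 _ (hw.2 _ (hj x hx))).trans (hj x hx).symm) (by rw [e₅, e₂, star_star])
        (by rw [e₄, e₃]) (by rw [e₆, e₁])]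
    group
  have he : xe a₀ 0 0 (by simp) ∈ Ea a₀ := by simp [mem_Ea]
  have i₁ : ∀ β ∈ F.autGroup (Ea a₀), ∀ x ∈ Z K, afn β x ∈ Z K := fun β hβ => by
    have hf := au_afn hβ
    have hJ := Es.inv_J (J_le_Ea a₀) β
    refine (hB _ ⟨hf.1.mono (J_le_Ea a₀), hJ⟩).elim id fun ⟨s, h⟩ x hx => ?_
    obtain ⟨y, hy, e⟩ := hf.surj le_rfl hf.2 he
    have ht := ((Es.comm_J' (x := xe a₀ 0 0 (by simp)) ha₀ (hJ x hx.1)).1
      (e ▸ hf.comm hy (J_le_Ea a₀ hx.1) (comm_Z hx y).symm)).1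
    have : s * afn β x * s⁻¹ = 1 := P.ext (hs s _ (hJ x hx.1)) (h x hx).1 ((conj_t ..).trans ht)
      (h x hx).2
    rw [conj_eq_one_iff.1 this]
    exact one_mem _
  refine absurd (SP4.OB.le_of_chain (pg_top K p) hF hEs le_rfl le_normalizer_of_normal Z_le_Z2
    (fun β hβ x _ => i₁ β hβ x) (fun β hβ x hx hx' => ?_) (fun g _ x _ => icj_mem_Z2 g x)
    (fun g _ _ _ hx => icj_mem_Z g hx) fun g _ _ _ hx => conj_Z hx g)
    (lt_of_isEssential (pg_top K p) hF hEs).not_ge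
  have hf := au_afn hβ
  have hJ := Es.inv_J (J_le_Ea a₀) β x hx'.1
  obtain ⟨y, hy, e⟩ := hf.surj le_rfl hf.2 he
  have := (i₁ β hβ _ (icj_mem_Z y hx')).2.2
  rw [hf.icj hy hx, e, icj_c] at this
  exact ⟨hJ, by simpa [ha₀] using this⟩

namespace Cm

variable {K : Type v} [Field K] [Fintype K] [Uf K]

theorem form (f : K → K) (hadd : ∀ x y, f (x + y) = f x + f y) (hs : ∀ x, star (f x) = -f x)
    (h : ∀ ρ : ku K, ∀ x, f ((ρ : Kˣ) * x) = f x) : ∃ u, ∀ x, f x = x * star u - u * star x := by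
  have h0 : f 0 = 0 := by simpa using hadd 0 0
  obtain ⟨f₁, f₂, e⟩ := klin f hadd fun l x hl => by
    by_cases l0 : l = 0
    · simp [l0, h0]
    by_cases l1 : l = 1
    · simp [l1]
    simp [van_of_fix f hadd (β := l) (χ := 1) (fun x => by
      rw [one_mul]; exact h ⟨Units.mk0 l l0, hl⟩ x) (.inl ⟨l1, rfl⟩)]
  have := (eq_zero_of_lin (e := f₁ + star f₂) (e' := f₂ + star f₁) fun y => by
    have := hs y
    rw [e] at this
    simp only [star_add, star_mul', star_star] at this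
    linear_combination this).1
  exact ⟨-f₂, fun x => by rw [e, star_neg]; linear_combination x * this⟩

/-- Automorphisms of `Q` trivial on `Q / Z` and commuting with `η` are inner. -/
theorem fixQ {n : P K → P K} (hm : ∀ x ∈ Q K, ∀ y ∈ Q K, n (x * y) = n x * n y)
    (hZ : ∀ x ∈ Q K, x⁻¹ * n x ∈ Z K) (hc : ∀ ρ, ∀ x ∈ Q K, eta ρ (n x) = n (eta ρ x)) :
    ∃ g ∈ Q K, ∀ x ∈ Q K, n x = g * x * g⁻¹ := by
  obtain ⟨ζ, e, hZ⟩ : ∃ ζ : P K → P K, (∀ x, n x = x * ζ x) ∧ ∀ x ∈ Q K, ζ x ∈ Z K :=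
    ⟨fun x => x⁻¹ * n x, by simp, hZ⟩
  have hζ : ∀ x ∈ Q K, ∀ y ∈ Q K, (ζ (x * y)).z = (ζ x).z + (ζ y).z := fun x hx y hy => by
    have : ζ (x * y) = ζ x * ζ y := by
      rw [← mul_right_inj (x * y), ← e, hm x hx y hy, e x, e y, mul_assoc, ← mul_assoc (ζ x),
        comm_Z (hZ x hx) y]
      simp only [mul_assoc]
    obtain ⟨h₁, -, h₂⟩ := hZ x hx
    simp [this, h₁, h₂]
  have hq : ∀ ρ, ∀ x ∈ Q K, (ζ (eta ρ x)).z = (ζ x).z := fun ρ x hx => by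
    have := hc ρ x hx
    rw [e, e, map_mul, mul_right_inj] at this
    rw [← this, eta_z]
  have h1 : (ζ 1).z = 0 := by simpa using hζ 1 (one_mem _) 1 (one_mem _)
  have hi : ∀ x ∈ Q K, (ζ x⁻¹).z = -(ζ x).z := fun x hx => by
    have := hζ _ (inv_mem hx) x hx
    rw [inv_mul_cancel, h1] at this
    linear_combination -this
  have hZ1 : ∀ z ∈ Z K, (ζ z).z = 0 := fun z hz => by
    obtain ⟨y, hy, rfl⟩ := Es.exists_icj (x := xe 1 0 0 (by simp)) one_ne_zero hz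
    replace hy := Z2_le_Q hy
    have hg : xe (1 : K) 0 0 (by simp) ∈ Q K := rfl
    rw [hζ _ (inv_mem hg) _ (mul_mem (mul_mem hy hg) (inv_mem hy)),
      hζ _ (mul_mem hy hg) _ (inv_mem hy), hζ _ hy _ hg, hi _ hy, hi _ hg]
    ring
  obtain ⟨u, hu⟩ := form (fun a => (ζ (xe a 0 0 (by simp))).z) (fun x y => by
    rw [← hζ _ rfl _ rfl]; congr 2; ext <;> simp) (fun x => star_z_J (hZ _ rfl).1) fun ρ x => by
      rw [← hq ρ _ rfl]; congr 2
      ext <;> simp [eta_a, eta_c, eta_t, eta_z]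
  obtain ⟨r, hr⟩ := form (fun c => (ζ (xe 0 c 0 (by simp))).z) (fun x y => by
    rw [← hζ _ rfl _ rfl]; congr 2; ext <;> simp) (fun x => star_z_J (hZ _ rfl).1) fun ρ x => by
      rw [← hq ρ (xe 0 x 0 _) rfl]; congr 2
      ext <;> simp [eta_a, eta_c, eta_t, eta_z]
  refine ⟨xe r u 0 (by simp), rfl, fun x hx => ?_⟩
  rw [e, eq_comm, ← inv_mul_eq_iff_eq_mul]
  refine eq_of_z (icj_Q rfl hx) (hZ x hx) ?_
  have := hζ (xe x.a 0 0 (by simp) * xe 0 x.c 0 (by simp)) (by simp [mem_Q])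
    ((xe x.a 0 0 (by simp) * xe 0 x.c 0 (by simp))⁻¹ * x) (by simp [mem_Q, mem_Q.1 hx])
  rw [mul_inv_cancel_left, hZ1 (_⁻¹ * x) (by simp [mem_Z, mem_Q.1 hx]), hζ _ rfl _ rfl] at this
  rw [this, hu, hr, icj_z]
  simp [mem_Q.1 hx]
  ring

theorem dg_eq_one {l : Kˣ} {m : ku K} {σ : K ≃+* K} (ha : ∀ a : K, l * σ a = a)
    (hb : ((m : Kˣ) : K) = 1) : dg l m σ = 1 := by
  have hl : (l : K) = 1 := by simpa using ha 1
  have hσ : ∀ a, σ a = a := fun a => by simpa [hl] using ha a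
  ext x <;> simp [hl, hb, hσ]

/-- The torus `η`. -/
def etaHom : ku K →* MulAut (P K) := MonoidHom.mk' eta fun x y => by
  ext z <;> simp [eta_a, eta_c, eta_t, eta_z, mul_pow, div_div, mul_comm, mul_left_comm]

end Cm

open Cm in
theorem cmp (hX : ExtStmt.{v}) : CmpStmt.{v} := by
  intro K _ _ _ p _ _ F F' hF hF' hN hM ⟨hη, hw, hB⟩ ⟨_, hw', _⟩ f hf
  obtain ⟨ε, hε, hε'⟩ := exists_k0_ne K
  obtain ⟨w, a₁, e₁⟩ := hw ε hε hε'
  obtain ⟨w', a₁', e₁'⟩ := hw' ε hε hε'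
  have hη' : ∀ ρ (y : P K), etaHom ρ y = eta ρ y := fun _ _ => rfl
  refine CmpG.cmp_side (pg K p) etaHom
    (fun h => CmpG.not_dvd_units K p (h.trans (card_subgroup_dvd_card _))) (U := Z2 K) (C := Z K)
    Z2_le_Q (fun d y hy => by simp [mem_Q, hη', eta_t, mem_Q.1 hy])
    (fun d y hy => by simp [mem_Z, hη', eta_t, eta_a, eta_c, hy.1, hy.2.1, hy.2.2])
    (fun g hg x hx => icj_Q hg hx) Z_le_Z2 hM hη (hX hF).1 (hX hF').1 (fun f hf h => ?_)
    (fun n => fixQ) a₁ a₁' (fun x hx y hy e => ?_) (fun d y hy h => ?_) (fun f hf => ?_) hf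
  · obtain ⟨g, l, m, σ, e⟩ := hN f hf
    have ha : ∀ a, l * σ a = a := fun a => by
      have := (h (xe a 0 0 (by simp)) rfl).1
      simp [e] at this
      linear_combination this
    have hl : (l : K) = 1 := by simpa using ha 1
    have hm : ((m : Kˣ) : K) = 1 := by
      have := (h (xe 0 1 0 (by simp)) rfl).2.2
      simp [e, hl] at this
      linear_combination this
    rw [dg_eq_one ha hm] at e
    have := (h (xe 1 0 0 (by simp)) rfl).2.2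
    rw [e, MulAut.one_apply, icj_c] at this
    exact ⟨g, by simpa [mem_Q] using this, fun x _ => e x⟩
  · obtain ⟨h₁, h₂⟩ := e₁ x hx
    obtain ⟨h₁', h₂'⟩ := e₁' y hy
    rw [e] at h₁' h₂'
    have h₃ := mul_left_cancel₀ hε (h₂'.symm.trans h₂)
    have h₄ := neg_inj.1 ((div_left_inj' hε).1 (h₁'.symm.trans h₁))
    simp [mem_Z, mem_Q.1 hx, mem_Q.1 hy, h₃, h₄]
  · have hy' : etaHom d y ∈ Q K := by simp [mem_Q, hη', eta_t, mem_Q.1 hy]
    have : y.c = 0 := by simpa [hε] using (e₁ y hy).1.symm.trans h.1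
    exact ⟨by rw [(e₁ _ hy').1, hη', eta_c, this]; simp, a₁.2 _ hy'⟩
  · refine (hB f hf).imp id fun ⟨s, h⟩ => ⟨s, fun x hx => ?_⟩
    have hq := (inferInstance : (Q K).Normal).conj_mem _ (hf.2 x hx.2) s
    exact ⟨by rw [(e₁ _ hq).1, h x hx]; simp, a₁.2 _ hq⟩

end Cfsg.Agent.U4
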