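import Cfsg.Agent.Lib.U5.Final
import Cfsg.Agent.Lib.U5.QF
import Cfsg.Agent.Lib.U5.CoreA0

/-!
The Sylow subgroup of `SU₄(q)` in coordinates and the interface statements (docs/U4_PLAN.md).
-/

set_option autoImplicit false

namespace Cfsg.Agent.U4

open Cfsg.Agent.Fus Cfsg.Agent.Fus2 Subgroup
open Cfsg.Agent.U5 (Uf map_star')

universe u v

/-- Upper unitriangular `4 × 4` matrices preserving the antidiagonal hermitian form, given by the
entries `(1,2), (1,3), (2,3), (1,4)`; `x₂₄ = -(c̄ + ā t)`, `x₃₄ = -ā`. -/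
@[ext] structure P (K : Type v) [Field K] [StarRing K] where
  a : K
  c : K
  t : K
  z : K
  ht : t + star t = 0
  hz : z + star z + a * star c + c * star a = 0

section Grp

variable {K : Type v} [Field K] [StarRing K]

namespace P

theorem star_t (x : P K) : star x.t = -x.t := by linear_combination x.ht

theorem star_z (x : P K) : star x.z = -x.z - x.a * star x.c - x.c * star x.a := by
  linear_combination x.hz

instance : Mul (P K) := ⟨fun x y =>
  { a := x.a + y.a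
    c := x.c + y.c + x.a * y.t
    t := x.t + y.t
    z := x.z + y.z - x.a * (star y.c + star y.a * y.t) - x.c * star y.a
    ht := by simp only [star_add, star_t]; ring
    hz := by simp only [star_add, star_sub, star_mul', star_star, star_t, star_z]; ring }⟩

instance : One (P K) := ⟨⟨0, 0, 0, 0, by simp, by simp⟩⟩

instance : Inv (P K) := ⟨fun x =>
  { a := -x.a
    c := x.a * x.t - x.c
    t := -x.t
    z := star x.z
    ht := by simp only [star_neg, star_t]; ring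
    hz := by simp only [star_sub, star_neg, star_mul', star_star, star_t, star_z]; ring }⟩

@[simp] theorem mul_a (x y : P K) : (x * y).a = x.a + y.a := rfl
@[simp] theorem mul_c (x y : P K) : (x * y).c = x.c + y.c + x.a * y.t := rfl
@[simp] theorem mul_t (x y : P K) : (x * y).t = x.t + y.t := rfl
@[simp] theorem mul_z (x y : P K) :
    (x * y).z = x.z + y.z - x.a * (star y.c + star y.a * y.t) - x.c * star y.a := rfl
@[simp] theorem one_a : (1 : P K).a = 0 := rfl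
@[simp] theorem one_c : (1 : P K).c = 0 := rfl
@[simp] theorem one_t : (1 : P K).t = 0 := rfl
@[simp] theorem one_z : (1 : P K).z = 0 := rfl
@[simp] theorem inv_a (x : P K) : x⁻¹.a = -x.a := rfl
@[simp] theorem inv_c (x : P K) : x⁻¹.c = x.a * x.t - x.c := rfl
@[simp] theorem inv_t (x : P K) : x⁻¹.t = -x.t := rfl
@[simp] theorem inv_z (x : P K) : x⁻¹.z = star x.z := rfl

instance : Group (P K) := Group.ofLeftAxioms
  (fun x y w => by
    ext <;> simp only [mul_a, mul_c, mul_t, mul_z, star_add, star_mul', star_t] <;> ring)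
  (fun x => by ext <;> simp)
  (fun x => by
    ext <;> simp only [mul_a, mul_c, mul_t, mul_z, inv_a, inv_c, inv_t, inv_z, one_a, one_c, one_t,
      one_z, star_z] <;> ring)

instance [Finite K] : Finite (P K) :=
  Finite.of_injective (fun x : P K => (x.a, x.c, x.t, x.z)) fun x y h => by
    simp only [Prod.mk.injEq] at h
    exact P.ext h.1 h.2.1 h.2.2.1 h.2.2.2

end P

variable (K)

/-- `J = J(S)`, elementary abelian of order `q⁴`. -/
def J : Subgroup (P K) where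
  carrier := {x | x.a = 0}
  one_mem' := rfl
  mul_mem' := fun {x y} hx hy => by simp_all
  inv_mem' := fun {x} hx => by simp_all

/-- `Q = q^{1+4}`. -/
def Q : Subgroup (P K) where
  carrier := {x | x.t = 0}
  one_mem' := rfl
  mul_mem' := fun {x y} hx hy => by simp_all
  inv_mem' := fun {x} hx => by simp_all

/-- `Z₂(S) = S' = J ∩ Q`, of order `q³`. -/
def Z2 : Subgroup (P K) where
  carrier := {x | x.a = 0 ∧ x.t = 0}
  one_mem' := ⟨rfl, rfl⟩
  mul_mem' := fun {x y} hx hy => by simp_all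
  inv_mem' := fun {x} hx => by simp_all

/-- `Z(S)`, of order `q`. -/
def Z : Subgroup (P K) where
  carrier := {x | x.a = 0 ∧ x.t = 0 ∧ x.c = 0}
  one_mem' := ⟨rfl, rfl, rfl⟩
  mul_mem' := fun {x y} hx hy => by simp_all
  inv_mem' := fun {x} hx => by simp_all

variable {K}

/-- `J · k a₀`, of order `q⁵` (essential only for `q = 2`). -/
def Ea (a₀ : K) : Subgroup (P K) where
  carrier := {x | x.a * star a₀ = a₀ * star x.a}
  one_mem' := by simp
  mul_mem' := fun {x y} hx hy => by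
    simp only [Set.mem_ofPred_eq, P.mul_a, star_add] at *
    linear_combination hx + hy
  inv_mem' := fun {x} hx => by
    simp only [Set.mem_ofPred_eq, P.inv_a, star_neg] at *
    linear_combination -hx

theorem mem_J {x : P K} : x ∈ J K ↔ x.a = 0 := Iff.rfl
theorem mem_Q {x : P K} : x ∈ Q K ↔ x.t = 0 := Iff.rfl
theorem mem_Z2 {x : P K} : x ∈ Z2 K ↔ x.a = 0 ∧ x.t = 0 := Iff.rfl
theorem mem_Z {x : P K} : x ∈ Z K ↔ x.a = 0 ∧ x.t = 0 ∧ x.c = 0 := Iff.rfl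
theorem mem_Ea {a₀ : K} {x : P K} : x ∈ Ea a₀ ↔ x.a * star a₀ = a₀ * star x.a := Iff.rfl

variable (K) in
/-- The units of the fixed field. -/
def ku : Subgroup Kˣ where
  carrier := {m | star (m : K) = m}
  one_mem' := by simp
  mul_mem' := fun {x y} hx hy => by simp_all
  inv_mem' := fun {x} hx => by simp_all

theorem star_ku (m : ku K) : star ((m : Kˣ) : K) = (m : Kˣ) := m.2

/-- The norm of a unit. -/
def nu (μ : Kˣ) : ku K := ⟨μ * star μ, by
  show star ((μ : K) * star (μ : K)) = μ * star (μ : K)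
  rw [star_mul', star_star, mul_comm]⟩

@[simp] theorem nu_val (μ : Kˣ) : (((nu μ : ku K) : Kˣ) : K) = μ * star (μ : K) := rfl

end Grp

section Field

variable {K : Type v} [Field K] [Fintype K] [Uf K]

/-- The underlying map of `dg`. -/
def dgFun (l m : K) (hm : star m = m) (σ : K ≃+* K) (x : P K) : P K where
  a := l * σ x.a
  c := l * m * σ x.c
  t := m * σ x.t
  z := l * star l * m * σ x.z
  ht := by
    have := congrArg σ x.ht
    simp only [map_add, map_star', map_zero] at this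
    simp only [star_mul', hm]
    linear_combination m * this
  hz := by
    have := congrArg σ x.hz
    simp only [map_add, map_mul, map_star', map_zero] at this
    simp only [star_mul', star_star, hm]
    linear_combination (l * star l * m) * this

/-- Diagonal and field automorphisms: conjugation by `diag(l m, m, 1, 1/l̄)` after `σ`. -/
def dg (l : Kˣ) (m : ku K) (σ : K ≃+* K) : MulAut (P K) where
  toFun := dgFun l (m : Kˣ) (star_ku m) σ
  invFun := dgFun (σ.symm (l⁻¹ : Kˣ)) (σ.symm ((m⁻¹ : ku K) : Kˣ))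
    (by rw [← map_star', star_ku]) σ.symm
  left_inv x := by
    have hl : (l : K) ≠ 0 := l.ne_zero
    have hm : ((m : Kˣ) : K) ≠ 0 := (m : Kˣ).ne_zero
    have hl' : star (l : K) ≠ 0 := star_ne_zero.2 hl
    ext <;> apply σ.injective <;> simp [dgFun, map_star'] <;> field_simp
  right_inv x := by
    have hl : (l : K) ≠ 0 := l.ne_zero
    have hm : ((m : Kˣ) : K) ≠ 0 := (m : Kˣ).ne_zero
    have hl' : star (l : K) ≠ 0 := star_ne_zero.2 hl
    ext <;> simp [dgFun, map_star'] <;> field_simp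
  map_mul' x y := by
    ext <;> simp only [dgFun, P.mul_a, P.mul_c, P.mul_t, P.mul_z, map_add,
      map_sub, map_mul, map_star', star_mul', star_ku] <;> ring

@[simp] theorem dg_a (l : Kˣ) (m : ku K) (σ : K ≃+* K) (x : P K) : (dg l m σ x).a = l * σ x.a := rfl
@[simp] theorem dg_c (l : Kˣ) (m : ku K) (σ : K ≃+* K) (x : P K) :
    (dg l m σ x).c = l * (m : Kˣ) * σ x.c := rfl
@[simp] theorem dg_t (l : Kˣ) (m : ku K) (σ : K ≃+* K) (x : P K) :
    (dg l m σ x).t = (m : Kˣ) * σ x.t := rfl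
@[simp] theorem dg_z (l : Kˣ) (m : ku K) (σ : K ≃+* K) (x : P K) :
    (dg l m σ x).z = l * star (l : K) * (m : Kˣ) * σ x.z := rfl

/-- `η(ρ) = diag(1, ρ, 1/ρ, 1)`: `a ↦ a/ρ`, `c ↦ ρ c`, `t ↦ ρ² t`, `z ↦ z`. -/
def eta (ρ : ku K) : MulAut (P K) := dg (ρ : Kˣ)⁻¹ (ρ ^ 2) (RingEquiv.refl K)

/-- `h(μ) = diag(μ, 1/μ, μ̄, 1/μ̄)`: `a ↦ μ² a`, `c ↦ (μ/μ̄) c`, `t ↦ t/N(μ)`, `z ↦ N(μ) z`. -/
def hh (μ : Kˣ) : MulAut (P K) := dg (μ ^ 2) (nu μ)⁻¹ (RingEquiv.refl K)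

/-- `f` is an `F`-automorphism of `E`. -/
def Au (F : FusionSystem (⊤ : Subgroup (P K))) (E : Subgroup (P K)) (f : P K → P K) : Prop :=
  M F E f ∧ ∀ x ∈ E, f x ∈ E

/-- Normal form: `Aut_F(S)` consists of inner times diagonal-field automorphisms. -/
def NF (F : FusionSystem (⊤ : Subgroup (P K))) : Prop :=
  ∀ f, M F ⊤ f → ∃ (x : P K) (l : Kˣ) (m : ku K) (σ : K ≃+* K), ∀ y, f y = x * dg l m σ y * x⁻¹

/-- `F'` is the image of `F` under an automorphism of `S`. -/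
def Iso (F F' : FusionSystem (⊤ : Subgroup (P K))) : Prop :=
  ∃ θ : MulAut (P K), IsoM F F' θ θ.symm

/-- `Aut_F(Q)` moves `Z₂`. -/
def MvQ (F : FusionSystem (⊤ : Subgroup (P K))) : Prop :=
  ∃ f, Au F (Q K) f ∧ ∃ x ∈ Z2 K, f x ∉ Z2 K

/-- `Aut_F(J)` moves `Z`. -/
def MvJ (F : FusionSystem (⊤ : Subgroup (P K))) : Prop :=
  ∃ f, Au F (J K) f ∧ ∃ x ∈ Z K, f x ∉ Z K

/-- `Aut_F(Q)` is the one of `SU₄(q)`. -/
def QStd (F : FusionSystem (⊤ : Subgroup (P K))) : Prop :=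
  (∀ ρ, M F ⊤ (eta ρ)) ∧
    (∀ ε : K, ε ≠ 0 → star ε = -ε →
      ∃ w, Au F (Q K) w ∧ ∀ x ∈ Q K, (w x).a = -x.c / ε ∧ (w x).c = ε * x.a) ∧
    ∀ f, Au F (Q K) f → (∀ x ∈ Z2 K, f x ∈ Z2 K) ∨ ∃ s, ∀ x ∈ Z2 K, (s * f x * s⁻¹).c = 0

/-- `Aut_F(J)` is the one of `SU₄(q)`. -/
def JStd (F : FusionSystem (⊤ : Subgroup (P K))) : Prop :=
  (∀ μ, M F ⊤ (hh μ)) ∧
    (∃ w, Au F (J K) w ∧ ∀ x ∈ J K, (w x).t = x.z ∧ (w x).c = star x.c ∧ (w x).z = x.t) ∧
    ∀ f, Au F (J K) f → (∀ x ∈ Z K, f x ∈ Z K) ∨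
      ∃ s, ∀ x ∈ Z K, (s * f x * s⁻¹).c = 0 ∧ (s * f x * s⁻¹).z = 0

end Field

/-- Row ESS: the essential subgroups. -/
def EssStmt : Prop :=
  ∀ {K : Type v} [Field K] [Fintype K] [Uf K] {p : ℕ} [Fact p.Prime] [CharP K p]
    {F : FusionSystem (⊤ : Subgroup (P K))}, F.IsSaturated p → ∀ {E : Subgroup (P K)},
    F.IsEssential p E → E = Q K ∨ E = J K ∨ (Uf.q K = 2 ∧ ∃ a₀ : K, a₀ ≠ 0 ∧ E = Ea a₀)

/-- Row NRM: after conjugating by an automorphism of `S`, the system is in normal form. -/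
def NrmStmt : Prop :=
  ∀ {K : Type v} [Field K] [Fintype K] [Uf K] {p : ℕ} [Fact p.Prime] [CharP K p]
    {F : FusionSystem (⊤ : Subgroup (P K))}, F.IsSaturated p → ∃ F', Iso F F' ∧ NF F'

/-- Row EXT: automorphisms stabilising `Z₂` resp. `Z` extend to `S`. -/
def ExtStmt : Prop :=
  ∀ {K : Type v} [Field K] [Fintype K] [Uf K] {p : ℕ} [Fact p.Prime] [CharP K p]
    {F : FusionSystem (⊤ : Subgroup (P K))}, F.IsSaturated p →
    (∀ f, Au F (Q K) f → (∀ x ∈ Z2 K, f x ∈ Z2 K) → ∃ g, M F ⊤ g ∧ ∀ x ∈ Q K, g x = f x) ∧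
    ∀ f, Au F (J K) f → (∀ x ∈ Z K, f x ∈ Z K) → ∃ g, M F ⊤ g ∧ ∀ x ∈ J K, g x = f x

/-- Row MV: a core-free system moves `Z₂` in `Q` and `Z` in `J`. -/
def MvStmt : Prop :=
  ∀ {K : Type v} [Field K] [Fintype K] [Uf K] {p : ℕ} [Fact p.Prime] [CharP K p]
    {F : FusionSystem (⊤ : Subgroup (P K))}, F.IsSaturated p → F.core = ⊥ → MvQ F ∧ MvJ F

/-- Row L1: the structure of `Aut_F(Q)` for `q ≠ 3`. -/
def L1Stmt : Prop :=
  ∀ {K : Type v} [Field K] [Fintype K] [Uf K] {p : ℕ} [Fact p.Prime] [CharP K p]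
    {F : FusionSystem (⊤ : Subgroup (P K))}, F.IsSaturated p → Uf.q K ≠ 3 → NF F → MvQ F → QStd F

/-- Row L2: the structure of `Aut_F(J)` for `q > 2`. -/
def L2Stmt : Prop :=
  ∀ {K : Type v} [Field K] [Fintype K] [Uf K] {p : ℕ} [Fact p.Prime] [CharP K p]
    {F : FusionSystem (⊤ : Subgroup (P K))}, F.IsSaturated p → 2 < Uf.q K → NF F → MvJ F →
    ∃ F', Iso F F' ∧ NF F' ∧ JStd F'

/-- Row ALP: a system with standard `Aut_F(J)` is generated by `Aut_F(S)`, `w`, `Aut_F(Q)`. -/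
def AlpStmt : Prop :=
  ∀ {K : Type v} [Field K] [Fintype K] [Uf K] {p : ℕ} [Fact p.Prime] [CharP K p]
    {F F' : FusionSystem (⊤ : Subgroup (P K))}, F.IsSaturated p → JStd F →
    (∀ f, M F ⊤ f → M F' ⊤ f) →
    (∃ w, Au F' (J K) w ∧ ∀ x ∈ J K, (w x).t = x.z ∧ (w x).c = star x.c ∧ (w x).z = x.t) →
    (∀ f, Au F (Q K) f → M F' (Q K) f) → F ≤ F'

/-- Row CMP: a standard automizer of `Q` is determined by `Aut_F(S)`. -/
def CmpStmt : Prop :=
  ∀ {K : Type v} [Field K] [Fintype K] [Uf K] {p : ℕ} [Fact p.Prime] [CharP K p]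
    {F F' : FusionSystem (⊤ : Subgroup (P K))}, F.IsSaturated p → F'.IsSaturated p → NF F →
    (∀ f, M F ⊤ f ↔ M F' ⊤ f) → QStd F → QStd F' → ∀ f, Au F (Q K) f → M F' (Q K) f

/-- Row MODEL: the group `SU₄(q) ⋊ H`. -/
def ModelStmt : Prop :=
  ∀ {K : Type v} [Field K] [Fintype K] [Uf K] {p : ℕ} [Fact p.Prime] [CharP K p]
    (H : Subgroup (MulAut (P K))), (∀ h ∈ H, ∃ l m σ, h = dg l m σ) → ¬ p ∣ Nat.card H →
    (∀ ρ, eta ρ ∈ H) → (∀ μ, hh μ ∈ H) →
    ∃ (G : Type v) (_ : Group G) (_ : Finite G) (ι : P K →* G), Function.Injective ι ∧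
      (∃ T : Sylow p G, (T : Subgroup G) = ι.range) ∧
      (∀ g : G, (∀ y, ∃ y', g * ι y * g⁻¹ = ι y') →
        ∃ x, ∃ h ∈ H, ∀ y, g * ι y * g⁻¹ = ι (x * h y * x⁻¹)) ∧
      (∀ h ∈ H, ∃ g : G, ∀ y, g * ι y * g⁻¹ = ι (h y)) ∧
      (∀ ε : K, ε ≠ 0 → star ε = -ε → ∃ g : G, ∀ y ∈ Q K, ∃ y' ∈ Q K,
        g * ι y * g⁻¹ = ι y' ∧ y'.a = -y.c / ε ∧ y'.c = ε * y.a) ∧
      (∃ g : G, ∀ y ∈ J K, ∃ y' ∈ J K,
        g * ι y * g⁻¹ = ι y' ∧ y'.t = y.z ∧ y'.c = star y.c ∧ y'.z = y.t) ∧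
      (∀ (g : G) (f : P K → P K), (∀ y ∈ Q K, f y ∈ Q K ∧ g * ι y * g⁻¹ = ι (f y)) →
        (∀ x ∈ Z2 K, f x ∈ Z2 K) ∨ ∃ s, ∀ x ∈ Z2 K, (s * f x * s⁻¹).c = 0) ∧
      ∀ (g : G) (f : P K → P K), (∀ y ∈ J K, f y ∈ J K ∧ g * ι y * g⁻¹ = ι (f y)) →
        (∀ x ∈ Z K, f x ∈ Z K) ∨ ∃ s, ∀ x ∈ Z K, (s * f x * s⁻¹).c = 0 ∧ (s * f x * s⁻¹).z = 0

/-- Row STD: standard systems are realizable. -/
def StdStmt : Prop :=
  ∀ {K : Type v} [Field K] [Fintype K] [Uf K] {p : ℕ} [Fact p.Prime] [CharP K p]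
    {F : FusionSystem (⊤ : Subgroup (P K))}, F.IsSaturated p → NF F → JStd F → QStd F →
    F.IsRealizable p

/-- Row Q2: the case `q = 2`. -/
def Q2Stmt : Prop :=
  ∀ {K : Type v} [Field K] [Fintype K] [Uf K] [CharP K 2]
    {F : FusionSystem (⊤ : Subgroup (P K))}, Uf.q K = 2 → F.IsSaturated 2 → F.core = ⊥ →
    F.IsRealizable 2

/-- Row Q3: the case `q = 3`. -/
def Q3Stmt : Prop :=
  ∀ {K : Type v} [Field K] [Fintype K] [Uf K] [CharP K 3]
    {F : FusionSystem (⊤ : Subgroup (P K))}, Uf.q K = 3 → F.IsSaturated 3 → F.core = ⊥ →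
    F.IsRealizable 3

/-- Row SYL: Sylow subgroups of `PSU₄(q)`. -/
def SylStmt : Prop :=
  ∀ {K : Type v} [Field K] [Fintype K] [Uf K] {p : ℕ} [Fact p.Prime] [CharP K p]
    (T : Sylow p (PSU 4 K (Uf.q K))), Nonempty ((T : Subgroup (PSU 4 K (Uf.q K))) ≃* P K)

end Cfsg.Agent.U4
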