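import Cfsg.Agent.Lib.U4.Ess1

/-!
Row ESS: the essential subgroups.
-/

set_option autoImplicit false

namespace Cfsg.Agent.U4

open Cfsg.Agent.Fus Cfsg.Agent.Fus2 Cfsg.Agent.Ess Subgroup
open Cfsg.Agent.U5 (Uf kf k0 mem_kf mem_k0 card_k0 card_kf card_K two_le_q SEd sed_of_ess)
open Cfsg.Agent.U5.E12 (comm_of_icj icj_of_comm fx)
open Cfsg.Agent.U5.E3 (le_relIndex relIndex_le afn_icj afn_comm cr cr_inv cr_le)

universe v

namespace Es

variable {K : Type v} [Field K] [Fintype K] [Uf K]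

theorem comm_J' {x y : P K} (hx : x.a ≠ 0) (hy : y ∈ J K) :
    x * y = y * x ↔ y.t = 0 ∧ x.a * star y.c = y.c * star x.a := by
  refine ⟨fun h => ?_, fun h => (comm_Z2 ⟨hy, h.1⟩).2 h.2⟩
  have : y.t = 0 := by simpa [mem_J.1 hy, hx] using (commute_iff.1 h).1
  exact ⟨this, (comm_Z2 ⟨hy, this⟩).1 h⟩

theorem exists_mu (h : Uf.q K ≠ 2) : ∃ μ : K, star μ = μ ∧ μ ≠ 0 ∧ μ ≠ 1 := by
  by_contra hn
  push Not at hn
  have h₁ : Nat.card (kf K) ≤ 2 := (Set.ncard_le_ncard (s := (kf K : Set K)) (t := {0, 1})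
    fun x hx => or_iff_not_imp_left.2 (hn x hx)).trans ((Set.ncard_insert_le _ _).trans (by simp))
  have := card_kf K
  have := two_le_q K
  omega

/-- `J` is the only abelian subgroup of its order. -/
theorem inv_J {E : Subgroup (P K)} (hJ : J K ≤ E) (β : MulAut E) :
    ∀ y ∈ J K, afn β y ∈ J K := by
  by_contra hc
  push Not at hc
  obtain ⟨u, hu, ha⟩ := hc
  replace ha : (afn β u).a ≠ 0 := ha
  have f := homOn_afn β
  have cm : ∀ x ∈ J K, ∀ y ∈ J K, afn β x * afn β y = afn β y * afn β x := fun x hx y hy =>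
    afn_comm β (hJ hx) (hJ hy) (comm_J hx hy)
  let D : Subgroup (P K) :=
    { carrier := {y | y ∈ J K ∧ afn β y ∈ J K}
      one_mem' := ⟨one_mem _, by rw [f.map_one]; exact one_mem _⟩
      mul_mem' := fun {x y} hx hy => ⟨mul_mem hx.1 hy.1, by
        rw [f.map_mul (hJ hx.1) (hJ hy.1)]; exact mul_mem hx.2 hy.2⟩
      inv_mem' := fun {x} hx => ⟨inv_mem hx.1, by rw [f.map_inv (hJ hx.1)]; exact inv_mem hx.2⟩ }
  have hD : ∀ x y : J K, (afn β x).a = (afn β y).a → (x : P K)⁻¹ * y ∈ D := fun x y e =>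
    ⟨mul_mem (inv_mem x.2) y.2, by
      rw [f.map_mul (inv_mem (hJ x.2)) (hJ y.2), f.map_inv (hJ x.2)]; simp [mem_J, e]⟩
  have r : ∀ y : D, (afn β y).t = 0 ∧ (afn β u).a * star (afn β y).c =
      (afn β y).c * star (afn β u).a := fun y => (comm_J' ha y.2.2).1 (cm u hu y y.2.1)
  have e := Tr.card_mul_relIndex (show D ≤ J K from fun _ h => h.1)
  have hq := two_le_q K
  rw [card_J] at e
  by_cases h : ∀ y : D, (afn β y).c = 0
  · have h₁ := relIndex_le (C := D) (E := J K) (fun y => (afn β y).a) hD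
    have h₂ : Nat.card D ≤ Nat.card (k0 K) := Nat.card_le_card_of_injective
      (fun y => ⟨_, star_z_J y.2.2⟩) fun x y e => Subtype.ext (afn_injective β (eq_of_z
        ⟨x.2.2, (r x).1, h x⟩ ⟨y.2.2, (r y).1, h y⟩ (Subtype.mk.inj e)))
    rw [card_K] at h₁
    rw [card_k0] at h₂
    have := e.ge.trans (Nat.mul_le_mul h₂ h₁)
    nlinarith [Nat.pow_le_pow_left hq 3]
  push Not at h
  obtain ⟨x, hx⟩ := h
  have h₁ := relIndex_le (C := D) (E := J K) (ι := kf K) (fun y => ⟨(afn β y).a / (afn β x).c, by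
    have := (comm_Z2 ⟨x.2.2, (r x).1⟩).1 (cm y y.2 x x.2.1)
    have := star_ne_zero.2 hx
    rw [mem_kf, star_div₀]
    field_simp
    linear_combination -‹_ = _›⟩) fun y y' e => hD y y' ((div_left_inj' hx).1 (Subtype.mk.inj e))
  have h₂ : Nat.card D ≤ Nat.card (kf K × k0 K) := Nat.card_le_card_of_injective
    (fun y => (⟨(afn β y).c / (afn β u).a, by
      have := star_ne_zero.2 ha
      rw [mem_kf, star_div₀]
      field_simp
      linear_combination (r y).2⟩, ⟨_, star_z_J y.2.2⟩)) fun x y e =>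
    Subtype.ext (afn_injective β (P.ext (x.2.2.trans y.2.2.symm)
      ((div_left_inj' ha).1 (Subtype.mk.inj (Prod.mk.inj e).1)) ((r x).1.trans (r y).1.symm)
      (Subtype.mk.inj (Prod.mk.inj e).2)))
  rw [card_kf] at h₁
  rw [Nat.card_prod, card_kf, card_k0] at h₂
  have := e.ge.trans (Nat.mul_le_mul h₂ h₁)
  nlinarith [Nat.pow_le_pow_left hq 3]

variable {p : ℕ} [Fact p.Prime] [CharP K p] {F : FusionSystem (⊤ : Subgroup (P K))}
  (hF : F.IsSaturated p) {E : Subgroup (P K)} (hE : F.IsEssential p E)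
include hF hE

theorem eq_Q (hJ : ¬ J K ≤ E) : E = Q K := by
  have hS := pg_top K p
  have hZ := Z_le hE
  have hZ2 := Z2_le hF hE
  obtain ⟨Mx, h₀⟩ := sed_of_ess hS hF hE
  obtain ⟨x, hx, hxE⟩ := SetLike.not_le_iff_exists.1 hJ
  have hN : x ∈ normalizer (E : Set (P K)) := mem_normalizer_of_conj_mem fun e he => by
    simpa using E.mul_mem he (hZ2 (icj_mem_Z2 x e))
  have h : SEd p (fx (F.autGroup E) (Z K)) (autInducedBy ⊤ E) (Inn E) Mx := by
    refine h₀.her (fun α hα => ⟨h₀.syl.le hα, fun y hy hy' => ?_⟩) (fun α hα => hα.1) fun hle => ?_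
    · obtain ⟨g, -, e⟩ := Fus2.mem_autInducedBy_iff.1 hα
      rw [e y hy, conj_Z hy']
    obtain ⟨γ, hγ, hγ'⟩ := h₀.exists_notMem
    have ha := conjAut_mem_autInducedBy (P := E) (mem_top x) hN
    refine h₀.conj_notMem hγ hγ' ha (fun e => hxE ((mem_iff_conjAut_mem_Inn hE.1 (mem_top x) hN).1 e))
      (hle ⟨mul_mem (mul_mem hγ (h₀.syl.le ha)) (inv_mem hγ), fun y hy hy' => ?_⟩)
    have : afn γ⁻¹ y ∈ J K := mem_J_of_comm fun e he => by
      rw [← afn_inv_afn γ e]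
      exact afn_comm _ hy (afn_mem _ (hZ2 he)) (comm_Z hy' _)
    rw [afn_mul, afn_mul, afn_conjAut hN (afn_mem _ hy), conj_J this hx, afn_afn_inv]
  have hY : ∀ α ∈ fx (F.autGroup E) (Z K), ∀ y ∈ E, y ∈ Z K → afn α y = y := fun α hα => hα.2
  have iZ : ∀ α ∈ fx (F.autGroup E) (Z K), ∀ y ∈ E, y ∈ Z K → afn α y ∈ Z K :=
    fun α hα y hy hy' => by rwa [hY α hα y hy hy']
  obtain ⟨y, hy, β, hβ, ha⟩ : ∃ y ∈ Z2 K, ∃ β ∈ fx (F.autGroup E) (Z K), (afn β y).a ≠ 0 := by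
    by_contra hc
    push Not at hc
    exact hJ (h.le_of_chain hS hE.1 le_top le_normalizer_of_normal
      (D₁ := cr (fx (F.autGroup E) (Z K)) (J K)) le_rfl cr_inv cr_inv
      (fun g _ e _ => ⟨hZ2 (icj_mem_Z2 g e), hc _ (icj_mem_Z2 g e)⟩)
      (fun g hg e _ he => by rw [conj_J (cr_le he) hg, inv_mul_cancel]; exact one_mem _)
      fun g hg e _ he => conj_J (cr_le he) hg)
  have key : ∀ e ∈ E, (afn β y).a * e.t = e.a * (afn β y).t := fun e he => by
    have h₁ := icj_mem_Z' hy (afn β⁻¹ e)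
    have := iZ β hβ _ (hZ h₁) h₁
    rw [afn_icj _ (afn_mem _ he) (hZ2 hy), afn_afn_inv] at this
    exact sub_eq_zero.1 ((icj_c _ _).symm.trans this.2.2)
  by_cases ht : (afn β y).t = 0
  · have h₁ : E ≤ Q K := fun e he => by simpa [ht, ha, mem_Q] using key e he
    exact le_antisymm h₁ (h.le_of_chain hS hE.1 le_top le_normalizer_of_normal (D₁ := Z K) le_rfl
      iZ iZ (fun g hg e he => icj_Q hg (h₁ he)) (fun g hg e he _ => icj_Q hg (h₁ he))
      fun g _ e _ he => conj_Z he g)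
  exfalso
  obtain ⟨-, -, -, C, -, -, k₁, k₂⟩ := h.qf_gen hS hE.1 (B := ⊤) (U := Z2 K) (Y := Z K) le_top
    (fun hle => hJ (le_top.trans hle)) hZ2 hY (fun g _ e _ => icj_mem_Z2 g e)
    fun g _ u hu => icj_mem_Z g hu
  have k₃ := relIndex_le (C := J K) (E := E) (ι := k0 K) (fun e => ⟨_, e.1.star_t⟩) fun e e' he => by
    have := key _ (mul_mem (inv_mem e.2) e'.2)
    rw [P.mul_t, P.inv_t, Subtype.mk.inj he, neg_add_cancel, mul_zero] at this
    exact (mul_eq_zero.1 this.symm).resolve_right ht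
  have k₀ := le_relIndex (E := E) (B := ⊤) (fun a : K => xe a 0 0 (by simp)) (fun _ => trivial)
    fun a a' e => by
      have := key _ e
      simp [ht] at this
      linear_combination -this
  have := k₀.trans (k₁.trans ((k₂ x trivial hxE _ fun e _ he => by
    rw [conj_J he hx, inv_mul_cancel]; exact one_mem _).trans k₃))
  exact this.not_gt (card_k (K := K) ▸ U5.E3.card_lt)

theorem fin (i₂ : ∀ β : MulAut E, ∀ y ∈ Z2 K, afn β y ∈ Z2 K)
    (i₁ : ∀ β : MulAut E, ∀ y ∈ Z K, afn β y ∈ Z K) : False :=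
  (lt_of_isEssential (pg_top K p) hF hE).not_ge (SP4.OB.le_of_chain (pg_top K p) hF hE le_rfl
    le_normalizer_of_normal Z_le_Z2 (fun β _ x _ => i₁ β x) (fun β _ x _ => i₂ β x)
    (fun g _ x _ => icj_mem_Z2 g x) (fun g _ _ _ hx => icj_mem_Z g hx) fun g _ _ _ hx => conj_Z hx g)

theorem eq_Ea (hJ : J K ≤ E) {e₀ : P K} (he₀ : e₀ ∈ E) (ha : e₀.a ≠ 0) :
    Uf.q K = 2 ∧ E = Ea e₀.a := by
  have hZ := Z_le hE
  have hZ2 := Z2_le_J.trans hJ
  have iJ := inv_J hJ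
  have ia : ∀ β : MulAut E, ∀ e ∈ E, e.a ≠ 0 → (afn β e).a ≠ 0 := fun β e _ h h' =>
    h (by simpa [mem_J] using iJ β⁻¹ _ h')
  have cen : ∀ β : MulAut E, ∀ y ∈ E, (∀ e ∈ E, e * y = y * e) → ∀ e ∈ E,
      e * afn β y = afn β y * e := fun β y hy h e he => by
    rw [← afn_afn_inv β e]
    exact afn_comm _ (afn_mem _ he) hy (h _ (afn_mem _ he))
  have fin' : (∀ β : MulAut E, ∀ y ∈ Z K, afn β y ∈ Z K) → False := fun i₁ =>
    fin hF hE (fun β y hy => ⟨iJ β y hy.1, by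
      have := (i₁ β _ (icj_mem_Z e₀ hy)).2.2
      rw [afn_icj _ (hZ2 hy) he₀, icj_c, mem_J.1 (iJ β y hy.1)] at this
      simpa [ia β _ he₀ ha] using this⟩) i₁
  have zc : ∀ β : MulAut E, ∀ z ∈ Z K, ∀ e ∈ E, e.a ≠ 0 → (afn β z).t = 0 ∧
      e.a * star (afn β z).c = (afn β z).c * star e.a := fun β z hz e he h =>
    (comm_J' h (iJ β z hz.1)).1 (cen β z (hZ hz) (fun e _ => (comm_Z hz e).symm) e he)
  have ha' := star_ne_zero.2 ha
  by_cases h2 : (2 : K) = 0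
  swap
  · refine (fin' fun β z hz => ⟨iJ β z hz.1, (zc β z hz _ he₀ ha).1, ?_⟩).elim
    have h₁ := (zc β z hz _ (afn_mem β he₀) (ia β _ he₀ ha)).2
    obtain ⟨y, hy, rfl⟩ := exists_icj ha hz
    rw [afn_icj _ he₀ (hZ2 hy), icj_c, mem_J.1 (iJ β y hy.1)] at h₁ ⊢
    simp only [star_sub, star_mul', P.star_t, star_zero] at h₁
    exact mul_left_cancel₀ (mul_ne_zero h2 (star_ne_zero.2 (ia β _ he₀ ha)))
      (by linear_combination -h₁)
  by_cases hEa : E ≤ Ea e₀.a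
  swap
  · obtain ⟨e, he, he'⟩ := SetLike.not_le_iff_exists.1 hEa
    refine (fin' fun β z hz => ⟨iJ β z hz.1, (zc β z hz _ he₀ ha).1, ?_⟩).elim
    have h₁ := (zc β z hz _ he fun h => he' (J_le_Ea _ h)).2
    exact mul_left_cancel₀ (sub_ne_zero.2 he')
      (by linear_combination e₀.a * h₁ - e.a * (zc β z hz _ he₀ ha).2)
  have cz : ∀ y ∈ Z2 K, e₀.a * star y.c = y.c * star e₀.a → ∀ e ∈ Ea e₀.a, e * y = y * e :=
    fun y hy h e he => (comm_Z2 hy).2 (mul_left_cancel₀ ha (by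
      linear_combination e.a * h + y.c * mem_Ea.1 he))
  have eE : E = Ea e₀.a := le_antisymm hEa (SP4.OB.le_of_chain (pg_top K p) hF hE le_top
    le_normalizer_of_normal (D₁ := J K ⊓ centralizer (E : Set (P K))) inf_le_left
    (fun β _ x hx h => ⟨iJ β x h.1, cen β x hx h.2⟩) (fun β _ x _ => iJ β x)
    (fun g _ x _ => icj_a g x) (fun g hg x _ hx => ⟨icj_a g x, fun e he =>
      cz _ (icj_mem_Z2 g x) (by
        rw [icj_c, mem_J.1 hx]
        simp only [star_sub, star_mul', P.star_t, star_zero]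
        linear_combination x.t * mem_Ea.1 hg - g.a * x.t * star e₀.a * h2) e (hEa he)⟩)
    fun g hg x _ hx => by
      have := (comm_J' ha hx.1).1 (hx.2 _ he₀)
      rw [cz x ⟨hx.1, this.1⟩ this.2 g hg, mul_inv_cancel_right])
  refine ⟨by_contra fun hq => ?_, eE⟩
  obtain ⟨μ, μ₀, μ₁, μ₂⟩ := exists_mu hq
  have i₂ : ∀ β : MulAut E, ∀ y ∈ Z2 K, afn β y ∈ Z2 K := fun β y hy => by
    refine ⟨iJ β y hy.1, by_contra fun ht => ?_⟩
    have hy' : xj (μ * y.c) 0 0 (by simp) (by simp) ∈ Z2 K := ⟨rfl, rfl⟩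
    set y' := xj (μ * y.c) 0 0 (by simp) (by simp) with ey
    have j₁ := mem_J.1 (iJ β y hy.1)
    have j₂ := mem_J.1 (iJ β y' hy'.1)
    have key : ∀ l : K, star l = l → ∃ l', l * (afn β y).t = l' * (afn β y').t ∧
        l * ((afn β y).c * star e₀.a - e₀.a * star (afn β y).c) +
          l ^ 2 * (e₀.a * star e₀.a) * (afn β y).t =
        l' * ((afn β y').c * star e₀.a - e₀.a * star (afn β y').c) +
          l' ^ 2 * (e₀.a * star e₀.a) * (afn β y').t := fun l hl => by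
      have m₁ : xe (l * e₀.a) 0 0 (by simp) ∈ E := eE.ge (by simp [mem_Ea, hl]; ring)
      have m₂ := afn_mem β⁻¹ m₁
      have m₃ : xe ((afn β⁻¹ (xe (l * e₀.a) 0 0 (by simp))).a / μ) 0 0 (by simp) ∈ E := eE.ge (by
        have := mem_Ea.1 (hEa m₂)
        rw [mem_Ea, xe_a, star_div₀, μ₀]
        field_simp
        linear_combination this)
      have e := congrArg (afn β) (eq_of_z (icj_mem_Z (afn β⁻¹ (xe (l * e₀.a) 0 0 (by simp))) hy)
        (icj_mem_Z (xe ((afn β⁻¹ (xe (l * e₀.a) 0 0 (by simp))).a / μ) 0 0 (by simp)) hy') (by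
          rw [icj_z, icj_z]
          simp [hy.1, hy.2, ey, μ₀]
          field_simp))
      rw [afn_icj _ (hZ2 hy) m₂, afn_icj _ (hZ2 hy') m₃, afn_afn_inv] at e
      have m₄ := mem_Ea.1 (hEa (afn_mem β m₃))
      set g := afn β (xe ((afn β⁻¹ (xe (l * e₀.a) 0 0 (by simp))).a / μ) 0 0 (by simp))
      obtain ⟨l', e₁⟩ : ∃ l', g.a = l' * e₀.a := ⟨g.a / e₀.a, by field_simp⟩
      have e₂ : star g.a = l' * star e₀.a := mul_left_cancel₀ ha (by rw [← m₄, e₁]; ring)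
      have e₃ := congrArg P.c e
      have e₄ := congrArg P.z e
      rw [icj_c, icj_c] at e₃
      rw [icj_z, icj_z] at e₄
      simp only [j₁, j₂, e₂, xe_a, xe_c, xe_t, star_mul', hl, star_zero] at e₃ e₄
      rw [e₁] at e₃ e₄
      exact ⟨l', mul_left_cancel₀ ha (by linear_combination e₃), by linear_combination e₄⟩
    obtain ⟨l₁, a₁, b₁⟩ := key 1 (star_one K)
    obtain ⟨l₂, a₂, b₂⟩ := key μ μ₀
    have ht' : (afn β y').t ≠ 0 := fun h => ht (by rw [← one_mul (afn β y).t, a₁, h, mul_zero])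
    obtain rfl : l₂ = μ * l₁ := mul_right_cancel₀ ht' (by linear_combination μ * a₁ - a₂)
    obtain rfl : l₁ = 1 := mul_left_cancel₀ (mul_ne_zero (mul_ne_zero (mul_ne_zero μ₁
      (sub_ne_zero.2 μ₂)) (mul_ne_zero ha ha')) ht) (by
        linear_combination μ * b₁ - b₂ + μ * (μ - 1) * (e₀.a * star e₀.a) * l₁ * a₁)
    have m := mul_mem (inv_mem hy) hy'
    have c₁ := cen β⁻¹ _ (afn_mem β (hZ2 m)) (fun e he => cz _ (by
      rw [(homOn_afn β).map_mul (hZ2 (inv_mem hy)) (hZ2 hy'), (homOn_afn β).map_inv (hZ2 hy)]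
      exact ⟨by simp [j₁, j₂], by simp; linear_combination -a₁⟩) (by
      rw [(homOn_afn β).map_mul (hZ2 (inv_mem hy)) (hZ2 hy'), (homOn_afn β).map_inv (hZ2 hy)]
      simp [j₁]
      linear_combination b₁ - e₀.a * star e₀.a * a₁) e (hEa he)) _ he₀
    rw [afn_inv_afn, comm_Z2 m] at c₁
    simp [hy.1, ey, μ₀] at c₁
    exact ht ((comm_J' ha j₁).1 (cen β y (hZ2 hy) (fun e he => cz y hy (mul_left_cancel₀
      (sub_ne_zero.2 μ₂) (by linear_combination c₁)) e (hEa he)) _ he₀)).1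
  refine fin hF hE i₂ fun β z hz => ?_
  obtain ⟨y, hy, rfl⟩ := exists_icj ha hz
  rw [afn_icj _ he₀ (hZ2 hy)]
  exact icj_mem_Z' (i₂ β y hy) _

end Es

theorem ess : EssStmt.{v} := by
  intro K _ _ _ p _ _ F hF E hE
  by_cases hJ : J K ≤ E
  · by_cases h : E ≤ J K
    · exact Or.inr (Or.inl (le_antisymm h hJ))
    obtain ⟨e, he, ha⟩ := SetLike.not_le_iff_exists.1 h
    obtain ⟨h₁, h₂⟩ := Es.eq_Ea hF hE hJ he ha
    exact Or.inr (Or.inr ⟨h₁, _, ha, h₂⟩)
  · exact Or.inl (Es.eq_Q hF hE hJ)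

end Cfsg.Agent.U4
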