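import Cfsg.Agent.Lib.U4.Basic
import Cfsg.Agent.Lib.U5.ESS12

/-!
Row ESS, step 1: `Z₂ ≤ E`.
-/

set_option autoImplicit false

namespace Cfsg.Agent.U4

open Cfsg.Agent.Fus Cfsg.Agent.Fus2 Cfsg.Agent.Ess Subgroup
open Cfsg.Agent.U5 (Uf kf k0 mem_kf mem_k0 exists_trace card_k0 card_kf card_K exists_k0_ne
  exists_star_ne SEd sed_of_ess qf)
open Cfsg.Agent.U5.E12 (comm_of_icj icj_of_comm relIndex_le_card eq_one_of_relIndex pigeon fx)
open Cfsg.Agent.U5.E3 (le_relIndex relIndex_le afn_icj afn_comm cr cr_inv cr_le inv_of_inv)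

universe v

namespace Es

theorem sep {G : Type*} [Group G] [Finite G] {C B : Subgroup G} {ι : Type*} [Finite ι] (φ : B → ι)
    (hφ : ∀ x y : B, (x : G)⁻¹ * y ∈ C → φ x = φ y) (hs : ∀ i, ∃ x, φ x = i) :
    Nat.card ι ≤ C.relIndex B ∧
      (C.relIndex B ≤ Nat.card ι → ∀ x y : B, φ x = φ y → (x : G)⁻¹ * y ∈ C) := by
  choose r hr using hs
  have hi : ∀ i j, (r i : G)⁻¹ * r j ∈ C → i = j := fun i j e => by rw [← hr i, hφ _ _ e, hr]
  refine ⟨le_relIndex _ (fun i => (r i).2) hi, fun h x y e => ?_⟩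
  obtain ⟨i, h₁⟩ := pigeon _ (fun i => (r i).2) hi h x.2
  obtain ⟨j, h₂⟩ := pigeon _ (fun i => (r i).2) hi h y.2
  obtain rfl : i = j := by rw [← hr i, ← hr j, hφ _ _ h₂, ← e, ← hφ _ _ h₁]
  simpa using mul_mem (inv_mem h₁) h₂

variable {K : Type v} [Field K] [Fintype K] [Uf K]

theorem exists_c {a ζ : K} (ha : a ≠ 0) (hζ : star ζ = -ζ) : ∃ c, a * star c - c * star a = ζ := by
  obtain ⟨e, he⟩ := exists_trace (K := K) (y := 1) (star_one K)
  have hs : star a ≠ 0 := star_ne_zero.2 ha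
  refine ⟨-(e * ζ / star a), ?_⟩
  simp only [star_neg, star_div₀, star_mul', star_star, hζ]
  field_simp
  linear_combination ζ * he

/-- Elements of the centre are commutators of `x` with elements of `Z₂`. -/
theorem exists_icj {x z : P K} (hx : x.a ≠ 0) (hz : z ∈ Z K) :
    ∃ y ∈ Z2 K, x⁻¹ * (y * x * y⁻¹) = z := by
  obtain ⟨c, hc⟩ := exists_c hx (star_z_J hz.1)
  have hy : xj c 0 0 (by simp) (by simp) ∈ Z2 K := ⟨rfl, rfl⟩
  exact ⟨_, hy, eq_of_z (icj_mem_Z' hy x) hz (by rw [icj_z]; simpa using hc)⟩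

theorem comm_Z2 {x y : P K} (hy : y ∈ Z2 K) : x * y = y * x ↔ x.a * star y.c = y.c * star x.a := by
  simp [commute_iff, hy.1, hy.2]

theorem card_k : Nat.card (kf K) = Nat.card (k0 K) := by rw [card_kf, card_k0]

variable {p : ℕ} [Fact p.Prime] [CharP K p] {F : FusionSystem (⊤ : Subgroup (P K))}
  (hF : F.IsSaturated p) {E : Subgroup (P K)} (hE : F.IsEssential p E)
include hE

omit [Fact p.Prime] [CharP K p] in
theorem Z_le : Z K ≤ E := fun _ hz => IsCentric_centralizerIn_le hE.1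
  (Fus.mem_centralizerIn.2 ⟨mem_top _, fun x _ => (comm_Z hz x).symm⟩)

include hF

/-- Weak closure of `Z`. -/
theorem burn (h2 : (2 : K) ≠ 0) {w : P K} (hw : w ∈ E) (ha : w.a ≠ 0)
    (hc : ∀ e ∈ E, w * e = e * w) {δ : MulAut E} (hδ : δ ∈ F.autGroup E) {z₀ : P K}
    (hz₀ : z₀ ∈ Z K) (hv : afn δ z₀ ∈ J K) : afn δ z₀ ∈ Z K := by
  have hZ := Z_le hE
  have hT := sat_sylow (pg_top K p) hF hE.2.1
  have hN : ∀ y ∈ Z2 K, y ∈ normalizer (E : Set (P K)) := fun y hy =>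
    mem_normalizer_of_conj_mem fun e he => by simpa using E.mul_mem he (hZ (icj_mem_Z' hy e))
  obtain ⟨h, hh, H⟩ := (hT.of_le 
    (K := F.autGroup E ⊓ MulAction.stabilizer (MulAut E) (⟨z₀, hZ hz₀⟩ : E))
    (le_inf hT.le fun t ht => by
      obtain ⟨g, -, e⟩ := Fus.mem_autInducedBy_iff.1 ht
      exact Subtype.ext ((e _).trans (conj_Z hz₀ g))) inf_le_left).exists_conj_mem
    (B := (autInducedBy (Z2 K) E).map (MulAut.conj δ⁻¹).toMonoidHom)
    ((isPGroup_autInducedBy ((pg K p).to_subgroup _) E).map _) (by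
      rintro _ ⟨t, ht, rfl⟩
      refine mem_inf.2 ⟨mul_mem (mul_mem (inv_mem hδ) (hT.le (autInducedBy_mono le_top E ht)))
        (inv_mem (inv_mem hδ)), Subtype.ext ?_⟩
      obtain ⟨g, hg, e⟩ := Fus2.mem_autInducedBy_iff.1 ht
      show ((δ⁻¹ * t * δ⁻¹⁻¹) ⟨z₀, hZ hz₀⟩ : P K) = z₀
      rw [← afn_apply _ (hZ hz₀), inv_inv, afn_mul, afn_mul, e _ (afn_mem _ (hZ hz₀)),
        conj_J hv (Z2_le_J hg), afn_inv_afn])
  have key : ∀ z ∈ Z K, afn (h * δ⁻¹) z ∈ Z K := fun z hz => by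
    obtain ⟨y, hy, rfl⟩ := exists_icj ha hz
    obtain ⟨n, -, e⟩ := Fus2.mem_autInducedBy_iff.1
      (H _ ⟨_, conjAut_mem_autInducedBy hy (hN y hy), rfl⟩)
    have e' : ∀ x ∈ E, afn (h * δ⁻¹) (x⁻¹ * (y * x * y⁻¹)) =
        (afn (h * δ⁻¹) x)⁻¹ * (n * afn (h * δ⁻¹) x * n⁻¹) := fun x hx => by
      rw [(homOn_afn _).map_mul (inv_mem hx) (((mem_normalizer_iff.1 (hN y hy)) x).1 hx),
        (homOn_afn _).map_inv hx, ← e _ (afn_mem _ hx), ← afn_conjAut (hN y hy) hx, ← afn_mul,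
        ← afn_mul]
      simp [mul_assoc]
    have m := hZ (icj_mem_Z' hy (afn (h * δ⁻¹)⁻¹ w))
    have u₁ := hc _ (afn_mem (h * δ⁻¹) m)
    have u₂ := e' _ m
    rw [conj_Z (icj_mem_Z' hy _), inv_mul_cancel, (homOn_afn _).map_one] at u₂
    replace u₂ := comm_of_icj u₂.symm
    rw [e' _ (afn_mem _ hw), afn_afn_inv, comm_Z2 (icj_mem_Z2 _ _), icj_c] at u₁ u₂
    have hκ : n.a * w.t - w.a * n.t = 0 := by
      have : 2 * ((n.a * w.t - w.a * n.t) * star (n.a * w.t - w.a * n.t)) = 0 := by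
        have s : star (n.a * w.t - w.a * n.t) = star w.a * n.t - star n.a * w.t := by
          simp only [star_sub, star_mul', P.star_t]; ring
        linear_combination (n.a * w.t - w.a * n.t) * s + w.t * u₂ - n.t * u₁
      rcases mul_eq_zero.1 ((mul_eq_zero.1 this).resolve_left h2) with h | h
      exacts [h, star_eq_zero.1 h]
    rw [e' _ hw]
    refine ⟨icj_a _ _, icj_t _ _, mul_left_cancel₀ ha ?_⟩
    rw [icj_c]
    linear_combination n.a * (commute_iff.1 (hc _ (afn_mem (h * δ⁻¹) hw))).1 +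
      (afn (h * δ⁻¹) w).a * hκ
  have := inv_of_inv (β := (h * δ⁻¹)⁻¹) (by rwa [inv_inv]) z₀ hz₀
  rwa [mul_inv_rev, inv_inv, afn_mul, afn_apply _ (hZ hz₀),
    show h⁻¹ ⟨z₀, hZ hz₀⟩ = ⟨z₀, hZ hz₀⟩ from inv_mem (mem_inf.1 hh).2] at this

theorem Z2_le : Z2 K ≤ E := by
  by_contra hn
  have hS := pg_top K p
  have hZ := Z_le hE
  obtain ⟨Mx, h⟩ := sed_of_ess hS hF hE
  have hb : ∀ α ∈ F.autGroup E, ∀ y ∈ E, y ∈ (⊥ : Subgroup (P K)) → afn α y = y :=
    fun α _ y _ hy => by rw [mem_bot.1 hy]; exact (homOn_afn α).map_one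
  have hz : ∀ g : P K, ∀ u ∈ Z K, u⁻¹ * (g * u * g⁻¹) ∈ (⊥ : Subgroup (P K)) :=
    fun g u hu => mem_bot.2 (icj_of_comm (comm_Z hu g).symm)
  obtain ⟨γ, hγ, -, C, k₁, k₀, k₂, -⟩ := h.qf_gen hS hE.1 (B := Z2 K) (U := Z K) (Y := ⊥) le_top hn
    hZ hb (fun g hg e _ => icj_mem_Z' hg e) fun g _ u hu => hz g u hu
  have hq : ∀ x : P K, x.a = 0 → ∀ g ∈ Z2 K, x⁻¹ * (g * x * g⁻¹) ∈ (⊥ : Subgroup (P K)) :=
    fun x hx g hg => mem_bot.2 (icj_of_comm (comm_J (Z2_le_J hg) hx))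
  obtain ⟨z₀, hz₀, ha⟩ : ∃ z₀ ∈ Z K, (afn γ⁻¹ z₀).a ≠ 0 := by
    by_contra hc
    push Not at hc
    have : C.relIndex (Z K) = 1 := relIndex_eq_one.2 fun z hz' =>
      k₁ z (hZ hz') (hq z hz'.1) (hq _ (hc z hz'))
    rw [this] at k₂
    exact hn (relIndex_eq_one.1 (le_antisymm k₂ (Nat.one_le_iff_ne_zero.2 index_ne_zero_of_finite)))
  set w := afn γ⁻¹ z₀ with hwe
  have hwE : w ∈ E := afn_mem _ (hZ hz₀)
  have hw : ∀ e ∈ E, w * e = e * w := fun e he => by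
    rw [← afn_inv_afn γ e]
    exact afn_comm _ (hZ hz₀) (afn_mem _ he) (comm_Z hz₀ _)
  have ha' : star w.a ≠ 0 := star_ne_zero.2 ha
  have hqZ : Nat.card (Z K) = Nat.card (k0 K) := by rw [card_Z, card_k0]
  have sk : ∀ c : K, star (w.a * star c - c * star w.a) = -(w.a * star c - c * star w.a) :=
    fun c => by simp [mul_comm]
  obtain ⟨l₁, l₂⟩ := sep (C := E) (B := Z2 K) (ι := k0 K) (fun y => ⟨_, sk y.1.c⟩)
    (fun y y' e => Subtype.ext (by
      have := (comm_Z2 (mul_mem (inv_mem y.2) y'.2)).1 (hw _ e)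
      simp [y.2.1] at this
      linear_combination -this)) fun ζ => by
      obtain ⟨c, hc⟩ := exists_c ha ζ.2
      exact ⟨⟨xj c 0 0 (by simp) (by simp), rfl, rfl⟩, Subtype.ext hc⟩
  have hC : ∀ x ∈ Z K, x ∈ C → x = 1 := fun x => eq_one_of_relIndex (hqZ ▸ l₁.trans k₂)
  have hZw : ∀ y ∈ Z2 K, w.a * star y.c = y.c * star w.a → y ∈ E := fun y hy e => by
    simpa using l₂ (k₂.trans (hqZ ▸ relIndex_le_card C _)) 1 ⟨y, hy⟩
      (Subtype.ext (by simp [e]))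
  have hy₀ : xj w.a 0 0 (by simp) (by simp) ∈ Z2 K := ⟨rfl, rfl⟩
  have real : ∀ e ∈ E, star (e.a / w.a) = e.a / w.a := fun e he => by
    have h₁ := icj_mem_Z' hy₀ e
    have := (comm_Z2 hy₀).1 (comm_of_icj (hC _ h₁ (k₁ _ (hZ h₁) (hq _ h₁.1) (hq _ (by
      rw [afn_icj _ he (hZw _ hy₀ (by simp)), icj_a]))))).symm
    rw [star_div₀]
    field_simp
    simpa [mul_comm] using this.symm
  have ht : ∀ e ∈ E, w.a * e.t = e.a * w.t := fun e he => (commute_iff.1 (hw e he)).1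
  have cov : ∀ B : Subgroup (P K), Z2 K ≤ B → E.relIndex B ≤ Nat.card (k0 K) → ∀ y ∈ B,
      ∃ e ∈ E, e.a = y.a ∧ e.t = y.t := fun B hB hle y hy => by
    obtain ⟨r, hr⟩ : ∃ r : k0 K → K, ∀ ζ, w.a * star (r ζ) - r ζ * star w.a = ζ :=
      ⟨fun ζ => (exists_c ha ζ.2).choose, fun ζ => (exists_c ha ζ.2).choose_spec⟩
    obtain ⟨i, hi⟩ := pigeon (fun ζ => xj (r ζ) 0 0 (by simp) (by simp)) (fun ζ => hB ⟨rfl, rfl⟩)
      (fun ζ ζ' e => Subtype.ext (by
        have := (comm_Z2 (mul_mem (inv_mem ⟨rfl, rfl⟩) ⟨rfl, rfl⟩)).1 (hw _ e)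
        simp at this
        linear_combination hr ζ' - hr ζ - this)) hle hy
    exact ⟨_, hi, by simp, by simp⟩
  obtain ⟨ε, hε, hε'⟩ := exists_k0_ne K
  by_cases hτ : w.t = 0
  · have hQ : ∀ e ∈ E, e ∈ Q K := fun e he => by simpa [hτ, ha, mem_Q] using ht e he
    obtain ⟨-, -, -, C', -, -, k₄, -⟩ := h.qf_gen hS hE.1 (B := Q K) (U := Z K) (Y := ⊥) le_top
      (fun hle => hn (Z2_le_Q.trans hle)) hZ hb (fun g hg e he => icj_Q hg (hQ e he))
      fun g _ u hu => hz g u hu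
    obtain ⟨ω, hω⟩ := exists_star_ne K
    obtain ⟨e, he, e₁, -⟩ := cov _ Z2_le_Q (k₄.trans (hqZ ▸ relIndex_le_card C' _))
      (xe (ω * w.a) 0 0 (by simp)) rfl
    have := real e he
    rw [e₁, xe_a, mul_div_cancel_right₀ _ ha] at this
    exact hω this
  have ea : ∀ e ∈ E, star e.a * w.a = e.a * star w.a := fun e he => by
    have := real e he
    rw [star_div₀] at this
    field_simp at this
    linear_combination this
  by_cases h2 : (2 : K) = 0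
  · obtain ⟨x, hx, hxE⟩ := SetLike.not_le_iff_exists.1 hn
    have k₄ := qf hS hF hE (B := J K) le_top (fun g hg e he => hZw _ (icj_mem_Z2 g e) (by
        rw [icj_c, mem_J.1 hg]
        simp only [star_sub, star_mul', P.star_t, star_zero]
        linear_combination g.t * ea e he + e.a * g.t * star w.a * h2))
      (fun g _ e _ g' hg' => comm_J hg' (icj_a _ _)) x (Z2_le_J hx) hxE
    have k₅ := relIndex_le (C := centralizer {x}) (E := E) (ι := kf K)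
      (fun e => ⟨_, real e e.2⟩) fun e e' he => by
        have he : e.1.a = e'.1.a := (div_left_inj' ha).1 (congrArg Subtype.val he)
        exact mem_centralizer_singleton_iff.2 (comm_J (by simp [mem_J, he]) (Z2_le_J hx))
    obtain ⟨e, he, e₁, e₂⟩ := cov _ Z2_le_J (k₄.trans (card_k (K := K) ▸ k₅))
      (xj 0 ε 0 hε' (by simp)) rfl
    have := ht e he
    simp [e₁, e₂, ha, hε] at this
  have inj : ∀ z ∈ Z K, (afn γ z).a = 0 → z = 1 := fun z hz' e => hC z hz' (by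
    simpa using k₀ _ (k₁ _ (afn_mem γ (hZ hz')) (hq _ e) (by simpa using hq z hz'.1)))
  have sur := (Function.Injective.bijective_of_nat_card_le
    (f := fun z : Z K => (⟨_, real _ (afn_mem γ (hZ z.2))⟩ : kf K)) (fun z z' e => by
      have e : (afn γ z).a = (afn γ z').a := (div_left_inj' ha).1 (congrArg Subtype.val e)
      refine Subtype.ext (inv_mul_eq_one.1 (inj _ (mul_mem (inv_mem z.2) z'.2) ?_))
      rw [(homOn_afn γ).map_mul (inv_mem (hZ z.2)) (hZ z'.2), (homOn_afn γ).map_inv (hZ z.2)]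
      simp [e]) (by rw [hqZ, card_k])).2
  set g := xe (w.a * ε) 0 0 (by simp)
  have hg : ∀ e ∈ E, e⁻¹ * (g * e * g⁻¹) ∈ E := fun e _ => hZw _ (icj_mem_Z2 g e) (by
    rw [icj_c]; simp [g, hε', P.star_t]; ring)
  have hN : g ∈ normalizer (E : Set (P K)) :=
    mem_normalizer_of_conj_mem fun e he => by simpa using E.mul_mem he (hg e he)
  obtain ⟨z, hz'⟩ := sur ⟨_, real _ (inv_mem (afn_mem γ (hg w hwE)))⟩
  replace hz' : (afn γ z).a = (afn γ (w⁻¹ * (g * w * g⁻¹)))⁻¹.a :=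
    (div_left_inj' ha).1 (congrArg Subtype.val hz')
  obtain ⟨y, hy, ey⟩ := exists_icj (x := g * w * g⁻¹) (by rwa [conj_a]) z.2
  have hN' : y ∈ normalizer (E : Set (P K)) :=
    mem_normalizer_of_conj_mem fun e he => by simpa using E.mul_mem he (hZ (icj_mem_Z' hy e))
  have m := mul_mem (hg w hwE) (hZ z.2)
  have ev : afn (γ * conjAut E _ (mul_mem hN' hN) * γ⁻¹) z₀ =
      z₀ * afn γ (w⁻¹ * (g * w * g⁻¹) * z) := by
    rw [afn_mul, afn_mul, afn_conjAut _ hwE, ← afn_afn_inv γ z₀, ← hwe,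
      ← (homOn_afn γ).map_mul hwE m, ← ey]
    congr 1
    group
  have e₀ : (afn γ (w⁻¹ * (g * w * g⁻¹) * z)).a = 0 := by
    rw [(homOn_afn γ).map_mul (hg w hwE) (hZ z.2), P.mul_a, hz']; simp
  have := burn hF hE h2 hwE ha hw (mul_mem (mul_mem hγ (conjAut_mem_autGroup le_top (mem_top _)
    (mul_mem hN' hN))) (inv_mem hγ)) hz₀ (by rw [ev, mem_J, P.mul_a, e₀, hz₀.1, add_zero])
  rw [ev] at this
  have h₁ := (Z K).mul_mem_cancel_left hz₀ |>.1 this
  have h₂ := hC _ h₁ (k₁ _ (hZ h₁) (hq _ e₀) (hq _ (by simp [z.2.1])))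
  have h₃ := congrArg P.c (afn_injective γ (h₂.trans (homOn_afn γ).map_one.symm))
  rw [P.mul_c, icj_c, icj_a, z.2.2.2] at h₃
  simp [g, ha, hε, hτ] at h₃

end Es

end Cfsg.Agent.U4
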