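import Cfsg.Agent.Lib.U4.Basic
import Cfsg.Agent.Lib.SP4.SL2

/-!
Rows EXT and MV.
-/

set_option autoImplicit false

namespace Cfsg.Agent.U4

open Cfsg.Agent.Fus Cfsg.Agent.Fus2 Subgroup
open Cfsg.Agent.U5 (Uf exists_star_ne exists_k0_ne k0 card_k0 card_K two_le_q)

universe u v

/-- The orbit lemma modulo an invariant normal subgroup. -/
theorem orb_mod {G : Type u} [Group G] [Finite G] {p : ℕ} [Fact p.Prime] (hG : IsPGroup p G)
    {N : Subgroup G} [N.Normal] {A T : Subgroup (MulAut G)} (hT : IsSylowIn p T A)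
    (hN : ∀ α ∈ A, ∀ x ∈ N, α x ∈ N) {γ β : MulAut G} (hγ : γ ∈ A) (hβ : β ∈ A) {z n : G}
    (hz : ∀ t ∈ T, z⁻¹ * t z ∈ N) (hn : ∀ t ∈ T, n⁻¹ * γ (t (γ⁻¹ n)) ∈ N) (hβn : n⁻¹ * β n ∈ N)
    (h : (γ z * n)⁻¹ * β (γ z) ∈ N) : n ∈ N := by
  let π : A →* MulAut (G ⧸ N) := MonoidHom.mk' (fun α => QuotientGroup.congr N N α.1
    (le_antisymm (map_le_iff_le_comap.2 (hN _ α.2)) fun x hx =>
      ⟨α.1⁻¹ x, hN _ (inv_mem α.2) x hx, by simp⟩))
    fun _ _ => MulEquiv.ext fun x => QuotientGroup.induction_on x fun _ => rfl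
  have h1 : IsSylowIn p (T.subgroupOf A) ⊤ := isSylowIn_of_not_dvd le_top
    hT.isPGroup.comap_subtype (by rw [relIndex_top_right]; exact hT.not_dvd_relIndex)
  refine (QuotientGroup.eq_one_iff n).1 (SP4.orb (hG.to_quotient N) (h1.map π)
    (γ := π ⟨γ, hγ⟩) (β := π ⟨β, hβ⟩) ⟨_, trivial, rfl⟩ ⟨_, trivial, rfl⟩ (z := z) ?_ ?_
    (QuotientGroup.eq.2 hβn).symm (QuotientGroup.eq.2 h).symm)
  · rintro _ ⟨t, ht, rfl⟩
    exact (QuotientGroup.eq.2 (hz _ ht)).symm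
  · rintro _ ⟨t, ht, rfl⟩
    exact (QuotientGroup.eq.2 (hn _ ht)).symm

variable {K : Type v} [Field K] [Fintype K] [Uf K] {F : FusionSystem (⊤ : Subgroup (P K))}
  {f : P K → P K}

theorem Au.res {A B : Subgroup (P K)} (hf : Au F A f) (hB : B ≤ A) (h : ∀ x ∈ B, f x ∈ B) :
    Au F B f := ⟨hf.1.mono hB, h⟩

theorem mem_Z2_of_icj {x : P K} (h : ∀ g, x⁻¹ * (g * x * g⁻¹) ∈ Z K) : x ∈ Z2 K := by
  obtain ⟨ε, h0, hε⟩ := exists_k0_ne K
  have h₁ := (h (xe 1 0 0 (by simp))).2.2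
  have h₂ := (h (xj 0 ε 0 hε (by simp))).2.2
  rw [icj_c] at h₁ h₂
  exact ⟨by simpa [h0] using h₂, by simpa using h₁⟩

theorem Au.Z_of_top (hf : Au F ⊤ f) {x : P K} (hx : x ∈ Z K) : f x ∈ Z K :=
  mem_Z_of_comm fun y _ => by
    obtain ⟨w, -, rfl⟩ := hf.surj le_rfl hf.2 (mem_top y)
    exact hf.comm trivial trivial (comm_Z hx w)

theorem Au.Z2_of_top (hf : Au F ⊤ f) {x : P K} (hx : x ∈ Z2 K) : f x ∈ Z2 K :=
  mem_Z2_of_icj fun g => by
    obtain ⟨w, -, rfl⟩ := hf.surj le_rfl hf.2 (mem_top g)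
    rw [← hf.icj trivial trivial]
    exact hf.Z_of_top (icj_mem_Z w hx)

theorem Au.J_of_top (hf : Au F ⊤ f) {x : P K} (hx : x ∈ J K) : f x ∈ J K :=
  mem_J_of_comm fun y hy => by
    obtain ⟨w, hw, rfl⟩ := hf.surj le_top (fun _ => hf.Z2_of_top) hy
    exact hf.comm trivial trivial (comm_J hx (Z2_le_J hw))

theorem Au.J_of_Ea (hq : Uf.q K = 2) {a₀ : K} (h0 : a₀ ≠ 0) (hf : Au F (Ea a₀) f) {x : P K}
    (hx : x ∈ J K) : f x ∈ J K := by
  by_contra ha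
  have key : ∀ w ∈ Ea a₀, w.a = 0 ∨ w.a = a₀ := fun w hw => by
    rw [mem_Ea, Uf.star_eq, Uf.star_eq, hq] at hw
    exact (mul_eq_zero.1 (mul_left_cancel₀ h0 (by linear_combination -hw :
      a₀ * (w.a * (w.a - a₀)) = a₀ * 0))).imp_right sub_eq_zero.1
  have k2 : ∀ w ∈ J K, f w ∈ J K → (f w).t = 0 ∧ (f x).a * star (f w).c + 0 =
      (f w).c * star (f x).a := fun w hw hw' => by
    have := commute_iff.1 (hf.comm (J_le_Ea _ hx) (J_le_Ea _ hw) (comm_J hx hw))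
    rw [mem_J.1 hw'] at this
    exact ⟨by simpa [show (f x).a ≠ 0 from ha] using this.1, by simpa using this.2⟩
  obtain ⟨ε, h1, hε⟩ := exists_k0_ne K
  obtain ⟨s, hs⟩ := exists_star_ne K
  obtain ⟨w₁, m₁, e₁⟩ := hf.surj le_rfl hf.2 (J_le_Ea a₀ (show xj 0 ε 0 hε (by simp) ∈ J K from rfl))
  obtain ⟨w₂, m₂, e₂⟩ := hf.surj le_rfl hf.2
    (J_le_Ea a₀ (show xj (s * (f x).a) 0 0 (by simp) (by simp) ∈ J K from rfl))
  have a₁ := (key w₁ m₁).resolve_left fun e => h1 (by simpa [e₁] using (k2 w₁ e (e₁ ▸ rfl)).1)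
  have a₂ := (key w₂ m₂).resolve_left fun e => hs (by
    have := (k2 w₂ e (e₂ ▸ rfl)).2
    rw [e₂, xj_c, star_mul'] at this
    exact mul_left_cancel₀ (mul_ne_zero ha (star_ne_zero.2 ha)) (by linear_combination this))
  have e₃ : f (w₁ * w₂⁻¹) = f w₁ * (f w₂)⁻¹ := by
    rw [hf.1.homOn.map_mul m₁ (inv_mem m₂), hf.1.homOn.map_inv m₂]
  have := (k2 (w₁ * w₂⁻¹) (by simp [mem_J, a₁, a₂]) (by simp [mem_J, e₃, e₁, e₂])).1
  simp [e₃, e₁, e₂, h1] at this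

variable {p : ℕ} [Fact p.Prime] [CharP K p]

theorem Au.Z2_of_J (hF : F.IsSaturated p) (hf : Au F (J K) f) (h : ∀ x ∈ Z K, f x ∈ Z K) {x : P K}
    (hx : x ∈ Z2 K) : f x ∈ Z2 K := by
  refine ⟨hf.2 x (Z2_le_J hx), by_contra fun ht => ?_⟩
  obtain ⟨c, c0, hc⟩ : ∃ c : K, c ≠ 0 ∧ (f (xj c 0 0 (by simp) (by simp))).t = 0 := by
    obtain ⟨c, c', e, hne⟩ := Function.not_injective_iff.1 fun hi : Function.Injective fun c : K =>
        (⟨(f (xj c 0 0 (by simp) (by simp))).t, P.star_t _⟩ : k0 K) => by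
      have := Nat.card_le_card_of_injective _ hi
      rw [card_K, card_k0] at this
      nlinarith [two_le_q K]
    refine ⟨c - c', sub_ne_zero.2 hne, ?_⟩
    rw [show xj (c - c') 0 0 (by simp) (by simp) = xj c 0 0 (by simp) (by simp) *
      (xj c' 0 0 (by simp) (by simp))⁻¹ by ext <;> simp [sub_eq_add_neg],
      hf.1.homOn.map_mul (show _ ∈ J K from rfl) (inv_mem (show _ ∈ J K from rfl)),
      hf.1.homOn.map_inv (show _ ∈ J K from rfl), P.mul_t, P.inv_t, Subtype.mk.inj e, add_neg_cancel]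
  generalize hy : xj c 0 0 (by simp) (by simp) = y at hc
  have hy2 : y ∈ Z2 K := hy ▸ ⟨rfl, rfl⟩
  obtain ⟨η, hη, e⟩ := hf.1.exists_aut' hf.2
  have hs := sat_sylow (pg_top K p) hF (isFullyNormalized_of_normal (F := F) (P := J K) le_top
    (normalizer_eq_top _).ge)
  have hT : ∀ τ ∈ autInducedBy ⊤ (J K), ∀ w : J K, w.1 ∈ Z2 K →
      w⁻¹ * τ w ∈ (Z K).subgroupOf (J K) := fun τ hτ w hw => by
    obtain ⟨g, -, e⟩ := Fus2.mem_autInducedBy_iff.1 hτ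
    have := icj_mem_Z g hw
    rwa [← e w w.2, afn_coe] at this
  have hT' : autInducedBy ⊤ (J K) ≤ F.autGroup _ ⊓ Ess.stabSub ((Z K).subgroupOf (J K)) :=
    fun τ hτ => ⟨hs.le hτ, fun w hw => by simpa using mul_mem hw (hT τ hτ w (Z_le_Z2 hw))⟩
  have hη' : η ∈ F.autGroup _ ⊓ Ess.stabSub ((Z K).subgroupOf (J K)) := ⟨hη, fun w hw => by
    have := h w hw
    rwa [← e w w.2, afn_coe] at this⟩
  have e' : ∀ w : J K, (η w).1 = f w := fun w => by rw [← e w w.2, afn_coe]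
  let g : P K := xe ((f y).c / (f x).t) 0 0 (by simp)
  have hg : _ ∈ autInducedBy ⊤ (J K) :=
    conjAut_mem_autInducedBy (mem_top g) ((normalizer_eq_top _).ge trivial)
  have := orb_mod ((pg K p).to_subgroup (J K)) (hs.of_le hT' inf_le_left) (fun _ h => h.2) hη'
    (hT' hg) (z := ⟨x, Z2_le_J hx⟩) (n := η ⟨y, Z2_le_J hy2⟩) (fun τ hτ => hT τ hτ _ hx)
    (fun τ hτ => by simpa using hη'.2 _ (hT τ hτ ⟨y, Z2_le_J hy2⟩ hy2))
    (hT _ hg _ ⟨(η _).2, by rw [e', hc]⟩) (by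
      change (_ * _ : P K)⁻¹ * (g * _ * g⁻¹) ∈ Z K
      have h₁ : (f x).a = 0 := hf.2 x (Z2_le_J hx)
      have h₂ : (f y).a = 0 := hf.2 y (Z2_le_J hy2)
      simp [e', mem_Z, conj_a, conj_t, conj_c, h₁, h₂, hc, g, ht])
  have h3 := (inv_mem hη').2 _ this
  rw [MulAut.inv_apply_self] at h3
  exact c0 (by simpa [← hy] using h3.2.2)

/-- The chain `1 < Z < Z₂ < S`. -/
def ch (K : Type v) [Field K] [StarRing K] (i : ℕ) : Subgroup (P K) :=
  if i = 0 then ⊥ else if i = 1 then Z K else if i = 2 then Z2 K else ⊤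

theorem ch_mono : ∀ i < 3, ch K i ≤ ch K (i + 1) := by
  intro i hi
  interval_cases i <;> simp [ch, Z_le_Z2]

theorem ch_triv (g : P K) : ∀ i < 3, ∀ x ∈ ch K (i + 1), x⁻¹ * (g * x * g⁻¹) ∈ ch K i := by
  intro i hi x hx'
  interval_cases i
  · exact mem_bot.2 (by rw [conj_Z hx' g, inv_mul_cancel])
  · exact icj_mem_Z g hx'
  · exact icj_mem_Z2 g x

theorem Au.ch_inv {E : Subgroup (P K)} (hf : Au F E f) (h₁ : ∀ x ∈ Z K, f x ∈ Z K)
    (h₂ : ∀ x ∈ Z2 K, f x ∈ Z2 K) : ∀ i ≤ 3, ∀ x ∈ E, x ∈ ch K i → f x ∈ ch K i := by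
  intro i hi x _ hx
  interval_cases i
  · rw [show x = 1 from hx, hf.1.homOn.map_one]; exact one_mem _
  · exact h₁ x hx
  · exact h₂ x hx
  · trivial

/-- An automorphism of a normal subgroup stabilising `Z` and `Z₂` extends to `S`. -/
theorem ext_ch (hF : F.IsSaturated p) {E : Subgroup (P K)} [E.Normal] (hf : Au F E f)
    (h₁ : ∀ x ∈ Z K, f x ∈ Z K) (h₂ : ∀ x ∈ Z2 K, f x ∈ Z2 K) : ∃ g, M F ⊤ g ∧ ∀ x ∈ E, g x = f x :=
  U5.ext_of_chain (pg_top K p) hF le_top (normalizer_eq_top _).ge (ch K) 3 ch_mono le_top rfl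
    (fun g _ i hi x _ => ch_triv g i hi x) hf.1 hf.2 (hf.ch_inv h₁ h₂)

/-- `Z` and `Z₂` are not both invariant under the automizer of an essential subgroup. -/
theorem not_ch (hF : F.IsSaturated p) {E : Subgroup (P K)} (hE : F.IsEssential p E)
    (h : ∀ f, Au F E f → (∀ x ∈ Z K, f x ∈ Z K) ∧ ∀ x ∈ Z2 K, f x ∈ Z2 K) : False :=
  (lt_of_isEssential (pg_top K p) hF hE).not_ge (le_of_conjAut_mem_autCore (pg_top K p) hE.1
    (isRadical_of_isEssential (pg_top K p) hE) le_rfl (le_top.trans le_normalizer) fun g hg hN =>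
      mem_autCore_of_chain' (pg_top K p) le_top (ch K) 3 ch_mono le_top rfl
        (fun β hβ => (au_afn hβ).ch_inv (h _ (au_afn hβ)).1 (h _ (au_afn hβ)).2)
        (conjAut_mem_autGroup le_top hg hN) fun i hi x hx hx' => by
          rw [afn_conjAut hN hx]
          exact ch_triv g i hi x hx')

theorem ext : ExtStmt.{v} := by
  intro K _ _ _ p _ _ F hF
  exact ⟨fun f hf h => ext_ch hF hf (fun _ => hf.Z_of_Q) h,
    fun f hf h => ext_ch hF hf h fun _ => hf.Z2_of_J hF h⟩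

theorem mv (hE : EssStmt.{v}) : MvStmt.{v} := by
  intro K _ _ _ p _ _ F hF hc
  obtain ⟨ε, h0, hε⟩ := exists_k0_ne K
  have key : ∀ N : Subgroup (P K), Z K ≤ N → ¬ ∀ E, E = ⊤ ∨ F.IsEssential p E →
      N ≤ E ∧ ∀ f, Au F E f → ∀ x ∈ N, f x ∈ N := fun N hN h => h0 (congrArg P.z (mem_bot.1
    ((hc ▸ le_core (isNormal_of_essential (pg_top K p) hF fun E hE =>
      ⟨(h E hE).1, fun α hα => (h E hE).2 _ (au_afn hα)⟩) : N ≤ ⊥)
        (hN (show xj 0 0 ε (by simp) hε ∈ Z K from ⟨rfl, rfl, rfl⟩)))))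
  constructor <;> by_contra h
  · simp only [MvQ, not_exists, not_and, not_not] at h
    refine key _ Z_le_J ?_
    rintro E (rfl | e)
    · exact ⟨le_top, fun f hf x => hf.J_of_top⟩
    rcases hE hF e with rfl | rfl | ⟨hq, a₀, ha, rfl⟩
    · exact (not_ch hF e fun f hf => ⟨fun _ => hf.Z_of_Q, h f hf⟩).elim
    · exact ⟨le_rfl, fun f hf => hf.2⟩
    · exact ⟨J_le_Ea _, fun f hf x => hf.J_of_Ea hq ha⟩
  · simp only [MvJ, not_exists, not_and, not_not] at h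
    refine key _ le_rfl ?_
    rintro E (rfl | e)
    · exact ⟨le_top, fun f hf x => hf.Z_of_top⟩
    rcases hE hF e with rfl | rfl | ⟨hq, a₀, ha, rfl⟩
    · exact ⟨Z_le_Q, fun f hf x => hf.Z_of_Q⟩
    · exact ⟨Z_le_J, h⟩
    · exact ⟨Z_le_J.trans (J_le_Ea _), fun f hf =>
        h f (hf.res (J_le_Ea _) fun x => hf.J_of_Ea hq ha)⟩

end Cfsg.Agent.U4
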