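import Cfsg.Agent.Lib.U4.L1
import Cfsg.Agent.Lib.PermCert.Basic

/-!
The field with nine elements, codes for the diagonal-field automorphisms and for vectors of
`V = Q / Z`, and the interface of row LEECH of docs/U4_PLAN.md.
-/

set_option autoImplicit false
set_option synthInstance.maxSize 2000

namespace Cfsg.Agent.U4.N9

open Cfsg.Agent.Fus Cfsg.Agent.Fus2 Subgroup Cfsg.Agent.PC Cfsg.Agent.U4.L1
open Cfsg.Agent.U5 (Uf)

/-- The field with nine elements. -/
abbrev F9 := QuadraticAlgebra (ZMod 3) (-1) 0

instance : Fact (∀ r : ZMod 3, r ^ 2 ≠ -1 + 0 * r) := ⟨by decide⟩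

instance : DecidableEq F9 := fun a b => decidable_of_iff (a.re = b.re ∧ a.im = b.im)
  ⟨fun h => QuadraticAlgebra.ext h.1 h.2, fun h => h ▸ ⟨rfl, rfl⟩⟩

instance : Fintype F9 := Fintype.ofEquiv _ (QuadraticAlgebra.equivProd (-1 : ZMod 3) 0).symm

instance : Uf F9 where
  toStarRing := inferInstance
  q := 3
  star_eq := by decide +kernel
  card_eq := by decide +kernel

instance : CharP F9 3 := (CharP.charP_iff_prime_eq_zero Nat.prime_three).2 (by decide +kernel)

/-- The element with code `n`. -/
def df (n : ℕ) : F9 := ⟨(n % 3 : ℕ), (n / 3 % 3 : ℕ)⟩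

def lO (o : ℕ) : F9 := df (o % 8 + 1)
def mO (o : ℕ) : F9 := if o / 8 % 2 = 0 then 1 else -1
def sO (o : ℕ) (x : F9) : F9 := if o / 16 % 2 = 0 then x else star x
def sE (o : ℕ) : F9 ≃+* F9 := if o / 16 % 2 = 0 then RingEquiv.refl _ else starRingAut

theorem lO_ne (o : ℕ) : lO o ≠ 0 :=
  (by decide +kernel : ∀ r < 8, df (r + 1) ≠ 0) _ (Nat.mod_lt _ (by norm_num))

theorem mO_ne (o : ℕ) : mO o ≠ 0 := by unfold mO; split_ifs <;> simp
theorem star_mO (o : ℕ) : star (mO o) = mO o := by unfold mO; split_ifs <;> simp
theorem sE_apply (o : ℕ) (x : F9) : sE o x = sO o x := by unfold sE sO; split_ifs <;> rfl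

/-- The diagonal-field automorphism with code `o < 32`. -/
def dgO (o : ℕ) : MulAut (P F9) :=
  dg (Units.mk0 _ (lO_ne o)) ⟨Units.mk0 _ (mO_ne o), star_mO o⟩ (sE o)

theorem dgO_a (o : ℕ) (x : P F9) : (dgO o x).a = lO o * sO o x.a := by simp [dgO, sE_apply]
theorem dgO_c (o : ℕ) (x : P F9) : (dgO o x).c = lO o * mO o * sO o x.c := by simp [dgO, sE_apply]
theorem dgO_t (o : ℕ) (x : P F9) : (dgO o x).t = mO o * sO o x.t := by simp [dgO, sE_apply]
theorem dgO_z (o : ℕ) (x : P F9) : (dgO o x).z = lO o * star (lO o) * mO o * sO o x.z := by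
  simp [dgO, sE_apply]

theorem dg_eq {l : F9ˣ} {m : ku F9} {σ : F9 ≃+* F9} {o : ℕ} (hl : (l : F9) = lO o)
    (hm : ((m : F9ˣ) : F9) = mO o) (hs : ∀ x, σ x = sO o x) : dg l m σ = dgO o :=
  MulEquiv.ext fun x => P.ext (by rw [dg_a, dgO_a, hl, hs]) (by rw [dg_c, dgO_c, hl, hm, hs])
    (by rw [dg_t, dgO_t, hm, hs]) (by rw [dg_z, dgO_z, hl, hm, hs])

theorem real_cases : ∀ s : F9, star s = s → s = 0 ∨ s = 1 ∨ s = -1 := by decide +kernel

theorem exists_dgO (l : F9ˣ) (m : ku F9) (σ : F9 ≃+* F9) : ∃ o < 32, dg l m σ = dgO o := by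
  have key : ∀ l m : F9, l ≠ 0 → m ≠ 0 → star m = m → (∃ o < 32, l = lO o ∧ m = mO o ∧
      o / 16 % 2 = 0) ∧ ∃ o < 32, l = lO o ∧ m = mO o ∧ o / 16 % 2 ≠ 0 := by decide +kernel
  obtain ⟨⟨o, h, e, e', h'⟩, o', g, f, f', g'⟩ := key l _ l.ne_zero (m : F9ˣ).ne_zero (star_ku m)
  rcases sigma_cases (σ := σ) fun s hs => by
    rcases real_cases s hs with rfl | rfl | rfl <;> simp with hs | hs
  · exact ⟨o, h, dg_eq e e' fun x => by rw [hs, sO, if_pos h']⟩
  · exact ⟨o', g, dg_eq f f' fun x => by rw [hs, sO, if_neg g']⟩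

/-- The multiplication table of the codes. -/
def mulO (x y : ℕ) : ℕ := ap 5 6269129769972388898772982423761279237959525480988347929124336071859823807725379912301310851477661057741767587019825188488809722712677131710277860413427770032662682815536313730357575549161871259064744477913166240567177864849694540627590985804968431155450941444405576196004324080622530441334156474882966039429423216246139962182500192507903951347738329401787195627014716576947534228419611817204580406720370469609045682880637505922364834917466253312742989641273648745130399200400464429999880623338487232742429579394071552186495621097098938584757273658475348333175519027503443549211338114625999665038092962188378671223283815360101210760636356498241607116040992334545298295015808446475239353647552859913685495555755960771912013091423110368553850415660596997603674944772241070304727513058970352995754082854827045886855996948090324232444562323435128281122286984373877030960361879173196636254080922629973240295797996876861527209546389374530204877150574639074932390452581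371049699653566439032045574396507277874490410700942841021241574841983789924962800169114554442786395981116132758039191904498743615431619697114852938519313530585027136242846263358367344856135456829496752896153102779317449175828749404764990829121418606692724981752788876902345670727431237027599569610379210003209481443145860001220916401586185704852736904045238963180430081637988458526570289402940153607647164074059538837100377789208321141711568788589836023218064086151008783745378481272061691990496632629084117481389703520415854134826504729782717972352737888610879889163383698720800 (32 * x + y)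

theorem mulO_lt (x y : ℕ) : mulO x y < 32 := Nat.mod_lt _ (by norm_num)

theorem dgO_mul {x y : ℕ} (hx : x < 32) (hy : y < 32) : dgO x * dgO y = dgO (mulO x y) := by
  have key : allN (fun x => allN (fun y => decide (lO x * sO x (lO y) = lO (mulO x y) ∧
      (x / 8 + y / 8) % 2 = mulO x y / 8 % 2 ∧ (x / 16 + y / 16) % 2 = mulO x y / 16 % 2)) 32) 32 =
      true := by decide +kernel
  obtain ⟨h1, h2, h3⟩ := of_decide_eq_true (allN_iff.1 (allN_iff.1 key x hx) y hy)
  rw [dgO, dgO, dg_mul]
  refine dg_eq (by simpa [sE_apply] using h1) ?_ fun z => ?_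
  · simp only [Subgroup.coe_mul, Units.val_mul, kmap_val, Units.val_mk0, sE_apply, mO, sO, ← h2]
    split_ifs <;> first | omega | simp
  · simp only [RingEquiv.trans_apply, sE_apply, sO, ← h3]
    split_ifs <;> first | omega | simp

theorem M_mul {F : FusionSystem (⊤ : Subgroup (P F9))} {x y : ℕ} (hx : x < 32) (hy : y < 32)
    (h : M F ⊤ (dgO x)) (h' : M F ⊤ (dgO y)) : M F ⊤ (dgO (mulO x y)) :=
  dgO_mul hx hy ▸ h'.comp h fun _ _ => trivial

theorem hh_eq : hh (Units.mk0 (df 4) (by decide +kernel)) = dgO 13 :=
  dg_eq (by simp only [Units.val_pow_eq_pow_val, Units.val_mk0]; decide +kernel)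
    (by simp only [InvMemClass.coe_inv, Units.val_inv_eq_inv_val, nu_val, Units.val_mk0]
        exact inv_eq_of_mul_eq_one_left (by decide +kernel)) fun _ => rfl

theorem hh_cases (μ : F9ˣ) : ∃ o ∈ [0, 1, 10, 13], hh μ = dgO o := by
  have key : ∀ μ : F9, μ ≠ 0 → ∃ o ∈ [0, 1, 10, 13], μ ^ 2 = lO o ∧ mO o * (μ * star μ) = 1 ∧
    o / 16 % 2 = 0 := by decide +kernel
  obtain ⟨o, ho, h1, h2, h3⟩ := key μ μ.ne_zero
  exact ⟨o, ho, dg_eq (by simpa using h1) (by
    simp only [InvMemClass.coe_inv, Units.val_inv_eq_inv_val, nu_val]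
    exact inv_eq_of_mul_eq_one_left h2) fun _ => by rw [sO, if_pos h3]; rfl⟩

/-- `V = Q / Z`. -/
abbrev V := F9 × F9

/-- The commutator form with values in `ZMod 3`. -/
def b3 (u v : V) : ZMod 3 := u.1.re * v.2.im - u.1.im * v.2.re + u.2.re * v.1.im - u.2.im * v.1.re

/-- A product of two commuting transvections. -/
def Xf (w : V × V) (u : V) : V := u + b3 u w.1 • w.1 + b3 u w.2 • w.2

/-- The vector with code `n`. -/
def dv (n : ℕ) : V := (⟨(n / 9 % 3 : ℕ), (n / 27 % 3 : ℕ)⟩, ⟨(n % 3 : ℕ), (n / 3 % 3 : ℕ)⟩)

end Cfsg.Agent.U4.N9
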