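import Cfsg.Agent.Lib.U4.Cmp

/-!
Rows STD and FINAL: assembly for `PSU₄(q)`.
-/

set_option autoImplicit false

namespace Cfsg.Agent.U4

open Cfsg.Agent.Fus Cfsg.Agent.Fus2 Subgroup
open Cfsg.Agent.U5 (Uf exists_q_pow two_le_q)

universe u v

namespace Fn

variable {K : Type v} [Field K] [Fintype K] [Uf K]

/-- The diagonal-field automorphisms in `F`. -/
def HF (F : FusionSystem (⊤ : Subgroup (P K))) : Subgroup (MulAut (P K)) where
  carrier := {h | (∃ l m σ, h = dg l m σ) ∧ M F ⊤ h}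
  one_mem' := ⟨⟨1, 1, _, dg_one.symm⟩, M_id F le_rfl⟩
  mul_mem' := by
    rintro _ _ ⟨⟨l, m, σ, rfl⟩, h⟩ ⟨⟨l', m', σ', rfl⟩, h'⟩
    exact ⟨⟨_, _, _, dg_mul ..⟩, h'.comp h fun _ _ => trivial⟩
  inv_mem' := by
    rintro _ ⟨⟨l, m, σ, rfl⟩, h⟩
    refine ⟨⟨_, _, _, dg_inv ..⟩, ?_⟩
    obtain ⟨g, hg, -, e, -⟩ := h.inv' (h.img_eq_self fun _ _ => trivial)
    exact hg.congr fun x _ => by simpa using e ((dg l m σ)⁻¹ x) trivial

variable {p : ℕ} [hp : Fact p.Prime] [CharP K p] {F : FusionSystem (⊤ : Subgroup (P K))}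

theorem not_dvd_HF (hF : F.IsSaturated p) : ¬ p ∣ Nat.card (HF F) := fun hd => by
  haveI : Finite (MulAut (P K)) := Finite.of_injective (fun α : MulAut (P K) => (α : P K → P K))
    DFunLike.coe_injective
  obtain ⟨⟨_, ⟨l, m, σ, rfl⟩, h⟩, ho⟩ := exists_prime_orderOf_dvd_card' p hd
  rw [← orderOf_coe] at ho
  let c := MulAut.congr (topEquiv (G := P K)).symm
  have hα : c (dg l m σ) ∈ F.autGroup ⊤ := h.mem_autGroup fun x hx => by
    rw [afn_apply _ hx]; rfl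
  have hT := sat_sylow_top (pg_top K p) hF
  have hz : IsPGroup p (zpowers (c (dg l m σ))) := IsPGroup.of_card (n := 1) (by
    rw [Nat.card_zpowers, MulEquiv.orderOf_eq, pow_one]; exact ho)
  haveI := innNormal (⊤ : Subgroup (P K))
  obtain ⟨g, hg⟩ := (hT.eq_of_le (hT.isPGroup.to_sup_of_normal_left hz) le_sup_left
    (sup_le hT.le (zpowers_le.2 hα))).le (mem_sup_right (mem_zpowers _))
  have e : ∀ y, dg l m σ y = g * y * (g : P K)⁻¹ := fun y => by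
    have := congrArg Subtype.val (DFunLike.congr_fun hg ⟨y, mem_top y⟩)
    exact this.symm
  have ha : ∀ a, l * σ a = a := fun a => by simpa using congrArg P.a (e (xe a 0 0 (by simp)))
  have h1 : dg l m σ = 1 := Cm.dg_eq_one ha (by
    have := congrArg P.c (e (xe 0 1 0 (by simp)))
    rw [conj_c] at this
    simpa [show (l : K) = 1 by simpa using ha 1] using this)
  simp only [h1, orderOf_one] at ho
  exact hp.out.one_lt.ne ho

end Fn

open Fn in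
theorem std (hM : ModelStmt.{v}) (hA : AlpStmt.{v}) (hC : CmpStmt.{v}) : StdStmt.{v} := by
  intro K _ _ _ p _ _ F hF hN hJ hQ
  obtain ⟨G, _, _, ι, hι, ⟨T, hT⟩, hn, hH, g₁, ⟨g₂, hg₂⟩, b₁, b₂⟩ := hM (p := p) (HF F)
    (fun h hh => hh.1) (not_dvd_HF hF) (fun ρ => ⟨⟨_, _, _, rfl⟩, hQ.1 ρ⟩)
    fun μ => ⟨⟨_, _, _, rfl⟩, hJ.1 μ⟩
  obtain ⟨b, hb⟩ := exists_gIso (homOn_hom ⊤ ι) (fun _ _ _ _ e => hι e) (S' := T)
    (by rw [img_hom, hT, MonoidHom.range_eq_map])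
  obtain ⟨E, hE⟩ := hb.symm.exists_isoM (groupFusionSystem (T : Subgroup G))
  have hI := hE.symm
  have hE' : E.IsSaturated p := hE.saturated T.isPGroup' (group_isSaturated T)
  have key : ∀ Q f, M E Q f ↔ ∃ g, ∀ x ∈ Q, ι (f x) = g * ι x * g⁻¹ := fun Q f => by
    rw [Asch.M_iff_of_realized hI.isRealizedBy.1]
    simp only [le_top, mem_top, implies_true, true_and, hI.hom.fn_toHom (mem_top _)]
  have hM : ∀ f, M F ⊤ f ↔ M E ⊤ f := fun f => by
    rw [key]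
    constructor
    · intro hf
      obtain ⟨x, l, m, σ, e⟩ := hN f hf
      obtain ⟨g, hg⟩ := hH (dg l m σ) ⟨⟨_, _, _, rfl⟩,
        (hf.comp (M_conj F le_rfl (mem_top x⁻¹)) fun _ _ => trivial).congr fun y _ => by
          simp [e, mul_assoc]⟩
      exact ⟨ι x * g, fun y _ => by rw [e, map_mul, map_mul, ← hg, map_inv]; group⟩
    · rintro ⟨g, hg⟩
      obtain ⟨x, h, hh, e⟩ := hn g fun y => ⟨f y, (hg y trivial).symm⟩
      exact (hh.2.comp (M_conj F le_rfl (mem_top x)) fun _ _ => trivial).congr fun y _ =>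
        hι (by rw [hg y trivial, e])
  choose! w₂ hw₂ ew₂ aw₂ using hg₂
  have hJ' : JStd E := ⟨fun μ => (hM _).1 (hJ.1 μ),
    ⟨w₂, ⟨(key _ _).2 ⟨g₂, fun x hx => (ew₂ x hx).symm⟩, hw₂⟩, aw₂⟩, fun f hf => by
      obtain ⟨g, hg⟩ := (key _ _).1 hf.1
      exact b₂ g f fun y hy => ⟨hf.2 y hy, (hg y hy).symm⟩⟩
  have hQ' : QStd E := ⟨fun μ => (hM _).1 (hQ.1 μ), fun ε h₁ h₂ => by
      obtain ⟨g, hg⟩ := g₁ ε h₁ h₂
      choose! w hw ew aw using hg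
      exact ⟨w, ⟨(key _ _).2 ⟨g, fun x hx => (ew x hx).symm⟩, hw⟩, aw⟩, fun f hf => by
      obtain ⟨g, hg⟩ := (key _ _).1 hf.1
      exact b₁ g f fun y hy => ⟨hf.2 y hy, (hg y hy).symm⟩⟩
  obtain rfl : F = E := fs_le_antisymm
    (hA hF hJ (fun f => (hM f).1) hJ'.2.1 (hC hF hE' hN hM hQ hQ'))
    (hA hE' hJ' (fun f => (hM f).2) hJ.2.1
      (hC hE' hF (fun f hf => hN f ((hM f).2 hf)) (fun f => (hM f).symm) hQ' hQ))
  exact ⟨G, _, inferInstance, _, hI.isRealizedBy.1, T, hI.isRealizedBy.2.symm⟩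

theorem real_P (hN : NrmStmt.{v}) (hV : MvStmt.{v}) (h₁ : L1Stmt.{v}) (h₂ : L2Stmt.{v})
    (hS : StdStmt.{v}) (q₂ : Q2Stmt.{v}) (q₃ : Q3Stmt.{v}) {K : Type v} [Field K] [Fintype K] [Uf K]
    {p : ℕ} [hp : Fact p.Prime] [CharP K p] {F : FusionSystem (⊤ : Subgroup (P K))}
    (hF : F.IsSaturated p) (hc : F.core = ⊥) : F.IsRealizable p := by
  obtain ⟨n, hn, hq⟩ := exists_q_pow K p
  have hd : p ∣ Uf.q K := hq ▸ dvd_pow_self p (by omega)
  by_cases e₂ : Uf.q K = 2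
  · obtain rfl := (Nat.prime_dvd_prime_iff_eq hp.out Nat.prime_two).1 (e₂ ▸ hd)
    exact q₂ e₂ hF hc
  by_cases e₃ : Uf.q K = 3
  · obtain rfl := (Nat.prime_dvd_prime_iff_eq hp.out Nat.prime_three).1 (e₃ ▸ hd)
    exact q₃ e₃ hF hc
  obtain ⟨F₁, i₁, n₁⟩ := hN hF
  obtain ⟨F₂, i₂, n₂, j₂⟩ := h₂ (i₁.saturated hF) (lt_of_le_of_ne (two_le_q K) (Ne.symm e₂)) n₁
    (hV (i₁.saturated hF) (i₁.core hc)).2
  have s₂ := (i₁.trans i₂).saturated hF
  exact (i₁.trans i₂).real (hS s₂ n₂ j₂ (h₁ s₂ e₃ n₂ (hV s₂ ((i₁.trans i₂).core hc)).1))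

theorem s5210_of (hN : NrmStmt.{v}) (hV : MvStmt.{v}) (h₁ : L1Stmt.{v}) (h₂ : L2Stmt.{v})
    (hD : StdStmt.{v}) (q₂ : Q2Stmt.{v}) (q₃ : Q3Stmt.{v}) (hY : SylStmt.{v}) {Ω : Type u}
    [Group Ω] {S : Subgroup Ω} [Finite S] (p : ℕ) [Fact p.Prime] (hS : IsPGroup p S)
    (F : FusionSystem S) (hF : F.IsSaturated p) {K : Type v} [Field K] [Fintype K] [CharP K p]
    (n : ℕ) (hK : Fintype.card K = (p ^ n) ^ 2) (T : Sylow p (PSU 4 K (p ^ n)))
    (e : S ≃* (T : Subgroup (PSU 4 K (p ^ n)))) (hc : F.core = ⊥) : F.IsRealizable p := by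
  letI : Uf K :=
    { star := fun x => x ^ p ^ n
      star_involutive := fun x => by
        show (x ^ p ^ n) ^ p ^ n = x
        rw [← pow_mul, ← sq, ← hK, FiniteField.pow_card]
      star_mul := fun x y => by
        show (x * y) ^ p ^ n = y ^ p ^ n * x ^ p ^ n
        rw [mul_pow, mul_comm]
      star_add := fun x y => add_pow_char_pow x y p n
      q := p ^ n
      star_eq := fun _ => rfl
      card_eq := hK }
  obtain ⟨e'⟩ := hY (K := K) T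
  let ι : S →* P K := (e.trans e').toMonoidHom
  obtain ⟨b, hb⟩ := exists_gIso (homOn_fn ι) (fn_inj (e.trans e').injective) (S' := ⊤)
    ((img_fn ι).trans (MonoidHom.range_eq_top.2 (e.trans e').surjective))
  obtain ⟨E, hE⟩ := hb.exists_isoM F
  exact U5.real_of_isoM hE (real_P hN hV h₁ h₂ hD q₂ q₃ (hE.saturated hS hF)
    (by rw [hE.core_eq, hc, img_bot hE.hom.map_one]))

end Cfsg.Agent.U4
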