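import Cfsg.Agent.Lib.U4.Basic
import Mathlib.Analysis.Fourier.FiniteAbelian.PontryaginDuality

/-!
A variance count and a field lemma for the automizer of `J`.
-/

set_option autoImplicit false

namespace Cfsg.Agent.U4.JS

open Finset
open Cfsg.Agent.U5 (Uf k0 card_k0 card_K two_le_q)

universe v

theorem sum_ind {G : Type*} [Group G] [Fintype G] (H : Subgroup G) [DecidablePred (· ∈ H)] :
    ∑ x : G, (if x ∈ H then (1 : ℤ) else 0) = Nat.card H := by
  rw [sum_boole, Nat.card_eq_fintype_card, Fintype.card_subtype]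

/-- The variance count. -/
theorem count {G : Type*} [Group G] [Finite G] {ι : Type*} [Fintype ι] (S B : ι → Subgroup G)
    (D V : Subgroup G) {s d : ℕ} (hd : 0 < d) (hs : 1 < s) (hSB : ∀ i, S i ≤ B i)
    (hBV : ∀ i, B i ≤ V) (hDS : ∀ i, D ≤ S i) (cS : ∀ i, Nat.card (S i) = s * d)
    (cB : ∀ i, Nat.card (B i) = (s * d) ^ 3) (cD : Nat.card D = d)
    (hSD : ∀ i j, i ≠ j → S i ⊓ B j ≤ D)
    (cBB : ∀ i j, i ≠ j → Nat.card ↥(B i ⊓ B j) ≤ (s * d) ^ 2 * d)
    (cV : Nat.card V ≤ (s * d) ^ 3 * s) : Fintype.card ι ≤ s * (s * d + 1) := by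
  classical
  haveI := Fintype.ofFinite G
  obtain ⟨N, hN⟩ : ∃ N : ℤ, N = (Fintype.card ι : ℕ) := ⟨_, rfl⟩
  let b : ι → G → ℤ := fun i x => if x ∈ B i then 1 else 0
  let u : ι → G → ℤ := fun i x => (if x ∈ S i then 1 else 0) - if x ∈ D then 1 else 0
  let v : G → ℤ := fun x => if x ∈ V then 1 else 0
  have h1 : ∑ x, ∑ i, b i x = N * (s * d) ^ 3 := by
    rw [sum_comm]
    simp only [b, sum_ind, cB, sum_const, card_univ, nsmul_eq_mul, hN]
    push_cast; ring
  have h2 : ∑ x, (∑ i, b i x) ^ 2 ≤ N * ((s * d) ^ 3 + (N - 1) * ((s * d) ^ 2 * d)) := by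
    simp only [sq (∑ i, b i _), sum_mul_sum]
    rw [sum_comm]
    refine (sum_le_card_nsmul _ _ ((s * d) ^ 3 + (N - 1) * ((s * d) ^ 2 * d)) fun i _ => ?_).trans
      (by rw [card_univ, nsmul_eq_mul, hN])
    rw [sum_comm, ← add_sum_erase _ _ (mem_univ i)]
    have e : ∀ j, ∑ x, b i x * b j x = Nat.card ↥(B i ⊓ B j) := fun j => by
      rw [← sum_ind]
      refine sum_congr rfl fun x _ => ?_
      by_cases h : x ∈ B i <;> by_cases h' : x ∈ B j <;> simp [b, h, h']
    refine add_le_add (by rw [e, inf_idem, cB]; push_cast; rfl) ?_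
    refine (sum_le_card_nsmul _ _ ((s * d) ^ 2 * d : ℤ) fun j hj => ?_).trans ?_
    · rw [e]; exact_mod_cast cBB i j (ne_of_mem_erase hj).symm
    · rw [card_erase_of_mem (mem_univ i), card_univ, nsmul_eq_mul,
        Nat.cast_sub (Fintype.card_pos_iff.2 ⟨i⟩), hN]
      rfl
  have h3 : ∑ x, ∑ i, u i x = N * (s * d - d) := by
    rw [sum_comm]
    simp only [u, sum_sub_distrib, sum_ind, cS, cD, sum_const, card_univ, nsmul_eq_mul, hN]
    push_cast; ring
  have h4 : ∑ x, v x ≤ (s * d) ^ 3 * s := by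
    simp only [v, sum_ind]; exact_mod_cast cV
  have h5 : ∀ x, (∑ i, u i x) * (s - N) ^ 2 ≤
      s ^ 2 * (∑ i, b i x) ^ 2 - 2 * s * N * ∑ i, b i x + N ^ 2 * v x := fun x => by
    have hv : 0 ≤ s ^ 2 * (∑ i, b i x) ^ 2 - 2 * s * N * ∑ i, b i x + N ^ 2 * v x := by
      by_cases hx : x ∈ V
      · simp only [v, if_pos hx]; nlinarith [sq_nonneg (s * ∑ i, b i x - N)]
      · have : ∀ i, x ∉ B i := fun i h => hx (hBV i h)
        simp [b, v, hx, this]
    by_cases hD : x ∈ D
    · simpa [u, hD, fun i => hDS i hD] using hv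
    by_cases h : ∃ i, x ∈ S i
    · obtain ⟨i, hi⟩ := h
      have hj : ∀ j, j ≠ i → x ∉ B j := fun j hj h => hD (hSD i j hj.symm ⟨hi, h⟩)
      rw [sum_eq_single i (fun j _ h => by
          have : x ∉ S j := fun h' => hj j h (hSB j h')
          simp [u, hD, this]) (by simp),
        sum_eq_single i (fun j _ h => by simp [b, hj j h]) (by simp)]
      simp only [u, b, v, if_pos hi, if_neg hD, if_pos (hSB i hi), if_pos (hBV i (hSB i hi))]
      nlinarith
    · push Not at h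
      simpa [u, hD, h] using hv
  have h6 := sum_le_sum fun x (_ : x ∈ univ) => h5 x
  rw [← sum_mul, h3, sum_add_distrib, sum_sub_distrib, ← mul_sum, ← mul_sum, ← mul_sum, h1] at h6
  have hN0 : 0 ≤ N := by rw [hN]; positivity
  have hs' : (1 : ℤ) < s := by exact_mod_cast hs
  have hd' : (0 : ℤ) < d := by exact_mod_cast hd
  rcases hN0.eq_or_lt with h0 | h0
  · have : Fintype.card ι = 0 := by exact_mod_cast hN.symm.trans h0.symm
    omega
  have h7 : N * (s * d - d) * (s - N) ^ 2 ≤ N * (s * d - d) * (s * (s * d)) ^ 2 := by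
    have a := mul_le_mul_of_nonneg_left h2 (sq_nonneg (s : ℤ))
    have a' := mul_le_mul_of_nonneg_left h4 (sq_nonneg N)
    nlinarith
  have h8 := le_of_mul_le_mul_left h7 (mul_pos h0 (by nlinarith))
  have h9 := abs_le_of_sq_le_sq h8 (by positivity)
  have : N ≤ s * (s * d + 1) := by linarith [neg_abs_le (s - N)]
  rw [hN] at this
  exact_mod_cast this

/-- A proper subgroup of `K` lies in a proper subgroup containing some `a k₀`. -/
theorem exists_hyper {K : Type v} [Field K] [Fintype K] [Uf K] {R : AddSubgroup K} {c : K}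
    (hc : c ∉ R) : ∃ M : AddSubgroup K, R ≤ M ∧ c ∉ M ∧ ∃ a ≠ 0, ∀ t ∈ k0 K, a * t ∈ M := by
  classical
  obtain ⟨ψ, hψ⟩ := (AddChar.exists_apply_ne_zero (α := K ⧸ R) (a := c)).2
    (by rwa [Ne, QuotientAddGroup.eq_zero_iff])
  let χ : AddChar K ℂ := ψ.compAddMonoidHom (QuotientAddGroup.mk' R)
  let φ : K → AddChar (k0 K) ℂ := fun a =>
    χ.compAddMonoidHom ((AddMonoidHom.mulLeft a).comp (k0 K).subtype)
  haveI := Fintype.ofFinite (k0 K)
  obtain ⟨a, b, hab, e⟩ := Fintype.exists_ne_map_eq_of_card_lt φ (by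
    rw [AddChar.card_eq, ← Nat.card_eq_fintype_card, card_k0, Uf.card_eq]
    have := two_le_q K
    nlinarith)
  let M : AddSubgroup K :=
    { carrier := {x | χ x = 1}
      zero_mem' := χ.map_zero_eq_one
      add_mem' := fun {x y} hx hy => by
        simp only [Set.mem_setOf_eq] at *
        rw [χ.map_add_eq_mul, hx, hy, one_mul]
      neg_mem' := fun {x} hx => by
        simp only [Set.mem_setOf_eq] at *
        rw [χ.map_neg_eq_inv, hx, inv_one] }
  refine ⟨M, fun x hx => ?_, hψ, a - b, sub_ne_zero.2 hab, fun t ht => ?_⟩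
  · show ψ (QuotientAddGroup.mk' R x) = 1
    rw [show QuotientAddGroup.mk' R x = 0 from (QuotientAddGroup.eq_zero_iff x).2 hx,
      ψ.map_zero_eq_one]
  · have : χ (a * t) = χ (b * t) := DFunLike.congr_fun e ⟨t, ht⟩
    show χ _ = 1
    rw [sub_mul, χ.map_sub_eq_div, this, div_self]
    exact (χ.val_isUnit _).ne_zero

end Cfsg.Agent.U4.JS
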