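import Cfsg.Agent.Lib.U4.J0
import Cfsg.Agent.Lib.Ess.Ctl

/-!
The automizer of `J`: trivial intersection and the position of conjugates of `Z`.
-/

set_option autoImplicit false

namespace Cfsg.Agent.U4.JS

open Cfsg.Agent.Fus Subgroup
open Cfsg.Agent.U5 (Uf k0 kf card_k0 card_kf card_K two_le_q eq_zero_of_real exists_trace
  exists_k0_ne)

universe v

section Coord

variable {K : Type v} [Field K] [StarRing K]

/-- The group `J`. -/
abbrev W (K : Type v) [Field K] [StarRing K] : Type v := ↥(J K)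

instance : CommGroup (W K) :=
  { (inferInstance : Group (W K)) with mul_comm := fun x y => Subtype.ext (comm_J x.2 y.2) }

/-- The `t`-coordinate. -/
def tt (x : W K) : K := x.1.t
/-- The `c`-coordinate. -/
def cc (x : W K) : K := x.1.c
/-- The `z`-coordinate. -/
def zz (x : W K) : K := x.1.z

theorem aa (x : W K) : x.1.a = 0 := x.2

@[simp] theorem star_tt (x : W K) : star (tt x) = -tt x := x.1.star_t
@[simp] theorem star_zz (x : W K) : star (zz x) = -zz x := star_z_J x.2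
@[simp] theorem tt_mul (x y : W K) : tt (x * y) = tt x + tt y := rfl
@[simp] theorem cc_mul (x y : W K) : cc (x * y) = cc x + cc y := by simp [cc, aa]
@[simp] theorem zz_mul (x y : W K) : zz (x * y) = zz x + zz y := by simp [zz, aa]
@[simp] theorem tt_inv (x : W K) : tt x⁻¹ = -tt x := rfl
@[simp] theorem cc_inv (x : W K) : cc x⁻¹ = -cc x := by simp [cc, aa]
@[simp] theorem zz_inv (x : W K) : zz x⁻¹ = -zz x := star_zz x
@[simp] theorem tt_one : tt (1 : W K) = 0 := rfl
@[simp] theorem cc_one : cc (1 : W K) = 0 := rfl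
@[simp] theorem zz_one : zz (1 : W K) = 0 := rfl

theorem wext {x y : W K} (h₁ : tt x = tt y) (h₂ : cc x = cc y) (h₃ : zz x = zz y) : x = y :=
  Subtype.ext (P.ext ((aa x).trans (aa y).symm) h₂ h₁ h₃)

/-- The element with given coordinates. -/
def wk (t c z : K) (ht : star t = -t) (hz : star z = -z) : W K := ⟨xj c t z ht hz, rfl⟩

@[simp] theorem tt_wk (t c z : K) (ht hz) : tt (wk t c z ht hz) = t := rfl
@[simp] theorem cc_wk (t c z : K) (ht hz) : cc (wk t c z ht hz) = c := rfl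
@[simp] theorem zz_wk (t c z : K) (ht hz) : zz (wk t c z ht hz) = z := rfl

/-- The action of `S / J`. -/
def tau (a : K) : MulAut (W K) := MulAut.conjNormal (xe a 0 0 (by simp))

@[simp] theorem tt_tau (a : K) (x : W K) : tt (tau a x) = tt x := conj_t _ _
@[simp] theorem cc_tau (a : K) (x : W K) : cc (tau a x) = cc x + a * tt x := by
  simp only [cc, tt, tau, MulAut.conjNormal_apply, conj_c]; simp
@[simp] theorem zz_tau (a : K) (x : W K) :
    zz (tau a x) = zz x + cc x * star a - a * star (cc x) + a * star a * tt x := conj_z_J _ x.2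

theorem tau_add (a b : K) : tau (a + b) = tau a * tau b :=
  MulEquiv.ext fun x => wext (by simp) (by simp; ring) (by simp; ring)

theorem tau_zero : tau (0 : K) = 1 := MulEquiv.ext fun x => wext (by simp) (by simp) (by simp)

theorem tau_neg (a : K) : tau (-a) = (tau a)⁻¹ :=
  eq_inv_of_mul_eq_one_left (by rw [← tau_add, neg_add_cancel, tau_zero])

theorem tau_comm (a b : K) : tau a * tau b = tau b * tau a := by rw [← tau_add, add_comm, tau_add]

theorem tau_pow (a : K) (n : ℕ) : tau a ^ n = tau (n * a) := by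
  induction n with
  | zero => simp [tau_zero]
  | succ n ih => rw [pow_succ, ih, ← tau_add]; push_cast; ring_nf

theorem tau_char (p : ℕ) [CharP K p] (a : K) : tau a ^ p ^ 1 = 1 := by
  rw [tau_pow]; simp [tau_zero]

variable (K) in
/-- `Z` inside `J`. -/
def Zj : Subgroup (W K) := (Z K).subgroupOf (J K)

variable (K) in
/-- `Z₂` inside `J`. -/
def Bj : Subgroup (W K) := (Z2 K).subgroupOf (J K)

theorem mem_Zj {x : W K} : x ∈ Zj K ↔ tt x = 0 ∧ cc x = 0 := ⟨fun h => h.2, fun h => ⟨aa x, h⟩⟩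
theorem mem_Bj {x : W K} : x ∈ Bj K ↔ tt x = 0 := ⟨fun h => h.2, fun h => ⟨aa x, h⟩⟩
theorem Zj_le_Bj : Zj K ≤ Bj K := fun _ h => mem_Bj.2 (mem_Zj.1 h).1

theorem tau_fix (a : K) {x : W K} (hx : x ∈ Zj K) : tau a x = x := by
  obtain ⟨h₁, h₂⟩ := mem_Zj.1 hx
  exact wext (by simp) (by simp [h₁]) (by simp [h₁, h₂])

/-- The image of a subgroup. -/
def im (β : MulAut (W K)) (U : Subgroup (W K)) : Subgroup (W K) := U.map β.toMonoidHom

theorem mem_im {β : MulAut (W K)} {U : Subgroup (W K)} {x : W K} : x ∈ im β U ↔ β⁻¹ x ∈ U :=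
  mem_map_equiv

theorem card_im (β : MulAut (W K)) (U : Subgroup (W K)) : Nat.card (im β U) = Nat.card U :=
  card_map_of_injective β.injective

end Coord

variable {K : Type v} [Field K] [Fintype K] [Uf K]

variable (K) in
theorem card_Zj : Nat.card (Zj K) = Uf.q K := (Fit.card_subgroupOf_of_le Z_le_J).trans (card_Z K)

variable (K) in
theorem card_Bj : Nat.card (Bj K) = Uf.q K ^ 3 :=
  (Fit.card_subgroupOf_of_le Z2_le_J).trans (card_Z2 K)

theorem tau_eq_one {a : K} (h : tau a = 1) : a = 0 := by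
  obtain ⟨t, ht, ht'⟩ := exists_k0_ne K
  simpa [ht] using congrArg cc (DFunLike.congr_fun h (wk t 0 0 ht' (by simp)))

theorem mem_Zj_of_fix {x : W K} (h : ∀ a, tau a x = x) : x ∈ Zj K := by
  have ht : tt x = 0 := by simpa using congrArg cc (h 1)
  refine mem_Zj.2 ⟨ht, eq_zero_of_real fun y => ?_⟩
  have := congrArg zz (h (star y))
  simp [ht] at this
  rw [star_mul']
  linear_combination -this

theorem exists_kf (h : 2 < Uf.q K) : ∃ l : K, star l = l ∧ l ≠ 0 ∧ l ≠ 1 := by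
  by_contra hn
  push Not at hn
  have : (kf K : Set K) ⊆ {0, 1} := fun x hx => by
    by_cases h0 : x = 0
    exacts [.inl h0, .inr (hn x hx h0)]
  have h₁ := (Set.ncard_le_ncard this).trans (Set.ncard_insert_le _ _)
  rw [Set.ncard_singleton, ← Nat.card_coe_set_eq] at h₁
  exact absurd ((card_kf K).symm.trans_le h₁) (by omega)

variable (K) in
/-- The stabiliser of `Z`. -/
def St : Subgroup (MulAut (W K)) := Ess.stabSub (Zj K)

theorem mem_St {β : MulAut (W K)} : β ∈ St K ↔ ∀ x ∈ Zj K, β x ∈ Zj K := Iff.rfl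

theorem tau_mem_St (a : K) : tau a ∈ St K := fun x hx => by rwa [tau_fix a hx]

/-- The hypotheses on the automizer. -/
structure Hyp0 (p : ℕ) (A T : Subgroup (MulAut (W K))) : Prop where
  syl : IsSylowIn p T A
  mem : ∀ τ, τ ∈ T ↔ ∃ a, τ = tau a
  nrm : ∀ α ∈ A, α ∈ St K → ∀ a, α * tau a * α⁻¹ ∈ T

/-- Trivial intersection. -/
def TI (A T : Subgroup (MulAut (W K))) : Prop :=
  ∀ α ∈ A, ∀ a ≠ 0, α⁻¹ * tau a * α ∈ T → α ∈ St K

/-- The hypotheses on the automizer, generic case. -/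
structure Hyp (p : ℕ) (A T : Subgroup (MulAut (W K))) : Prop extends Hyp0 p A T where
  q : 2 < Uf.q K ∨ TI A T

instance : Finite (MulAut (W K)) :=
  Finite.of_injective (fun α : MulAut (W K) => (α : W K → W K)) DFunLike.coe_injective

namespace Hyp0

variable {p : ℕ} [hp : Fact p.Prime] [CharP K p] {A T : Subgroup (MulAut (W K))} (h : Hyp0 p A T)
include h

omit hp [CharP K p] in
theorem tau_T (a : K) : tau a ∈ T := (h.mem _).2 ⟨a, rfl⟩

omit hp [CharP K p] in
theorem tau_A (a : K) : tau a ∈ A := h.syl.le (h.tau_T a)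

omit hp [CharP K p] in
theorem cj_A {α : MulAut (W K)} (hα : α ∈ A) (a : K) : α⁻¹ * tau a * α ∈ A :=
  mul_mem (mul_mem (inv_mem hα) (h.tau_A _)) hα

omit [CharP K p] in
theorem pe {β : MulAut (W K)} (hβ : β ∈ A) (hs : β ∈ St K) (hp : β ^ p ^ 1 = 1) : β ∈ T := by
  refine h.syl.le_of_le_normalizer (zpowers_le.2 hβ) (isPGroup_zpowers_of_pow hp)
    (zpowers_le.2 (mem_normalizer_iff.2 fun τ => ⟨fun hτ => ?_, fun hτ => ?_⟩)) (mem_zpowers β)
  · obtain ⟨a, rfl⟩ := (h.mem _).1 hτ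
    exact h.nrm β hβ hs a
  · obtain ⟨a, e⟩ := (h.mem _).1 hτ
    have := h.nrm _ (inv_mem hβ) (inv_mem hs) a
    rwa [← e, show β⁻¹ * (β * τ * β⁻¹) * β⁻¹⁻¹ = τ by group] at this

end Hyp0

namespace Hyp

variable {p : ℕ} [hp : Fact p.Prime] [CharP K p] {A T : Subgroup (MulAut (W K))} (h : Hyp p A T)
include h

/-- Trivial intersection. -/
theorem ti {α : MulAut (W K)} (hα : α ∈ A) {a : K} (ha : a ≠ 0) (hτ : α⁻¹ * tau a * α ∈ T) :
    α ∈ St K := by
  rcases h.q with hq | hq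
  swap
  · exact hq α hα a ha hτ
  obtain ⟨b, hb⟩ := (h.mem _).1 hτ
  have e : ∀ x, α (tau b x) = tau a (α x) := fun x => by simp [← hb]
  have hb0 : b ≠ 0 := by
    rintro rfl
    rw [tau_zero] at hb
    exact ha (tau_eq_one (by rw [show tau a = α * (α⁻¹ * tau a * α) * α⁻¹ by group, hb]; simp))
  have hb' := star_ne_zero.2 hb0
  by_cases h2 : (2 : K) = 0
  swap
  · intro x hx
    obtain ⟨h₁, h₂⟩ := mem_Zj.1 hx
    let y := wk (zz x / (2 * (b * star b))) 0 0 (by simp [neg_div, mul_comm]) (by simp)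
    have : x = (y⁻¹ * tau b y)⁻¹ * tau b (y⁻¹ * tau b y) :=
      wext (by simp [h₁]) (by simp [h₂]; ring) (by simp [y, neg_div]; field_simp; ring)
    rw [this]
    simp only [map_mul, map_inv, e, mem_Zj]
    simp; ring
  have ha' := star_ne_zero.2 ha
  let C := A ⊓ centralizer {tau b}
  have hTC : T ≤ C := fun τ hτ => ⟨h.syl.le hτ, mem_centralizer_singleton_iff.2 (by
    obtain ⟨c, rfl⟩ := (h.mem _).1 hτ
    exact tau_comm c b)⟩
  let D : Subgroup (W K) := (tau b).toMonoidHom.eqLocus (MonoidHom.id _)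
  have hD : ∀ x, x ∈ D ↔ tau a (α x) = α x := fun x => by
    rw [← e, α.apply_eq_iff_eq]; rfl
  have hρ : ∀ l, star l = l → α⁻¹ * tau (l * a) * α ∈ T := fun l hl => by
    refine (h.syl.of_le hTC inf_le_left).map_pCore_le (mem_map_pCore_of_chain
      ((pg K p).to_subgroup _) (fun i => if i = 0 then ⊥ else if i = 1 then D else ⊤) 2
      (fun i hi => by interval_cases i <;> simp) rfl (fun β hβ i hi x hx => ?_)
      (fun β _ _ => ⟨0, fun x hx => by rw [show x = 1 from hx, map_one]⟩)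
      ⟨h.cj_A hα _, mem_centralizer_singleton_iff.2 ?_⟩
      fun i hi x hx => ?_)
    · interval_cases i
      · rw [show x = 1 from hx, map_one]; exact one_mem _
      · show tau b (β x) = β x
        rw [← MulAut.mul_apply, ← mem_centralizer_singleton_iff.1 hβ.2, MulAut.mul_apply,
          show tau b x = x from hx]
      · trivial
    · rw [← hb, show α⁻¹ * tau (l * a) * α * (α⁻¹ * tau a * α) = α⁻¹ * (tau (l * a) * tau a) * α by
        group, tau_comm]
      group
    · interval_cases i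
      · have h₁ := (hD x).1 hx
        have h₂ : tt (α x) = 0 := by simpa [ha] using congrArg cc h₁
        have h₃ := congrArg zz h₁
        have : tau (l * a) (α x) = α x := wext (by simp) (by simp [h₂]) (by
          simp [h₂, hl] at h₃ ⊢
          linear_combination l * h₃)
        simp [this]
      · refine (hD _).2 (wext (by simp) (by simp; ring) ?_)
        simp [hl]
        linear_combination (l * a * star a * tt (α x)) * h2
  obtain ⟨l, hl, hl0, hl1⟩ := exists_kf hq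
  have hl1' : l + 1 ≠ 0 := fun e => hl1 (by linear_combination e - h2)
  have hst : ∀ c, α * tau c * α⁻¹ ∈ St K := fun c x hx => by
    set σ := α * tau c * α⁻¹ with hσ
    have hc : ∀ m, star m = m → ∀ y, σ (tau (m * a) y) = tau (m * a) (σ y) := fun m hm y => by
      obtain ⟨d, hd⟩ := (h.mem _).1 (hρ m hm)
      rw [← MulAut.mul_apply, ← MulAut.mul_apply, hσ,
        show tau (m * a) = α * tau d * α⁻¹ by rw [← hd]; group,
        show α * tau c * α⁻¹ * (α * tau d * α⁻¹) = α * (tau c * tau d) * α⁻¹ by group, tau_comm]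
      congr 1; group
    obtain ⟨h₁, h₂⟩ := mem_Zj.1 hx
    obtain ⟨t, ht, htz⟩ : ∃ t, star t = -t ∧ zz x = a * star a * l ^ 2 * (l + 1) ^ 2 * t :=
      ⟨zz x / (a * star a * l ^ 2 * (l + 1) ^ 2), by simp [hl, neg_div, mul_comm], by field_simp⟩
    obtain ⟨r, hr⟩ : ∃ r, r * star a + a * star r = a * star a * (l ^ 2 + l) * t := by
      obtain ⟨r, hr⟩ := exists_trace (y := a * star a * (l ^ 2 + l) * t) (by
        simp [ht, hl]; linear_combination -(a * star a * (l ^ 2 + l) * t) * h2)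
      exact ⟨r / star a, by simp [← hr]; field_simp⟩
    let y := wk t 0 0 ht (by simp)
    let y' := wk (l * t) r 0 (by simp [ht, hl]) (by simp)
    have e₁ : y'⁻¹ * tau (1 * a) y' = y⁻¹ * tau (l * a) y := wext (by simp) (by simp [y, y']; ring)
      (by simp [y, y', hl]; linear_combination hr - (a * star r - a * star a * l * t) * h2)
    have e₂ : x = (y⁻¹ * tau (l * l * a) y)⁻¹ * (y'⁻¹ * tau (l * a) y') :=
      wext (by simp [h₁]) (by simp [y, y', h₂]; ring) (by
        simp [y, y', hl, htz]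
        linear_combination -l * hr + (l * a * star r + a * star a * t * (l ^ 4)) * h2)
    have e₃ := congrArg σ e₁
    rw [e₂]
    simp only [map_mul, map_inv, hc 1 (star_one K), hc l hl, hc (l * l) (by simp [hl])] at e₃ ⊢
    have := congrArg cc e₃
    simp [mem_Zj] at this ⊢
    linear_combination l * this
  refine inv_mem_iff.1 fun x hx => mem_Zj_of_fix fun c => α.injective ?_
  obtain ⟨d, hd⟩ := (h.mem _).1 (h.pe (mul_mem (mul_mem hα (h.tau_A c)) (inv_mem hα)) (hst c)
    (by rw [conj_pow, tau_char p]; simp))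
  have := tau_fix d hx
  rw [← hd] at this
  simpa using this

theorem sy {H : Subgroup (MulAut (W K))} (hT : T ≤ H) (hH : H ≤ A) {α : MulAut (W K)} (hα : α ∈ A)
    {a : K} (ha : a ≠ 0) (hτ : α⁻¹ * tau a * α ∈ H) : ∃ g ∈ H, α * g ∈ St K := by
  obtain ⟨g, hg, e⟩ := (h.syl.of_le hT hH).exists_conj_mem_of_pow hτ (k := 1) (by
    rw [show α⁻¹ * tau a * α = α⁻¹ * tau a * α⁻¹⁻¹ by simp, conj_pow, tau_char p]; simp)
  exact ⟨g⁻¹, inv_mem hg, h.ti (mul_mem hα (inv_mem (hH hg))) ha (by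
    rwa [show (α * g⁻¹)⁻¹ * tau a * (α * g⁻¹) = g * (α⁻¹ * tau a * α) * g⁻¹ by group])⟩

/-- Conjugates of `Z` meet `Z₂` inside `Z`. -/
theorem alpha {α : MulAut (W K)} (hα : α ∈ A) {x : W K} (hx : x ∈ Zj K) (hx' : α x ∈ Bj K) :
    α x ∈ Zj K := by
  refine mem_Zj.2 ⟨mem_Bj.1 hx', by_contra fun hc => ?_⟩
  obtain ⟨g, hg, e⟩ := h.sy (H := A ⊓ MulAction.stabilizer _ x) (fun τ hτ => ⟨h.syl.le hτ, by
    obtain ⟨a, rfl⟩ := (h.mem _).1 hτ
    exact tau_fix a hx⟩) inf_le_left hα hc ⟨h.cj_A hα _, by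
      have : tau (cc (α x)) (α x) = α x := wext (by simp) (by simp [mem_Bj.1 hx'])
        (by simp [mem_Bj.1 hx'])
      show α⁻¹ (tau _ (α x)) = x
      simp [this]⟩
  have := e x hx
  rw [MulAut.mul_apply, show g x = x from hg.2] at this
  exact hc (mem_Zj.1 this).2

/-- The dual statement. -/
theorem beta {α : MulAut (W K)} (hα : α ∈ A) (c : K) : ∃ x ∈ Bj K, α x ∈ Bj K ∧ cc (α x) = c := by
  by_contra hn
  let R : AddSubgroup K :=
    { carrier := {c | ∃ x ∈ Bj K, α x ∈ Bj K ∧ cc (α x) = c}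
      zero_mem' := ⟨1, one_mem _, by simp, by simp⟩
      add_mem' := by
        rintro _ _ ⟨x, hx, hx', rfl⟩ ⟨y, hy, hy', rfl⟩
        exact ⟨x * y, mul_mem hx hy, by rw [map_mul]; exact mul_mem hx' hy', by simp⟩
      neg_mem' := by
        rintro _ ⟨x, hx, hx', rfl⟩
        exact ⟨x⁻¹, inv_mem hx, by rw [map_inv]; exact inv_mem hx', by simp⟩ }
  obtain ⟨M, hRM, hc, a, ha, hM⟩ := exists_hyper (R := R) hn
  let U : Subgroup (W K) :=
    { carrier := {y | ∃ x ∈ Bj K, tt (α y) = tt (α x) ∧ cc (α y) - cc (α x) ∈ M}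
      one_mem' := ⟨1, one_mem _, rfl, by simp⟩
      mul_mem' := by
        rintro y y' ⟨x, hx, h₁, h₂⟩ ⟨x', hx', h₁', h₂'⟩
        refine ⟨x * x', mul_mem hx hx', by simp [h₁, h₁'], ?_⟩
        convert add_mem h₂ h₂' using 1
        simp; ring
      inv_mem' := by
        rintro y ⟨x, hx, h₁, h₂⟩
        refine ⟨x⁻¹, inv_mem hx, by simp [h₁], ?_⟩
        convert neg_mem h₂ using 1
        simp; ring }
  have hT : T ≤ A ⊓ Ess.trivSub ⊤ U le_top := fun τ hτ => ⟨h.syl.le hτ, fun x _ => by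
    obtain ⟨b, rfl⟩ := (h.mem _).1 hτ
    exact ⟨_, mem_Bj.2 (by simp), rfl, by simp⟩⟩
  obtain ⟨g, hg, e⟩ := h.sy hT inf_le_left hα ha
    ⟨h.cj_A hα _, fun x _ =>
      ⟨1, one_mem _, by simp, by simpa using hM _ (star_tt (α x))⟩⟩
  obtain ⟨t, ht, ht'⟩ := exists_k0_ne K
  have h₁ := mul_mem (mul_mem hg (hT (h.nrm _ (inv_mem (mul_mem hα hg.1)) (inv_mem e) (c / t))))
    (inv_mem hg)
  rw [show g * ((α * g)⁻¹ * tau (c / t) * (α * g)⁻¹⁻¹) * g⁻¹ = α⁻¹ * tau (c / t) * α by group] at h₁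
  obtain ⟨x, hx, h₂, h₃⟩ := h₁.2 (α⁻¹ (wk t 0 0 ht' (by simp))) trivial
  simp [ht] at h₂ h₃
  exact hc (by simpa using add_mem h₃ (hRM ⟨x, hx, mem_Bj.2 h₂.symm, rfl⟩))

end Hyp

end Cfsg.Agent.U4.JS
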