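import Cfsg.Agent.Lib.U4.J1

/-!
The automizer of `J`: the conjugates of `Z` form an ovoid, recognition of `Ω₄⁻(q)`.
-/

set_option autoImplicit false

namespace Cfsg.Agent.U4.JS

open Cfsg.Agent.Fus Subgroup
open Cfsg.Agent.U5 (Uf k0 kf card_k0 card_kf card_K two_le_q eq_zero_of_real exists_trace
  exists_k0_ne eq_zero_of_lin)

universe v

variable {K : Type v} [Field K] [Fintype K] [Uf K]

/-- The `c`-coordinate as a homomorphism. -/
def ccH : W K →* Multiplicative K := MonoidHom.mk' (fun x => Multiplicative.ofAdd (cc x))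
  fun x y => by rw [cc_mul]; rfl

/-- The union of the conjugates of `Z`. -/
def Sing (A : Subgroup (MulAut (W K))) (x : W K) : Prop := ∃ α ∈ A, α⁻¹ x ∈ Zj K

theorem Sing.map {A : Subgroup (MulAut (W K))} {x : W K} (hx : Sing A x) {β : MulAut (W K)}
    (hβ : β ∈ A) : Sing A (β x) := by
  obtain ⟨α, hα, e⟩ := hx
  exact ⟨β * α, mul_mem hβ hα, by simpa using e⟩

namespace Hyp

variable {p : ℕ} [hp : Fact p.Prime] [CharP K p] {A T : Subgroup (MulAut (W K))} (h : Hyp p A T)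
include h

theorem im_inf {β β' : MulAut (W K)} (hβ : β ∈ A) (hβ' : β' ∈ A) {x : W K} (h₁ : x ∈ im β (Zj K))
    (h₂ : x ∈ im β' (Bj K)) : x ∈ im β' (Zj K) := by
  rw [mem_im] at *
  simpa using h.alpha (mul_mem (inv_mem hβ') hβ) h₁ (by simpa using h₂)

theorem card_le {β β' : MulAut (W K)} (hβ : β ∈ A) (hβ' : β' ∈ A) :
    Nat.card ↥(im β (Bj K) ⊓ im β' (Bj K)) ≤
      Uf.q K ^ 2 * Nat.card ↥(im β (Zj K) ⊓ im β' (Zj K)) := by
  rw [← Fit.card_map_mul_card_inf_ker (ccH.comp (β'⁻¹).toMonoidHom)]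
  refine Nat.mul_le_mul ((card_le_card_group _).trans_eq (card_K K)) (card_le_of_le ?_)
  rintro x ⟨h₁, h₂, h₃⟩
  have : x ∈ im β' (Zj K) := mem_im.2 (mem_Zj.2 ⟨mem_Bj.1 (mem_im.1 h₃), h₁⟩)
  exact ⟨h.im_inf hβ' hβ this h₂, this⟩

theorem card_ge {α : MulAut (W K)} (hα : α ∈ A) :
    Uf.q K ^ 2 * Nat.card ↥(Zj K ⊓ im α (Zj K)) ≤ Nat.card ↥(Bj K ⊓ im α (Bj K)) := by
  rw [← Fit.card_map_mul_card_inf_ker ccH (Bj K ⊓ im α (Bj K))]
  refine Nat.mul_le_mul ?_ (card_le_of_le ?_)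
  · rw [(eq_top_iff' (map (ccH (K := K)) _)).2 fun c => ?_, Subgroup.card_top]
    · exact (card_K K).ge
    obtain ⟨x, hx, hx', e⟩ := h.beta hα c.toAdd
    exact ⟨α x, ⟨hx', mem_im.2 (by simpa using hx)⟩, congrArg Multiplicative.ofAdd e⟩
  · rintro x ⟨h₁, h₂⟩
    exact ⟨(mem_Zj.1 h₁).2, Zj_le_Bj h₁, map_mono Zj_le_Bj h₂⟩

theorem fam {ι : Type*} [Fintype ι] (β : ι → MulAut (W K)) (hA : ∀ i, β i ∈ A)
    (hne : ∀ i j, i ≠ j → (β j)⁻¹ * β i ∉ St K) (D V : Subgroup (W K)) {s d : ℕ}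
    (hq : Uf.q K = s * d) (hs : 1 < s) (hD : ∀ i, D ≤ im (β i) (Zj K))
    (hV : ∀ i, im (β i) (Bj K) ≤ V) (cD : Nat.card D = d)
    (hm : ∀ α ∈ A, α ∉ St K → Nat.card ↥(Zj K ⊓ im α (Zj K)) ≤ d)
    (cV : Nat.card V ≤ (s * d) ^ 3 * s) : Fintype.card ι ≤ s * (s * d + 1) := by
  have key : ∀ i j, i ≠ j → Nat.card ↥(im (β i) (Zj K) ⊓ im (β j) (Zj K)) ≤ d := fun i j hij => by
    refine le_trans (le_of_eq ?_) (hm _ (mul_mem (inv_mem (hA j)) (hA i)) (hne i j hij))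
    rw [← card_im (β j) (Zj K ⊓ _)]
    congr 2
    ext x
    simp [mem_im, and_comm]
  refine count (fun i => im (β i) (Zj K)) (fun i => im (β i) (Bj K)) D V (cD ▸ Nat.card_pos) hs
    (fun i => map_mono Zj_le_Bj) hV hD (fun i => by rw [card_im, card_Zj, hq])
    (fun i => by rw [card_im, card_Bj, hq]) cD (fun i j hij x hx => ?_) (fun i j hij => ?_) cV
  · rw [eq_of_le_of_card_ge (le_inf (hD i) (hD j)) (cD ▸ key i j hij)]
    exact ⟨hx.1, h.im_inf (hA i) (hA j) hx.1 hx.2⟩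
  · exact (h.card_le (hA i) (hA j)).trans (hq ▸ Nat.mul_le_mul_left _ (key i j hij))

theorem ne_St {α : MulAut (W K)} (hα : α ∈ A) (hs : α ∉ St K) {a b : K} (hab : a ≠ b) :
    (tau b * α)⁻¹ * (tau a * α) ∉ St K := fun e => by
  rw [show (tau b * α)⁻¹ * (tau a * α) = α⁻¹ * ((tau b)⁻¹ * tau a) * α by group, ← tau_neg,
    ← tau_add] at e
  exact hs (h.ti hα (fun e => hab (by linear_combination e)) (h.pe (h.cj_A hα _) e (by
    rw [show ∀ τ, α⁻¹ * τ * α = α⁻¹ * τ * α⁻¹⁻¹ by simp, conj_pow, tau_char p]; simp)))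

theorem disj {α : MulAut (W K)} (hα : α ∈ A) (hs : α ∉ St K) :
    Nat.card ↥(Zj K ⊓ im α (Zj K)) ≤ 1 := by
  haveI : Nonempty {β // β ∈ A ∧ β ∉ St K} := ⟨⟨α, hα, hs⟩⟩
  obtain ⟨⟨γ, hγ, hγ'⟩, hm⟩ := Finite.exists_max fun β : {β // β ∈ A ∧ β ∉ St K} =>
    Nat.card ↥(Zj K ⊓ im β.1 (Zj K))
  refine (hm ⟨α, hα, hs⟩).trans ?_
  obtain ⟨s, hq⟩ := card_dvd_of_le (inf_le_left : Zj K ⊓ im γ (Zj K) ≤ _)
  have hd : 0 < Nat.card ↥(Zj K ⊓ im γ (Zj K)) := Nat.card_pos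
  have hs : 1 < s := by
    by_contra hs
    have := eq_of_le_of_card_ge (inf_le_left : Zj K ⊓ im γ (Zj K) ≤ _) (by rw [hq]; nlinarith)
    exact hγ' (inv_mem_iff.1 fun x hx => mem_im.1 (this.ge hx).2)
  rw [card_Zj, mul_comm] at hq
  have h₁ := Fit.card_sup_mul_card_inf (Bj K) (im γ (Bj K))
  have h₂ := h.card_ge hγ
  rw [card_im, card_Bj] at h₁
  have := h.fam (fun a => tau a * γ) (fun a => mul_mem (h.tau_A a) hγ)
    (fun a b hab => h.ne_St hγ hγ' hab) (Zj K ⊓ im γ (Zj K)) (Bj K ⊔ im γ (Bj K)) hq hs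
    (fun a x hx => mem_im.2 (by
      rw [mul_inv_rev, MulAut.mul_apply, ← tau_neg, tau_fix _ hx.1]; exact mem_im.1 hx.2))
    (fun a x hx => by
      have := mul_mem (mem_sup_right (S := Bj K) (x := tau (-a) x) (mem_im.2 (by
        simpa [tau_neg] using mem_im.1 hx))) (mem_sup_left (x := (tau (-a) x)⁻¹ * x)
          (mem_Bj.2 (by simp)))
      rwa [mul_inv_cancel_left] at this) rfl (fun β hβ hβ' => hm ⟨β, hβ, hβ'⟩) (by
        generalize Nat.card ↥(Zj K ⊓ im γ (Zj K)) = d at *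
        refine Nat.le_of_mul_le_mul_right (c := (s * d) ^ 2 * d) ?_ (by positivity)
        rw [hq] at h₁ h₂
        exact (Nat.mul_le_mul_left _ h₂).trans (le_of_eq (h₁.trans (by ring))))
  rw [Uf.card_eq, hq] at this
  simp only
  generalize Nat.card ↥(Zj K ⊓ im γ (Zj K)) = d at *
  by_contra hd
  have h₃ : s * (s * (d * d)) ≤ s * (s * d + 1) := by nlinarith
  have h₄ := Nat.le_of_mul_le_mul_left h₃ (by omega)
  nlinarith

theorem two {α γ : MulAut (W K)} (hα : α ∈ A) (hα' : α ∉ St K) (hγ : γ ∈ A) (hγ' : γ ∉ St K) :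
    ∃ a, γ⁻¹ * tau a * α ∈ St K := by
  by_contra hn
  push Not at hn
  have hq := two_le_q K
  have key : ∀ a b, (tau b * γ)⁻¹ * (tau a * α) ∉ St K := fun a b e => hn (-b + a) (by
    rwa [tau_add, tau_neg, show γ⁻¹ * ((tau b)⁻¹ * tau a) * α = (tau b * γ)⁻¹ * (tau a * α) by
      group])
  have := h.fam (Sum.elim (fun a => tau a * α) fun a => tau a * γ)
    (by rintro (a | a); exacts [mul_mem (h.tau_A a) hα, mul_mem (h.tau_A a) hγ])
    (by
      rintro (a | a) (b | b) hab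
      · exact h.ne_St hα hα' fun e => hab (e ▸ rfl)
      · exact key a b
      · exact fun e => key b a (by simpa using inv_mem e)
      · exact h.ne_St hγ hγ' fun e => hab (e ▸ rfl))
    ⊥ ⊤ (mul_one _).symm (by omega) (fun _ => bot_le) (fun _ => le_top) card_bot
    (fun β hβ hβ' => h.disj hβ hβ') (by rw [Subgroup.card_top, card_J]; exact le_of_eq (by ring))
  rw [Fintype.card_sum, Uf.card_eq] at this
  nlinarith

variable {γ : MulAut (W K)} (hγ : γ ∈ A) (hγ' : γ ∉ St K)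
include hγ hγ'

theorem eq_of_tt {x y : W K} (hx : γ⁻¹ x ∈ Zj K) (hy : γ⁻¹ y ∈ Zj K) (e : tt x = tt y) : x = y := by
  have h₁ : x⁻¹ * y ∈ im γ (Zj K) := mul_mem (inv_mem (mem_im.2 hx)) (mem_im.2 hy)
  have h₂ : x⁻¹ * y ∈ im 1 (Zj K) := h.im_inf hγ (one_mem _) h₁ (mem_im.2 (mem_Bj.2 (by simp [e])))
  have := (eq_bot_of_card_le _ (h.disj hγ hγ')).le ⟨mem_im.1 h₂, h₁⟩
  exact inv_mul_eq_one.1 this

theorem exists_tt {r : K} (hr : star r = -r) : ∃ y, γ⁻¹ y ∈ Zj K ∧ tt y = r := by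
  let f : Zj K → k0 K := fun x => ⟨tt (γ x), star_tt _⟩
  have hf : Function.Injective f := fun x y e => Subtype.ext (γ.injective
    (h.eq_of_tt hγ hγ' (by simpa using x.2) (by simpa using y.2) (congrArg Subtype.val e)))
  obtain ⟨x, hx⟩ := (hf.bijective_of_nat_card_le (by rw [card_k0, card_Zj])).2 ⟨r, hr⟩
  exact ⟨γ x, by simpa using x.2, congrArg Subtype.val hx⟩

theorem sing_iff {x : W K} : Sing A x ↔ x ∈ Zj K ∨ ∃ a, γ⁻¹ (tau a x) ∈ Zj K := by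
  refine ⟨fun ⟨α, hα, e⟩ => ?_, ?_⟩
  · by_cases hs : α ∈ St K
    · exact .inl (by simpa using hs _ e)
    · obtain ⟨a, ha⟩ := h.two hα hs hγ hγ'
      exact .inr ⟨a, by simpa using ha _ e⟩
  · rintro (e | ⟨a, e⟩)
    exacts [⟨1, one_mem _, e⟩, ⟨(tau a)⁻¹ * γ, mul_mem (inv_mem (h.tau_A a)) hγ, by simpa using e⟩]

theorem uniq {x y : W K} (hx : Sing A x) (hy : Sing A y) (e : x⁻¹ * y ∈ Zj K) (ht : tt x ≠ 0) :
    x = y := by
  obtain ⟨e₁, e₂⟩ := mem_Zj.1 e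
  simp only [tt_mul, tt_inv, cc_mul, cc_inv, neg_add_eq_zero] at e₁ e₂
  obtain ⟨a, ha⟩ := ((h.sing_iff hγ hγ').1 hx).resolve_left fun h => ht (mem_Zj.1 h).1
  obtain ⟨b, hb⟩ := ((h.sing_iff hγ hγ').1 hy).resolve_left fun h => ht (e₁ ▸ (mem_Zj.1 h).1)
  have := h.eq_of_tt hγ hγ' ha hb (by simpa using e₁)
  obtain rfl : a = b := by simpa [← e₁, ← e₂, ht] using congrArg cc this
  exact (tau a).injective this

theorem no3 {x y : W K} (hx : γ⁻¹ x ∈ Zj K) (hy : γ⁻¹ y ∈ Zj K) (ht : tt x ≠ 0) {a : K}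
    (ha : a ≠ 0) (hs : Sing A (tau a x * y)) : y = 1 := by
  have := h.uniq hγ hγ' (x := γ⁻¹ (tau a x)) (((show Sing A x from ⟨γ, hγ, hx⟩).map
    (h.tau_A a)).map (inv_mem hγ)) (hs.map (inv_mem hγ)) (by simpa using hy) fun e => by
      have := h.alpha (h.cj_A hγ a) hx (mem_Bj.2 (by simpa using e))
      simpa [ha, ht] using congrArg cc (h.eq_of_tt hγ hγ' (x := tau a x) (by simpa using this) hx
        (by simp))
  simpa using this

theorem lin : ∃ κ, ∀ x, γ⁻¹ x ∈ Zj K → cc x = κ * tt x := by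
  obtain ⟨r, hr0, hr⟩ := exists_k0_ne K
  obtain ⟨y, hy, rfl⟩ := h.exists_tt hγ hγ' hr
  refine ⟨cc y / tt y, fun x hx => ?_⟩
  by_cases hx0 : tt x = 0
  · rw [h.eq_of_tt hγ hγ' hx (y := 1) (by simp) hx0]; simp
  by_cases hxy : x = y
  · rw [hxy, div_mul_cancel₀ _ hr0]
  obtain ⟨ρ, hρ, e⟩ : ∃ ρ, star ρ = ρ ∧ tt x = ρ * tt y := ⟨tt x / tt y, by simp, by field_simp⟩
  have hρ0 : ρ ≠ 0 := fun h0 => hx0 (by simp [e, h0])
  have hρ1 : 1 - ρ ≠ 0 := fun h0 => hxy (h.eq_of_tt hγ hγ' hx hy (by linear_combination e - tt y * h0))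
  suffices cc x - ρ * cc y = 0 by rw [e]; field_simp; linear_combination this
  refine eq_zero_of_real fun b => by_contra fun hb => ?_
  have hb0 : b ≠ 0 := by rintro rfl; simp at hb
  have hb1 := star_ne_zero.2 hb0
  obtain ⟨l, hl, hl0, e'⟩ : ∃ l, star l = l ∧ l ≠ 0 ∧ l * (b * star b) * ρ * (1 - ρ) * tt y =
      star ((cc x - ρ * cc y) * b) - (cc x - ρ * cc y) * b :=
    ⟨(star ((cc x - ρ * cc y) * b) - (cc x - ρ * cc y) * b) / (b * star b * ρ * (1 - ρ) * tt y),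
      by simp [hρ]; field_simp; ring, div_ne_zero (sub_ne_zero.2 hb) (by simp [*]), by field_simp⟩
  refine hxy (inv_mul_eq_one.1 (h.no3 hγ hγ' hx (by simpa using mul_mem (inv_mem hx) hy) hx0
    (mul_ne_zero hl0 hb1) ?_))
  rw [show tau (l * star b) x * (x⁻¹ * y) = tau (l * star b * ρ) y from wext (by simp)
    (by simp [e]; ring) (by simp [e, hl, hρ] at e' ⊢; linear_combination l * e')]
  exact (show Sing A y from ⟨γ, hγ, hy⟩).map (h.tau_A _)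

end Hyp

end Cfsg.Agent.U4.JS
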