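import Cfsg.Agent.Lib.U4.J2

/-!
The automizer of `J`: the invariant quadric and the Weyl elements.
-/

set_option autoImplicit false

namespace Cfsg.Agent.U4.JS

open Cfsg.Agent.Fus Subgroup
open Cfsg.Agent.U5 (Uf exists_k0_ne eq_zero_of_lin)

universe v

variable {K : Type v} [Field K] [Fintype K] [Uf K]

namespace Hyp

variable {p : ℕ} [hp : Fact p.Prime] [CharP K p] {A T : Subgroup (MulAut (W K))} (h : Hyp p A T)
include h

theorem main {γ₀ : MulAut (W K)} (hγ₀ : γ₀ ∈ A) (hγ₀' : γ₀ ∉ St K) : ∃ g : K → K,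
    (∀ r s, star r = -r → star s = -s → g (r + s) = g r + g s) ∧
    (∀ r, star r = -r → star (g r) = -g r) ∧
    (∀ α ∈ A, α ∈ St K ∨ ∃ a, ∀ x ∈ Zj K,
      cc (tau a (α x)) = 0 ∧ zz (tau a (α x)) = g (tt (α x))) ∧
    ∀ a ≠ 0, ∃ n ∈ A, ∀ x, tt (n x) = (zz x - g (tt x)) / (a * star a) ∧
      cc (n x) = a / star a * star (cc x) ∧ zz (n x) - g (tt (n x)) = a * star a * tt x := by
  obtain ⟨γ, hγ, hγ', hc⟩ : ∃ γ ∈ A, γ ∉ St K ∧ ∀ x, γ⁻¹ x ∈ Zj K → cc x = 0 := by
    obtain ⟨κ, hκ⟩ := h.lin hγ₀ hγ₀'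
    refine ⟨tau (-κ) * γ₀, mul_mem (h.tau_A _) hγ₀, fun e => hγ₀' (by
      simpa using mul_mem (inv_mem (tau_mem_St (-κ))) e), fun x hx => ?_⟩
    have := hκ (tau κ x) (by simpa [tau_neg] using hx)
    simpa using this
  choose! Y hY tY using fun r => h.exists_tt hγ hγ' (r := r)
  have eY : ∀ x, γ⁻¹ x ∈ Zj K → x = Y (tt x) := fun x hx =>
    h.eq_of_tt hγ hγ' hx (hY _ (star_tt x)) (tY _ (star_tt x)).symm
  have cY : ∀ r, star r = -r → cc (Y r) = 0 := fun r hr => hc _ (hY r hr)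
  obtain ⟨g, hg⟩ : ∃ g : K → K, ∀ r, g r = zz (Y r) := ⟨_, fun _ => rfl⟩
  have hadd : ∀ r s, star r = -r → star s = -s → g (r + s) = g r + g s := fun r s hr hs => by
    have := eY (Y r * Y s) (by rw [map_mul]; exact mul_mem (hY r hr) (hY s hs))
    rw [tt_mul, tY r hr, tY s hs] at this
    rw [hg, ← this, hg, hg, zz_mul]
  have hst : ∀ r, star (g r) = -g r := fun r => by rw [hg, star_zz]
  have g0 : g 0 = 0 := by simpa using hadd 0 0 (by simp) (by simp)
  obtain ⟨w, hw⟩ : ∃ w : W K → K, ∀ x, w x = zz x - g (tt x) := ⟨_, fun _ => rfl⟩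
  have sw : ∀ x, star (w x) = -w x := fun x => by simp [hw, hst]; ring
  have wm : ∀ x y, w (x * y) = w x + w y := fun x y => by
    simp only [hw, zz_mul, tt_mul, hadd _ _ (star_tt x) (star_tt y)]; ring
  have wY : ∀ r, star r = -r → w (Y r) = 0 := fun r hr => by rw [hw, tY r hr, hg, sub_self]
  have wt : ∀ a x, w (tau a x) = w x + cc x * star a - a * star (cc x) + a * star a * tt x :=
    fun a x => by simp [hw]; ring
  have wext' : ∀ {x y}, tt x = tt y → cc x = cc y → w x = w y → x = y := fun h₁ h₂ h₃ =>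
    wext h₁ h₂ (by rw [hw, hw, h₁] at h₃; linear_combination h₃)
  have hS : ∀ x, Sing A x ↔ tt x * w x + cc x * star (cc x) = 0 := fun x => by
    rw [h.sing_iff hγ hγ']
    constructor
    · rintro (e | ⟨a, e⟩)
      · simp [(mem_Zj.1 e).1, (mem_Zj.1 e).2]
      · have h₁ := hc _ e
        have h₂ := wY _ (star_tt (tau a x))
        rw [← eY _ e, wt] at h₂
        have h₃ : cc x = -(a * tt x) := by simpa [add_eq_zero_iff_eq_neg] using h₁
        simp [h₃] at h₂ ⊢
        linear_combination tt x * h₂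
    · intro e
      by_cases ht : tt x = 0
      · exact .inl (mem_Zj.2 ⟨ht, by simpa [ht] using e⟩)
      refine .inr ⟨-(cc x / tt x), ?_⟩
      rw [show tau (-(cc x / tt x)) x = Y (tt x) from wext' (by simp [tY]) (by simp [cY, ht]) (by
        rw [wY _ (star_tt x), wt]; simp [neg_div, div_neg]; field_simp; linear_combination e)]
      exact hY _ (star_tt x)
  have hB : ∀ x, γ⁻¹ x ∈ Bj K → w x = 0 := fun x hx => by
    by_contra h0
    have hr : star (-tt x - cc x * star (cc x) / w x) = -(-tt x - cc x * star (cc x) / w x) := by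
      simp [sw, div_neg]; ring
    have h₁ := (hS _).1 (((hS (x * Y _)).2 (by
      rw [wm, wY _ hr, tt_mul, tY _ hr, cc_mul, cY _ hr]; field_simp; ring)).map (inv_mem hγ))
    obtain ⟨h₂, h₃⟩ := mem_Zj.1 (hY _ hr)
    rw [map_mul, tt_mul, cc_mul, mem_Bj.1 hx, h₂, h₃] at h₁
    simp only [add_zero, zero_mul, zero_add, mul_eq_zero, star_eq_zero, or_self] at h₁
    exact h0 (by rw [eY x (mem_Zj.2 ⟨mem_Bj.1 hx, h₁⟩), wY _ (star_tt x)])
  let E : K → W K := fun c => wk 0 c 0 (by simp) (by simp)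
  have hE : ∀ c, γ⁻¹ (E c) ∈ Bj K := fun c => by
    obtain ⟨x, hx, h₁, h₂⟩ := h.beta hγ c
    have := hB (γ x) (by simpa using hx)
    rwa [← show γ x = E c from wext' (mem_Bj.1 h₁) h₂ (by simp [this, hw, E, g0]),
      MulAut.inv_apply_self]
  have wE : ∀ c, w (E c) = 0 := fun c => hB _ (hE c)
  have dec : ∀ x, x = Y (tt x) * E (cc x) * wk 0 0 (w x) (by simp) (sw x) := fun x =>
    wext' (by simp [tY, E]) (by simp [cY, E]) (by rw [wm, wm, wY _ (star_tt x), wE]; simp [hw, g0])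
  have hT' : ∀ a : K, ∃ b : K, ∀ x : W K, tt ((γ * tau a * γ⁻¹) x) =
      tt x + cc x * star b - b * star (cc x) + b * star b * w x ∧
      cc ((γ * tau a * γ⁻¹) x) = cc x + b * w x ∧ w ((γ * tau a * γ⁻¹) x) = w x := fun a => by
    have hσ : γ * tau a * γ⁻¹ ∈ A := mul_mem (mul_mem hγ (h.tau_A a)) (inv_mem hγ)
    have h₁ : ∀ r, star r = -r → (γ * tau a * γ⁻¹) (Y r) = Y r := fun r hr => by
      rw [MulAut.mul_apply, MulAut.mul_apply, tau_fix a (hY r hr), MulAut.apply_inv_self]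
    have h₂ : ∀ x, w ((γ * tau a * γ⁻¹) x) = w x := fun x => by
      rw [← mul_inv_cancel_left x ((γ * tau a * γ⁻¹) x), wm, hB (x⁻¹ * _) (mem_Bj.2 (by simp)),
        add_zero]
    have h₃ : ∀ c, cc ((γ * tau a * γ⁻¹) (E c)) = c := fun c => by
      have := hc ((E c)⁻¹ * (γ * tau a * γ⁻¹) (E c)) (mem_Zj.2 (by
        simpa using .inr (mem_Bj.1 (hE c))))
      rw [cc_mul, cc_inv, neg_add_eq_zero] at this
      exact this.symm
    generalize γ * tau a * γ⁻¹ = σ at hσ h₁ h₂ h₃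
    have h₄ : ∀ z hz, tt (σ (wk 0 0 z (by simp) hz)) * z +
        cc (σ (wk 0 0 z (by simp) hz)) * star (cc (σ (wk 0 0 z (by simp) hz))) = 0 := fun z hz => by
      have := (hS _).1 (((hS (wk 0 0 z (by simp) hz)).2 (by simp)).map hσ)
      rwa [h₂, hw, tt_wk, g0, sub_zero] at this
    have h₅ : ∀ z hz, z ≠ 0 → ∀ c, tt (σ (E c)) * z + c * star (cc (σ (wk 0 0 z (by simp) hz))) +
        star c * cc (σ (wk 0 0 z (by simp) hz)) = 0 := fun z hz h0 c => by
      have hr : star (-(c * star c / z)) = - -(c * star c / z) := by simp [hz, div_neg, mul_comm]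
      have e : w (Y (-(c * star c / z)) * E c * wk 0 0 z (by simp) hz) = z := by
        rw [wm, wm, wY _ hr, wE]; simp [hw, g0]
      have := (hS _).1 (((hS (Y (-(c * star c / z)) * E c * wk 0 0 z (by simp) hz)).2 (by
        rw [e]; simp [tY _ hr, cY _ hr, E, h0])).map hσ)
      rw [h₂, e] at this
      simp only [map_mul, h₁ _ hr, tt_mul, cc_mul, tY _ hr, cY _ hr, h₃, star_add, zero_add] at this
      linear_combination this - h₄ z hz + c * star c * mul_inv_cancel₀ h0
    obtain ⟨z₀, h0, hz₀⟩ := exists_k0_ne K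
    obtain ⟨b, hb⟩ : ∃ b, cc (σ (wk 0 0 z₀ (by simp) hz₀)) = b * z₀ :=
      ⟨_, (div_mul_cancel₀ _ h0).symm⟩
    have h₆ : ∀ c, tt (σ (E c)) = c * star b - b * star c := fun c => mul_right_cancel₀ h0 (by
      have := h₅ z₀ hz₀ h0 c
      rw [hb, star_mul', hz₀] at this
      linear_combination this)
    have h₇ : ∀ z hz, cc (σ (wk 0 0 z (by simp) hz)) = b * z ∧
        tt (σ (wk 0 0 z (by simp) hz)) = b * star b * z := fun z hz => by
      by_cases h0 : z = 0
      · subst h0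
        rw [show wk 0 0 0 (by simp) hz = 1 from wext rfl rfl rfl]
        simp
      have := (eq_zero_of_lin (e := star b * z + star (cc (σ (wk 0 0 z (by simp) hz))))
        (e' := cc (σ (wk 0 0 z (by simp) hz)) - b * z) fun c => by
          have := h₅ z hz h0 c
          rw [h₆] at this
          linear_combination this).2
      rw [sub_eq_zero] at this
      refine ⟨this, mul_right_cancel₀ h0 ?_⟩
      have e := h₄ z hz
      rw [this, star_mul', hz] at e
      linear_combination e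
    refine ⟨b, fun x => ⟨?_, ?_, h₂ x⟩⟩
    · conv_lhs => rw [dec x]
      simp only [map_mul, h₁ _ (star_tt x), tt_mul, tY _ (star_tt x), h₆, (h₇ _ _).2]
      ring
    · conv_lhs => rw [dec x]
      simp only [map_mul, h₁ _ (star_tt x), cc_mul, cY _ (star_tt x), h₃, (h₇ _ _).1, zero_add]
  choose f hf using hT'
  have hsurj : Function.Surjective f := Finite.injective_iff_surjective.1 fun a b e => by
    have : γ * tau a * γ⁻¹ = γ * tau b * γ⁻¹ := MulEquiv.ext fun x =>
      wext' (by rw [(hf a x).1, (hf b x).1, e]) (by rw [(hf a x).2.1, (hf b x).2.1, e])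
        (by rw [(hf a x).2.2, (hf b x).2.2])
    refine sub_eq_zero.1 (tau_eq_one ?_)
    rw [sub_eq_add_neg, tau_add, tau_neg, mul_left_cancel (mul_right_cancel this), mul_inv_cancel]
  refine ⟨g, hadd, fun r _ => hst r, fun α hα => ?_, fun a ha => ?_⟩
  · by_cases hs : α ∈ St K
    · exact .inl hs
    obtain ⟨a, ha⟩ := h.two hα hs hγ hγ'
    refine .inr ⟨a, fun x hx => ⟨hc _ (ha x hx), ?_⟩⟩
    rw [eY (tau a (α x)) (ha x hx), hg, tt_tau]
  · obtain ⟨b, hb⟩ := hsurj (-(star a)⁻¹)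
    have hσ : γ * tau b * γ⁻¹ ∈ A := mul_mem (mul_mem hγ (h.tau_A b)) (inv_mem hγ)
    have e := hf b
    rw [hb] at e
    generalize γ * tau b * γ⁻¹ = σ at hσ e
    have ha' := star_ne_zero.2 ha
    refine ⟨σ * tau a * σ, mul_mem (mul_mem hσ (h.tau_A a)) hσ, fun x => ?_⟩
    rw [← hw, ← hw]
    simp only [MulAut.mul_apply, e, wt, tt_tau, cc_tau, star_add, star_sub, star_mul', star_neg,
      star_inv₀, star_star, star_tt, sw]
    refine ⟨?_, ?_, ?_⟩ <;> field_simp <;> ring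

end Hyp

end Cfsg.Agent.U4.JS
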