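import Cfsg.Agent.Lib.U4.L1a

/-!
Row L1 of docs/U4_PLAN.md: the structure of `Aut_F(Q)` for `q ≠ 3`.
-/

set_option autoImplicit false

namespace Cfsg.Agent.U4

open Cfsg.Agent.Fus Cfsg.Agent.Fus2 Subgroup Equiv
open Cfsg.Agent.U5 (Uf map_star' exists_k0_ne eq_zero_of_lin klin exists_star_ne kf mem_kf card_kf
  exists_q_pow two_le_q)

universe v

namespace L1

variable {K : Type v} [Field K] [Fintype K] [Uf K]

theorem exists_avoid (hq : 4 ≤ Uf.q K) (a b c : K) :
    ∃ s : K, star s = s ∧ s ≠ a ∧ s ≠ b ∧ s ≠ c := by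
  classical
  by_contra h
  push Not at h
  have : (kf K : Set K) ⊆ ({a, b, c} : Finset K) := fun s hs => by
    have := h s (mem_kf.1 hs)
    simp only [Finset.coe_insert, Finset.coe_singleton, Set.mem_insert_iff, Set.mem_singleton_iff]
    tauto
  have h1 := Set.ncard_le_ncard this (Finset.finite_toSet _)
  rw [Set.ncard_coe_finset, ← Nat.card_coe_set_eq] at h1
  have h2 := Finset.card_le_three (a := a) (b := b) (c := c)
  have h3 : Nat.card (kf K : Set K) = Uf.q K := card_kf K
  omega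

theorem sing_zero {g : K} (h2 : (2 : K) = 0) (h : ∀ a : K, star g * a ^ 2 + g * star a ^ 2 = 0) :
    g = 0 := by
  obtain ⟨μ, hμ⟩ := exists_star_ne K
  have s1 := h 1
  have s2 := h μ
  rw [star_one] at s1
  have : g * (star μ - μ) ^ 2 = 0 := by
    linear_combination s2 - μ ^ 2 * s1 + g * (μ ^ 2 - μ * star μ) * h2
  exact (mul_eq_zero.1 this).resolve_right (pow_ne_zero 2 (sub_ne_zero.2 hμ))

/-- A field automorphism that is linear over the fixed field. -/
theorem sigma_cases {σ : K ≃+* K} (h : ∀ s, star s = s → σ s = s) :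
    (∀ x, σ x = x) ∨ ∀ x, σ x = star x := by
  by_cases h1 : ∀ x, σ x = x
  · exact .inl h1
  push Not at h1
  obtain ⟨y, hy⟩ := h1
  have key : ∀ x, (σ x - x) * (σ x - star x) = 0 := fun x => by
    have e1 := h (x + star x) (by simp [add_comm])
    have e2 := h (x * star x) (by simp [mul_comm])
    rw [map_add] at e1
    rw [map_mul] at e2
    linear_combination σ x * e1 - e2
  have hy' : σ y = star y := sub_eq_zero.1 ((mul_eq_zero.1 (key y)).resolve_left (sub_ne_zero.2 hy))
  refine .inr fun x => ?_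
  obtain ⟨r, s, hr, hs, rfl⟩ := U5.exists_decomp (fun e => hy (hy'.trans e)) x
  simp [h r hr, h s hs, hy', hr, hs]

/-- `f` is the action of an element of `A` in the coordinates `(a, ε c + g ā)`. -/
def Tw (A : Subgroup (Perm (K × K))) (ε g : K) (f : K × K → K × K) : Prop :=
  ∃ t ∈ A ⊓ PB, ∀ a c, t (a, ε * c + g * star a) =
    ((f (a, c)).1, ε * (f (a, c)).2 + g * star (f (a, c)).1)

theorem cmp {A : Subgroup (Perm (K × K))} {ε g : K} {f f' : K × K → K × K} :
    Tw A ε g f → Tw A ε g f' → Tw A ε g fun u => f (f' u) := fun ⟨t, ht, e⟩ ⟨t', ht', e'⟩ =>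
  ⟨t * t', mul_mem ht ht', fun a c => by rw [Perm.mul_apply, e', e]⟩

variable {p : ℕ} [Fact p.Prime] [CharP K p] {Hd : MulAut (P K) → Prop}
  {A T : Subgroup (Perm (K × K))} (H : Hyp p Hd A T)
include H

section
omit [Fact p.Prime] [CharP K p]

theorem Hyp.rp_mem {τ : K} (h : star τ = -τ) : rp τ ∈ A := H.syl.le ((H.hT _).2 ⟨τ, h, rfl⟩)

theorem Hyp.sub {α : Perm (K × K)} (hα : α ∈ A) (u v : K × K) : α (u - v) = α u - α v :=
  map_sub (AddMonoidHom.mk' α (H.add α hα)) u v

theorem Hyp.zero {α : Perm (K × K)} (hα : α ∈ A) : α 0 = 0 :=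
  map_zero (AddMonoidHom.mk' α (H.add α hα))

omit H [Field K] [Fintype K] [Uf K] in
theorem ap_inv (x : Perm (K × K)) (v : K × K) : x (x⁻¹ v) = v := by simp

omit H [Fintype K] [Uf K] in
theorem eqL {x : Perm (K × K)} {v : K × K} (h : (x⁻¹ v).1 = 0) : x (0, (x⁻¹ v).2) = v :=
  (congrArg x (show (0, (x⁻¹ v).2) = x⁻¹ v from Prod.ext h.symm rfl)).trans (ap_inv x v)

omit H in
theorem PB_smul {α : Perm (K × K)} (hb : α ∈ PB) {l : K} (hl : star l = l)
    (u : K × K) : α (l • u) = l • α u := by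
  refine sub_eq_zero.1 (bf_nondeg fun v => ?_)
  obtain ⟨w, rfl⟩ := α.surjective v
  have e1 := hb (l • u) w
  have e2 := hb u w
  simp only [bf, hf, Prod.fst_sub, Prod.snd_sub, Prod.smul_fst, Prod.smul_snd, smul_eq_mul,
    star_sub, star_mul', hl] at e1 e2 ⊢
  linear_combination e1 - l * e2

theorem Hyp.conj_PB {γ : Perm (K × K)} (hγ : γ ∈ A) {t : Perm (K × K)} (ht : t ∈ PB) :
    γ * t * γ⁻¹ ∈ PB := fun u v => by
  rw [Perm.mul_apply, Perm.mul_apply, Perm.mul_apply, Perm.mul_apply,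
    H.pres γ hγ _ _ _ _ (ht _ _)]
  simp

/-- A `k`-linear element stabilising `L` is `K`-linear or antilinear on `L`. -/
theorem Hyp.lin {α : Perm (K × K)} (hα : α ∈ A) (hb : α ∈ PB) (h : StabL α) : ∃ l : K,
    (∀ c, (α (0, c)).2 = l * c) ∨ ∀ c, (α (0, c)).2 = l * star c := by
  obtain ⟨l, m, σ, τ, -, -, e⟩ := H.nf α hα h
  refine ⟨l * (m : Kˣ), (sigma_cases (σ := σ) fun s hs => ?_).imp (fun h c => by simp [e, h])
    fun h c => by simp [e, h]⟩
  have := congrArg Prod.fst (PB_smul hb hs (1, 0))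
  simp only [e, rp_apply, Prod.smul_fst, smul_eq_mul, mul_one, map_one] at this
  exact mul_left_cancel₀ l.ne_zero (this.trans (mul_comm _ _))

end

omit [CharP K p] in
theorem Hyp.red {γ : Perm (K × K)} (hγ : γ ∈ A) : ∃ x ∈ A, x ∈ PB ∧ StabL (x⁻¹ * γ) := by
  have hle : T ≤ PB := fun t ht => by
    obtain ⟨τ, h, rfl⟩ := (H.hT t).1 ht
    exact rp_PB h
  have hS := SP4.sylow_conj H.syl hγ
  obtain ⟨g, hg, h⟩ := (H.syl.of_le (le_inf H.syl.le hle) inf_le_left).exists_conj_mem hS.isPGroup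
    (le_inf hS.le (by rintro _ ⟨t, ht, rfl⟩; exact H.conj_PB hγ (hle ht)))
  refine ⟨g⁻¹, inv_mem hg.1, inv_mem hg.2, fun c => ?_⟩
  obtain ⟨ε, h0, hε⟩ := exists_k0_ne K
  obtain ⟨τ, -, e⟩ := (H.hT _).1 (h _ ⟨_, (H.hT _).2 ⟨ε, hε, rfl⟩, rfl⟩)
  have key : ∀ u, (g * γ) (rp ε u) = rp τ ((g * γ) u) := fun u => by simp [← e]
  have hτ : τ ≠ 0 := by
    rintro rfl
    have := (g * γ).injective ((key (1, 0)).trans (show _ = (g * γ) (1, 0) by simp))
    simp [h0] at this
  have := congrArg Prod.snd (key (0, c))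
  simpa [hτ] using this

variable {x : Perm (K × K)} (hx : x ∈ A) (hb : x ∈ PB) {ε : K} (h0 : ε ≠ 0) (hε : star ε = -ε)
include hx hb h0 hε

section
omit [Fact p.Prime] [CharP K p]

omit h0 in
theorem Hyp.conj {s : K} (hs : star s = s) : x * rp (s * ε) * x⁻¹ ∈ A ⊓ PB ∧
    ∀ u, (x * rp (s * ε) * x⁻¹) u = u + s • x (0, ε * (x⁻¹ u).1) := by
  have h : star (s * ε) = -(s * ε) := by rw [star_mul', hs, hε, mul_neg]
  refine ⟨⟨A.mul_mem (mul_mem hx (H.rp_mem h)) (inv_mem hx), H.conj_PB hx (rp_PB h)⟩, fun u => ?_⟩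
  rw [← PB_smul hb hs, Perm.mul_apply, Perm.mul_apply]
  conv_rhs => rw [← ap_inv x u, ← H.add x hx]
  simp [Prod.ext_iff, mul_assoc]

omit H hx h0 hε in
theorem iso (c c' : K) : bf (x (0, c)) (x (0, c')) = 0 := by rw [hb]; simp [bf, hf]

omit H hx h0 in
theorem bfD (u v : K × K) : bf (x (0, ε * (x⁻¹ u).1)) v =
    ε * ((x⁻¹ u).1 * star (x⁻¹ v).1 + (x⁻¹ v).1 * star (x⁻¹ u).1) := by
  conv_lhs => rw [← ap_inv x v, hb]
  simp only [bf, hf, star_mul', hε, star_zero]; ring

end

theorem Hyp.ti (hq : (2 : K) ≠ 0 → 4 ≤ Uf.q K) {c : K} (hc : c ≠ 0) (h : (x⁻¹ (0, c)).1 = 0) :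
    StabL x := by
  intro c₁
  by_contra ha
  have hc' : star c ≠ 0 := star_ne_zero.2 hc
  have hv : (0, c) = x (0, (x⁻¹ (0, c)).2) := (eqL h).symm
  have hk : ∀ c', star ((x (0, c')).1 / c) = (x (0, c')).1 / c := fun c' => by
    have := iso hb c' (x⁻¹ (0, c)).2
    rw [← hv] at this
    simp only [bf, hf, star_zero, mul_zero, add_zero, zero_mul, zero_add] at this
    rw [star_div₀]; field_simp; linear_combination -this
  set u := x (0, c₁) with hu
  by_cases h2 : (2 : K) = 0
  · have hp : p = 2 := (Nat.prime_dvd_prime_iff_eq Fact.out Nat.prime_two).1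
      ((CharP.cast_eq_zero_iff K p 2).1 (by exact_mod_cast h2))
    have hn : (x⁻¹ (0, ε * u.1)).1 = 0 := by
      have := PB_smul (inv_mem hb) (l := ε * (u.1 / c)) (by
        rw [star_mul', hk, hε]; linear_combination (-ε * (u.1 / c)) * h2) (0, c)
      rw [show (0, ε * u.1) = (ε * (u.1 / c)) • ((0 : K), c) by simp [hc, mul_assoc], this]
      rw [Prod.smul_fst, h, smul_zero]
    have fix : ∀ t ∈ T, ∀ v, (x⁻¹ v).1 = 0 → x (t (x⁻¹ v)) = v := fun t ht v hv => by
      obtain ⟨τ, -, rfl⟩ := (H.hT t).1 ht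
      rw [show rp τ (x⁻¹ v) = x⁻¹ v by rw [rp_apply, hv, mul_zero, add_zero, ← hv]]
      simp
    refine SP4.orb_gen (SP4.sylow_conj H.syl hx) (H.rp_mem hε) (w := u) ?_
      (Equiv.addRight ((0 : K), ε * u.1)) (k := 1) ?_
      (fun y e => ha (by simpa [h0] using congrArg Prod.snd e)) ?_
      (fun y => by simp [add_right_comm]) (by simp [Prod.ext_iff])
    · rintro _ ⟨t, ht, rfl⟩
      exact fix t ht u (by simp [hu])
    · ext y <;> simp
    · rintro _ ⟨t, ht, rfl⟩ y
      have := H.add _ (mul_mem (mul_mem hx (H.syl.le ht)) (inv_mem hx)) y (0, ε * u.1)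
      simp only [Perm.mul_apply] at this
      rw [fix t ht _ hn] at this
      exact this.symm
  obtain ⟨s, hs, hs0, hs1, hs2⟩ := exists_avoid (hq h2) 0 1 (-1)
  set w := x (0, ε * (x⁻¹ (0, ε * c)).1) with hw
  have hθ : w.1 ≠ 0 := fun e => by
    have e1 := bfD hb hε (0, ε * c) (0, ε * c)
    rw [← hw] at e1
    simp only [bf, hf, e, star_zero, mul_zero, zero_mul, add_zero, sub_self] at e1
    have e2 : (x⁻¹ (0, ε * c)).1 = 0 := by
      have : ε * 2 * ((x⁻¹ (0, ε * c)).1 * star (x⁻¹ (0, ε * c)).1) = 0 := by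
        linear_combination -e1
      simpa [h0, h2] using this
    have e3 := iso hb c₁ (x⁻¹ (0, ε * c)).2
    rw [eqL e2, ← hu] at e3
    have e4 := hk c₁
    rw [← hu, star_div₀, div_eq_div_iff hc' hc] at e4
    simp only [bf, hf, star_zero, mul_zero, add_zero, zero_mul, zero_add, star_mul', hε] at e3
    have : ε * 2 * (u.1 * star c) = 0 := by linear_combination -e3 - ε * e4
    simp [h0, h2, ha, hc'] at this
  set θ := w.1 / c with hθd
  have hθ0 : θ ≠ 0 := div_ne_zero hθ hc
  have hθs : star θ = θ := hk _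
  have hz : star θ⁻¹ = θ⁻¹ := by rw [star_inv₀, hθs]
  have hy : star (-(s * θ)⁻¹) = -(s * θ)⁻¹ := by rw [star_neg, star_inv₀, star_mul', hs, hθs]
  have hκ : star ((s - 1) * ε) = -((s - 1) * ε) := by rw [star_mul', star_sub, hs, hε]; simp
  obtain ⟨m1, e1⟩ := H.conj hx hb hε hz
  obtain ⟨m2, e2⟩ := H.conj hx hb hε hy
  have hM := mul_mem (mul_mem m2 (show rp _ ∈ A ⊓ PB from ⟨H.rp_mem hκ, rp_PB hκ⟩)) m1
  set M := x * rp (-(s * θ)⁻¹ * ε) * x⁻¹ * rp ((s - 1) * ε) * (x * rp (θ⁻¹ * ε) * x⁻¹)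
  have M1 : M (0, c) = (0, c) := by
    have z : x (0, ε * (x⁻¹ (0, c)).1) = 0 := by rw [h, mul_zero]; exact H.zero hx
    simp only [M, Perm.mul_apply (_ * _) (_ * _ * _), Perm.mul_apply (_ * _ * _) (rp _), e1, e2, z,
      smul_zero, add_zero, rp_apply, mul_zero]
  have M2 : M (0, ε * c) = (0, s * (ε * c)) := by
    have e3 : rp ((s - 1) * ε) ((0, ε * c) + θ⁻¹ • w) = s • (0, ε * c) + θ⁻¹ • w := by
      simp only [rp_apply, Prod.ext_iff, Prod.fst_add, Prod.snd_add, Prod.smul_fst, Prod.smul_snd,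
        smul_eq_mul, hθd]
      constructor <;> field_simp <;> ring
    have e4 : x (0, ε * (x⁻¹ (s • (0, ε * c) + θ⁻¹ • w)).1) = s • w := by
      rw [H.add _ (inv_mem hx), PB_smul (inv_mem hb) hs,
        PB_smul (inv_mem hb) hz, hw, ← PB_smul hb hs]
      simp [mul_left_comm]
    simp only [M, Perm.mul_apply (_ * _) (_ * _ * _), Perm.mul_apply (_ * _ * _) (rp _), e1, e2,
      ← hw, e3, e4]
    simp only [Prod.ext_iff, Prod.fst_add, Prod.snd_add, Prod.smul_fst, Prod.smul_snd, smul_eq_mul]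
    constructor <;> field_simp <;> ring
  have hεs : star ε ≠ ε := fun e => h0 (by
    have : 2 * ε = 0 := by linear_combination hε - e
    simpa [h2] using this)
  obtain ⟨l, hl | hl⟩ := H.lin hM.1 hM.2 fun c' => by
    obtain ⟨r, r', hr, hr', e⟩ := U5.exists_decomp hεs (c' / c)
    rw [show ((0 : K), c') = r • (0, c) + r' • (0, ε * c) by
      simp only [Prod.ext_iff, Prod.fst_add, Prod.snd_add, Prod.smul_fst, Prod.smul_snd,
        smul_eq_mul]
      rw [div_eq_iff hc] at e
      exact ⟨by ring, by linear_combination e⟩, H.add _ hM.1, PB_smul hM.2 hr,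
      PB_smul hM.2 hr', M1, M2]
    simp
  · have a1 := hl c
    have a2 := hl (ε * c)
    rw [M1] at a1
    rw [M2] at a2
    exact hs1 (mul_right_cancel₀ (mul_ne_zero h0 hc) (by linear_combination a2 - ε * a1))
  · have a1 := hl c
    have a2 := hl (ε * c)
    rw [M1] at a1
    rw [M2, star_mul', hε] at a2
    exact hs2 (mul_right_cancel₀ (mul_ne_zero h0 hc) (by linear_combination a2 + ε * a1))

theorem Hyp.lower (hq : (2 : K) ≠ 0 → 4 ≤ Uf.q K) (hn : ¬ StabL x) : ∃ τ g α b : K,
    star τ = -τ ∧ star α = α ∧ (∀ c, (rp τ (x (0, c))).2 = g * star (x (0, c)).1) ∧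
    (∀ a, ∃ c, (x (0, c)).1 = a) ∧ (∀ c, α * c + b * star c = 0 → c = 0) ∧
    ∀ s, star s = s → ∃ t ∈ A ⊓ PB, ∀ a c, t (a, ε * c + g * star a) =
      (a + s * (α * c + b * star c), ε * c + g * star (a + s * (α * c + b * star c))) := by
  have inj : ∀ c c', (x (0, c)).1 = (x (0, c')).1 → c = c' := fun c c' e => by
    by_contra hne
    have e1 : x (0, c - c') = (0, (x (0, c - c')).2) := Prod.ext (by
      rw [show ((0 : K), c - c') = (0, c) - (0, c') by simp, H.sub hx, Prod.fst_sub, e, sub_self]) rfl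
    refine hn (H.ti hx hb h0 hε hq (c := (x (0, c - c')).2) (fun e2 => ?_) (by rw [← e1]; simp))
    rw [e2] at e1
    exact hne (by simpa [sub_eq_zero] using x.injective (e1.trans (H.zero hx).symm))
  have surj : Function.Surjective fun c : K => (x (0, c)).1 := Finite.injective_iff_surjective.1 inj
  choose r hr using surj
  have ad : ∀ c c', x (0, c + c') = x (0, c) + x (0, c') := fun c c' => by rw [← H.add x hx]; simp
  have sm : ∀ l c, star l = l → x (0, l * c) = l • x (0, c) := fun l c hl => by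
    rw [← PB_smul hb hl]; simp
  obtain ⟨f₁, g, hf⟩ := klin (fun a => (x (0, r a)).2) (fun a a' => by
      rw [inj (r (a + a')) (r a + r a') (by simp only [ad, Prod.fst_add, hr]), ad]; rfl)
    fun l a hl => by
      rw [inj (r (l * a)) (l * r a) (by simp only [sm _ _ hl, Prod.smul_fst, hr, smul_eq_mul]),
        sm _ _ hl]; rfl
  have gr : ∀ c, (x (0, c)).2 = f₁ * (x (0, c)).1 + g * star (x (0, c)).1 := fun c => by
    rw [← hf, inj (r _) c (hr _)]
  obtain ⟨μ, hμ⟩ := exists_star_ne K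
  have hμ' := sub_ne_zero.2 hμ
  have hf₁ : star (-f₁) = - -f₁ := by
    have := iso hb (r 1) (r μ)
    simp only [bf, L1.hf, gr, hr, star_add, star_mul', star_star, star_one] at this
    rw [star_neg]
    exact mul_left_cancel₀ hμ' (by linear_combination -this)
  set y := rp (-f₁) * x with hy
  have hyA : y ∈ A := mul_mem (H.rp_mem hf₁) hx
  have hyB : y ∈ PB := mul_mem (rp_PB hf₁) hb
  have gy : ∀ c, y (0, c) = ((x (0, c)).1, g * star (x (0, c)).1) := fun c => by
    simp [hy, gr]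
  have iy : ∀ a, (y⁻¹ (a, g * star a)).1 = 0 := fun a => by
    rw [← hr a, ← gy]; simp
  obtain ⟨α, b, hD⟩ := klin (fun c => (x (0, ε * (y⁻¹ (0, ε * c)).1)).1) (fun c c' => by
      rw [mul_add, show ((0 : K), ε * c + ε * c') = (0, ε * c) + (0, ε * c') by simp,
        H.add _ (inv_mem hyA), Prod.fst_add, mul_add, ad, Prod.fst_add])
    fun l c hl => by
      rw [show ((0 : K), ε * (l * c)) = l • (0, ε * c) by simp [mul_left_comm],
        PB_smul (inv_mem hyB) hl, Prod.smul_fst, smul_eq_mul, mul_left_comm, sm _ _ hl]; rfl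
  refine ⟨-f₁, g, α, b, hf₁, ?_, fun c => congrArg Prod.snd (gy c), fun a => ⟨_, hr a⟩,
    fun c hc => ?_, fun s hs => ?_⟩
  · have e1 := bfD hyB hε (0, ε * 1) (0, ε * μ)
    have e2 := bfD hyB hε (0, ε * μ) (0, ε * 1)
    rw [gy, hD] at e1 e2
    simp only [bf, L1.hf, star_add, star_mul', star_star, star_one, star_zero, hε] at e1 e2
    exact mul_left_cancel₀ (mul_ne_zero h0 hμ') (by linear_combination e1 - e2)
  · rw [← hD] at hc
    have e1 := inj _ 0 (hc.trans (congrArg Prod.fst (H.zero hx)).symm)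
    have e2 := eqL ((mul_eq_zero.1 e1).resolve_left h0)
    rw [gy, Prod.mk.injEq] at e2
    rw [e2.1, star_zero, mul_zero] at e2
    exact (mul_eq_zero.1 e2.2.symm).resolve_left h0
  · obtain ⟨m, e⟩ := H.conj hyA hyB hε hs
    refine ⟨_, m, fun a c => ?_⟩
    rw [e, show (a, ε * c + g * star a) = (a, g * star a) + (0, ε * c) by simp [add_comm],
      H.add _ (inv_mem hyA), Prod.fst_add, iy, zero_add, gy, hD]
    simp only [Prod.ext_iff, Prod.fst_add, Prod.snd_add, Prod.smul_fst, Prod.smul_snd, smul_eq_mul,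
      star_add, star_mul' s, hs]
    constructor <;> ring

omit hx hb h0 hε in
theorem Hyp.core (hq : (2 : K) ≠ 0 → 4 ≤ Uf.q K) {γ : Perm (K × K)} (hγ : γ ∈ A) (hn : ¬ StabL γ) :
    (∃ τ, star τ = -τ ∧ ∀ c, (rp τ (γ (0, c))).2 = 0) ∧
      ∀ ε : K, ε ≠ 0 → star ε = -ε → ∃ w ∈ A, ∀ u, w u = (-u.2 / ε, ε * u.1) := by
  obtain ⟨x, hx, hb, hs⟩ := H.red hγ
  have eγ : ∀ c, γ (0, c) = x (0, ((x⁻¹ * γ) (0, c)).2) := fun c => (eqL (hs c)).symm
  obtain ⟨ε, h0, hε⟩ := exists_k0_ne K
  obtain ⟨τ, g, α, b, hτ, hα, hg, hsur, hinj, hlo⟩ := H.lower hx hb h0 hε hq fun h =>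
    hn fun c => by rw [eγ]; exact h _
  have up : ∀ κ, star κ = κ → Tw A ε g fun u => (u.1, u.2 + κ * u.1) := fun κ hκ => by
    have h : star (κ * ε) = -(κ * ε) := by rw [star_mul', hκ, hε, mul_neg]
    exact ⟨_, ⟨H.rp_mem h, rp_PB h⟩, fun a c => Prod.ext rfl (by simp only [rp_apply]; ring)⟩
  have lo : ∀ s, star s = s → Tw A ε g fun u => (u.1 + s * (α * u.2 + b * star u.2), u.2) := hlo
  have hb0 : b = 0 := by
    by_cases h2 : (2 : K) = 0
    · have hp : p = 2 := (Nat.prime_dvd_prime_iff_eq Fact.out Nat.prime_two).1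
        ((CharP.cast_eq_zero_iff K p 2).1 (by exact_mod_cast h2))
      have hg0 : g = 0 := sing_zero h2 fun a => by
        obtain ⟨c, rfl⟩ := hsur a
        have := H.sing hp _ (mul_mem (H.rp_mem hτ) hx) (0, c) (by simp [hf])
        rw [hf, Perm.mul_apply, hg, star_mul', star_star] at this
        simp only [rp_apply] at this
        linear_combination this
      obtain ⟨t, ht, e⟩ := hlo 1 (star_one K)
      refine sing_zero h2 fun c => mul_left_cancel₀ h0 ?_
      have := H.sing hp t ht.1 (0, ε * c + g * star 0) (by simp [hf])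
      rw [e, hg0] at this
      simp only [hf, star_add, star_mul', star_star, hε, hα, star_zero, star_one] at this
      linear_combination this + ε * b * star c ^ 2 * h2
    by_contra hb0
    obtain ⟨s, hs, hs0, hs1, hs2⟩ :=
      exists_avoid (hq h2) 0 (-(1 + α)⁻¹) (-(1 + 2 * α + α ^ 2 - b * star b)⁻¹)
    have av : ∀ y : K, s ≠ -y⁻¹ → 1 + s * y ≠ 0 := fun y h e =>
      h (by rw [← neg_eq_iff_eq_neg]; exact eq_inv_of_mul_eq_one_left (by linear_combination -e))
    have hC := av _ hs1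
    have hE := av _ hs2
    set C := 1 + s * (1 + α) with hCd
    set E := 1 + s * (1 + 2 * α + α ^ 2 - b * star b) with hEd
    set N := C ^ 2 - s ^ 2 * (b * star b) with hNd
    have sC : star C = C := by simp [hCd, hs, hα]
    have sE : star E = E := by simp [hEd, hs, hα, mul_comm]
    have sN : star N = N := by simp [hNd, hs, sC, mul_comm]
    have h3 := cmp (lo s hs) (cmp (up 1 (star_one K)) (lo 1 (star_one K)))
    have k1 : ∀ c, 0 + 1 * (α * c + b * star c) + s * (α * (c + 1 * (0 + 1 * (α * c + b * star c))) +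
        b * star (c + 1 * (0 + 1 * (α * c + b * star c)))) =
        α * (C * c + s * b * star c) + b * star (C * c + s * b * star c) := fun c => by
      simp only [star_add, star_mul', star_star, star_zero, star_one, hα, hs, sC]
      rw [hCd]; ring
    have hN : N ≠ 0 := fun hN => by
      obtain ⟨t, ht, e⟩ := h3
      obtain ⟨c', hc'⟩ : ∃ c', C * c' + -(s * b) * star c' ≠ 0 := by
        by_contra h
        push Not at h
        exact hC (eq_zero_of_lin h).1
      set c := C * c' + -(s * b) * star c' with hc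
      have e0 : C * c + s * b * star c = 0 := by
        simp only [hc, star_add, star_mul', star_neg, star_star, hs, sC]
        linear_combination c' * hN
      have e1 := e 0 c
      simp only [k1, e0, star_zero, mul_zero, add_zero] at e1
      have := H.ti ht.1 ht.2 h0 hε hq (c := ε * (c + 1 * (0 + 1 * (α * c + b * star c)))) (fun h => by
        rw [h] at e1
        exact mul_ne_zero h0 hc' (congrArg Prod.snd (t.injective (e1.trans (H.zero ht.1).symm))))
        (by rw [← e1]; simp)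
      refine hC (eq_zero_of_lin (e' := s * b) fun y => hinj _ ?_).1
      have e2 := congrArg Prod.fst (e 0 y)
      rw [this] at e2
      exact (k1 y).symm.trans e2.symm
    obtain ⟨t, ht, e⟩ := cmp (lo (-(N / E)) (by rw [star_neg, star_div₀, sN, sE]))
      (cmp (up (-N⁻¹) (by rw [star_neg, star_inv₀, sN])) h3)
    have e' : ∀ c, t (0, ε * c) = (0, ε * (E / N * (C * c + s * b * star c))) := fun c => by
      have k2 : c + 1 * (0 + 1 * (α * c + b * star c)) + -N⁻¹ * (α * (C * c + s * b * star c) +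
          b * star (C * c + s * b * star c)) = E / N * (C * c + s * b * star c) := by
        simp only [star_add, star_mul', star_star, hs, sC]
        field_simp
        rw [hNd, hEd, hCd]; ring
      have k3 : α * (C * c + s * b * star c) + b * star (C * c + s * b * star c) + -(N / E) *
          (α * (E / N * (C * c + s * b * star c)) + b * star (E / N * (C * c + s * b * star c))) =
          0 := by
        rw [star_mul' (E / N), star_div₀, sE, sN]
        field_simp
        ring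
      have := e 0 c
      simpa only [k1, k2, k3, star_zero, mul_zero, add_zero] using this
    have hEN : E / N ≠ 0 := div_ne_zero hE hN
    obtain ⟨l, hl | hl⟩ := H.lin ht.1 ht.2 fun c => by
      rw [← mul_div_cancel₀ c h0, e']
    · have := (eq_zero_of_lin (e := E / N * C - l) (e' := E / N * (s * b)) fun c =>
        mul_left_cancel₀ h0 (by have := hl (ε * c); rw [e'] at this; linear_combination this)).2
      exact mul_ne_zero hEN (mul_ne_zero hs0 hb0) this
    · have := (eq_zero_of_lin (e := E / N * C) (e' := E / N * (s * b) + l) fun c =>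
        mul_left_cancel₀ h0 (by
          have := hl (ε * c); rw [e', star_mul', hε] at this; linear_combination this)).1
      exact mul_ne_zero hEN hC this
  subst hb0
  have hα0 : α ≠ 0 := fun h => one_ne_zero (hinj 1 (by simp [h]))
  have wt : ∀ e : K, e ≠ 0 → star e = e → Tw A ε g fun u => (-u.2 / e, e * u.1) := fun e he hs => by
    have := cmp (up e hs) (cmp (lo (-(e * α)⁻¹) (by rw [star_neg, star_inv₀, star_mul', hs, hα]))
      (up e hs))
    convert this using 3 <;> field_simp <;> ring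
  have hg0 : g = 0 := by
    by_cases h2 : (2 : K) = 0
    · have hp : p = 2 := (Nat.prime_dvd_prime_iff_eq Fact.out Nat.prime_two).1
        ((CharP.cast_eq_zero_iff K p 2).1 (by exact_mod_cast h2))
      refine sing_zero h2 fun a => ?_
      obtain ⟨c, rfl⟩ := hsur a
      have := H.sing hp _ (mul_mem (H.rp_mem hτ) hx) (0, c) (by simp [hf])
      rw [hf, Perm.mul_apply, hg, star_mul', star_star] at this
      simp only [rp_apply] at this
      linear_combination this
    obtain ⟨ρ, hρ, hρ0, hρ1, hρ2⟩ := exists_avoid (hq h2) 0 1 (-1)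
    obtain ⟨t, ht, e⟩ := cmp (wt (-ρ) (neg_ne_zero.2 hρ0) (by rw [star_neg, hρ]))
      (wt 1 one_ne_zero (star_one K))
    obtain ⟨l, m, σ, τ', -, -, e'⟩ := H.nf t ht.1 fun c => by
      have := congrArg Prod.fst (e 0 (c / ε))
      simpa [mul_div_cancel₀ c h0] using this
    have := (eq_zero_of_lin (e := -τ' / ρ) (e' := g * (1 - ρ) * (1 + ρ) / ρ) fun a => by
      have k := e a (-(g * star a) / ε)
      rw [mul_div_cancel₀ _ h0, neg_add_cancel, e'] at k
      simp only [rp_apply, map_zero, mul_zero, zero_add, Prod.mk.injEq, star_div₀, star_neg,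
        star_mul', star_one, hρ] at k
      have k2 := k.2
      rw [k.1] at k2
      field_simp at k2 ⊢
      linear_combination -k2).2
    rw [div_eq_zero_iff, mul_eq_zero, mul_eq_zero, sub_eq_zero, add_eq_zero_iff_neg_eq] at this
    tauto
  subst hg0
  refine ⟨⟨τ, hτ, fun c => by rw [eγ, hg, zero_mul]⟩, fun ε' h0' hε' => ?_⟩
  obtain ⟨t, ht, e⟩ := wt (ε' / ε) (div_ne_zero h0' h0) (by rw [star_div₀, hε, hε', neg_div_neg_eq])
  refine ⟨t, ht.1, fun u => ?_⟩
  have := e u.1 (u.2 / ε)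
  simp only [zero_mul, add_zero, mul_div_cancel₀ _ h0] at this
  rw [this]
  refine Prod.ext ?_ ?_ <;> simp only <;> field_simp

end L1

open L1 in
theorem l1 (hX : ExtStmt.{v}) : L1Stmt.{v} := by
  intro K _ _ _ p _ _ F hF hq hN ⟨φ, hφ, y, hy, hy'⟩
  obtain ⟨A, T, H, hA, ind⟩ := pack hX hF hN
  have hq' : (2 : K) ≠ 0 → 4 ≤ Uf.q K := fun h2 => by
    obtain ⟨n, hn, e⟩ := exists_q_pow K p
    have := two_le_q K
    have : Uf.q K ≠ 2 := fun h => h2 (by
      have hp : p = 2 := (Nat.prime_dvd_prime_iff_eq Fact.out Nat.prime_two).1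
        (h ▸ e ▸ dvd_pow_self p (by omega))
      subst hp
      exact CharTwo.two_eq_zero)
    omega
  obtain ⟨γ, hγ, eγ⟩ := ind φ hφ
  have hw := (H.core hq' hγ fun h => hy' ((stabL_iff hφ eγ).1 h y hy)).2
  refine ⟨fun ρ => ?_, fun ε h0 hε => ?_, fun f hf => ?_⟩
  · obtain ⟨ε, h0, hε⟩ := exists_k0_ne K
    have hρ := (ρ : Kˣ).ne_zero
    obtain ⟨w, hw₁, e₁⟩ := hw ε h0 hε
    obtain ⟨w', hw₂, e₂⟩ := hw (-(ρ : Kˣ) * ε) (mul_ne_zero (neg_ne_zero.2 hρ) h0)
      (by rw [star_mul', star_neg, star_ku, hε]; ring)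
    obtain ⟨l, m, σ, τ, h, -, e⟩ := H.nf _ (mul_mem hw₂ hw₁) fun c => by simp [e₁, e₂]
    simp only [Perm.mul_apply, e₁, e₂, rp_apply, Prod.mk.injEq] at e
    have hl : (l : K) = ((ρ : Kˣ) : K)⁻¹ := by
      have := (e (1, 0)).1
      simp only [map_one, mul_one] at this
      rw [← this]; field_simp
    have hσ : σ = RingEquiv.refl K := RingEquiv.ext fun a => mul_left_cancel₀ l.ne_zero (by
      rw [← (e (a, 0)).1, hl, RingEquiv.refl_apply]; field_simp)
    have hm : ((m : Kˣ) : K) = ((ρ : Kˣ) : K) ^ 2 := by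
      have := (e (0, 1)).2
      simp only [map_zero, map_one, hl] at this
      field_simp at this
      linear_combination -this
    rwa [show dg l m σ = eta ρ by
      rw [eta, hσ]
      congr 1
      · exact Units.ext (by simp [hl])
      · exact Subtype.ext (Units.ext (by simp [hm]))] at h
  · obtain ⟨w, hw, e⟩ := hw ε h0 hε
    obtain ⟨f, hf, e'⟩ := hA w hw
    exact ⟨f, hf, fun x hx => by simpa [pr, e, eq_comm] using e' x hx⟩
  · obtain ⟨α, hα, e⟩ := ind f hf
    refine or_iff_not_imp_left.2 fun hn => ?_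
    obtain ⟨τ, hτ, h⟩ := (H.core hq' hα fun h => hn ((stabL_iff hf e).1 h)).1
    obtain ⟨s, hs⟩ : ∃ s : P K, -s.t = τ := ⟨xe 0 0 (-τ) (by rw [star_neg, hτ]), neg_neg _⟩
    refine ⟨s, fun x hx => ?_⟩
    have := congrArg Prod.snd (pr_conj s (hf.2 x hx.2))
    rw [← e x hx.2, pr_Z2 hx, hs, h] at this
    exact this

end Cfsg.Agent.U4
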