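import Cfsg.Agent.Lib.U4.Basic

/-!
Row L1 of docs/U4_PLAN.md, first part: the action of `Aut_F(Q)` on `V = Q / Z = K × K`.
-/

set_option autoImplicit false

namespace Cfsg.Agent.U4.L1

open Cfsg.Agent.Fus Cfsg.Agent.Fus2 Subgroup Equiv
open Cfsg.Agent.U5 (Uf map_star' exists_k0_ne eq_zero_of_lin klin exists_star_ne kf mem_kf card_kf
  exists_q_pow two_le_q)

universe v

section Form

variable {K : Type v} [Field K] [StarRing K]

/-- The hermitian form on `V`. -/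
def hf (u v : K × K) : K := u.1 * star v.2 + u.2 * star v.1

/-- The commutator form on `V`. -/
def bf (u v : K × K) : K := hf u v - hf v u

/-- `(a, c) ↦ (a, c + τ a)`. -/
def rp (τ : K) : Perm (K × K) where
  toFun u := (u.1, u.2 + τ * u.1)
  invFun u := (u.1, u.2 - τ * u.1)
  left_inv u := by simp
  right_inv u := by simp

omit [StarRing K] in
@[simp] theorem rp_apply (τ : K) (u : K × K) : rp τ u = (u.1, u.2 + τ * u.1) := rfl

/-- `α` stabilises `L = {a = 0}`. -/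
def StabL (α : Perm (K × K)) : Prop := ∀ c, (α (0, c)).1 = 0

/-- The permutations preserving `bf`. -/
def PB : Subgroup (Perm (K × K)) where
  carrier := {α | ∀ u v, bf (α u) (α v) = bf u v}
  one_mem' := fun _ _ => rfl
  mul_mem' := fun ha hb u v => (ha _ _).trans (hb u v)
  inv_mem' := fun {a} ha u v => by rw [← ha]; simp

theorem rp_PB {τ : K} (h : star τ = -τ) : rp τ ∈ PB := fun u v => by
  simp only [bf, hf, rp_apply, star_add, star_mul', h]; ring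

/-- The coordinates on `V`. -/
def pr (x : P K) : K × K := (x.a, x.c)

theorem pr_mul {x y : P K} (hy : y ∈ Q K) : pr (x * y) = pr x + pr y := by
  simp [pr, mem_Q.1 hy]

theorem pr_conj (g : P K) {x : P K} (hx : x ∈ Q K) : pr (g * x * g⁻¹) = rp (-g.t) (pr x) := by
  simp only [pr, conj_a, conj_c, mem_Q.1 hx, rp_apply]
  exact Prod.ext rfl (by simp only; ring)

theorem mem_Z_of_pr {x y : P K} (hx : x ∈ Q K) (hy : y ∈ Q K) (h : pr x = pr y) :
    x⁻¹ * y ∈ Z K := by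
  simp only [pr, Prod.mk.injEq] at h
  simp [mem_Z, mem_Q.1 hx, mem_Q.1 hy, h.1, h.2]

theorem icj_bf {g x : P K} (hg : g ∈ Q K) (hx : x ∈ Q K) :
    (x⁻¹ * (g * x * g⁻¹)).z = bf (pr x) (pr g) := by
  rw [icj_z, mem_Q.1 hg, mem_Q.1 hx, bf, hf, hf, pr, pr]; ring

theorem sq_eq_one (h2 : (2 : K) = 0) {x : P K} (hx : x ∈ Q K) :
    x * x = 1 ↔ hf (pr x) (pr x) = 0 := by
  have e : ∀ r : K, r + r = 0 := fun r => by linear_combination r * h2
  rw [P.ext_iff]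
  simp only [P.mul_a, P.mul_c, P.mul_t, P.mul_z, mem_Q.1 hx, e, P.one_a, P.one_c, P.one_t, P.one_z,
    hf, pr]
  exact ⟨fun h => by linear_combination -h.2.2.2, fun h => ⟨trivial, by ring, trivial,
    by linear_combination -h⟩⟩

theorem exists_pr (u : K × K) : ∃ x ∈ Q K, pr x = u := ⟨xe u.1 u.2 0 (by simp), rfl, rfl⟩

theorem pr_Z2 {x : P K} (hx : x ∈ Z2 K) : pr x = (0, x.c) := by simp [pr, hx.1]

end Form

variable {K : Type v} [Field K] [Fintype K] [Uf K]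

theorem bf_nondeg {u : K × K} (h : ∀ v, bf u v = 0) : u = 0 :=
  Prod.ext (U5.CA.eq_zero_of_skew fun y => by simpa [bf, hf] using h (0, y))
    (U5.CA.eq_zero_of_skew fun y => by simpa [bf, hf] using h (y, 0))

/-- The properties of the image `A` of `Aut_F(Q)` in the permutations of `V`. -/
structure Hyp (p : ℕ) (Hd : MulAut (P K) → Prop) (A T : Subgroup (Perm (K × K))) : Prop where
  syl : IsSylowIn p T A
  hT : ∀ t, t ∈ T ↔ ∃ τ, star τ = -τ ∧ t = rp τ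
  add : ∀ α ∈ A, ∀ u v, α (u + v) = α u + α v
  pres : ∀ α ∈ A, ∀ u v u' v', bf u v = bf u' v' → bf (α u) (α v) = bf (α u') (α v')
  nf : ∀ α ∈ A, StabL α → ∃ (l : Kˣ) (m : ku K) (σ : K ≃+* K) (τ : K), Hd (dg l m σ) ∧
    star τ = -τ ∧ ∀ u, α u = rp τ (l * σ u.1, l * (m : Kˣ) * σ u.2)
  sing : p = 2 → ∀ α ∈ A, ∀ u, hf u u = 0 → hf (α u) (α u) = 0

variable {F : FusionSystem (⊤ : Subgroup (P K))}

theorem pr_congr {f : P K → P K} (hf : Au F (Q K) f) {x y : P K} (hx : x ∈ Q K)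
    (hy : y ∈ Q K) (h : pr x = pr y) : pr (f x) = pr (f y) := by
  have hz := mem_Z_of_pr hx hy h
  have hz' := hf.Z_of_Q hz
  rw [show y = x * (x⁻¹ * y) by group, hf.1.map_mul hx (Z_le_Q hz), pr_mul (Z_le_Q hz'),
    pr_Z2 (Z_le_Z2 hz'), hz'.2.2]
  simp

theorem stabL_iff {α : Perm (K × K)} {f : P K → P K} (hf : Au F (Q K) f)
    (e : ∀ x ∈ Q K, α (pr x) = pr (f x)) : StabL α ↔ ∀ x ∈ Z2 K, f x ∈ Z2 K := by
  refine ⟨fun h x hx => ⟨?_, hf.2 x hx.2⟩, fun h c => ?_⟩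
  · have := h x.c
    rwa [← pr_Z2 hx, e x hx.2] at this
  · have hx : xj c 0 0 (by simp) (by simp) ∈ Z2 K := ⟨rfl, rfl⟩
    exact (congrArg Prod.fst (e _ hx.2)).trans (h _ hx).1

variable {p : ℕ} [Fact p.Prime] [CharP K p]

theorem pack (hX : ExtStmt.{v}) (hF : F.IsSaturated p) (hN : NF F) :
    ∃ A T : Subgroup (Perm (K × K)), Hyp p (fun h => M F ⊤ h) A T ∧
      (∀ α ∈ A, ∃ f, Au F (Q K) f ∧ ∀ x ∈ Q K, α (pr x) = pr (f x)) ∧
      ∀ f, Au F (Q K) f → ∃ α ∈ A, ∀ x ∈ Q K, α (pr x) = pr (f x) := by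
  choose sec hs₁ hs₂ using exists_pr (K := K)
  let act : F.autGroup (Q K) → K × K → K × K := fun α v => pr (afn α.1 (sec v))
  have hact : ∀ α, ∀ x ∈ Q K, act α (pr x) = pr (afn α.1 x) := fun α x hx =>
    pr_congr (au_afn α.2) (hs₁ _) hx (hs₂ _)
  let ρ : F.autGroup (Q K) →* Perm (K × K) := MonoidHom.toHomPerm
    { toFun := act
      map_one' := funext fun v => by
        obtain ⟨x, hx, rfl⟩ := exists_pr v
        exact (hact 1 x hx).trans (by rw [OneMemClass.coe_one, afn_one]; rfl)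
      map_mul' := fun α β => funext fun v => by
        obtain ⟨x, hx, rfl⟩ := exists_pr v
        show act _ _ = act α (act β (pr x))
        rw [hact _ _ hx, hact β _ hx, hact _ _ (afn_mem _ hx), Subgroup.coe_mul, afn_mul] }
  have hρ : ∀ α, ∀ x ∈ Q K, ρ α (pr x) = pr (afn α.1 x) := hact
  obtain ⟨hle, R, hR⟩ := sat_sylow (pg_top K p) hF (isFullyNormalized_of_normal (F := F)
    (P := Q K) le_top (normalizer_eq_top _).ge)
  have hA : ∀ α ∈ (⊤ : Subgroup _).map ρ, ∃ f, Au F (Q K) f ∧ ∀ x ∈ Q K, α (pr x) = pr (f x) := by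
    rintro _ ⟨β, -, rfl⟩
    exact ⟨_, au_afn β.2, hρ β⟩
  refine ⟨_, _, ⟨(isSylowIn_top_iff.2 ⟨R, hR⟩).map ρ, fun α => ⟨?_, ?_⟩, fun α hα u v => ?_,
    fun α hα u v u' v' h => ?_, fun α hα h => ?_, fun hp α hα u hu => ?_⟩, hA, fun f hf => ?_⟩
  · rintro ⟨t, ht, rfl⟩
    obtain ⟨g, -, e⟩ := Fus2.mem_autInducedBy_iff.1 ht
    refine ⟨-g.t, by rw [star_neg, g.star_t], Perm.ext fun u => ?_⟩
    obtain ⟨x, hx, rfl⟩ := exists_pr u
    rw [hρ _ _ hx, ← pr_conj g hx, ← e x hx]; rfl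
  · rintro ⟨τ, h, rfl⟩
    set g : P K := xe 0 0 (-τ) (by rw [star_neg, h])
    have hg : g ∈ normalizer (Q K : Set (P K)) := (normalizer_eq_top _).ge trivial
    have hg' := conjAut_mem_autInducedBy (mem_top g) hg
    refine ⟨⟨_, hle hg'⟩, hg', Perm.ext fun u => ?_⟩
    obtain ⟨x, hx, rfl⟩ := exists_pr u
    rw [hρ _ _ hx, afn_conjAut hg hx, pr_conj g hx, xe_t, neg_neg]
  · obtain ⟨f, hf, e⟩ := hA α hα
    obtain ⟨x, hx, rfl⟩ := exists_pr u
    obtain ⟨y, hy, rfl⟩ := exists_pr v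
    rw [← pr_mul hy, e _ (mul_mem hx hy), e x hx, e y hy, hf.1.map_mul hx hy, pr_mul (hf.2 y hy)]
  · obtain ⟨f, hf, e⟩ := hA α hα
    obtain ⟨x, hx, rfl⟩ := exists_pr u
    obtain ⟨y, hy, rfl⟩ := exists_pr v
    obtain ⟨x', hx', rfl⟩ := exists_pr u'
    obtain ⟨y', hy', rfl⟩ := exists_pr v'
    rw [← icj_bf hy hx, ← icj_bf hy' hx'] at h
    rw [e x hx, e y hy, e x' hx', e y' hy', ← icj_bf (hf.2 y hy) (hf.2 x hx),
      ← icj_bf (hf.2 y' hy') (hf.2 x' hx'), ← hf.icj hy hx, ← hf.icj hy' hx',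
      eq_of_z (icj_Q hy hx) (icj_Q hy' hx') h]
  · obtain ⟨f, hf, e⟩ := hA α hα
    obtain ⟨g, hg, eg⟩ := (hX hF).1 f hf ((stabL_iff hf e).1 h)
    obtain ⟨x, l, m, σ, ex⟩ := hN g hg
    refine ⟨l, m, σ, -x.t, (hg.comp (M_conj F le_rfl (mem_top x⁻¹)) fun _ _ => trivial).congr
      fun y _ => by simp [ex, mul_assoc], by rw [star_neg, x.star_t], fun u => ?_⟩
    obtain ⟨y, hy, rfl⟩ := exists_pr u
    rw [e y hy, ← eg y hy, ex, pr_conj x (show dg l m σ y ∈ Q K by simp [mem_Q, mem_Q.1 hy])]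
    rfl
  · subst hp
    have h2 : (2 : K) = 0 := CharTwo.two_eq_zero
    obtain ⟨φ, hφ, e⟩ := hA α hα
    obtain ⟨x, hx, rfl⟩ := exists_pr u
    rw [e x hx, ← sq_eq_one h2 (hφ.2 x hx), ← hφ.1.map_mul hx hx, (sq_eq_one h2 hx).2 hu,
      hφ.1.map_one]
  · obtain ⟨β, hβ, e'⟩ := hf.1.exists_aut' hf.2
    exact ⟨_, ⟨⟨β, hβ⟩, trivial, rfl⟩, fun x hx => by rw [hρ _ _ hx, e' x hx]⟩

end Cfsg.Agent.U4.L1
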