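import Cfsg.Agent.Lib.U4.J3

/-!
Row L2: the automizer of `J` for `q > 2`.
-/

set_option autoImplicit false

namespace Cfsg.Agent.U4

open Cfsg.Agent.Fus Cfsg.Agent.Fus2 Subgroup
open Cfsg.Agent.U5 (Uf exists_k0_ne map_star')

universe v

namespace JS

variable {K : Type v} [Field K] [Fintype K] [Uf K]

/-- The central automorphism `z ↦ z - g(t)`. -/
def cen (g : K → K) (h₁ : ∀ r s, star r = -r → star s = -s → g (r + s) = g r + g s)
    (h₂ : ∀ r, star r = -r → star (g r) = -g r) : MulAut (P K) where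
  toFun x := ⟨x.a, x.c, x.t, x.z - g x.t, x.ht, by
    rw [star_sub, h₂ _ x.star_t]; linear_combination x.hz⟩
  invFun x := ⟨x.a, x.c, x.t, x.z + g x.t, x.ht, by
    rw [star_add, h₂ _ x.star_t]; linear_combination x.hz⟩
  left_inv x := by ext <;> simp
  right_inv x := by ext <;> simp
  map_mul' x y := by ext <;> simp [h₁ _ _ x.star_t y.star_t]; ring

variable {p : ℕ} [Fact p.Prime] [CharP K p] {F : FusionSystem (⊤ : Subgroup (P K))}

theorem afn_tau (g : P K) {x : P K} (hx : x ∈ J K) : afn (tau g.a) x = g * x * g⁻¹ := by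
  rw [afn_apply _ hx]
  refine P.ext (by rw [conj_a]; exact (aa _).trans hx.symm) ?_ ((tt_tau _ _).trans (conj_t ..).symm)
    ((zz_tau _ _).trans (conj_z_J _ hx).symm)
  exact (cc_tau _ _).trans (by rw [conj_c, mem_J.1 hx]; simp [cc, tt])

theorem mem_T {τ : MulAut (W K)} : τ ∈ autInducedBy ⊤ (J K) ↔ ∃ a, τ = tau a := by
  rw [Fus2.mem_autInducedBy_iff]
  constructor
  · rintro ⟨g, -, e⟩
    exact ⟨g.a, MulEquiv.ext fun x => Subtype.ext (by
      rw [← afn_coe, ← afn_coe, e x x.2, afn_tau g x.2])⟩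
  · rintro ⟨a, rfl⟩
    exact ⟨xe a 0 0 (by simp), trivial, fun x hx => afn_tau (xe a 0 0 (by simp)) hx⟩

theorem st_iff {β : MulAut (W K)} : β ∈ St K ↔ ∀ x ∈ Z K, afn β x ∈ Z K :=
  ⟨fun h x hx => by rw [afn_apply _ (Z_le_J hx)]; exact h ⟨x, Z_le_J hx⟩ hx,
    fun h x hx => by have := h x hx; rwa [afn_coe] at this⟩

theorem hyp (hX : ExtStmt.{v}) (hF : F.IsSaturated p) :
    Hyp0 p (F.autGroup (J K)) (autInducedBy ⊤ (J K)) where
  syl := sat_sylow (pg_top K p) hF (isFullyNormalized_of_normal (F := F) le_top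
    (normalizer_eq_top _).ge)
  mem _ := mem_T
  nrm α hα hs a := by
    obtain ⟨f, hf, e⟩ := (hX hF).2 _ (au_afn hα) (st_iff.1 hs)
    refine Fus2.mem_autInducedBy_iff.2 ⟨f (xe a 0 0 (by simp)), trivial, fun x hx => ?_⟩
    have hy := afn_mem α⁻¹ hx
    have := afn_tau (xe a 0 0 (by simp)) hy
    rw [xe_a] at this
    rw [afn_mul, afn_mul, this, ← e _ ((inferInstance : (J K).Normal).conj_mem _ hy _),
      hf.homOn.map_mul trivial trivial, hf.homOn.map_mul trivial trivial,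
      hf.homOn.map_inv trivial, e _ hy, afn_afn_inv]

end JS

open JS in
theorem l2' (hX : ExtStmt.{v}) {K : Type v} [Field K] [Fintype K] [Uf K] {p : ℕ} [Fact p.Prime]
    [CharP K p] {F : FusionSystem (⊤ : Subgroup (P K))} (hF : F.IsSaturated p)
    (hq : 2 < Uf.q K ∨ TI (F.autGroup (J K)) (autInducedBy ⊤ (J K))) (hN : NF F) (hJ : MvJ F) :
    ∃ F', Iso F F' ∧ NF F' ∧ JStd F' := by
  obtain ⟨f₀, hf₀, x₀, hx₀, hx₀'⟩ := hJ
  obtain ⟨γ, hγ, eγ⟩ := hf₀.1.exists_aut' hf₀.2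
  obtain ⟨g, g₁, g₂, hA, hn⟩ := Hyp.main ⟨hyp hX hF, hq⟩ hγ fun h =>
    hx₀' (eγ x₀ (Z_le_J hx₀) ▸ st_iff.1 h x₀ hx₀)
  have g0 : g 0 = 0 := by simpa using g₁ 0 0 (by simp) (by simp)
  obtain ⟨F', hI⟩ := exists_iso (cen g g₁ g₂) F
  have hF' := hI.saturated (pg_top K p) hF
  have hθ : ∀ x, (cen g g₁ g₂ x).a = x.a ∧ (cen g g₁ g₂ x).c = x.c ∧ (cen g g₁ g₂ x).t = x.t ∧
    (cen g g₁ g₂ x).z = x.z - g x.t := fun x => ⟨rfl, rfl, rfl, rfl⟩
  have hθ' : ∀ x, ((cen g g₁ g₂).symm x).a = x.a ∧ ((cen g g₁ g₂).symm x).c = x.c ∧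
    ((cen g g₁ g₂).symm x).t = x.t ∧ ((cen g g₁ g₂).symm x).z = x.z + g x.t :=
    fun x => ⟨rfl, rfl, rfl, rfl⟩
  generalize cen g g₁ g₂ = θ at hI hθ hθ'
  have hJ : ∀ x, θ x ∈ J K ↔ x ∈ J K := fun x => by rw [mem_J, mem_J, (hθ x).1]
  have hJ' : ∀ {x}, x ∈ J K → θ.symm x ∈ J K := fun {x} hx => by rwa [mem_J, (hθ' x).1]
  have hw : ∀ a ≠ 0, ∃ w, Au F' (J K) w ∧ ∀ x ∈ J K, (w x).t = x.z / (a * star a) ∧
      (w x).c = a / star a * star x.c ∧ (w x).z = a * star a * x.t := fun a ha => by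
    obtain ⟨n, hn, e⟩ := hn a ha
    refine ⟨fun x => θ (afn n (θ.symm x)), (au_of_iso hI hJ).2 (by simpa using au_afn hn),
      fun x hx => ?_⟩
    obtain ⟨e₁, e₂, e₃⟩ := e ⟨_, hJ' hx⟩
    simp only [tt, cc, zz, hθ', add_sub_cancel_right] at e₁ e₂ e₃
    simp only [hθ, afn_apply _ (hJ' hx)]
    exact ⟨e₁, e₂, e₃⟩
  have hB : ∀ f, Au F' (J K) f → (∀ x ∈ Z K, f x ∈ Z K) ∨
      ∃ s, ∀ x ∈ Z K, (s * f x * s⁻¹).c = 0 ∧ (s * f x * s⁻¹).z = 0 := fun f hf => by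
    have hf' := (au_of_iso hI hJ).1 hf
    obtain ⟨α, hα, e⟩ := hf'.1.exists_aut' hf'.2
    have hZ : ∀ x ∈ Z K, θ x = x := fun x hx =>
      P.ext (hθ x).1 (hθ x).2.1 (hθ x).2.2.1 (by rw [(hθ x).2.2.2, hx.2.1, g0, sub_zero])
    rcases hA α hα with h | ⟨a, h⟩
    · refine .inl fun x hx => ?_
      have := st_iff.1 h x hx
      rw [e x (Z_le_J hx), hZ x hx, mem_Z] at this
      simpa only [hθ', mem_Z] using this
    · refine .inr ⟨xe a 0 0 (by simp), fun x hx => ?_⟩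
      obtain ⟨h₁, h₂⟩ := h ⟨x, Z_le_J hx⟩ hx
      have e' : (α ⟨x, Z_le_J hx⟩ : P K) = θ.symm (f x) := by
        rw [← afn_coe, e x (Z_le_J hx), hZ x hx]
      rw [cc_tau] at h₁
      rw [zz_tau] at h₂
      simp only [tt, cc, zz, e', hθ'] at h₁ h₂
      rw [conj_c, conj_z_J _ (hf.2 x (Z_le_J hx))]
      exact ⟨by simpa using h₁, by simp; linear_combination h₂⟩
  obtain ⟨w, hw₁, ew⟩ := hw 1 one_ne_zero
  simp only [star_one, mul_one, div_one, one_mul] at ew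
  obtain ⟨t₀, ht₀, ht₀'⟩ := exists_k0_ne K
  have hN' : NF F' := fun f hf => by
    obtain ⟨x, l, m, σ, e⟩ := hN _ ((M_of_iso hI fun _ => Iff.rfl).1 hf)
    have hc : ∀ y, θ (x * y * x⁻¹) = x * θ y * x⁻¹ := fun y => by
      ext <;> simp only [hθ, conj_a, conj_c, conj_t, conj_z]; ring
    have e' : ∀ y, f y = x * θ (dg l m σ (θ.symm y)) * x⁻¹ := fun y => by
      rw [← hc, ← e]; simp
    have hd : M F' ⊤ fun y => θ (dg l m σ (θ.symm y)) :=
      (hf.comp (M_conj F' le_rfl (mem_top x⁻¹)) fun _ _ => trivial).congr fun y _ => by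
        simp [e', mul_assoc]
    have hg : ∀ r, star r = -r → g ((m : Kˣ) * σ r) = l * star (l : K) * (m : Kˣ) * σ (g r) := by
      have hm := (m : Kˣ).ne_zero
      let u : ∀ r : K, star r = -r → P K := fun r hr => xj 0 0 r (by simp) hr
      have hu : ∀ r hr, u r hr ∈ Z K := fun r hr => ⟨rfl, rfl, rfl⟩
      rcases hB (fun y => θ (dg l m σ (θ.symm (w y)))) ⟨hw₁.1.comp (hd.mono le_top) hw₁.2,
        fun y hy => by simp [mem_J, hθ, hθ', mem_J.1 (hw₁.2 y hy)]⟩ with h | ⟨s, h⟩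
      · have := (h _ (hu t₀ ht₀')).2.1
        simp [hθ, hθ', ew _ (Z_le_J (hu t₀ ht₀')), u, ht₀] at this
      · have hs : s.a = 0 := by
          have := (h _ (hu t₀ ht₀')).1
          rw [conj_c] at this
          simpa [hθ, hθ', ew _ (Z_le_J (hu t₀ ht₀')), u, ht₀,
            mem_J.1 (hw₁.2 _ (Z_le_J (hu t₀ ht₀')))] using this
        intro r hr
        have := (h _ (hu r hr)).2
        rw [conj_J (by simp [mem_J, hθ, hθ', mem_J.1 (hw₁.2 _ (Z_le_J (hu r hr)))]) hs] at this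
        simp [hθ, hθ', ew _ (Z_le_J (hu r hr)), u] at this
        linear_combination -this
    refine ⟨x, l, m, σ, fun y => ?_⟩
    rw [e']
    congr 2
    ext <;> simp [hθ, hθ', hg _ y.star_t]
    ring
  refine ⟨F', ⟨θ, hI⟩, hN', fun μ => ?_, ⟨w, hw₁, ew⟩, hB⟩
  obtain ⟨w', hw', ew'⟩ := hw μ μ.ne_zero
  have e : ∀ y ∈ J K, w' (w y) = hh μ y := fun y hy => by
    obtain ⟨h₁, h₂, h₃⟩ := ew' _ (hw₁.2 y hy)
    obtain ⟨h₄, h₅, h₆⟩ := ew y hy
    exact P.ext (by rw [hh_a, mem_J.1 hy, mul_zero]; exact hw'.2 _ (hw₁.2 y hy))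
      (by rw [h₂, h₅, hh_c, star_star]) (by rw [h₁, h₆, hh_t]) (by rw [h₃, h₄, hh_z])
  obtain ⟨f, hf, ef⟩ := (hX hF').2 (fun y => w' (w y)) ⟨hw₁.1.comp hw'.1 hw₁.2,
    fun y hy => hw'.2 _ (hw₁.2 y hy)⟩ fun y hy => by
      rw [e y hy.1, mem_Z, hh_a, hh_t, hh_c, hy.1, hy.2.1, hy.2.2]; simp
  obtain ⟨x, l, m, σ, e'⟩ := hN' f hf
  have e₁ : ∀ y ∈ J K, x * dg l m σ y * x⁻¹ = hh μ y := fun y hy => by rw [← e', ef y hy, e y hy]
  have hμ := μ.ne_zero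
  have hμ' := star_ne_zero.2 hμ
  have hm := (m : Kˣ).ne_zero
  have hc : ∀ c, l * (m : Kˣ) * σ c = μ / star (μ : K) * c := fun c => by
    have := congrArg P.c (e₁ (xj c 0 0 (by simp) (by simp)) rfl)
    rw [conj_c, hh_c] at this
    simpa using this
  have hlm : (l : K) * (m : Kˣ) = μ / star (μ : K) := by simpa using hc 1
  have hσ : ∀ c, σ c = c := fun c => mul_left_cancel₀ (div_ne_zero hμ hμ') (by rw [← hc c, hlm])
  have hm' : ((m : Kˣ) : K) = (μ * star (μ : K))⁻¹ := mul_right_cancel₀ ht₀ (by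
    simpa [hh_t, hσ, div_eq_inv_mul] using congrArg P.t (e₁ (xj 0 t₀ 0 ht₀' (by simp)) rfl))
  have hl : (l : K) = μ ^ 2 := mul_right_cancel₀ hm (by rw [hlm, hm']; field_simp)
  have : dg l m σ = hh μ := by
    ext y <;> simp [hh, hl, hm', hσ]
  exact (hf.comp (M_conj F' le_rfl (mem_top x⁻¹)) fun _ _ => trivial).congr fun y _ => by
    simp [e', this, mul_assoc]

theorem l2 (hX : ExtStmt.{v}) : L2Stmt.{v} := fun hF hq => l2' hX hF (.inl hq)

end Cfsg.Agent.U4
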