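import Cfsg.Agent.Lib.U4.Q3d

/-!
Row LEECH of docs/U4_PLAN.md: the Leech lattice in Eisenstein coordinates.
-/

set_option autoImplicit false
set_option maxRecDepth 100000

namespace Cfsg.Agent.U4.Le

open Cfsg.Agent.PC Cfsg.Agent.U4.N9 Sum

/-- The twelve coordinates: `F₉`, `∞` and two more. -/
abbrev I := F9 ⊕ Fin 3

def pt (i : ℕ) : I := if i < 9 then inl (df i) else if i = 9 then inr 0 else if i = 10 then inr 1
  else inr 2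

def ix : I → ℕ
  | inl y => y.re.val + 3 * y.im.val
  | inr k => 9 + k.val

theorem ix_pt : ∀ {i}, i < 12 → ix (pt i) = i := by decide +kernel
theorem pt_ix : ∀ y, pt (ix y) = y := by decide +kernel
theorem ix_lt : ∀ y, ix y < 12 := by decide +kernel
theorem exists_pt (y : I) : ∃ i < 12, pt i = y := ⟨_, ix_lt y, pt_ix y⟩

def sm {R : Type} [Add R] (f : ℕ → R) : R :=
  f 0 + f 1 + f 2 + f 3 + f 4 + f 5 + f 6 + f 7 + f 8 + f 9 + f 10 + f 11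

theorem sum_pt {R : Type} [AddCommMonoid R] (f : I → R) : ∑ y, f y = sm fun i => f (pt i) := by
  rw [Finset.sum_bij' (t := Finset.range 12) (g := fun i => f (pt i)) (fun y _ => ix y)
    (fun i _ => pt i) (fun y _ => Finset.mem_range.2 (ix_lt y)) (fun _ _ => Finset.mem_univ _)
    (fun y _ => pt_ix y) (fun i hi => ix_pt (Finset.mem_range.1 hi)) fun y _ => by rw [pt_ix]]
  simp [Finset.sum_range_succ, sm]

def goodN (u : ℕ → ℤ × ℤ) : Prop :=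
  (∀ i < 12, 3 ∣ (u i).1 + (u i).2 - (u 11).1 - (u 11).2) ∧
  3 ∣ (u 5).2 - ((u 0).2 + (u 1).2 + 2 * (u 3).2 + (u 2).2 + 2 * (u 4).2) ∧
  3 ∣ (u 6).2 - ((u 0).2 + 2 * (u 1).2 + 2 * (u 3).2 + (u 9).2 + 2 * (u 2).2) ∧
  3 ∣ (u 7).2 - (2 * (u 0).2 + (u 1).2 + (u 9).2 + 2 * (u 2).2 + 2 * (u 4).2) ∧
  3 ∣ (u 8).2 - ((u 0).2 + (u 1).2 + (u 3).2 + (u 9).2 + (u 4).2) ∧
  3 ∣ (u 10).2 - ((u 1).2 + 2 * (u 3).2 + 2 * (u 9).2 + 2 * (u 2).2 + (u 4).2) ∧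
  3 ∣ (u 11).2 - ((u 0).2 + (u 3).2 + 2 * (u 9).2 + 2 * (u 2).2 + 2 * (u 4).2) ∧
  9 ∣ sm (fun i => 2 * (u i).1 - (u i).2) - 3 * ((u 11).1 + (u 11).2)

/-- The Leech lattice in Eisenstein coordinates. -/
def good (u : I → ℤ × ℤ) : Prop := goodN fun i => u (pt i)

instance : DecidablePred good := fun u => by unfold good goodN; infer_instance

def cw (k i : ℕ) : ℤ := ([[1, 0, 0, 0, 0, 1, 1, 2, 1, 0, 0, 1],
  [0, 1, 0, 0, 0, 1, 2, 1, 1, 0, 1, 0],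
  [0, 0, 0, 1, 0, 2, 2, 0, 1, 0, 2, 1],
  [0, 0, 0, 0, 0, 0, 1, 1, 1, 1, 2, 2],
  [0, 0, 1, 0, 0, 1, 2, 2, 0, 0, 2, 2],
  [0, 0, 0, 0, 1, 2, 0, 2, 1, 0, 1, 2]].getD k []).getD i 0

def genN (j i : ℕ) : ℤ × ℤ :=
  if j < 12 then (if i = j then (-3, 3) else 0) else if j < 23 then
    (if i = j - 11 then (3, 0) else if i = 0 then (-3, 0) else 0) else if j = 23 then
    (if i = 0 then (9, 0) else 0) else if j = 24 then (if i = 0 then (4, 0) else (1, 0)) else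
    (cw (j - 25) i, 2 * cw (j - 25) i)

/-- Generators of the lattice. -/
def gen (j : ℕ) (y : I) : ℤ × ℤ := genN j (ix y)

set_option maxHeartbeats 1000000 in
theorem spanN {u : ℕ → ℤ × ℤ} (hu : goodN u) :
    ∃ n : ℕ → ℤ, ∀ i < 12, u i = ∑ j ∈ Finset.range 31, n j • genN j i := by
  obtain ⟨h1, c1, c2, c3, c4, c5, c6, h9⟩ := hu
  simp only [sm] at h9
  obtain ⟨l5, c1⟩ := c1
  obtain ⟨l6, c2⟩ := c2
  obtain ⟨l7, c3⟩ := c3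
  obtain ⟨l8, c4⟩ := c4
  obtain ⟨l10, c5⟩ := c5
  obtain ⟨l11, c6⟩ := c6
  obtain ⟨m0, e0⟩ := h1 0 (by norm_num)
  obtain ⟨m1, e1⟩ := h1 1 (by norm_num)
  obtain ⟨m2, e2⟩ := h1 2 (by norm_num)
  obtain ⟨m3, e3⟩ := h1 3 (by norm_num)
  obtain ⟨m4, e4⟩ := h1 4 (by norm_num)
  obtain ⟨m5, e5⟩ := h1 5 (by norm_num)
  obtain ⟨m6, e6⟩ := h1 6 (by norm_num)
  obtain ⟨m7, e7⟩ := h1 7 (by norm_num)
  obtain ⟨m8, e8⟩ := h1 8 (by norm_num)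
  obtain ⟨m9, e9⟩ := h1 9 (by norm_num)
  obtain ⟨m10, e10⟩ := h1 10 (by norm_num)
  obtain ⟨m11, e11⟩ := h1 11 (by norm_num)
  obtain ⟨N, h9⟩ := h9
  refine ⟨fun j => [(u 0).2,
    (u 1).2,
    (u 2).2,
    (u 3).2,
    (u 4).2,
    (u 0).2 + (u 1).2 + 2 * (u 3).2 + (u 2).2 + 2 * (u 4).2 + l5,
    (u 0).2 + 2 * (u 1).2 + 2 * (u 3).2 + (u 9).2 + 2 * (u 2).2 + l6,
    2 * (u 0).2 + (u 1).2 + (u 9).2 + 2 * (u 2).2 + 2 * (u 4).2 + l7,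
    (u 0).2 + (u 1).2 + (u 3).2 + (u 9).2 + (u 4).2 + l8,
    (u 9).2,
    (u 1).2 + 2 * (u 3).2 + 2 * (u 9).2 + 2 * (u 2).2 + (u 4).2 + l10,
    (u 0).2 + (u 3).2 + 2 * (u 9).2 + 2 * (u 2).2 + 2 * (u 4).2 + l11,
    m1 + ((u 1).2),
    m2 + ((u 2).2),
    m3 + ((u 3).2),
    m4 + ((u 4).2),
    m5 + ((u 0).2 + (u 1).2 + 2 * (u 3).2 + (u 2).2 + 2 * (u 4).2),
    m6 + ((u 0).2 + 2 * (u 1).2 + 2 * (u 3).2 + (u 9).2 + 2 * (u 2).2),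
    m7 + (2 * (u 0).2 + (u 1).2 + (u 9).2 + 2 * (u 2).2 + 2 * (u 4).2),
    m8 + ((u 0).2 + (u 1).2 + (u 3).2 + (u 9).2 + (u 4).2),
    m9 + ((u 9).2),
    m10 + ((u 1).2 + 2 * (u 3).2 + 2 * (u 9).2 + 2 * (u 2).2 + (u 4).2),
    m11 + ((u 0).2 + (u 3).2 + 2 * (u 9).2 + 2 * (u 2).2 + 2 * (u 4).2),
    m0 + m1 + m2 + m3 + m4 + m5 + m6 + m7 + m8 + m9 + m10 + m11 - N + 2 * ((u 11).1 + (u 11).2) - (l5 + l6 + l7 + l8 + l10 + l11),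
    ((u 11).1 + (u 11).2),
    -(u 0).2,
    -(u 1).2,
    -(u 3).2,
    -(u 9).2,
    -(u 2).2,
    -(u 4).2].getD j 0, fun i hi => ?_⟩
  interval_cases i <;> simp [Finset.sum_range_succ, genN, cw, Prod.ext_iff] <;>
    constructor <;> linarith

theorem span (L : AddSubgroup (I → ℤ × ℤ)) (h : ∀ j < 31, gen j ∈ L) {u : I → ℤ × ℤ}
    (hu : good u) : u ∈ L := by
  obtain ⟨n, hn⟩ := spanN hu
  convert L.sum_mem fun j (hj : j ∈ Finset.range 31) => L.zsmul_mem (h j (Finset.mem_range.1 hj))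
    (n j) using 1
  funext y
  rw [Finset.sum_apply]
  exact (congrArg u (pt_ix y)).symm.trans (hn _ (ix_lt y))

end Cfsg.Agent.U4.Le
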