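import Cfsg.Agent.Lib.U4.Lee1

/-!
Row LEECH of docs/U4_PLAN.md: the automorphism group of the lattice, monomial and dense elements.
-/

set_option autoImplicit false
set_option maxRecDepth 100000

namespace Cfsg.Agent.U4.Le

open Cfsg.Agent.PC Cfsg.Agent.U4.N9 Sum

section Units

variable {R : Type} [CommRing R]

/-- Multiplication of `p + q ω` by `ω`. -/
def rot (x : R × R) : R × R := (-x.2, x.1 - x.2)
/-- Complex conjugation. -/
def cjg (x : R × R) : R × R := (x.1 - x.2, -x.2)
/-- The norm. -/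
def nq (x : R × R) : R := x.1 * x.1 - x.1 * x.2 + x.2 * x.2
def rt (k : ZMod 3) (x : R × R) : R × R := if k = 0 then x else if k = 1 then rot x else rot (rot x)
/-- `± ω ^ k x` or its value at `x̄`. -/
def un (k : ZMod 3) (s b : Bool) (x : R × R) : R × R :=
  bif s then -rt k (bif b then cjg x else x) else rt k (bif b then cjg x else x)

theorem z3 (k : ZMod 3) : k = 0 ∨ k = 1 ∨ k = 2 := by revert k; decide

theorem un_eq (k : ZMod 3) (s b : Bool) (x : R × R) : un k s b x = if k = 0 then
    (bif s then -(bif b then cjg x else x) else (bif b then cjg x else x)) else if k = 1 then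
    (bif s then -rot (bif b then cjg x else x) else rot (bif b then cjg x else x)) else
    (bif s then -rot (rot (bif b then cjg x else x)) else rot (rot (bif b then cjg x else x))) := by
  unfold un rt; split_ifs <;> rfl

theorem un_add (k : ZMod 3) (s b : Bool) (x y : R × R) :
    un k s b (x + y) = un k s b x + un k s b y := by
  simp only [un_eq]
  split_ifs <;> cases s <;> cases b <;> simp [rot, cjg, Prod.ext_iff] <;> (try constructor) <;> ring

theorem un_smul (k : ZMod 3) (s b : Bool) (r : R) (x : R × R) :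
    un k s b (r • x) = r • un k s b x := by
  simp only [un_eq]
  split_ifs <;> cases s <;> cases b <;> simp [rot, cjg, Prod.ext_iff] <;> (try constructor) <;> ring

theorem un_zero (k : ZMod 3) (s b : Bool) : un k s b (0 : R × R) = 0 := by
  simpa using un_smul k s b (0 : R) 0

theorem nq_un (k : ZMod 3) (s b : Bool) (x : R × R) : nq (un k s b x) = nq x := by
  simp only [un_eq]
  split_ifs <;> cases s <;> cases b <;> simp [rot, cjg, nq] <;> ring

theorem un_un (k k' : ZMod 3) (s s' b : Bool) (x : R × R) :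
    un k s b (un k' s' false x) = un (k + bif b then -k' else k') (xor s s') b x := by
  rcases z3 k with rfl | rfl | rfl <;> rcases z3 k' with rfl | rfl | rfl <;> cases s <;>
    cases s' <;> cases b <;> simp +decide [un, rt, rot, cjg, Prod.ext_iff] <;>
    (try constructor) <;> ring

theorem un_un' (k : ZMod 3) (s b : Bool) (x : R × R) :
    un k false false (un 0 s b x) = un k s b x := by
  rcases z3 k with rfl | rfl | rfl <;> cases s <;> cases b <;>
    simp +decide [un, rt, rot, cjg, Prod.ext_iff] <;> ring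

theorem un_rot (k : ZMod 3) (s : Bool) (x : R × R) : un k s false (rot x) = rot (un k s false x) := by
  rcases z3 k with rfl | rfl | rfl <;> cases s <;>
    simp +decide [un, rt, rot, Prod.ext_iff] <;> ring

theorem un_id (x : R × R) : un 0 false false x = x := by simp [un, rt]

theorem un_one (x : R × R) : un 1 false false x = rot x := by simp +decide [un, rt]

theorem un_sum {k : ZMod 3} (hk : k ≠ 0) (x : R × R) :
    x + un k false false x + un k false false (un k false false x) = 0 := by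
  rcases z3 k with rfl | rfl | rfl <;> simp +decide [un, rt, rot, Prod.ext_iff] at hk ⊢ <;>
    constructor <;> ring

/-- The polar form. -/
def bq (x y : R × R) : R := 2 * x.1 * y.1 - x.1 * y.2 - x.2 * y.1 + 2 * x.2 * y.2

/-- A monomial map. -/
def monF (π : I → I) (k : I → ZMod 3) (s b : I → Bool) (v : I → R × R) (y : I) : R × R :=
  un (k y) (s y) (b y) (v (π y))

def blk (M : ℕ → ℕ → ℤ) (i j : ℕ) (x : R × R) : R × R :=
  (M (2 * i) (2 * j) * x.1 + M (2 * i) (2 * j + 1) * x.2,
    M (2 * i + 1) (2 * j) * x.1 + M (2 * i + 1) (2 * j + 1) * x.2)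

/-- A dense map. -/
def linF (M : ℕ → ℕ → ℤ) (v : I → R × R) (y : I) : R × R := sm fun j => blk M (ix y) j (v (pt j))

/-- A vector with a single nonzero coordinate. -/
def bz (i : ℕ) (x : R × R) (y : I) : R × R := if ix y = i then x else 0

theorem bz_eq (y : I) (x : R × R) : bz (ix y) x = Pi.single y x := by
  funext y'
  by_cases h : y' = y
  · simp [bz, h]
  · rw [Pi.single_eq_of_ne h, bz, if_neg fun e => h (by rw [← pt_ix y', e, pt_ix])]

theorem linF_bz (M : ℕ → ℕ → ℤ) {j : ℕ} (hj : j < 12) (x : R × R) (y : I) :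
    linF M (bz j x) y = blk M (ix y) j x := by
  simp (disch := norm_num) only [linF, sm, bz, ix_pt]
  interval_cases j <;> simp [blk]

end Units

theorem un_fix {k : ZMod 3} {x : ℚ × ℚ} (hx : x ≠ 0) (h : un k false false x = x) : k = 0 := by
  by_contra hk
  have := un_sum hk x
  rw [h, h] at this
  simp only [Prod.ext_iff, Prod.fst_add, Prod.snd_add, Prod.fst_zero, Prod.snd_zero] at this
  exact hx (Prod.ext (show x.1 = 0 by linarith) (show x.2 = 0 by linarith))

theorem nq_nonneg (x : ℚ × ℚ) : 0 ≤ nq x := by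
  unfold nq; nlinarith [sq_nonneg (2 * x.1 - x.2), sq_nonneg x.2]

theorem nq_eq_zero {x : ℚ × ℚ} (h : nq x = 0) : x = 0 := by
  unfold nq at h
  have h2 : x.2 = 0 := by nlinarith [sq_nonneg (2 * x.1 - x.2), sq_nonneg x.2]
  exact Prod.ext (by simpa [h2] using h) h2

/-- The rational span of the lattice. -/
abbrev W := I → ℚ × ℚ

/-- The linear group of `W`. -/
abbrev GL12 := W ≃ₗ[ℚ] W

def em (x : ℤ × ℤ) : ℚ × ℚ := (x.1, x.2)
def emb (u : I → ℤ × ℤ) : W := fun y => em (u y)
def nm (v : W) : ℚ := ∑ y, nq (v y)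

theorem em_inj {x y : ℤ × ℤ} (h : em x = em y) : x = y := by simpa [em, Prod.ext_iff] using h
theorem emb_inj {u u' : I → ℤ × ℤ} (h : emb u = emb u') : u = u' :=
  funext fun y => em_inj (congrFun h y)
theorem em_un (k : ZMod 3) (s b : Bool) (x : ℤ × ℤ) : em (un k s b x) = un k s b (em x) := by
  simp only [un_eq]
  split_ifs <;> cases s <;> cases b <;> simp [rot, cjg, em]
theorem nq_em (x : ℤ × ℤ) : nq (em x) = (nq x : ℤ) := by simp [nq, em]
theorem emb_bz (i : ℕ) (x : ℤ × ℤ) : emb (bz i x) = bz i (em x) := by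
  funext y; simp only [emb, bz]; split_ifs <;> simp [em, Prod.ext_iff]

def embH : (I → ℤ × ℤ) →+ W := AddMonoidHom.mk' emb fun u u' => by
  funext y; simp [emb, em]

theorem nm_eq_zero {v : W} (h : nm v = 0) : v = 0 := funext fun y =>
  nq_eq_zero ((Finset.sum_eq_zero_iff_of_nonneg fun _ _ => nq_nonneg _).1 h y (Finset.mem_univ y))

def goodS : AddSubgroup (I → ℤ × ℤ) where
  carrier := {u | good u}
  zero_mem' := by decide +kernel
  add_mem' := by
    rintro u v ⟨h, a1, a2, a3, a4, a5, a6, a7⟩ ⟨h', b1, b2, b3, b4, b5, b6, b7⟩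
    refine ⟨fun i hi => ((h i hi).add (h' i hi)).trans (dvd_of_eq ?_), (a1.add b1).trans (dvd_of_eq ?_),
      (a2.add b2).trans (dvd_of_eq ?_), (a3.add b3).trans (dvd_of_eq ?_),
      (a4.add b4).trans (dvd_of_eq ?_), (a5.add b5).trans (dvd_of_eq ?_),
      (a6.add b6).trans (dvd_of_eq ?_), (a7.add b7).trans (dvd_of_eq ?_)⟩ <;>
      simp only [sm, Pi.add_apply, Prod.fst_add, Prod.snd_add] <;> ring
  neg_mem' := by
    rintro u ⟨h, a1, a2, a3, a4, a5, a6, a7⟩
    refine ⟨fun i hi => (h i hi).neg_right.trans (dvd_of_eq ?_), a1.neg_right.trans (dvd_of_eq ?_),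
      a2.neg_right.trans (dvd_of_eq ?_), a3.neg_right.trans (dvd_of_eq ?_),
      a4.neg_right.trans (dvd_of_eq ?_), a5.neg_right.trans (dvd_of_eq ?_),
      a6.neg_right.trans (dvd_of_eq ?_), a7.neg_right.trans (dvd_of_eq ?_)⟩ <;>
      simp only [sm, Pi.neg_apply, Prod.fst_neg, Prod.snd_neg] <;> ring

/-- The Leech lattice. -/
def Lam : AddSubgroup W := goodS.map embH

theorem emb_mem {u : I → ℤ × ℤ} : emb u ∈ Lam ↔ good u :=
  ⟨fun ⟨_, h, e⟩ => emb_inj e ▸ h, fun h => ⟨u, h, rfl⟩⟩

theorem fin_shell (N : ℚ) : {v | v ∈ Lam ∧ nm v = N}.Finite := by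
  refine ((Set.Finite.pi' fun _ : I => Set.finite_Icc ((-⌈2 * N⌉, -⌈2 * N⌉) : ℤ × ℤ)
    (⌈2 * N⌉, ⌈2 * N⌉)).image emb).subset ?_
  rintro _ ⟨⟨u, -, rfl⟩, h⟩
  refine ⟨u, fun y => ?_, rfl⟩
  have h1 : nq (em (u y)) ≤ N := h ▸ Finset.single_le_sum (f := fun y => nq (emb u y))
    (fun y _ => nq_nonneg _) (Finset.mem_univ y)
  have h2 : 2 * nq (u y) ≤ ⌈2 * N⌉ := by
    rw [nq_em] at h1
    exact_mod_cast (show ((2 * nq (u y) : ℤ) : ℚ) ≤ _ by push_cast; linarith).trans (Int.le_ceil _)
  unfold nq at h2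
  refine ⟨⟨?_, ?_⟩, ?_, ?_⟩ <;> simp only <;>
    nlinarith [sq_nonneg ((u y).1 - (u y).2), sq_nonneg (u y).1, sq_nonneg (u y).2,
      Int.le_self_sq (u y).1, Int.le_self_sq (u y).2, Int.le_self_sq (-(u y).1),
      Int.le_self_sq (-(u y).2)]

/-- The automorphism group of the lattice. -/
def G0 : Subgroup (GL12) where
  carrier := {g | (∀ v, nm (g v) = nm v) ∧ ∀ v ∈ Lam, g v ∈ Lam}
  one_mem' := ⟨fun _ => rfl, fun _ h => h⟩
  mul_mem' := fun ha hb => ⟨fun v => (ha.1 _).trans (hb.1 v), fun v hv => ha.2 _ (hb.2 v hv)⟩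
  inv_mem' := fun {g} hg => ⟨fun v => by rw [← hg.1]; simp, fun v hv => by
    obtain ⟨w, hw, e⟩ := (((fin_shell (nm v)).injOn_iff_bijOn_of_mapsTo (f := g) fun w hw =>
      ⟨hg.2 w hw.1, (hg.1 w).trans hw.2⟩).1 g.injective.injOn).surjOn ⟨hv, rfl⟩
    simpa [← e] using hw.1⟩

theorem ext_basis {M : Type} [AddCommGroup M] [Module ℚ M] {f g : W →+ M}
    (h : ∀ i < 12, ∀ x ∈ [((1 : ℤ), (0 : ℤ)), (0, 1)], f (emb (bz i x)) = g (emb (bz i x))) :
    f = g := by
  refine AddMonoidHom.ext fun v => ?_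
  rw [← Finset.univ_sum_single v, map_sum, map_sum]
  refine Finset.sum_congr rfl fun y _ => ?_
  rw [show Pi.single y (v y) = (v y).1 • emb (bz (ix y) (1, 0)) + (v y).2 • emb (bz (ix y) (0, 1)) by
    rw [emb_bz, emb_bz, bz_eq, bz_eq, ← Pi.single_smul, ← Pi.single_smul, ← Pi.single_add]
    simp [em], map_add, map_add, map_rat_smul, map_rat_smul, map_rat_smul, map_rat_smul,
    h _ (ix_lt y) _ (by simp), h _ (ix_lt y) _ (by simp)]

theorem ext_basis' {f g : GL12}
    (h : ∀ i < 12, ∀ x ∈ [((1 : ℤ), (0 : ℤ)), (0, 1)], f (emb (bz i x)) = g (emb (bz i x))) :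
    f = g :=
  have e := ext_basis (f := f.toLinearMap.toAddMonoidHom) (g := g.toLinearMap.toAddMonoidHom) h
  LinearEquiv.ext fun v => DFunLike.congr_fun e v

instance : Finite G0 := by
  have key : ∀ i < 12, ∀ x ∈ [((1 : ℤ), (0 : ℤ)), (0, 1)], good (9 • bz i x) := by decide +kernel
  have := fun N => (fin_shell N).to_subtype
  refine Finite.of_injective (fun g : G0 => fun (i : Fin 12) (x : {x // x ∈ [((1 : ℤ), (0 : ℤ)),
    (0, 1)]}) => (⟨g.1 (emb (9 • bz i x.1)), g.2.2 _ (emb_mem.2 (key i i.2 _ x.2)), g.2.1 _⟩ :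
      {v | v ∈ Lam ∧ nm v = nm (emb (9 • bz i x.1))})) fun g g' h => Subtype.ext ?_
  refine ext_basis' fun i hi x hx => ?_
  have := congrArg Subtype.val (congrFun (congrFun h ⟨i, hi⟩) ⟨x, hx⟩)
  simp only [show ∀ u, emb (9 • u) = 9 • emb u from map_nsmul embH 9, map_nsmul] at this
  exact smul_right_injective _ (by norm_num) this

/-- A norm preserving additive map is an automorphism. -/
noncomputable def mkG (f : W →+ W) (h : ∀ v, nm (f v) = nm v) : GL12 :=
  have hi : Function.Injective f := (injective_iff_map_eq_zero f).2 fun v hv =>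
    nm_eq_zero (by rw [← h, hv]; simp [nm, nq])
  LinearEquiv.ofBijective f.toRatLinearMap ⟨hi, (LinearMap.injective_iff_surjective (f := f.toRatLinearMap)).1 hi⟩

theorem mkG_mem {f : W →+ W} (h : ∀ v, nm (f v) = nm v) (h' : ∀ j < 31, f (emb (gen j)) ∈ Lam) :
    mkG f h ∈ G0 := ⟨h, by
  rintro _ ⟨u, hu, rfl⟩
  exact span (Lam.comap (f.comp embH)) h' hu⟩

/-- A monomial automorphism. -/
noncomputable def mon (π : I → I) (h : Function.Surjective π) (k : I → ZMod 3) (s b : I → Bool) :
    GL12 := mkG (AddMonoidHom.mk' (monF π k s b) fun _ _ => funext fun _ => un_add ..) fun v => by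
  simp only [nm, AddMonoidHom.mk'_apply, monF, nq_un]
  exact (Equiv.ofBijective π (Finite.surjective_iff_bijective.1 h)).sum_comp fun y => nq (v y)

theorem mon_apply (π : I → I) (h : Function.Surjective π) (k : I → ZMod 3) (s b : I → Bool) (v : W)
    (y : I) : mon π h k s b v y = un (k y) (s y) (b y) (v (π y)) := rfl

theorem mon_emb (π : I → I) (h : Function.Surjective π) (k : I → ZMod 3) (s b : I → Bool)
    (u : I → ℤ × ℤ) : mon π h k s b (emb u) = emb (monF π k s b u) :=
  funext fun _ => (em_un ..).symm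

theorem mon_mem {π : I → I} (h : Function.Surjective π) {k : I → ZMod 3} {s b : I → Bool}
    (h' : allN (fun j => decide (good (monF π k s b (gen j)))) 31 = true) : mon π h k s b ∈ G0 :=
  mkG_mem _ fun j hj => show mon π h k s b _ ∈ _ from (mon_emb π h k s b _).symm ▸
    emb_mem.2 (of_decide_eq_true (allN_iff.1 h' j hj))

def linH (M : ℕ → ℕ → ℤ) : W →+ W := AddMonoidHom.mk' (fun v => (1 / 3 : ℚ) • linF M v)
  fun v w => by
    rw [← smul_add]
    congr 1
    funext y
    simp only [linF, sm, blk, Pi.add_apply, Prod.fst_add, Prod.snd_add, Prod.mk_add_mk,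
      Prod.mk.injEq]
    constructor <;> ring

theorem linF_emb (M : ℕ → ℕ → ℤ) (u : I → ℤ × ℤ) : linF M (emb u) = emb (linF M u) := by
  funext y
  simp [linF, sm, blk, emb, em]

/-- The polar form as a biadditive map. -/
def BQ : W →+ W →+ ℚ := AddMonoidHom.mk' (fun v => AddMonoidHom.mk' (fun w => ∑ y, bq (v y) (w y))
  fun _ _ => by simp only [← Finset.sum_add_distrib, bq, Pi.add_apply, Prod.fst_add, Prod.snd_add]
                exact Finset.sum_congr rfl fun _ _ => by ring) fun _ _ => by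
    refine AddMonoidHom.ext fun w => ?_
    simp only [← Finset.sum_add_distrib, bq, Pi.add_apply, Prod.fst_add, Prod.snd_add,
      AddMonoidHom.mk'_apply, AddMonoidHom.add_apply]
    exact Finset.sum_congr rfl fun _ _ => by ring

noncomputable def orth (M : ℕ → ℕ → ℤ) : Bool := allN (fun i => allN (fun j => allL (fun x =>
  allL (fun x' => decide (sm (fun y => bq (blk M y i x) (blk M y j x')) =
    9 * sm fun y => bq (bz i x (pt y)) (bz j x' (pt y)))) [((1 : ℤ), (0 : ℤ)), (0, 1)])
    [((1 : ℤ), (0 : ℤ)), (0, 1)]) 12) 12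

theorem nm_linH {M : ℕ → ℕ → ℤ} (h : orth M = true) (v : W) : nm (linH M v) = nm v := by
  have e : ∀ v, BQ v v = 2 * nm v := fun v => by
    simp only [BQ, AddMonoidHom.mk'_apply, nm, Finset.mul_sum]
    exact Finset.sum_congr rfl fun _ _ => by simp [bq, nq]; ring
  have e' : ∀ u u', BQ (emb u) (emb u') = (sm fun i => bq (u (pt i)) (u' (pt i)) : ℤ) :=
    fun u u' => by simp only [BQ, AddMonoidHom.mk'_apply, sum_pt]; simp [sm, bq, emb, em]
  have key : (BQ.comp (linH M)).compl₂ (linH M) = BQ := ext_basis fun i hi x hx =>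
    ext_basis fun j hj x' hx' => by
      have := of_decide_eq_true (allL_iff.1 (allL_iff.1 (allN_iff.1 (allN_iff.1 h i hi) j hj) x hx)
        x' hx')
      simp only [AddMonoidHom.compl₂_apply, AddMonoidHom.comp_apply, linH, AddMonoidHom.mk'_apply,
        linF_emb, map_rat_smul, AddMonoidHom.smul_apply, e', linF_bz M hi, linF_bz M hj]
      simp (disch := norm_num) only [sm, ix_pt] at this ⊢
      rw [this]
      simp only [smul_eq_mul, Int.cast_mul, Int.cast_ofNat]
      ring
  have := DFunLike.congr_fun (DFunLike.congr_fun key v) v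
  simp only [AddMonoidHom.compl₂_apply, AddMonoidHom.comp_apply, e] at this
  linarith

def dv3 (u : I → ℤ × ℤ) (y : I) : ℤ × ℤ := ((u y).1 / 3, (u y).2 / 3)

theorem lin_mem {M : ℕ → ℕ → ℤ} (h : orth M = true) (h' : allN (fun j => decide (good
    (dv3 (linF M (gen j)))) && allN (fun i => decide (3 • dv3 (linF M (gen j)) (pt i) =
      linF M (gen j) (pt i))) 12) 31 = true) : mkG (linH M) (nm_linH h) ∈ G0 :=
  mkG_mem _ fun j hj => by
    have := allN_iff.1 h' j hj
    simp only [Bool.and_eq_true, decide_eq_true_eq, allN_iff] at this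
    show (1 / 3 : ℚ) • linF M _ ∈ _
    rw [linF_emb, show linF M (gen j) = 3 • dv3 (linF M (gen j)) from
      funext fun y => by rw [← pt_ix y]; exact (this.2 _ (ix_lt y)).symm,
      show ∀ u, emb (3 • u) = 3 • emb u from map_nsmul embH 3, ← Nat.cast_smul_eq_nsmul ℚ, smul_smul]
    simpa using emb_mem.2 this.1

end Cfsg.Agent.U4.Le
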