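import Cfsg.Agent.Lib.U4.Ext
import Cfsg.Agent.Lib.Solv.SZ
import Cfsg.Agent.Lib.Ess.Ctl

/-!
Row NRM: the normal form of `Aut_F(S)`.
-/

set_option autoImplicit false

namespace Cfsg.Agent.U4

open Cfsg.Agent.Fus Cfsg.Agent.Fus2 Subgroup
open Cfsg.Agent.U5 (Uf map_star' exists_k0_ne exists_trace exists_decomp eq_zero_of_trace kf card_kf
  two_le_q)

universe v

namespace Nr

variable {K : Type v} [Field K] [Fintype K] [Uf K]

theorem pure (g : K →+ K) (hi : Function.Injective g) (h1 : g 1 = 1)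
    (hk : ∀ a s, star s = s → g (a * s) = g a * g s)
    (hN : ∀ a, g (a * star a) = g a * star (g a)) : ∃ σ : K ≃+* K, ∀ a, g a = σ a := by
  have h2 : ∀ a, g (a * a) = g a * g a := fun a => by
    have e := hN (a + 1)
    rw [show (a + 1) * star (a + 1) = a * star a + (a + star a) + 1 by simp; ring, map_add, map_add,
      hN, map_add g a 1, h1, star_add, star_one] at e
    rw [show a * a = a * (a + star a) - a * star a by ring, map_sub, hk _ _ (by simp [add_comm]), hN]
    linear_combination g a * e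
  refine ⟨RingEquiv.ofBijective (⟨⟨⟨g, h1⟩, fun a b => ?_⟩, g.map_zero, g.map_add⟩ : K →+* K)
    (Finite.injective_iff_bijective.1 hi), fun _ => rfl⟩
  change g (a * b) = g a * g b
  by_cases ha : star a = a
  · rw [mul_comm, hk _ _ ha, mul_comm]
  obtain ⟨r, s, hr, hs, rfl⟩ := exists_decomp ha b
  rw [mul_add, map_add, map_add, hk _ _ hr, mul_comm s, ← mul_assoc, hk _ _ hs, hk _ _ hs, h2]
  ring

theorem exists_k (hq : Uf.q K ≠ 2) : ∃ s : K, star s = s ∧ s ≠ 0 ∧ s ≠ 1 := by
  by_contra! h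
  have := Nat.card_le_card_of_injective (fun s : kf K => (s : K) = 0) fun s s' e => Subtype.ext (by
    by_cases h0 : (s : K) = 0
    · rw [h0, e.mp h0]
    · rw [h _ s.2 h0, h _ s'.2 fun e' => h0 (e.mpr e')])
  rw [card_kf, Nat.card_eq_fintype_card, Fintype.card_prop] at this
  exact hq (le_antisymm this (two_le_q K))

theorem map_icj (α : MulAut (P K)) (g x : P K) :
    α (x⁻¹ * (g * x * g⁻¹)) = (α x)⁻¹ * (α g * α x * (α g)⁻¹) := by simp

theorem map_icj' (α : MulAut (P K)) (g x : P K) :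
    (α x)⁻¹ * (g * α x * g⁻¹) = α (x⁻¹ * (α⁻¹ g * x * (α⁻¹ g)⁻¹)) := by simp

theorem comm' (α : MulAut (P K)) {x y : P K} (h : x * α⁻¹ y = α⁻¹ y * x) : α x * y = y * α x := by
  simpa using congrArg α h

theorem inv_Z (α : MulAut (P K)) {x : P K} (hx : x ∈ Z K) : α x ∈ Z K :=
  mem_Z_of_comm fun _ _ => comm' α (comm_Z hx _)

theorem inv_Z2 (α : MulAut (P K)) {x : P K} (hx : x ∈ Z2 K) : α x ∈ Z2 K :=
  mem_Z2_of_icj fun g => by rw [map_icj']; exact inv_Z α (icj_mem_Z _ hx)

theorem inv_J (α : MulAut (P K)) {x : P K} (hx : x ∈ J K) : α x ∈ J K :=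
  mem_J_of_comm fun _ hy => comm' α (comm_J hx (Z2_le_J (inv_Z2 _ hy)))

variable (α : MulAut (P K))

theorem hA' (x : P K) : (α x).a = (α (xe x.a 0 0 (by simp))).a := by
  have := inv_J α (x := x⁻¹ * xe x.a 0 0 (by simp)) (by simp [mem_J])
  rw [mem_J, map_mul, map_inv, P.mul_a, P.inv_a] at this
  linear_combination -this

/-- The action on the coordinate `a`. -/
def fA : K →+ K := AddMonoidHom.mk' (fun a => (α (xe a 0 0 (by simp))).a) fun a a' => by
  rw [← P.mul_a, ← map_mul, hA' α (_ * _)]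
  rfl

theorem hA (x : P K) : (α x).a = fA α x.a := hA' α x

theorem fA_inj : Function.Injective (fA α) := (injective_iff_map_eq_zero _).2 fun a h => by
  simpa [mem_J] using inv_J α⁻¹ (x := α (xe a 0 0 (by simp))) h

theorem inv_Q {x : P K} (hx : x ∈ Q K) : α x ∈ Q K := by
  by_contra ht
  have key : ∀ r : K, ∃ t, star t = -t ∧ r * (α x).t = (α x).a * t := fun r => by
    obtain ⟨a, rfl⟩ := Finite.injective_iff_surjective.1 (fA_inj α) r
    have := (inv_Z α (icj_Q (g := xe a 0 0 (by simp)) rfl hx)).2.2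
    rw [map_icj, icj_c] at this
    exact ⟨_, P.star_t _, sub_eq_zero.1 this⟩
  obtain ⟨t, -, h₁⟩ := key 1
  have ha : (α x).a ≠ 0 := fun e => ht (by simpa [e, mem_Q] using h₁)
  refine one_ne_zero (eq_zero_of_trace (K := K) fun y => ?_)
  obtain ⟨t, ht', e⟩ := key ((α x).a * y / (α x).t)
  rw [div_mul_cancel₀ _ ht] at e
  rw [one_mul, mul_left_cancel₀ ha e, ht', add_neg_cancel]

open Classical in
/-- The action on the coordinate `t`. -/
noncomputable def fB (t : K) : K := if h : star t = -t then (α (xj 0 t 0 h (by simp))).t else 0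

open Classical in
/-- The action on the coordinate `z` of `Z`. -/
noncomputable def fE (z : K) : K := if h : star z = -z then (α (xj 0 0 z (by simp) h)).z else 0

theorem hB (x : P K) : (α x).t = fB α x.t := by
  have := inv_Q α (x := x⁻¹ * xj 0 x.t 0 x.star_t (by simp)) (by simp [mem_Q])
  rw [mem_Q, map_mul, map_inv, P.mul_t, P.inv_t] at this
  rw [fB, dif_pos x.star_t]
  linear_combination -this

theorem star_fB (t : K) : star (fB α t) = -fB α t := by
  unfold fB; split_ifs <;> simp [P.star_t]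

theorem fB_ne {t : K} (ht : star t = -t) (h0 : t ≠ 0) : fB α t ≠ 0 := fun h => h0 (by
  simpa [mem_Q] using inv_Q α⁻¹ (x := α (xj 0 t 0 ht (by simp))) ((hB α _).trans h))

variable {α} in
theorem hZ2 {x : P K} (hx : x ∈ Z2 K) : (α x).c = (α (xj x.c 0 0 (by simp) (by simp))).c ∧
    (α x).z = (α (xj x.c 0 0 (by simp) (by simp))).z + fE α x.z := by
  have hz := star_z_J (Z2_le_J hx)
  have e : x = xj x.c 0 0 (by simp) (by simp) * xj 0 0 x.z (by simp) hz := by
    ext <;> simp [hx.1, hx.2]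
  have h1 := inv_Z α (x := xj 0 0 x.z (by simp) hz) ⟨rfl, rfl, rfl⟩
  rw [fE, dif_pos hz]
  constructor <;> conv_lhs => rw [e, map_mul]
  · simp [h1.2.1, h1.2.2]
  · simp [h1.1, h1.2.1, h1.2.2]

theorem rD (a : K) {t : K} (ht : star t = -t) :
    (α (xj (a * t) 0 0 (by simp) (by simp))).c = fA α a * fB α t := by
  have := (hZ2 (α := α) (icj_mem_Z2 (xe a 0 0 (by simp)) (xj 0 t 0 ht (by simp)))).1
  rw [map_icj, icj_c, hA, hA, hB] at this
  simpa [icj_c] using this.symm

theorem rE (a b : K) {t : K} (ht : star t = -t) : fE α (t * (b * star a + a * star b)) =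
    fB α t * (fA α b * star (fA α a) + fA α a * star (fA α b)) := by
  have hy : xj (b * t) 0 0 (by simp) (by simp) ∈ Z2 K := ⟨rfl, rfl⟩
  have := (hZ2 (α := α) (icj_mem_Z2 (xe a 0 0 (by simp)) (xj (b * t) 0 0 (by simp) (by simp)))).2
  rw [map_icj, icj_z, (inv_Z2 α hy).1, (inv_Z2 α hy).2, rD α b ht, hA] at this
  simp only [icj_c, icj_z, xj_a, xj_c, xj_t, xe_a, xe_t, xe_c, mul_zero, zero_mul, sub_zero, star_zero,
    add_zero, star_mul', star_fB, ht] at this
  rw [show xj (0 : K) 0 0 _ _ = 1 from rfl, map_one, P.one_z, zero_add] at this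
  rw [show t * _ = b * t * star a - a * (star b * -t) by ring, ← this]
  ring

theorem rG (a : K) {t : K} (ht : star t = -t) : (α (xj (a * t) 0 0 (by simp) (by simp))).z +
    fE α (a * star a * t) = (α (xj 0 t 0 ht (by simp))).c * star (fA α a) -
      fA α a * star (α (xj 0 t 0 ht (by simp))).c + fA α a * star (fA α a) * fB α t := by
  have := (hZ2 (α := α) (icj_mem_Z2 (xe a 0 0 (by simp)) (xj 0 t 0 ht (by simp)))).2
  rw [map_icj, icj_z, show (α (xj 0 t 0 ht _)).a = 0 from inv_J α rfl, hA, hB] at this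
  simpa [icj_c, icj_z, mul_right_comm a t] using this.symm

theorem exists_dg : ∃ (l : Kˣ) (m : ku K) (σ : K ≃+* K),
    ∀ x, (α x).a = l * σ x.a ∧ (α x).t = (m : Kˣ) * σ x.t := by
  obtain ⟨ε, e0, hε⟩ := exists_k0_ne K
  have l0 : fA α 1 ≠ 0 := (map_ne_zero_iff _ (fA_inj α)).2 one_ne_zero
  have b0 := fB_ne α hε e0
  let g : K →+ K := (AddMonoidHom.mulLeft (fA α 1)⁻¹).comp (fA α)
  have eg : ∀ a, fA α a = fA α 1 * g a := fun a => (mul_inv_cancel_left₀ l0 _).symm
  have hi : Function.Injective g := fun x y h => fA_inj α (by rw [eg x, h, ← eg])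
  have hs : ∀ {s : K}, star s = s → star (s * ε) = -(s * ε) := fun h => by simp [h, hε]
  have e1 : ∀ s, star s = s → fB α (s * ε) = g s * fB α ε := fun s h => by
    have := rD α 1 (hs h)
    simp only [one_mul, rD α s hε, eg s] at this
    exact mul_left_cancel₀ l0 (by linear_combination -this)
  have e2 : ∀ s, star s = s → star (g s) = g s := fun s h => by
    have := star_fB α (s * ε)
    rw [e1 s h, star_mul', star_fB] at this
    exact mul_right_cancel₀ b0 (by linear_combination -this)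
  have e3 : ∀ a s, star s = s → fA α (a * s) = fA α a * g s := fun a s h => by
    have := rD α a (hs h)
    simp only [← mul_assoc, rD α (a * s) hε, e1 s h] at this
    exact mul_right_cancel₀ b0 this
  have e4 : ∀ s r, star s = s → star r = r → fE α (s * r * ε) = g s * fE α (r * ε) :=
    fun s r h h' => by
      obtain ⟨b, rfl⟩ := exists_trace h'
      have a1 := rE α 1 b hε
      have a2 := rE α 1 (b * s) hε
      rw [e3 b s h, star_mul', star_mul', h, e2 s h] at a2
      rw [show s * _ * ε = ε * (b * s * star 1 + 1 * (star b * s)) by simp; ring, a2,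
        show _ * ε = ε * (b * star 1 + 1 * star b) by simp; ring, a1]
      ring
  have e5 : ∀ a s, star s = s → g (a * s) = g a * g s := fun a s h =>
    mul_left_cancel₀ l0 (by rw [← eg, e3 a s h, eg a, mul_assoc])
  have g1 : g 1 = 1 := inv_mul_cancel₀ l0
  obtain ⟨σ, hσ⟩ := pure g hi g1 e5 fun a => by
    by_cases hq : Uf.q K = 2
    · have n : ∀ x : K, x ≠ 0 → x * star x = 1 := fun x hx => by
        have := FiniteField.pow_card_sub_one_eq_one x hx
        rwa [Uf.card_eq, hq, show 2 ^ 2 - 1 = 2 + 1 from rfl, pow_succ', ← hq, ← Uf.star_eq] at this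
      by_cases ha : a = 0
      · simp [ha]
      rw [n a ha, n _ ((map_ne_zero_iff _ hi).2 ha), g1]
    obtain ⟨s, h, s0, s1⟩ := exists_k hq
    have hG : ∀ a, fE α (a * star a * ε) = fA α a * star (fA α a) * fB α ε := fun a => by
      have hn : star (a * star a) = a * star a := by simp [mul_comm]
      have a1 := rG α a (hs h)
      have a2 := rG α (a * s) hε
      have a3 := rG α (a * s) (hs h)
      have a4 := rG α (a * s * s) hε
      have b1 := e4 s _ h hn
      have b2 := e4 s _ h (show star (s * (a * star a)) = _ by rw [star_mul', h, hn])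
      have b3 := e4 s _ h (show star (s * (s * (a * star a))) = _ by simp only [star_mul', h, hn])
      have b4 := e4 s _ h (show star (s * (s * (s * (a * star a)))) = _ by
        simp only [star_mul', h, hn])
      simp only [e3 _ s h, e1 s h, star_mul', h, e2 s h] at a1 a2 a3 a4
      ring_nf at a1 a2 a3 a4 b1 b2 b3 b4
      have n0 := (map_ne_zero_iff _ hi).2 s0
      have n1 : g s - 1 ≠ 0 := sub_ne_zero.2 fun e => s1 (hi (e.trans g1.symm))
      refine mul_left_cancel₀ (mul_ne_zero (pow_ne_zero 2 n0) (pow_ne_zero 2 n1)) ?_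
      rw [b4, b3, b2, b1] at a4
      rw [b3, b2, b1] at a3
      rw [b2, b1] at a2
      rw [b1] at a1
      rw [mul_right_comm a]
      linear_combination a4 - a3 + g s * (a1 - a2)
    have a1 := hG a
    have a2 := hG 1
    have a3 := e4 (a * star a) 1 (by simp [mul_comm]) (star_one K)
    simp only [star_one, mul_one, one_mul] at a2 a3
    rw [a3, a2, eg a, star_mul'] at a1
    exact mul_left_cancel₀ (mul_ne_zero (mul_ne_zero l0 (star_ne_zero.2 l0)) b0)
      (by linear_combination a1)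
  have s0 : σ ε ≠ 0 := (map_ne_zero _).2 e0
  refine ⟨Units.mk0 _ l0, ⟨Units.mk0 _ (div_ne_zero b0 s0), ?_⟩, σ, fun x => ⟨?_, ?_⟩⟩
  · change star (_ / _) = _ / _
    rw [star_div₀, star_fB, ← map_star', hε, map_neg, neg_div_neg_eq]
  · rw [hA, eg, hσ]; rfl
  · have := e1 (x.t / ε) (by rw [star_div₀, P.star_t, hε, neg_div_neg_eq])
    rw [div_mul_cancel₀ _ e0, hσ, map_div₀] at this
    rw [hB, this, Units.val_mk0]
    ring

theorem pow_eq_one (p : ℕ) [Fact p.Prime] [CharP K p] {β : MulAut (P K)}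
    (h : TrivOn β ⊤ (Z2 K)) : ∃ k : ℕ, β ^ p ^ k = 1 := by
  have ha : ∀ a, fA β a = a := fun a => by
    have := (h (xe a 0 0 (by simp)) trivial).1
    rw [P.mul_a, P.inv_a, hA, xe_a] at this
    linear_combination this
  obtain ⟨ε, e0, hε⟩ := exists_k0_ne K
  have ht : fB β ε = ε := by
    have := (h (xj 0 ε 0 hε (by simp)) trivial).2
    rw [P.mul_t, P.inv_t, hB, xj_t] at this
    linear_combination this
  refine exists_pow_eq_one_of_chain (pg K p) (ch K) 3 ch_mono rfl (fun i hi => ?_)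
    ⟨0, fun x hx => by rw [mem_bot.1 hx, map_one]⟩
  interval_cases i
  · refine fun x hx => mem_bot.2 (inv_mul_eq_one.2 (eq_of_z hx (inv_Z β hx) ?_))
    obtain ⟨b, hb⟩ := exists_trace (y := x.z / ε) (by
      rw [star_div₀, star_z_J (Z_le_J hx), hε, neg_div_neg_eq])
    have := rE β 1 b hε
    simp only [ha, ht, star_one, mul_one, one_mul, hb, mul_div_cancel₀ _ e0] at this
    rw [(hZ2 (Z_le_Z2 hx)).2, this]
    simp only [show x.c = 0 from hx.2.2]
    rw [show xj (0 : K) 0 0 _ _ = 1 from rfl, map_one, P.one_z, zero_add]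
  · refine fun x hx => ?_
    have := mul_mem (inv_mem (show x ∈ Z2 K from hx)) (inv_Z2 β hx)
    have h1 := rD β (x.c / ε) hε
    simp only [ha, ht, div_mul_cancel₀ _ e0] at h1
    exact ⟨this.1, this.2, by simp [(hZ2 hx).1, h1, hx.1]⟩
  · exact h

variable (K) in
/-- The diagonal and field automorphisms. -/
def Dg : Subgroup (MulAut (P K)) where
  carrier := {h | ∃ l m σ, h = dg l m σ}
  one_mem' := ⟨1, 1, _, dg_one.symm⟩
  mul_mem' := by
    rintro _ _ ⟨l, m, σ, rfl⟩ ⟨l', m', σ', rfl⟩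
    exact ⟨_, _, _, dg_mul ..⟩
  inv_mem' := by
    rintro _ ⟨l, m, σ, rfl⟩
    exact ⟨_, _, _, dg_inv ..⟩

theorem exists_conj (p : ℕ) [hp : Fact p.Prime] [CharP K p] {A : Subgroup (MulAut (P K))}
    (hA : ¬ p ∣ Nat.card A) : ∃ θ : MulAut (P K), ∀ a ∈ A, θ⁻¹ * a * θ ∈ Dg K := by
  have h₁ : IsPGroup p (Ess.trivSub ⊤ (Z2 K) le_top) := fun β => by
    obtain ⟨k, hk⟩ := pow_eq_one p β.2
    exact ⟨k, Subtype.ext hk⟩
  have : (Ess.trivSub ⊤ (Z2 K) le_top).Normal :=
    ⟨fun β hβ γ => TrivOn.conj hβ (fun _ _ => trivial) fun _ => inv_Z2 γ⟩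
  obtain ⟨θ, -, h⟩ := Solv.sz_star (A := A) (K := Ess.trivSub ⊤ (Z2 K) le_top) (S := Dg K)
    le_normalizer_of_normal (by
      obtain ⟨k, hk⟩ := h₁.exists_card_eq
      rw [hk]
      exact ((hp.out.coprime_iff_not_dvd.2 hA).symm).pow_right k)
    (.inr (by have := h₁.isNilpotent; infer_instance)) fun a _ => by
      obtain ⟨l, m, σ, h⟩ := exists_dg a
      refine ⟨a * (dg l m σ)⁻¹, fun x _ => ?_, l, m, σ, by group⟩
      obtain ⟨x, rfl⟩ := (dg l m σ).surjective x
      exact ⟨by simp [(h x).1], by simp [(h x).2]⟩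
  exact ⟨θ, h⟩

end Nr

theorem nrm : NrmStmt.{v} := by
  intro K _ _ _ p hp _ F hF
  have hs := sat_sylow_top (pg_top K p) hF
  have := Inn_subgroupOf_normal (F.autGroup ⊤)
  obtain ⟨H, hH⟩ := exists_right_complement'_of_coprime
    (N := (Inn (⊤ : Subgroup (P K))).subgroupOf (F.autGroup ⊤)) (by
      obtain ⟨k, hk⟩ := (hs.isPGroup.comap_subtype (K := F.autGroup ⊤)).exists_card_eq
      rw [show Nat.card ((Inn (⊤ : Subgroup (P K))).subgroupOf (F.autGroup ⊤)) = _ from hk]
      exact (hp.out.coprime_iff_not_dvd.2 hs.not_dvd_relIndex).pow_left k)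
  let e : F.autGroup ⊤ →* MulAut (P K) :=
    (MulAut.congr topEquiv).toMonoidHom.comp (F.autGroup ⊤).subtype
  obtain ⟨θ, hθ⟩ := Nr.exists_conj p (A := H.map e) fun h => hs.not_dvd_relIndex (by
    rw [relIndex, hH.symm.index_eq_card]
    exact h.trans (card_map_dvd H e))
  obtain ⟨F', hF'⟩ := exists_iso θ⁻¹ F
  refine ⟨F', ⟨_, hF'⟩, fun f hf => ?_⟩
  obtain ⟨β, hβ, eβ⟩ := ((M_of_iso hF' fun _ => Iff.rfl).1 hf).exists_aut' fun _ _ => trivial
  obtain ⟨⟨⟨n, hn⟩, h⟩, e₁⟩ := hH.2 ⟨β, hβ⟩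
  obtain ⟨g, -, hg⟩ := (Fus2.mem_Inn_iff (α := n.1)).1 hn
  obtain ⟨l, m, σ, e₂⟩ := hθ _ ⟨h, h.2, rfl⟩
  refine ⟨θ⁻¹ g, l, m, σ, fun y => ?_⟩
  have e₃ : β = n.1 * h.1.1 := (congrArg Subtype.val e₁).symm
  have e₄ : f y = θ⁻¹ (afn β (θ y)) := by rw [eβ _ trivial]; simp
  rw [e₄, e₃, afn_mul, hg _ trivial, ← e₂, afn_apply _ (mem_top _), map_mul, map_mul, map_inv]
  rfl

end Cfsg.Agent.U4
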