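import Cfsg.Agent.Lib.U4.Lee2
import Cfsg.Agent.Lib.U4.Nrm

/-!
Row LEECH of docs/U4_PLAN.md: the monomial elements.
-/

set_option autoImplicit false
set_option maxRecDepth 100000
set_option synthInstance.maxSize 2000

namespace Cfsg.Agent.U4.Le

open Cfsg.Agent.PC Cfsg.Agent.U4.N9 Sum Subgroup

theorem skew (τ : ZMod 3) : star (⟨0, τ⟩ : F9) = -⟨0, τ⟩ := by ext <;> simp
theorem skew_re : ∀ t : F9, star t = -t → t.re = 0 := by decide +kernel

/-- The element of `J` with the given coordinates. -/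
def jj (τ c₀ c₁ ζ : ZMod 3) : P F9 := xj ⟨c₀, c₁⟩ ⟨0, τ⟩ ⟨0, ζ⟩ (skew τ) (skew ζ)

theorem jj_mem (τ c₀ c₁ ζ : ZMod 3) : jj τ c₀ c₁ ζ ∈ J F9 := rfl

theorem eq_jj {j : P F9} (hj : j ∈ J F9) : j = jj j.t.im j.c.re j.c.im j.z.im :=
  P.ext hj rfl (QuadraticAlgebra.ext (skew_re _ j.star_t) rfl)
    (QuadraticAlgebra.ext (skew_re _ (star_z_J hj)) rfl)

theorem Q_le {N : Subgroup (P F9)} (h : ∀ u ∈ [1, 3, 9, 27], xe (dv u).1 (dv u).2 0 (by simp) ∈ N)
    (hz : jj 0 0 0 1 ∈ N) : Q F9 ≤ N := fun x hx => by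
  have ind : ∀ p : F9 → Prop, p 1 → p ⟨0, 1⟩ → (∀ x y, p x → p y → p (x + y)) → ∀ x, p x :=
    fun p h1 hi ha x => by
      have k : ∀ (u : F9) (n : ℕ), p u → p ((n + 1) • u) := fun u n hu => by
        induction n with
        | zero => simpa using hu
        | succ n ih => rw [succ_nsmul]; exact ha _ _ ih hu
      obtain ⟨m, -, n, -, rfl⟩ := (by decide +kernel : ∀ x : F9, ∃ m < 3, ∃ n < 3,
        x = (m + 1) • 1 + (n + 1) • ⟨0, 1⟩) x
      exact ha _ _ (k _ _ h1) (k _ _ hi)
  have ha := ind (fun a => xe a 0 0 (by simp) ∈ N) (h 9 (by simp)) (h 27 (by simp))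
    (fun a b ha hb => by convert mul_mem ha hb using 1; apply P.ext <;> simp) x.a
  have hc := ind (fun c => xe 0 c 0 (by simp) ∈ N) (h 1 (by simp)) (h 3 (by simp))
    (fun a b ha hb => by convert mul_mem ha hb using 1; apply P.ext <;> simp) x.c
  have hZ : ∀ w ∈ Z F9, w ∈ N := fun w hw => by
    rw [eq_jj hw.1, hw.2.1, hw.2.2]
    rcases z3 w.z.im with e | e | e <;> rw [e]
    · exact one_mem N
    · exact hz
    · exact mul_mem hz hz
  rw [← mul_inv_cancel_left (xe x.a 0 0 (by simp) * xe 0 x.c 0 (by simp)) x]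
  exact mul_mem (mul_mem ha hc) (hZ _ (by simp [mem_Z, mem_Q.1 hx]))

theorem top_le {N : Subgroup (P F9)} (h : Q F9 ≤ N) (ht : jj 1 0 0 0 ∈ N) (x : P F9) : x ∈ N := by
  have : jj x.t.im 0 0 0 ∈ N := by
    rcases z3 x.t.im with e | e | e <;> rw [e]
    · exact one_mem N
    · exact ht
    · exact mul_mem ht ht
  rw [← inv_mul_cancel_right x (jj x.t.im 0 0 0)]
  refine mul_mem (h ?_) this
  rw [mem_Q, P.mul_t, P.inv_t, add_neg_eq_zero]
  exact QuadraticAlgebra.ext (skew_re _ x.star_t) rfl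

def sh (a : F9) : I → I
  | inl y => inl (y + a)
  | inr k => inr k

def el (a c t z : F9) : I → ZMod 3
  | inl y => (z + c * star a + c * star y - y * star c + y * star y * t).im
  | inr k => if k = 0 then t.im else 0

def ell (s : P F9) : I → ZMod 3 := el s.a s.c s.t s.z

def lj (τ c₀ c₁ ζ : ZMod 3) : I → ZMod 3
  | inl y => ζ + c₀ * y.im - c₁ * y.re + (y.re * y.re + y.im * y.im) * τ
  | inr k => if k = 0 then τ else 0

theorem ell_jj (τ c₀ c₁ ζ : ZMod 3) (y : I) : ell (jj τ c₀ c₁ ζ) y = lj τ c₀ c₁ ζ y := by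
  rcases y with y | k
  · simp [ell, el, lj, jj]
    linear_combination (c₁ * y.re - c₀ * y.im) * three
  · rfl

theorem sh_zero (y : I) : sh 0 y = y := by cases y <;> simp [sh]

theorem sh_surj (a : F9) : Function.Surjective (sh a)
  | inl y => ⟨inl (y - a), by simp [sh]⟩
  | inr k => ⟨inr k, rfl⟩

theorem ell_mul (s s' : P F9) (y : I) : ell (s * s') y = ell s y + ell s' (sh s.a y) := by
  rcases y with y | k
  · simp only [ell, el, sh, ← QuadraticAlgebra.im_add, P.mul_a, P.mul_c, P.mul_t, P.mul_z, star_add,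
      star_mul', P.star_t]
    congr 1
    ring
  · simp only [ell, el, sh]
    split_ifs <;> simp

def ff : I → Bool := fun _ => false

/-- The embedding of `S`. -/
noncomputable def io : P F9 →* GL12 :=
  MonoidHom.mk' (fun s => mon (sh s.a) (sh_surj _) (ell s) ff ff) fun s s' =>
    LinearEquiv.ext fun v => funext fun y => by
      simp only [LinearEquiv.mul_apply, mon_apply, ff, un_un, ell_mul]
      cases y <;> simp [sh, add_assoc]

theorem io_apply (s : P F9) (v : W) (y : I) :
    io s v y = un (ell s y) false false (v (sh s.a y)) := rfl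

theorem io_J {j : P F9} (hj : j ∈ J F9) (v : W) (y : I) :
    io j v y = un (ell j y) false false (v y) := by rw [io_apply, mem_J.1 hj, sh_zero]

theorem io_emb (s : P F9) (u : I → ℤ × ℤ) :
    io s (emb u) = emb (monF (sh s.a) (el s.a s.c s.t s.z) ff ff u) := mon_emb _ (sh_surj _) ..

theorem io_mem (s : P F9) : io s ∈ G0 := top_le (N := G0.comap io) (Q_le (fun u hu => by
    simp only [List.mem_cons, List.not_mem_nil, or_false] at hu
    rcases hu with rfl | rfl | rfl | rfl <;> exact mon_mem (sh_surj _) (by decide +kernel))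
  (mon_mem (sh_surj _) (by decide +kernel))) (mon_mem (sh_surj _) (by decide +kernel)) s

theorem ell_ext {j j' : P F9} (hj : j ∈ J F9) (hj' : j' ∈ J F9)
    (h : ∀ y ∈ [inr 0, inl 0, inl ⟨1, 0⟩, inl ⟨0, 1⟩], ell j y = ell j' y) : j = j' := by
  rw [eq_jj hj, eq_jj hj'] at h ⊢
  simp only [ell_jj, lj, List.forall_mem_cons] at h
  obtain ⟨h1, h2, h3, h4, -⟩ := h
  simp at h1 h2 h3 h4
  rw [h1, h2, show j.c.re = j'.c.re by linear_combination h4 - h1 - h2,
    show j.c.im = j'.c.im by linear_combination h1 + h2 - h3]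

theorem io_inj : Function.Injective io := (injective_iff_map_eq_one io).2 fun s hs => by
  have e : ∀ (v : W) y, un (ell s y) false false (v (sh s.a y)) = v y := fun v y => by
    rw [← io_apply, hs]; rfl
  have ha : s ∈ J F9 := by
    by_contra h
    have := e (Pi.single (inl 0) (1, 0)) (inl 0)
    rw [Pi.single_eq_of_ne (by simpa [sh, mem_J] using h), un_zero] at this
    simpa [Prod.ext_iff] using this
  exact ell_ext ha (one_mem _) fun y _ => (un_fix (by simp) (e (fun _ => (1, 0)) y)).trans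
    (by rw [show (1 : P F9) = jj 0 0 0 0 from rfl, ell_jj]; cases y <;> simp [lj])

def iv (l : F9) : F9 := star l * l * star l
def swp (o : ℕ) : Bool := Nat.testBit 656922840 o
def sw3 (k : Fin 3) : Fin 3 := if k = 1 then 2 else if k = 2 then 1 else 0

def piO (o : ℕ) : I → I
  | inl y => inl (sO o (iv (lO o) * y))
  | inr k => inr (bif swp o then sw3 k else k)

def bO (o : ℕ) : I → Bool
  | inl _ => Nat.testBit 3626444760 o
  | inr k => Nat.testBit (if k = 0 then 16776960 else if k = 1 then 2891142060 else 1955302260) o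

theorem piO_inl (o : ℕ) (y : F9) : piO o (inl (lO o * sO o y)) = inl y := by
  rw [piO, ← mul_assoc, (by decide +kernel : ∀ l : F9, l ≠ 0 → iv l * l = 1) _ (lO_ne o), one_mul,
    sO, sO]
  split_ifs <;> simp

theorem piO_surj (o : ℕ) : Function.Surjective (piO o)
  | inl y => ⟨_, piO_inl o y⟩
  | inr k => ⟨piO o (inr k), by
    simp only [piO]
    cases swp o
    · rfl
    · revert k; decide⟩

/-- The lift of `dgO o`. -/
noncomputable def om (o : ℕ) : GL12 := mon (piO o) (piO_surj o) 0 (fun _ => swp o) (bO o)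

theorem om_mem {o : ℕ} (ho : o < 32) : om o ∈ G0 := mon_mem _ (allN_iff.1 (show allN (fun o =>
  allN (fun j => decide (good (monF (piO o) 0 (fun _ => swp o) (bO o) (gen j)))) 31) 32 = true by
    decide +kernel) o ho)

theorem om_io {o : ℕ} (ho : o < 32) (s : P F9) : om o * io s = io (dgO o s) * om o := by
  obtain ⟨k1, k2⟩ := (by decide +kernel : ∀ o < 32, (∀ x : F9, (lO o * star (lO o) * mO o *
    sO o x).im = bif bO o (inl 0) then -x.im else x.im) ∧ ∀ x : F9, (mO o * sO o x).im =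
      bif bO o (inr 0) then -x.im else x.im) o ho
  refine LinearEquiv.ext fun v => funext fun y => ?_
  simp only [LinearEquiv.mul_apply, om, mon_apply, io_apply, Pi.zero_apply, un_un, un_un',
    zero_add, Bool.xor_false]
  rcases y with y | k
  · obtain ⟨y, rfl⟩ : ∃ y', y = lO o * sO o y' :=
      ⟨(sE o).symm (y / lO o), by rw [← sE_apply]; simp [mul_div_cancel₀ _ (lO_ne o)]⟩
    rw [sh, dgO_a, ← mul_add, ← sE_apply, ← sE_apply, ← map_add, sE_apply, sE_apply, piO_inl,
      piO_inl]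
    congr 1
    refine (k1 _).symm.trans (congrArg QuadraticAlgebra.im ?_)
    simp only [dgO_a, dgO_c, dgO_t, dgO_z, ← sE_apply, map_add, map_sub, map_mul, U5.map_star',
      star_mul', star_mO]
    ring
  · congr 1
    simp only [piO, ell, el, dgO_t, k2]
    cases swp o <;> fin_cases k <;> simp [sw3, bO]

theorem om_zero : om 0 = 1 := LinearEquiv.ext fun v => funext fun y => by
  rw [om, mon_apply, (by decide +kernel : ∀ y, piO 0 y = y), (by decide +kernel : ∀ y,
    bO 0 y = false)]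
  exact un_id _

def piW : I → I
  | inl y => if y = 0 then inr 0 else inl (-iv y)
  | inr k => if k = 0 then inl 0 else inr k

def bW : I → Bool
  | inl y => decide (y * star y = -1)
  | inr _ => false

theorem piW_surj : Function.Surjective piW := fun y => ⟨piW y, by revert y; decide +kernel⟩

/-- The lift of the Weyl element of `Aut(J)`. -/
noncomputable def wJ : GL12 := mon piW piW_surj 0 ff bW

theorem wJ_mem : wJ ∈ G0 := mon_mem _ (by decide +kernel)

theorem wJ_io (τ c₀ c₁ ζ : ZMod 3) : wJ * io (jj τ c₀ c₁ ζ) = io (jj ζ c₀ (-c₁) τ) * wJ := by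
  refine LinearEquiv.ext fun v => funext fun y => ?_
  simp only [LinearEquiv.mul_apply, wJ, mon_apply, io_J (jj_mem ..), Pi.zero_apply, un_un, un_un',
    zero_add, Bool.xor_false, ell_jj]
  congr 1
  revert τ c₀ c₁ ζ y
  decide +kernel

def kp (d d' : ZMod 3) (y : I) : ZMod 3 := d * [0, 0, 1, 0, 2, 2, 2, 0, 2, 0, 1, 0].getD (ix y) 0 +
  d' * [0, 0, 1, 0, 1, 0, 2, 1, 1, 0, 0, 1].getD (ix y) 0

/-- Diagonal elements outside `J`. -/
noncomputable def Dg (d d' : ZMod 3) (e : Bool) : GL12 :=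
  mon id Function.surjective_id (kp d d') (fun _ => e) ff

theorem Dg_mem (d d' : ZMod 3) (e : Bool) : Dg d d' e ∈ G0 := mon_mem _ (by
  revert d d' e; decide +kernel)

end Cfsg.Agent.U4.Le
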