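import Cfsg.Agent.Lib.U4.Lee3

/-!
Row LEECH of docs/U4_PLAN.md: the centraliser of `J` and the normaliser of `S`.
-/

set_option autoImplicit false
set_option maxRecDepth 100000
set_option synthInstance.maxSize 2000

namespace Cfsg.Agent.U4.Le

open Cfsg.Agent.PC Cfsg.Agent.U4.N9 Sum Subgroup

theorem io_single (s : P F9) (x : I) (u : ℚ × ℚ) :
    io s (Pi.single (sh s.a x) u) = Pi.single x (un (ell s x) false false u) := funext fun y => by
  rw [io_apply]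
  by_cases h : y = x
  · simp [h]
  · rw [Pi.single_eq_of_ne h, Pi.single_eq_of_ne
      ((Finite.injective_iff_surjective.2 (sh_surj _)).ne h), un_zero]

theorem blk_J {g : GL12} {j j' : P F9} (hj : j ∈ J F9) (hj' : j' ∈ J F9)
    (h : g * io j = io j' * g) (x y : I) (u : ℚ × ℚ) :
    g (Pi.single x (un (ell j x) false false u)) y =
      un (ell j' y) false false (g (Pi.single x u) y) := by
  rw [← io_J hj', ← io_single, mem_J.1 hj, sh_zero, ← LinearEquiv.mul_apply, h]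
  rfl

theorem supp {g : GL12} {j j' : P F9} (hj : j ∈ J F9) (hj' : j' ∈ J F9)
    (h : g * io j = io j' * g) {x y : I} {u : ℚ × ℚ} (hu : g (Pi.single x u) y ≠ 0) :
    ell j' y = 0 ↔ ell j x = 0 := by
  have e := blk_J hj hj' h x y
  refine ⟨fun h0 => by_contra fun h1 => hu ?_, fun h0 => un_fix hu ?_⟩
  · have := congrArg (fun w => g (Pi.single x w) y) (un_sum h1 u)
    simp only [Pi.single_add, map_add, Pi.add_apply, e, h0, un_id, Pi.single_zero, map_zero,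
      Pi.zero_apply] at this
    linear_combination (norm := module) (1 / 3 : ℚ) • this
  · rw [← e, h0, un_id]

theorem sum_blk (g : GL12) (v : W) (y : I) : g v y = ∑ x, g (Pi.single x (v x)) y := by
  rw [← Finset.sum_apply, ← map_sum, Finset.univ_sum_single]

theorem exists_src (g : GL12) (y : I) : ∃ x u, g (Pi.single x u) y ≠ 0 := by
  by_contra! h
  have := sum_blk g (g.symm (Pi.single y 1)) y
  simp [h] at this

theorem sep {x y : I} (h : x ≠ y) (hy : ix y < 10) : ∃ j ∈ J F9, ell j y ≠ 0 ∧ ell j x = 0 := by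
  obtain ⟨τ, c₀, c₁, ζ, e⟩ := (by decide +kernel : ∀ x y, x ≠ y → ix y < 10 →
    ∃ τ c₀ c₁ ζ, lj τ c₀ c₁ ζ y ≠ 0 ∧ lj τ c₀ c₁ ζ x = 0) x y h hy
  exact ⟨_, jj_mem τ c₀ c₁ ζ, by simpa only [ell_jj] using e⟩

/-- `c` is diagonal on the first ten coordinates. -/
def DX (c : GL12) (k : I → ZMod 3) (s : I → Bool) : Prop :=
  ∀ y, ix y < 10 → ∀ v, c v y = un (k y) (s y) false (v y)

theorem exists_DX {c : GL12} (hc : c ∈ G0) (h : ∀ j ∈ J F9, c * io j = io j * c) :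
    ∃ k s, DX c k s := by
  have h0 : ∀ x y u, x ≠ y → ix x < 10 ∨ ix y < 10 → c (Pi.single x u) y = 0 := fun x y u e hi => by
    by_contra hu
    rcases hi with hi | hi
    · obtain ⟨j, hj, h1, h2⟩ := sep e.symm hi
      exact h1 ((supp hj hj (h j hj) hu).1 h2)
    · obtain ⟨j, hj, h1, h2⟩ := sep e hi
      exact h1 ((supp hj hj (h j hj) hu).2 h2)
  suffices ∀ y, ∃ k s, ix y < 10 → ∀ v, c v y = un k s false (v y) by
    choose k s e using this
    exact ⟨k, s, e⟩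
  intro y
  by_cases hy : ix y < 10
  swap
  · exact ⟨0, false, fun h => absurd h hy⟩
  obtain ⟨u, -, e⟩ := hc.2 _ (emb_mem.2 ((by decide +kernel : ∀ i < 10, good (bz i (3, 6))) _ hy))
  have e1 := hc.1 (emb (bz (ix y) (3, 6)))
  rw [emb_bz, bz_eq] at e e1
  rw [nm, nm, Finset.sum_eq_single y (fun x _ hx => by
    rw [h0 _ _ _ hx.symm (.inl hy)]; simp [nq]) (by simp), Finset.sum_eq_single y (fun x _ hx => by
    rw [Pi.single_eq_of_ne hx]; simp [nq]) (by simp), ← e, Pi.single_eq_same] at e1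
  replace e1 : nq (u y) = 27 := by
    exact_mod_cast ((nq_em _).symm.trans e1).trans (by simp [nq, em]; norm_num : _ = (27 : ℚ))
  obtain ⟨k, s, e2⟩ : ∃ k s, u y = un k s false (3, 6) := by
    have := (by decide +kernel : ∀ p ∈ Finset.Icc (-6 : ℤ) 6, ∀ q ∈ Finset.Icc (-6 : ℤ) 6,
      nq (p, q) = 27 → ∃ k s, (p, q) = un k s false (3, 6)) (u y).1 ?_ (u y).2 ?_ e1
    · exact this
    all_goals
      unfold nq at e1
      rw [Finset.mem_Icc]
      constructor <;> nlinarith [sq_nonneg (2 * (u y).1 - (u y).2),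
        sq_nonneg (2 * (u y).2 - (u y).1)]
  obtain ⟨j, hj, e3⟩ : ∃ j ∈ J F9, ell j y = 1 := by
    obtain ⟨τ, ζ, e⟩ := (by decide +kernel : ∀ y, ix y < 10 → ∃ τ ζ, lj τ 0 0 ζ y = 1) y hy
    exact ⟨_, jj_mem .., (ell_jj ..).trans e⟩
  have e4 := blk_J hj hj (h j hj) y y (em (3, 6))
  have e5 : c (Pi.single y (em (3, 6))) y = un k s false (em (3, 6)) := by
    rw [← e, ← em_un, ← e2]; rfl
  rw [e3, un_one, un_one, e5, ← un_rot] at e4
  refine ⟨k, s, fun _ v => ?_⟩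
  rw [sum_blk, Finset.sum_eq_single y (fun x _ hx => h0 _ _ _ hx (.inr hy)) (by simp),
    show v y = ((2 * (v y).2 - (v y).1) / 9) • em (3, 6) + (((v y).2 - 2 * (v y).1) / 9) •
      rot (em (3, 6)) by simp [em, rot, Prod.ext_iff]; constructor <;> ring]
  simp only [Pi.single_add, Pi.single_smul, map_add, map_smul, Pi.add_apply, Pi.smul_apply, e4, e5,
    un_add, un_smul]

theorem DX.ext_nm {c : GL12} (hc : c ∈ G0) {k : I → ZMod 3} {s : I → Bool} (h : DX c k s) (v : W) :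
    nq (c v (inr 1)) + nq (c v (inr 2)) = nq (v (inr 1)) + nq (v (inr 2)) := by
  have := hc.1 v
  simp only [nm, Fintype.sum_sum_type, Fin.sum_univ_three, h _ (show ix (inr 0) < 10 by decide),
    fun y => h _ ((by decide +kernel : ∀ y, ix (inl y) < 10) y), nq_un] at this
  linarith

theorem cases10 (y : I) : ix y < 10 ∨ y = inr 1 ∨ y = inr 2 := by revert y; decide +kernel

theorem DX.zero {c : GL12} (hc : c ∈ G0) {k : I → ZMod 3} {s : I → Bool} (h : DX c k s) {v : W}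
    (h1 : v (inr 1) = 0) (h2 : v (inr 2) = 0) (y : I) : c v y = un (k y) (s y) false (v y) := by
  have := h.ext_nm hc v
  rw [h1, h2, show nq (0 : ℚ × ℚ) = 0 by simp [nq], add_zero] at this
  rcases cases10 y with e | rfl | rfl
  · exact h y e v
  · rw [h1, un_zero]
    exact nq_eq_zero (by linarith [nq_nonneg (c v (inr 1)), nq_nonneg (c v (inr 2))])
  · rw [h2, un_zero]
    exact nq_eq_zero (by linarith [nq_nonneg (c v (inr 1)), nq_nonneg (c v (inr 2))])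

theorem DX.gd {c : GL12} (hc : c ∈ G0) {k : I → ZMod 3} {s : I → Bool} (h : DX c k s)
    {u : I → ℤ × ℤ} (hu : good u ∧ u (inr 1) = 0 ∧ u (inr 2) = 0) :
    good fun y => un (k y) (s y) false (u y) := by
  rw [← emb_mem]
  convert hc.2 _ (emb_mem.2 hu.1) using 1
  funext y
  rw [h.zero hc (by simp [emb, hu.2, em]) (by simp [emb, hu.2, em]), emb, em_un, emb]

theorem DX.sign {c : GL12} (hc : c ∈ G0) {k : I → ZMod 3} {s : I → Bool} (h : DX c k s) :
    DX c k fun _ => s (inr 0) := fun y hy v => by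
  rw [h y hy]
  congr 1
  rcases y with y | y
  · refine (by decide +kernel : ∀ (y : F9) k k' s s', (good fun x => if x = inl y then
      un k s false (3, 0) else if x = inr 0 then un k' s' false (-3, 0) else 0) → s = s')
      y (k (inl y)) (k (inr 0)) _ _ ?_
    convert h.gd hc (u := fun x => if x = inl y then (3, 0) else if x = inr 0 then (-3, 0) else 0)
      (by revert y; decide +kernel) with x
    split_ifs with e e'
    · rw [e]
    · rw [e']
    · rw [un_zero]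
  · rw [show y = 0 by revert y; decide]

def c10 (n i : ℕ) : ℤ := ([[0, 1, 1, 1, 2, 2, 1, 2, 2, 1], [0, 0, 0, 1, 1, 1, 2, 2, 2],
  [0, 2, 1, 0, 2, 1, 0, 2, 1], [1, 1, 1, 1, 1, 1, 1, 1, 1]].getD n []).getD i 0

theorem DX.triv {c : GL12} (hc : c ∈ G0) {k : I → ZMod 3} (h : DX c k ff)
    (hk : ∀ i ∈ [0, 1, 2, 3, 4, 9], k (pt i) = 0) : DX c 0 ff := by
  have e : ∀ y, ix y < 10 → k y =
      [0, 0, 0, 0, 0, k (pt 5), k (pt 6), k (pt 7), k (pt 8)].getD (ix y) 0 := fun y hy => by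
    obtain ⟨i, hi, rfl⟩ := exists_pt y
    rw [ix_pt hi] at hy ⊢
    interval_cases i <;> first | rfl | exact hk _ (by simp)
  have h' : DX c (fun y => [0, 0, 0, 0, 0, k (pt 5), k (pt 6), k (pt 7), k (pt 8)].getD (ix y) 0)
    ff := fun y hy v => by rw [h y hy, e y hy]
  obtain ⟨e5, e6, e7, e8⟩ := (by decide +kernel : ∀ a b c d : ZMod 3, (∀ n < 4, good fun y =>
    un ([0, 0, 0, 0, 0, a, b, c, d].getD (ix y) 0) (ff y) false (c10 n (ix y), 2 * c10 n (ix y))) →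
      a = 0 ∧ b = 0 ∧ c = 0 ∧ d = 0) _ _ _ _ fun n hn => h'.gd hc
        (by clear * - hn; revert n; decide +kernel)
  intro y hy v
  rw [h' y hy, e5, e6, e7, e8]
  congr 1
  clear * -
  revert y
  decide +kernel

theorem small {u : I → ℤ × ℤ} (hu : good u) (h : ∀ y, ix y < 10 → u y = 0)
    (hn : nq (u (inr 1)) + nq (u (inr 2)) ≤ 12) : u = 0 := by
  have h' : ∀ i < 10, u (pt i) = 0 := fun i hi => h _ (by rwa [ix_pt (by omega)])
  obtain ⟨h1, -, -, -, -, ⟨b, hb⟩, ⟨d, hd⟩, h9⟩ := hu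
  obtain ⟨c, hc⟩ := h1 0 (by norm_num)
  obtain ⟨a, ha⟩ := h1 10 (by norm_num)
  simp (disch := norm_num) only [h', sm, Prod.fst_zero, Prod.snd_zero, show pt 10 = inr 1 from rfl,
    show pt 11 = inr 2 from rfl] at hb hd h9 hc ha
  obtain ⟨a', ha'⟩ : ∃ a', (u (inr 1)).1 = 3 * a' := ⟨a - c - b, by omega⟩
  obtain ⟨c', hc'⟩ : ∃ c', (u (inr 2)).1 = 3 * c' := ⟨-c - d, by omega⟩
  replace hb : (u (inr 1)).2 = 3 * b := by omega
  replace hd : (u (inr 2)).2 = 3 * d := by omega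
  simp only [nq, ha', hc', hb, hd] at hn h9
  have : a' = 0 ∧ b = 0 ∧ c' = 0 ∧ d = 0 := by
    have q1 := sq_nonneg (2 * a' - b)
    have q2 := sq_nonneg (2 * b - a')
    have q3 := sq_nonneg (2 * c' - d)
    have q4 := sq_nonneg (2 * d - c')
    have : -1 ≤ a' ∧ a' ≤ 1 := by constructor <;> nlinarith [sq_nonneg d]
    have : -1 ≤ b ∧ b ≤ 1 := by constructor <;> nlinarith [sq_nonneg d]
    have : -1 ≤ c' ∧ c' ≤ 1 := by constructor <;> nlinarith [sq_nonneg b]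
    have : -1 ≤ d ∧ d ≤ 1 := by constructor <;> nlinarith [sq_nonneg b]
    clear q1 q2 q3 q4 ha' hc' hb hd hc ha
    casesm* _ ∧ _
    interval_cases a' <;> interval_cases b <;> interval_cases c' <;> interval_cases d <;> omega
  funext y
  rcases cases10 y with e | rfl | rfl
  · exact h y e
  · simp [Prod.ext_iff, *]
  · simp [Prod.ext_iff, *]

def glue (n : ℕ) (y : I) : ℤ × ℤ := ([
  [(3, 0), (1, 2), 0, (2, 1), (2, 1), 0, 0, (2, 1), (2, 1), 0, (1, 2), 0],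
  [0, (1, 2), 0, (2, 1), (2, 1), 0, 0, (2, 1), (2, 1), 0, (-2, -1), 0],
  [(3, 0), (2, 1), (2, 1), 0, 0, (1, 2), (2, 1), 0, (2, 1), 0, 0, (1, 2)],
  [0, (2, 1), (2, 1), 0, 0, (1, 2), (2, 1), 0, (2, 1), 0, 0, (-2, -1)]].getD n []).getD (ix y) 0

theorem DX.eq_one {c : GL12} (hc : c ∈ G0) (h : DX c 0 ff) : c = 1 := by
  have g : ∀ n < 4, c (emb (glue n)) = emb (glue n) := fun n hn => by
    obtain ⟨g1, g2⟩ := (by decide +kernel : ∀ n < 4, good (glue n) ∧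
      nq (glue n (inr 1)) + nq (glue n (inr 2)) = 3) n hn
    obtain ⟨u, hu, e⟩ := Lam.sub_mem (hc.2 _ (emb_mem.2 g1)) (emb_mem.2 g1)
    have e' : ∀ y, em (u y) = c (emb (glue n)) y - em (glue n y) := congrFun e
    have g3 := h.ext_nm hc (emb (glue n))
    have g4 : nq (em (glue n (inr 1))) + nq (em (glue n (inr 2))) = 3 := by
      rw [nq_em, nq_em]; exact_mod_cast g2
    have k : ∀ x x' : ℚ × ℚ, nq (x - x') ≤ 2 * nq x + 2 * nq x' := fun x x' => by
      have := nq_nonneg (x + x')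
      simp only [nq, Prod.fst_add, Prod.snd_add, Prod.fst_sub, Prod.snd_sub] at this ⊢
      linarith
    rw [← sub_eq_zero, ← e, small hu (fun y hy => em_inj (by
      rw [e', h y hy]; simp [ff, un_id, emb, em, Prod.ext_iff])) ?_, map_zero]
    have : nq (em (u (inr 1))) + nq (em (u (inr 2))) ≤ 12 := by
      rw [e', e']
      linarith [k (c (emb (glue n)) (inr 1)) (em (glue n (inr 1))),
        k (c (emb (glue n)) (inr 2)) (em (glue n (inr 2))),
        show nq (emb (glue n) (inr 1)) = nq (em (glue n (inr 1))) from rfl,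
        show nq (emb (glue n) (inr 2)) = nq (em (glue n (inr 2))) from rfl]
    rw [nq_em, nq_em] at this
    exact_mod_cast this
  refine LinearEquiv.ext fun v => ?_
  have := funext (h.zero hc (v := v - (((2 * (v (inr 1)).2 - (v (inr 1)).1) / 3) • emb (glue 0) +
    (((v (inr 1)).2 - 2 * (v (inr 1)).1) / 3) • emb (glue 1) +
    ((2 * (v (inr 2)).2 - (v (inr 2)).1) / 3) • emb (glue 2) +
    (((v (inr 2)).2 - 2 * (v (inr 2)).1) / 3) • emb (glue 3)))
    (by simp [emb, em, glue, ix, Prod.ext_iff]; constructor <;> ring)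
    (by simp [emb, em, glue, ix, Prod.ext_iff]; constructor <;> ring))
  simp (disch := norm_num) only [Pi.zero_apply, ff, un_id, map_sub, map_add, map_smul, g] at this
  exact sub_left_injective this

theorem cen_J {c : GL12} (hc : c ∈ G0) (h : ∀ j ∈ J F9, c * io j = io j * c) :
    ∃ j d d' e, c = io j * Dg d d' e := by
  obtain ⟨k, s, hD⟩ := exists_DX (inv_mem hc) fun j hj => by
    rw [inv_mul_eq_iff_eq_mul, ← mul_assoc, h j hj, mul_inv_cancel_right]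
  obtain ⟨τ, c₀, c₁, ζ, d, d', e⟩ : ∃ τ c₀ c₁ ζ d d', ∀ i ∈ [0, 1, 2, 3, 4, 9],
      lj τ c₀ c₁ ζ (pt i) + (kp d d' (pt i) + k (pt i)) = 0 :=
    (by decide +kernel : ∀ a b c d e f : ZMod 3, ∃ τ ∈ [-f], ∃ ζ ∈ [-a], ∃ c₀ ∈ [a + f - d],
      ∃ c₁ ∈ [b - a - f], ∃ r ∈ [-c - lj τ c₀ c₁ ζ (pt 2)], ∃ r' ∈ [-e - lj τ c₀ c₁ ζ (pt 4)],
      List.Forall₂ (fun i x => lj τ c₀ c₁ ζ (pt i) + (kp (r' - r) (-r - r') (pt i) + x) = 0)
        [0, 1, 2, 3, 4, 9] [a, b, c, d, e, f]) (k (pt 0)) (k (pt 1)) (k (pt 2)) (k (pt 3))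
        (k (pt 4)) (k (pt 9)) |>.elim fun τ ⟨_, ζ, _, c₀, _, c₁, _, r, _, r', _, h⟩ =>
      ⟨τ, c₀, c₁, ζ, _, _, by simpa using h⟩
  have hm := mul_mem (mul_mem (io_mem (jj τ c₀ c₁ ζ)) (Dg_mem d d' (s (inr 0)))) (inv_mem hc)
  refine ⟨_, d, d', _, (mul_inv_eq_one.1 (DX.eq_one hm (DX.triv hm
    (k := fun y => lj τ c₀ c₁ ζ y + (kp d d' y + k y)) (fun y hy v => ?_) e))).symm⟩
  simp only [LinearEquiv.mul_apply, io_J (jj_mem ..), Dg, mon_apply, id, ff,
    hD.sign (inv_mem hc) y hy, un_un, ell_jj]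
  simp

theorem conj_congr {g g' j : P F9} (h : g.a = g'.a) (hj : j ∈ J F9) :
    g * j * g⁻¹ = g' * j * g'⁻¹ := by
  rw [show g * j * g⁻¹ = g' * ((g'⁻¹ * g) * j * (g'⁻¹ * g)⁻¹) * g'⁻¹ by group,
    conj_J hj (by simp [mem_J, h])]

instance decP : DecidableEq (P F9) := fun _ _ => decidable_of_iff' _ P.ext_iff

theorem J_le {N : Subgroup (P F9)} (h : ∀ g, g * jj 1 0 0 0 * g⁻¹ ∈ N) : J F9 ≤ N := fun j hj => by
  have k : ∀ f : ZMod 3 → P F9, f 0 = 1 → f 1 ∈ N → f 2 = f 1 * f 1 → ∀ x, f x ∈ N :=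
    fun f h0 h1 h2 x => by
      rcases z3 x with rfl | rfl | rfl
      · exact h0 ▸ one_mem N
      · exact h1
      · exact h2 ▸ mul_mem h1 h1
  have hA : jj 1 0 0 0 ∈ N := h 1
  have hB : jj 1 0 1 1 ∈ N := by convert h (xe 1 0 0 (by simp)) using 1; decide +kernel
  have hC : jj 1 0 2 1 ∈ N := by convert h (xe 2 0 0 (by simp)) using 1; decide +kernel
  have hD : jj 1 1 0 1 ∈ N := by convert h (xe ⟨0, 2⟩ 0 0 (by simp)) using 1; decide +kernel
  have hZ : jj 0 0 0 2 ∈ N := mul_mem (mul_mem hA hB) hC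
  rw [eq_jj hj, show ∀ τ c₀ c₁ ζ, jj τ c₀ c₁ ζ = jj τ 0 0 0 * jj 0 c₀ 0 0 * jj 0 0 c₁ 0 *
    jj 0 0 0 ζ from fun _ _ _ _ => by apply P.ext <;> simp [jj, QuadraticAlgebra.ext_iff]]
  exact mul_mem (mul_mem (mul_mem (k (jj · 0 0 0) rfl hA rfl _) (k (jj 0 · 0 0) rfl
    (mul_mem (mul_mem hD (inv_mem hA)) hZ) rfl _)) (k (jj 0 0 · 0) rfl
    (mul_mem (mul_mem hB (inv_mem hA)) hZ) rfl _)) (k (jj 0 0 0 ·) rfl (inv_mem hZ) rfl _)

/-- The central endomorphism `z ↦ z + δ t`. -/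
def tz (δ : ZMod 3) : P F9 →* P F9 := MonoidHom.mk' (fun x => x * jj 0 0 0 (δ * x.t.im))
  fun x y => by apply P.ext <;> simp [jj, QuadraticAlgebra.ext_iff]; ring

theorem act_J {α : MulAut (P F9)} (ha : ∀ x, (α x).a = x.a) (ht : ∀ x, (α x).t = x.t) :
    ∃ (s : P F9) (δ : ZMod 3), ∀ j ∈ J F9, α j = s * tz δ j * s⁻¹ := by
  have h0 : α (jj 1 0 0 0) ∈ J F9 := ha _
  obtain ⟨s, hs⟩ : ∃ s : P F9, (s⁻¹ * α (jj 1 0 0 0) * s⁻¹⁻¹).c = 0 :=
    ⟨xe (-⟨0, 1⟩ * (α (jj 1 0 0 0)).c) 0 0 (by simp), by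
      rw [conj_c, ht, ha]; simp [jj, QuadraticAlgebra.ext_iff]⟩
  have h1 : s⁻¹ * α (jj 1 0 0 0) * s⁻¹⁻¹ ∈ J F9 := (conj_a ..).trans h0
  have h2 := eq_jj h1
  rw [hs, conj_t, ht] at h2
  generalize (s⁻¹ * α (jj 1 0 0 0) * s⁻¹⁻¹).z.im = δ at h2
  replace h2 : α (jj 1 0 0 0) = s * tz δ (jj 1 0 0 0) * s⁻¹ := by
    rw [show tz δ (jj 1 0 0 0) = _ from Eq.trans (by
      apply P.ext <;> simp [tz, jj, QuadraticAlgebra.ext_iff]) h2.symm]
    group
  refine ⟨s, δ, J_le (N := α.toMonoidHom.eqLocus ((MulAut.conj s).toMonoidHom.comp (tz δ)))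
    fun g => ?_⟩
  show α _ = s * tz δ _ * s⁻¹
  simp only [map_mul, map_inv, h2]
  rw [show ∀ x y : P F9, x * (s * y * s⁻¹) * x⁻¹ = x * s * y * (x * s)⁻¹ by intros; group,
    conj_congr (g' := s * tz δ g) (by simp [ha, tz, jj, add_comm]) (by simp [mem_J, tz, jj])]
  group

theorem norm_S {g : GL12} (hg : g ∈ G0) (α : MulAut (P F9)) (h : ∀ y, g * io y = io (α y) * g) :
    ∃ s, ∃ o < 32, ∃ d d' e, g = io s * Dg d d' e * om o := by
  obtain ⟨l, m, σ, e⟩ := Nr.exists_dg α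
  obtain ⟨o, ho, e'⟩ := exists_dgO l m σ
  obtain ⟨s, δ, hs⟩ := act_J (α := α * (dgO o)⁻¹) (fun x => by
    rw [MulAut.mul_apply, (e _).1, ← dg_a l m, e', MulAut.apply_inv_self]) fun x => by
    rw [MulAut.mul_apply, (e _).2, ← dg_t l m, e', MulAut.apply_inv_self]
  have hc : ∀ j ∈ J F9, (io s)⁻¹ * g * (om o)⁻¹ * io j = io (tz δ j) * ((io s)⁻¹ * g * (om o)⁻¹) :=
    fun j hj => by
      have h1 := om_io ho ((dgO o)⁻¹ j)
      have h2 := h ((dgO o)⁻¹ j)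
      rw [MulAut.apply_inv_self] at h1
      rw [← MulAut.mul_apply, hs j hj, map_mul, map_mul, map_inv] at h2
      rw [mul_assoc _ _ (io j), ← mul_inv_cancel_right (io j) (om o), ← h1, ← mul_assoc _ (_ * _),
        inv_mul_cancel_left, ← mul_assoc, mul_assoc _ g, h2]
      group
  obtain ⟨x, u, hu⟩ := exists_src ((io s)⁻¹ * g * (om o)⁻¹) (inl 0)
  obtain rfl : δ = 0 := (by decide +kernel : ∀ x δ, (∀ τ c₀ c₁ ζ, lj τ c₀ c₁ (ζ + δ * τ) (inl 0) =
      0 ↔ lj τ c₀ c₁ ζ x = 0) → δ = 0) x δ fun τ c₀ c₁ ζ => by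
    rw [← ell_jj, ← ell_jj]
    refine supp (jj_mem ..) (jj_mem ..) ((hc _ (jj_mem ..)).trans ?_) hu
    congr 2
    apply P.ext <;> simp [tz, jj, QuadraticAlgebra.ext_iff]
  obtain ⟨j, d, d', ε, hj⟩ := cen_J (mul_mem (mul_mem (inv_mem (io_mem s)) hg) (inv_mem (om_mem ho)))
    fun j hj => (hc j hj).trans (by rw [show tz 0 j = j by simp [tz]; rfl])
  exact ⟨s * j, o, ho, d, d', ε, by rw [map_mul, mul_assoc (io s), ← hj]; group⟩

end Cfsg.Agent.U4.Le
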