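import Cfsg.Agent.Lib.U4.Lee5
import Cfsg.Agent.Lib.U5.Mat

/-!
Row LEECH of docs/U4_PLAN.md: the thirteen models.
-/

set_option autoImplicit false
set_option maxRecDepth 100000
set_option synthInstance.maxSize 2000

namespace Cfsg.Agent.U4.Le

open Cfsg.Agent.Fus Cfsg.Agent.Fus2 Cfsg.Agent.PC Cfsg.Agent.U4.N9 Cfsg.Agent.U4.L1 Sum Subgroup

theorem blk_em (M : ℕ → ℕ → ℤ) (i j : ℕ) (x : ℤ × ℤ) : blk M i j (em x) = em (blk M i j x) := by
  simp [blk, em]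

/-- The dense element. -/
noncomputable def xh {j : ℕ} (hj : j ∈ xL) : GL12 :=
  mkG (linH (xM j)) (nm_linH (allL_iff.1 orth_xM j hj))

theorem xh_apply {j : ℕ} (hj : j ∈ xL) (v : W) : xh hj v = (1 / 3 : ℚ) • linF (xM j) v := rfl

theorem xh_mem {j : ℕ} (hj : j ∈ xL) : xh hj ∈ G0 := 
  lin_mem (allL_iff.1 orth_xM j hj) (allL_iff.1 mem_xM j hj)

theorem xh_io {j : ℕ} (hj : j ∈ xL) {g φ : P F9} (h : cjOk (xM j) g φ = true) :
    xh hj * io g = io φ * xh hj := ext_basis' fun i hi x hx => by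
  obtain ⟨y', e⟩ := sh_surj g.a (pt i)
  obtain rfl : ix (sh g.a y') = i := by rw [e, ix_pt hi]
  funext y
  have := of_decide_eq_true (allL_iff.1 (allN_iff.1 (allN_iff.1 h _ (ix_lt y)) _ (ix_lt y')) x hx)
  rw [pt_ix, pt_ix] at this
  rw [emb_bz, bz_eq, LinearEquiv.mul_apply, io_single, LinearEquiv.mul_apply, io_apply, xh_apply,
    xh_apply, Pi.smul_apply, Pi.smul_apply, ← bz_eq, ← bz_eq, linF_bz _ (ix_lt _),
    linF_bz _ (ix_lt _), un_smul, ← em_un, blk_em, blk_em, ← em_un, this]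

theorem xh_Q {j : ℕ} (hj : j ∈ xL) : ∀ y ∈ Q F9, ∃ y' ∈ Q F9, xh hj * io y = io y' * xh hj ∧
    pr y' = Xf (pts j) (pr y) := by
  have ha : ∀ u v, Xf (pts j) (u + v) = Xf (pts j) u + Xf (pts j) v := fun u v => by
    simp only [Xf, b3_add, add_smul]; abel
  let N : Subgroup (P F9) :=
    { carrier := {y | y ∈ Q F9 ∧ ∃ y' ∈ Q F9, xh hj * io y = io y' * xh hj ∧
        pr y' = Xf (pts j) (pr y)}
      one_mem' := ⟨one_mem _, 1, one_mem _, by simp, by simp [Xf, pr, b3]⟩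
      mul_mem' := by
        rintro a b ⟨h1, a', h2, h3, h4⟩ ⟨g1, b', g2, g3, g4⟩
        exact ⟨mul_mem h1 g1, a' * b', mul_mem h2 g2, by
          rw [map_mul, map_mul, ← mul_assoc, h3, mul_assoc, g3, mul_assoc], by
          rw [pr_mul g1, pr_mul g2, ha, h4, g4]⟩
      inv_mem' := by
        rintro a ⟨h1, a', h2, h3, h4⟩
        refine ⟨inv_mem h1, a'⁻¹, inv_mem h2, by
          rw [map_inv, map_inv, mul_inv_eq_iff_eq_mul, mul_assoc, h3, inv_mul_cancel_left], ?_⟩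
        rw [← add_left_inj (pr a'), ← pr_mul h2, h4, ← ha, ← pr_mul h1]
        simp [Xf, pr, b3] }
  have := allL_iff.1 cj_xM j hj
  rw [Bool.and_eq_true, allL_iff] at this
  exact fun y hy => (Q_le (N := N) (fun u hu => ⟨rfl, _, rfl, xh_io hj (this.2 u hu), dv_XN ..⟩)
    ⟨rfl, _, rfl, xh_io hj this.1, by simp [Xf, pr, b3, jj]⟩ hy).2

def gv (i k : ZMod 3) (y : I) : ℤ × ℤ :=
  if y = inr 1 then rt i (3, 0) else if y = inr 2 then rt k (-3, 0) else 0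

def w₁ (n : ℕ) : I → ℤ × ℤ := gv ([0, 1, 1, 1, 1, 1, 1].getD n 0) ([0, 1, 1, 2, 2, 0, 0, 1, 1].getD n 0)
def w₂ (n : ℕ) : I → ℤ × ℤ := gv ([0, 2, 2, 2, 2, 2, 2, 0, 0, 0, 1, 0, 2].getD n 0)
  ([0, 2, 2, 1, 1, 0, 0, 2, 2, 1, 0, 2].getD n 0)

/-- The stabiliser condition. -/
def St {α β : Type} (r : α → β → Prop) (n : ℕ) (a a' : α) (b b' : β) : Prop :=
  r a b ∧ r a' b' ∨ n ∈ [2, 4, 6, 8] ∧ r a b' ∧ r a' b

instance {α β : Type} (r : α → β → Prop) [∀ a b, Decidable (r a b)] (n : ℕ) (a a' : α) (b b' : β) :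
    Decidable (St r n a a' b b') := by unfold St; infer_instance

theorem St.imp {α β α' β' : Type} {r : α → β → Prop} {r' : α' → β' → Prop} {n : ℕ} {a a' : α}
    {b b' : β} (h : St r n a a' b b') (f : α → α') (g : β → β')
    (H : ∀ x y, r x y → r' (f x) (g y)) : St r' n (f a) (f a') (g b) (g b') :=
  Or.imp (And.imp (H _ _) (H _ _)) (And.imp_right (And.imp (H _ _) (H _ _))) h

/-- The `n`-th model. -/
def Gn (n : ℕ) : Subgroup GL12 where
  carrier := {g | g ∈ G0 ∧ St (fun u u' => g (emb u) = emb u') n (w₁ n) (w₂ n) (w₁ n) (w₂ n)}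
  one_mem' := ⟨one_mem _, .inl ⟨rfl, rfl⟩⟩
  mul_mem' := by
    rintro a b ⟨h, h'⟩ ⟨g, g'⟩
    refine ⟨mul_mem h g, ?_⟩
    simp only [St, LinearEquiv.mul_apply] at *
    rcases h' with ⟨h1, h2⟩ | ⟨h0, h1, h2⟩ <;> rcases g' with ⟨g1, g2⟩ | ⟨g0, g1, g2⟩ <;>
      simp only [*, and_self, true_or, or_true]
  inv_mem' := by
    rintro a ⟨h, h'⟩
    have e : ∀ {v w}, a v = w → a⁻¹ w = v := fun h => by simp [← h]
    exact ⟨inv_mem h, Or.imp (And.imp e e) (fun h => ⟨h.1, e h.2.2, e h.2.1⟩) h'⟩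

instance (n : ℕ) : Finite (Gn n) := Finite.of_injective _ (inclusion_injective
  (show Gn n ≤ G0 from fun _ h => h.1))

def EqI (u u' : I → ℤ × ℤ) : Prop := ∀ i < 12, u (pt i) = u' (pt i)

instance (u u' : I → ℤ × ℤ) : Decidable (EqI u u') := by unfold EqI; infer_instance

theorem EqI.eq {u u' : I → ℤ × ℤ} (h : EqI u u') : u = u' := funext fun y => by
  rw [← pt_ix y]; exact h _ (ix_lt y)

theorem mon_Gn {n : ℕ} {π : I → I} {h : Function.Surjective π} {k : I → ZMod 3} {s b : I → Bool}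
    (hm : mon π h k s b ∈ G0)
    (h' : St (fun u u' => EqI (monF π k s b u) u') n (w₁ n) (w₂ n) (w₁ n) (w₂ n)) :
    mon π h k s b ∈ Gn n := ⟨hm, h'.imp id id fun _ _ e => by rw [id, mon_emb, e.eq, id]⟩

theorem io_gv (s : P F9) (i k : ZMod 3) : io s (emb (gv i k)) = emb (gv i k) := funext fun y => by
  rw [io_apply]
  rcases y with y | y
  · simp [emb, gv, sh, em, show ((0 : ℚ), (0 : ℚ)) = 0 from rfl, un_zero]
  · fin_cases y <;> simp [emb, gv, sh, ell, el, un_id]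
    simp [em, show ((0 : ℚ), (0 : ℚ)) = 0 from rfl, un_zero]

theorem io_Gn (n : ℕ) (s : P F9) : io s ∈ Gn n := ⟨io_mem s, .inl ⟨io_gv .., io_gv ..⟩⟩

theorem wJ_Gn {n : ℕ} (hn : n < 13) : wJ ∈ Gn n :=
  mon_Gn wJ_mem (by revert n; decide +kernel)

theorem om_Gn {n o : ℕ} (hn : n < 13) (ho : o < 32) (h : (HY n).testBit o = true) : om o ∈ Gn n :=
  mon_Gn (om_mem ho) (by revert o; revert n; decide +kernel)

theorem jx_mem : ∀ {n}, n < 13 → jx n ∈ xL := by decide +kernel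

theorem xh_Gn {n : ℕ} (hn : n < 13) : xh (jx_mem hn) ∈ Gn n := by
  have e : ∀ u, EqI (linF (xM (jx n)) u) (3 • u) → xh (jx_mem hn) (emb u) = emb u := fun u h => by
    rw [xh_apply, linF_emb, h.eq, show ∀ u, emb (3 • u) = 3 • emb u from map_nsmul embH 3,
      ← Nat.cast_smul_eq_nsmul ℚ, smul_smul]
    simp
  exact ⟨xh_mem _, .inl ⟨e _ (by clear e; revert n; decide +kernel),
    e _ (by clear e; revert n; decide +kernel)⟩⟩

def EqX (u u' : I → ℤ × ℤ) : Prop := u (inr 1) = u' (inr 1) ∧ u (inr 2) = u' (inr 2)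

instance (u u' : I → ℤ × ℤ) : Decidable (EqX u u') := by unfold EqX; infer_instance

theorem norm_Gn {n : ℕ} (hn : n < 13) {g : GL12} (hg : g ∈ Gn n) (α : MulAut (P F9))
    (h : ∀ y, g * io y = io (α y) * g) :
    ∃ s, ∃ o < 32, (HY n).testBit o = true ∧ g = io s * om o := by
  obtain ⟨s, o, ho, d, d', e, rfl⟩ := norm_S hg.1 α h
  have key : allN (fun n => allN (fun o => decide (∀ d d' e, St (fun u u' : I → ℤ × ℤ => EqX
      (monF id (kp d d') (fun _ => e) ff (monF (piO o) 0 (fun _ => swp o) (bO o) u)) u') n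
      (w₁ n) (w₂ n) (w₁ n) (w₂ n) → d = 0 ∧ d' = 0 ∧ e = false ∧ (HY n).testBit o = true)) 32) 13 =
      true := by decide +kernel
  obtain ⟨rfl, rfl, rfl, h'⟩ := of_decide_eq_true (allN_iff.1 (allN_iff.1 key n hn) o ho) d d' e
    (hg.2.imp id id fun u u' e => by
      rw [LinearEquiv.mul_apply, LinearEquiv.mul_apply, om, mon_emb, Dg, mon_emb] at e
      exact ⟨em_inj ((un_id _).symm.trans (congrFun e (inr 1))),
        em_inj ((un_id _).symm.trans (congrFun e (inr 2)))⟩)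
  exact ⟨s, o, ho, h', by
    rw [show Dg 0 0 false = 1 from LinearEquiv.ext fun v => funext fun y => by
      simp [Dg, mon_apply, kp, ff, un_id], mul_one]⟩

theorem uniq {o o' : ℕ} (ho : o < 32) (ho' : o' < 32) {s : P F9}
    (h : ∀ y, dgO o y = s * dgO o' y * s⁻¹) : o = o' := by
  have ha : ∀ a, lO o * sO o a = lO o' * sO o' a := fun a => by
    simpa [dgO_a] using congrArg P.a (h (xe a 0 0 (by simp)))
  refine of_decide_eq_true (allN_iff.1 (allN_iff.1 (show allN (fun o => allN (fun o' => decide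
    (lO o * sO o 1 = lO o' * sO o' 1 → lO o * sO o ⟨0, 1⟩ = lO o' * sO o' ⟨0, 1⟩ →
      mO o * sO o ⟨0, 1⟩ = mO o' * sO o' ⟨0, 1⟩ → o = o')) 32) 32 = true by decide +kernel) o ho)
    o' ho') (ha _) (ha _) ?_
  simpa [dgO_t, jj] using congrArg P.t (h (jj 1 0 0 0))

theorem dgO_zero : dgO 0 = 1 := (dg_eq (by decide +kernel) (by decide +kernel) fun _ => rfl).symm.trans
  dg_one

theorem exists_aut {g : GL12} {f : P F9 → P F9} (h : ∀ y, io (f y) = g * io y * g⁻¹) :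
    ∃ α : MulAut (P F9), (∀ y, α y = f y) ∧ ∀ y, g * io y = io (α y) * g :=
  ⟨MulEquiv.ofBijective (MonoidHom.mk' f fun x y => io_inj (by simp only [map_mul, h]; group))
    (Finite.injective_iff_bijective.1 fun x y e => io_inj (by
      simpa [h] using congrArg io (show f x = f y from e))), fun _ => rfl, fun y => by
    simp [h]⟩

theorem conj_om {o : ℕ} (ho : o < 32) (s y : P F9) :
    io s * om o * io y * (io s * om o)⁻¹ = io (s * dgO o y * s⁻¹) := by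
  rw [mul_assoc (io s), om_io ho, map_mul, map_mul, map_inv]
  group

/-- The embedding of `S` in the model. -/
noncomputable def ioG (n : ℕ) : P F9 →* Gn n := io.codRestrict _ (io_Gn n)

theorem pow_eight {o : ℕ} (ho : o < 32) : dgO o ^ 8 = 1 := by
  rw [show 8 = 2 * 2 * 2 from rfl, pow_mul, pow_mul, sq, sq, sq, dgO_mul ho ho,
    dgO_mul (mulO_lt ..) (mulO_lt ..), dgO_mul (mulO_lt ..) (mulO_lt ..), ← dgO_zero]
  congr 1
  revert o
  decide +kernel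

theorem syl_Gn {n : ℕ} (hn : n < 13) : ∃ T : Sylow 3 (Gn n), (T : Subgroup (Gn n)) = (ioG n).range :=
  U5.sylow_of_norm ((pg F9 3).of_surjective _ (ioG n).rangeRestrict_surjective) fun g hg k hk => by
    choose f hf using fun y => (mem_normalizer_iff.1 hg _).1 ⟨y, rfl⟩
    obtain ⟨α, -, e⟩ := exists_aut (g := g.1) fun y => congrArg Subtype.val (hf y)
    obtain ⟨s, o, ho, h, e⟩ := norm_Gn hn g.2 α e
    have h1 : ∀ m y, om o ^ m * io y = io ((dgO o ^ m) y) * om o ^ m := fun m y => by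
      induction m with
      | zero => simp
      | succ m ih => rw [pow_succ', mul_assoc, ih, ← mul_assoc, om_io ho, mul_assoc, pow_succ']; rfl
    have h2 : ∀ m, ∃ x, g.1 ^ m = io x * om o ^ m := fun m => by
      induction m with
      | zero => exact ⟨1, by simp⟩
      | succ m ih => exact ih.elim fun x hx => ⟨x * (dgO o ^ m) s, by
          rw [pow_succ, hx, e, mul_assoc, ← mul_assoc (_ ^ _), h1, map_mul, pow_succ]; group⟩
    obtain ⟨s', o', ho', -, e'⟩ := norm_Gn hn (pow_mem (om_Gn hn ho h) 8) _ (h1 8)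
    obtain rfl : 0 = o' := uniq (by norm_num) ho' (s := s') fun y => io_inj (by
      rw [← conj_om ho', ← e', h1, pow_eight ho, dgO_zero, mul_inv_cancel_right])
    obtain ⟨x, hx⟩ := h2 8
    obtain ⟨m, hm⟩ := exists_pow_eq_self_of_coprime (x := g) (n := 8)
      (((by norm_num : Nat.Coprime 8 3).pow_right k).coprime_dvd_right
        (orderOf_dvd_of_pow_eq_one hk))
    exact hm ▸ pow_mem (MonoidHom.mem_range.2 ⟨x * s', Subtype.ext (by
      rw [coe_pow, hx, e', om_zero, mul_one, ← map_mul]; rfl)⟩) m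

theorem std_J {g : GL12} {f : P F9 → P F9} (hf : ∀ j ∈ J F9, f j ∈ J F9)
    (hs : ∀ j' ∈ J F9, ∃ j ∈ J F9, f j = j') (h : ∀ j ∈ J F9, g * io j = io (f j) * g) :
    f (jj 0 0 0 1) ∈ Z F9 ∨ ∃ s, (s * f (jj 0 0 0 1) * s⁻¹).c = 0 ∧
      (s * f (jj 0 0 0 1) * s⁻¹).z = 0 := by
  have h0 := hf _ (jj_mem 0 0 0 1)
  have key : ∀ y y', y ≠ y' → ix y < 10 → ix y' < 10 → ell (f (jj 0 0 0 1)) y = 0 →
      ell (f (jj 0 0 0 1)) y' ≠ 0 := fun y y' hy h1 h2 e e' => by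
    obtain ⟨x, u, hu⟩ := exists_src g y
    obtain ⟨x', u', hu'⟩ := exists_src g y'
    obtain ⟨_, hj', a1, a2⟩ := sep hy h2
    obtain ⟨j, hj, rfl⟩ := hs _ hj'
    obtain ⟨_, hk', b1, b2⟩ := sep hy.symm h1
    obtain ⟨k, hk, rfl⟩ := hs _ hk'
    rw [Ne, supp hj (hf _ hj) (h _ hj) hu'] at a1
    rw [supp hj (hf _ hj) (h _ hj) hu] at a2
    rw [Ne, supp hk (hf _ hk) (h _ hk) hu] at b1
    rw [supp (jj_mem ..) h0 (h _ (jj_mem ..)) hu, ell_jj] at e
    rw [supp (jj_mem ..) h0 (h _ (jj_mem ..)) hu', ell_jj] at e'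
    have q : ∀ x (j : P F9), lj 0 0 0 1 x = 0 → ell j x ≠ 0 → x = inr 0 := by
      rintro (x | x) j e e'
      · simp [lj] at e
      · by_contra h
        simp [ell, el, show x ≠ 0 from fun e => h (e ▸ rfl)] at e'
    exact a1 (by rw [q _ _ e' a1, ← q _ _ e b1, a2])
  rw [eq_jj h0] at key ⊢
  simp only [ell_jj] at key
  exact ((by decide +kernel : ∀ τ c₀ c₁ ζ, (∀ y y', y ≠ y' → ix y < 10 → ix y' < 10 →
    lj τ c₀ c₁ ζ y = 0 → lj τ c₀ c₁ ζ y' ≠ 0) → (τ = 0 ∧ c₀ = 0 ∧ c₁ = 0) ∨ ∃ a : F9,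
      (xe a 0 0 (by simp) * jj τ c₀ c₁ ζ * (xe a 0 0 (by simp))⁻¹).c = 0 ∧
      (xe a 0 0 (by simp) * jj τ c₀ c₁ ζ * (xe a 0 0 (by simp))⁻¹).z = 0) _ _ _ _ key).imp
    (fun ⟨h1, h2, h3⟩ => by rw [h1, h2, h3]; exact ⟨rfl, rfl, rfl⟩) fun ⟨_, h⟩ => ⟨_, h⟩

theorem leech : LeechStmt := fun n hn => by
  obtain ⟨T, hT⟩ := syl_Gn hn
  have hι : Function.Injective (ioG n) := fun x y e => io_inj (congrArg Subtype.val e)
  obtain ⟨b, hb⟩ := exists_gIso (homOn_hom ⊤ (ioG n)) (fun _ _ _ _ e => hι e) (S' := T)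
    (by rw [img_hom, hT, MonoidHom.range_eq_map])
  obtain ⟨E, hE⟩ := hb.symm.exists_isoM (groupFusionSystem (T : Subgroup (Gn n)))
  have hI := hE.symm
  have key : ∀ Q f, M E Q f ↔ ∃ g ∈ Gn n, ∀ x ∈ Q, g * io x = io (f x) * g := fun Q f => by
    rw [Asch.M_iff_of_realized hI.isRealizedBy.1]
    simp only [le_top, mem_top, implies_true, true_and, hI.hom.fn_toHom (mem_top _), Subtype.exists,
      Subtype.ext_iff, eq_mul_inv_iff_mul_eq]
    exact exists_congr fun g => ⟨fun ⟨h, e⟩ => ⟨h, fun x hx => (e x hx).symm⟩,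
      fun ⟨h, e⟩ => ⟨h, fun x hx => (e x hx).symm⟩⟩
  have top : ∀ f, M E ⊤ f → ∃ s, ∃ o < 32, (HY n).testBit o = true ∧
      ∀ y, f y = s * dgO o y * s⁻¹ := fun f hf => by
    obtain ⟨g, hg, e⟩ := (key _ _).1 hf
    replace e : ∀ y, io (f y) = g * io y * g⁻¹ := fun y => by
      rw [e y trivial, mul_inv_cancel_right]
    obtain ⟨α, -, e'⟩ := exists_aut e
    obtain ⟨s, o, ho, h, rfl⟩ := norm_Gn hn hg α e'
    exact ⟨s, o, ho, h, fun y => io_inj (by rw [e, conj_om ho])⟩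
  have hY : ∀ o < 32, (HY n).testBit o = true → M E ⊤ (dgO o) := fun o ho h =>
    (key _ _).2 ⟨_, om_Gn hn ho h, fun x _ => om_io ho x⟩
  refine ⟨E, hE.saturated T.isPGroup' (group_isSaturated T),
    ⟨_, _, inferInstance, _, hI.isRealizedBy.1, T, hI.isRealizedBy.2.symm⟩, fun f hf => ?_,
    ⟨fun μ => ?_, ⟨fun x => jj x.z.im x.c.re (-x.c.im) x.t.im, ⟨(key _ _).2 ⟨_, wJ_Gn hn,
      fun x hx => ?_⟩, fun _ _ => jj_mem ..⟩, fun x hx => ?_⟩, fun f hf => ?_⟩, ?_,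
    fun o ho => ⟨fun h => ?_, hY o ho⟩⟩
  · obtain ⟨s, o, -, -, e⟩ := top f hf
    exact ⟨s, _, _, _, e⟩
  · obtain ⟨o, ho, e⟩ := hh_cases μ
    obtain ⟨h1, h2⟩ := (by decide +kernel : ∀ n < 13, ∀ o ∈ [0, 1, 10, 13], o < 32 ∧
      (HY n).testBit o = true) n hn o ho
    exact e ▸ hY o h1 h2
  · rw [← wJ_io, ← eq_jj hx]
  · rw [eq_jj hx]
    exact ⟨rfl, by simp [jj, QuadraticAlgebra.ext_iff], rfl⟩
  · obtain ⟨g, -, e⟩ := (key _ _).1 hf.1
    have hZ : ∀ N : Subgroup (P F9), f (jj 0 0 0 1) ∈ N → ∀ x ∈ Z F9, f x ∈ N := fun N h x hx => by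
      rw [eq_jj hx.1, hx.2.1, hx.2.2]
      rcases z3 x.z.im with e | e | e <;> rw [e]
      · exact (show f 1 = 1 from hf.1.homOn.map_one).symm ▸ one_mem N
      · exact h
      · exact (hf.1.map_mul (jj_mem 0 0 0 1) (jj_mem 0 0 0 1)).symm ▸ mul_mem h h
    refine (std_J hf.2 (fun _ => hf.surj le_rfl hf.2) e).imp (hZ _) fun ⟨s, h⟩ => ⟨s, fun x hx => ?_⟩
    refine (hZ (Subgroup.comap (MulAut.conj s).toMonoidHom
      { carrier := {x | x.a = 0 ∧ x.c = 0 ∧ x.z = 0}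
        one_mem' := ⟨rfl, rfl, rfl⟩
        mul_mem' := fun ha hb => by simp_all
        inv_mem' := fun ha => by simp_all }) ⟨(conj_a ..).trans (hf.2 _ (jj_mem ..)), h⟩ x hx).2
  · choose! f h1 h2 h3 using xh_Q (jx_mem hn)
    exact ⟨f, ⟨(key _ _).2 ⟨_, xh_Gn hn, h2⟩, h1⟩, h3⟩
  · obtain ⟨s, o', ho', h', e⟩ := top _ h
    exact uniq ho ho' e ▸ h'

end Cfsg.Agent.U4.Le
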