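import Cfsg.Agent.Lib.U4.Basic
import Cfsg.Agent.Lib.U5.Mat

/-! The Sylow subgroup of `SU₄(q)` as a group of matrices. -/

set_option autoImplicit false
set_option linter.unusedSectionVars false

namespace Cfsg.Agent.U4.Md

open Subgroup Matrix
open Cfsg.Agent.U5 (Uf map_star' exists_star_ne)

universe v

theorem forall4 {p : Fin 4 → Prop} : (∀ i, p i) ↔ p 0 ∧ p 1 ∧ p 2 ∧ p 3 :=
  ⟨fun h => ⟨h _, h _, h _, h _⟩, fun h i => by
    fin_cases i
    exacts [h.1, h.2.1, h.2.2.1, h.2.2.2]⟩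

section Star

variable {K : Type v} [Field K] [StarRing K]

theorem mul4 (A B : Matrix (Fin 4) (Fin 4) K) (i j : Fin 4) : (A * B) i j =
    A i 0 * B 0 j + A i 1 * B 1 j + A i 2 * B 2 j + A i 3 * B 3 j := by
  rw [mul_apply, Fin.sum_univ_four]

/-- The antidiagonal matrix. -/
def JJ (K : Type v) [Field K] : Matrix (Fin 4) (Fin 4) K :=
  !![0, 0, 0, 1; 0, 0, 1, 0; 0, 1, 0, 0; 1, 0, 0, 0]

/-- Unitary similitudes for the antidiagonal form. -/
def IsU (r : K) (A : Matrix (Fin 4) (Fin 4) K) : Prop := A * JJ K * Aᴴ = r • JJ K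

theorem IsU.mul {r s : K} {A B : Matrix (Fin 4) (Fin 4) K} (hA : IsU r A) (hB : IsU s B) :
    IsU (r * s) (A * B) := by
  rw [IsU, conjTranspose_mul, show A * B * JJ K * (Bᴴ * Aᴴ) = A * (B * JJ K * Bᴴ) * Aᴴ by
    simp only [mul_assoc], hB, mul_smul_comm, smul_mul_assoc, hA, smul_smul, mul_comm]

theorem isU_one : IsU 1 (1 : Matrix (Fin 4) (Fin 4) K) := by simp [IsU]

theorem IsU.row {r : K} {A : Matrix (Fin 4) (Fin 4) K} (h : IsU r A) (i j : Fin 4) :
    A i 0 * star (A j 3) + A i 1 * star (A j 2) + A i 2 * star (A j 1) + A i 3 * star (A j 0) =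
      r * JJ K i j := by
  rw [show r * JJ K i j = (r • JJ K) i j from rfl, ← h]
  simp [mul4, JJ]
  ring

theorem isU_of {r : K} {A : Matrix (Fin 4) (Fin 4) K} (h : ∀ i j, A i 0 * star (A j 3) +
    A i 1 * star (A j 2) + A i 2 * star (A j 1) + A i 3 * star (A j 0) = r * JJ K i j) :
    IsU r A := by
  ext i j
  rw [Matrix.smul_apply, smul_eq_mul, ← h]
  simp [mul4, JJ]
  ring

theorem JJ_sq : JJ K * JJ K = 1 := by
  ext i j
  fin_cases i <;> fin_cases j <;> simp [JJ, mul4]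

/-- The matrix of an element of `P K`. -/
def mat (x : P K) : Matrix (Fin 4) (Fin 4) K :=
  !![1, x.a, x.c, x.z; 0, 1, x.t, -(star x.c + star x.a * x.t); 0, 0, 1, -star x.a; 0, 0, 0, 1]

theorem mat_one : mat (1 : P K) = 1 := by
  ext i j
  fin_cases i <;> fin_cases j <;> simp [mat]

theorem mat_mul (x y : P K) : mat (x * y) = mat x * mat y := by
  rw [← Matrix.ext_iff]
  simp only [forall4, mul4, mat, of_apply, cons_val, P.mul_a, P.mul_c, P.mul_t,
    P.mul_z, star_add, star_sub, star_mul', star_star, P.star_t]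
  repeat' apply And.intro
  all_goals ring

/-- The matrix as an element of the general linear group. -/
def gl : P K →* GL (Fin 4) K :=
  MonoidHom.toHomUnits (⟨⟨mat, mat_one⟩, mat_mul⟩ : P K →* Matrix (Fin 4) (Fin 4) K)

@[simp] theorem gl_val (x : P K) : (gl x : Matrix (Fin 4) (Fin 4) K) = mat x := rfl

theorem mat_inj : Function.Injective (mat : P K → _) := fun x y h => by
  have e := fun i j => congrFun (congrFun h i) j
  exact P.ext (e 0 1) (e 0 2) (e 1 2) (e 0 3)

theorem gl_inj : Function.Injective (gl : P K → _) := fun _ _ h => mat_inj (congrArg Units.val h)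

theorem isU_mat (x : P K) : IsU 1 (mat x) := isU_of (by
  simp only [forall4, mat, JJ, of_apply, cons_val, star_add, star_sub, star_mul', star_star,
    star_neg, star_one, star_zero, P.star_t, P.star_z]
  repeat' apply And.intro
  all_goals ring)

theorem mat_tri (x : P K) : ∀ i j, j < i → mat x i j = 0 := fun i j h => by
  fin_cases i <;> fin_cases j <;> simp [mat] at h ⊢

theorem det_mat (x : P K) : (mat x).det = 1 := by
  rw [det_of_isUpperTriangular fun i j hij => mat_tri x i j hij, Fin.prod_univ_four]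
  simp [mat]

/-- The diagonal matrix inducing `dg l m`. -/
def Dg (ν l m : K) : Matrix (Fin 4) (Fin 4) K := diagonal ![ν * (l * m), ν * m, ν, ν * (star l)⁻¹]

theorem isU_Dg (ν : K) {l m : K} (hl : l ≠ 0) (hm : star m = m) :
    IsU (ν * star ν * m) (Dg ν l m) := by
  have hl' := star_ne_zero.2 hl
  refine isU_of fun i j => ?_
  fin_cases i <;> fin_cases j <;> simp [Dg, JJ, hm] <;> field_simp

theorem det_Dg (ν : K) {l : K} (hl : l ≠ 0) (m : K) :
    (Dg ν l m).det * star l = ν ^ 4 * (l * m ^ 2) := by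
  have hl' := star_ne_zero.2 hl
  simp only [Dg, det_diagonal, Fin.prod_univ_four, Matrix.cons_val]
  field_simp

theorem tri_of {A : Matrix (Fin 4) (Fin 4) K} {y y' : P K} (ha : y.a = 1) (ht : y.t ≠ 0)
    (h : A * mat y = mat y' * A) : ∀ i j, j < i → A i j = 0 := by
  have e := fun i j => congrFun (congrFun h i) j
  simp only [mul4] at e
  have e31 := e 3 1
  have e32 := e 3 2
  have e33 := e 3 3
  simp [mat, ha, ht] at e31
  simp [mat, ha, ht, e31] at e32
  simp [mat, ha, ht, e31, e32] at e33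
  have e21 := e 2 1
  have e22 := e 2 2
  simp [mat, ha, ht, e32] at e21
  simp [mat, ha, ht, e33, e21] at e22
  have e11 := e 1 1
  simp [mat, ha, ht, e32, e22] at e11
  intro i j hij
  fin_cases i <;> fin_cases j <;> simp at hij ⊢ <;> assumption

theorem exists_mat {U : Matrix (Fin 4) (Fin 4) K} (hU : IsU 1 U) (h : ∀ i j, j < i → U i j = 0)
    (h1 : ∀ i, U i i = 1) : ∃ x, U = mat x := by
  have e := hU.row
  have e00 := e 0 0
  have e11 := e 1 1
  have e10 := e 1 0
  have e20 := e 2 0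
  simp [JJ, h1, h 1 0, h 2 0, h 2 1] at e00 e11 e10 e20
  refine ⟨⟨U 0 1, U 0 2, U 1 2, U 0 3, by linear_combination e11, by linear_combination e00⟩, ?_⟩
  rw [← Matrix.ext_iff]
  simp only [forall4, mat, of_apply, cons_val, h1, true_and, and_true]
  repeat' apply And.intro
  all_goals first
    | exact h _ _ (by decide)
    | linear_combination e10
    | linear_combination e20

theorem exists_dec {r : K} {A : Matrix (Fin 4) (Fin 4) K} (hA : IsU r A) (r0 : r ≠ 0)
    (hr : star r = r) (h : ∀ i j, j < i → A i j = 0) :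
    ∃ (x : P K) (ν : K) (l : Kˣ) (m : ku K), ν * star ν * (m : Kˣ) = r ∧
      A = mat x * Dg ν l (m : Kˣ) := by
  have e03 := hA.row 0 3
  have e12 := hA.row 1 2
  simp [JJ, h 1 0, h 2 0, h 2 1, h 3 0, h 3 1, h 3 2] at e03 e12
  have n0 := left_ne_zero_of_mul (e03.trans_ne r0)
  have n1 := left_ne_zero_of_mul (e12.trans_ne r0)
  have n2' := right_ne_zero_of_mul (e12.trans_ne r0)
  have n2 := star_ne_zero.1 n2'
  have n0' := star_ne_zero.2 n0
  have a3 : A 3 3 = r / star (A 0 0) := by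
    rw [← hr, ← e03, star_mul', star_star]; field_simp
  have a1 : A 1 1 = r / star (A 2 2) := by rw [← e12]; field_simp
  have hD : Dg (A 2 2) (A 0 0 / A 1 1) (A 1 1 / A 2 2) = diagonal fun i => A i i := by
    rw [Dg]
    congr 1
    ext i
    fin_cases i <;> simp [a3, a1, hr] <;> field_simp
  have hne : ∀ i, A i i ≠ 0 := fun i => by
    fin_cases i <;> simp [a3, n0, n1, n2, r0]
  have hD' : IsU r⁻¹ (diagonal fun i => (A i i)⁻¹) := isU_of fun i j => by
    fin_cases i <;> fin_cases j <;> simp [JJ, a3, a1, hr] <;> field_simp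
  obtain ⟨x, hx⟩ := exists_mat (mul_inv_cancel₀ r0 ▸ hA.mul hD') (fun i j hij => by simp [h i j hij])
    fun i => by simp [hne i]
  refine ⟨x, A 2 2, Units.mk0 _ (div_ne_zero n0 n1), ⟨Units.mk0 _ (div_ne_zero n1 n2), ?_⟩, ?_, ?_⟩
  · change star (A 1 1 / A 2 2) = A 1 1 / A 2 2
    simp [a1, hr]
    field_simp
  · simp [a1]
    field_simp
  · rw [← hx, Units.val_mk0, Units.val_mk0, hD, mul_assoc, diagonal_mul_diagonal]
    simp [hne]

/-- The first Weyl element. -/
def w1 (ε : K) : Matrix (Fin 4) (Fin 4) K :=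
  !![1, 0, 0, 0; 0, 0, -ε, 0; 0, ε⁻¹, 0, 0; 0, 0, 0, 1]

/-- The second Weyl element. -/
def w2 (K : Type v) [Field K] : Matrix (Fin 4) (Fin 4) K :=
  !![0, 1, 0, 0; -1, 0, 0, 0; 0, 0, 0, -1; 0, 0, 1, 0]

theorem isU_w1 {ε : K} (h0 : ε ≠ 0) (h : star ε = -ε) : IsU 1 (w1 ε) := isU_of fun i j => by
  fin_cases i <;> fin_cases j <;> simp [w1, JJ, h, h0]

theorem isU_w2 : IsU 1 (w2 K) := isU_of fun i j => by
  fin_cases i <;> fin_cases j <;> simp [w2, JJ]

theorem isU_JJ : IsU 1 (JJ K) := isU_of fun i j => by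
  fin_cases i <;> fin_cases j <;> simp [JJ]

theorem det_w1 {ε : K} (h0 : ε ≠ 0) : (w1 ε).det = 1 := by
  simp [w1, det_succ_row_zero, Fin.sum_univ_succ, Fin.succAbove, h0]

theorem det_w2 : (w2 K).det = 1 := by
  simp [w2, det_succ_row_zero, Fin.sum_univ_succ, Fin.succAbove]

theorem det_JJ : (JJ K).det = 1 := by
  simp [JJ, det_succ_row_zero, Fin.sum_univ_succ, Fin.succAbove]
  ring

theorem w1_mat {ε : K} (h0 : ε ≠ 0) (h : star ε = -ε) {y : P K} (hy : y ∈ Q K) :
    ∃ y' ∈ Q K, w1 ε * mat y = mat y' * w1 ε ∧ y'.a = -y.c / ε ∧ y'.c = ε * y.a := by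
  refine ⟨⟨-y.c / ε, ε * y.a, 0, y.z, by simp, by simp [h]; field_simp; linear_combination y.hz⟩,
    rfl, ?_, rfl, rfl⟩
  rw [← Matrix.ext_iff]
  simp only [forall4, mul4, mat, w1, of_apply, cons_val, mem_Q.1 hy, star_neg, star_mul', star_div₀,
    h]
  repeat' apply And.intro
  all_goals simp
  all_goals field_simp

theorem w2_mat {y : P K} (hy : y ∈ J K) : ∃ y' ∈ J K, w2 K * mat y = mat y' * w2 K ∧
    y'.t = y.z ∧ y'.c = star y.c ∧ y'.z = y.t := by
  refine ⟨xj (star y.c) y.z y.t (star_z_J hy) y.star_t, rfl, ?_, rfl, rfl, rfl⟩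
  rw [← Matrix.ext_iff]
  simp only [forall4, mul4, mat, w2, of_apply, cons_val, mem_J.1 hy, xj_a, xj_c, xj_t, xj_z]
  simp

theorem eq_one_of_JJ {x : P K} (h : JJ K * mat x = mat x * JJ K) : x = 1 := by
  have e := fun i j => congrFun (congrFun h i) j
  have e1 := e 3 1
  have e2 := e 3 2
  have e3 := e 3 3
  have e4 := e 2 2
  simp [JJ, mat, mul4] at e1 e2 e3 e4
  exact P.ext e1 e2 e4 e3

theorem IsU.conj {r : K} {A : Matrix (Fin 4) (Fin 4) K} (hA : IsU r A) {y y' : P K}
    (hy : y ∈ Z2 K) (h : A * mat y = mat y' * A) (i j : Fin 4) :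
    y.c * A i 0 * star (A j 1) + y.z * A i 0 * star (A j 0) - star y.c * A i 1 * star (A j 0) =
      r * ((mat y' * JJ K) i j - JJ K i j) := by
  have e : A * mat y * JJ K * Aᴴ = r • (mat y' * JJ K) := by
    rw [h, mul_assoc, mul_assoc, ← mul_assoc A, hA, mul_smul_comm]
  have e1 := congrFun (congrFun e i) j
  rw [Matrix.smul_apply, smul_eq_mul] at e1
  rw [mul_sub, ← e1, ← hA.row]
  simp [mul4, JJ, mat, hy.1, hy.2]
  ring

end Star

section Field

variable {K : Type v} [Field K] [Fintype K] [Uf K]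

theorem Dg_mat (ν : K) (l : Kˣ) (m : ku K) (σ : K ≃+* K) (y : P K) :
    Dg ν l (m : Kˣ) * (mat y).map σ = mat (dg l m σ y) * Dg ν l (m : Kˣ) := by
  have hl := star_ne_zero.2 l.ne_zero
  rw [← Matrix.ext_iff]
  simp only [forall4, Dg, mat, diagonal_mul, mul_diagonal, map_apply, of_apply, cons_val, dg_a,
    dg_c, dg_t, dg_z, map_star', map_add, map_sub, map_mul, map_neg, map_one, map_zero,
    star_mul', star_star, mul_zero, zero_mul, true_and, star_ku]
  repeat' apply And.intro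
  all_goals field_simp

theorem IsU.map {r : K} {A : Matrix (Fin 4) (Fin 4) K} (h : IsU r A) (σ : K ≃+* K) :
    IsU (σ r) (A.map σ) :=
  isU_of fun i j => by
    have := congrArg σ (h.row i j)
    simp only [map_add, map_mul, map_star'] at this
    simp only [map_apply, this]
    fin_cases i <;> fin_cases j <;> simp [JJ]

variable (K) in
theorem exists_eps : ∃ ε : K, ε ≠ 0 ∧ star ε = -ε := by
  obtain ⟨s, hs⟩ := exists_star_ne K
  exact ⟨star s - s, sub_ne_zero.2 hs, by simp⟩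

/-- A unitary similitude normalizing the Sylow subgroup is triangular. -/
theorem dec_of_norm {r : K} {A : Matrix (Fin 4) (Fin 4) K} (hA : IsU r A) (r0 : r ≠ 0)
    (hr : star r = r) (h : ∀ y, ∃ y', A * mat y = mat y' * A) :
    ∃ (x : P K) (ν : K) (l : Kˣ) (m : ku K), ν * star ν * (m : Kˣ) = r ∧
      A = mat x * Dg ν l (m : Kˣ) := by
  obtain ⟨ε, h0, hε⟩ := exists_eps K
  obtain ⟨y', e⟩ := h (xe 1 0 ε hε)
  exact exists_dec hA r0 hr (tri_of rfl h0 e)

theorem eq_mat_of_pow {p : ℕ} [Fact p.Prime] [CharP K p] {x : P K} {ν : K} {l : Kˣ} {m : ku K}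
    {k : ℕ} (h : (mat x * Dg ν l (m : Kˣ)) ^ p ^ k = 1) : Dg ν l (m : Kˣ) = 1 := by
  have h1 : ∀ n : ℕ, ∃ x', (mat x * Dg ν l (m : Kˣ)) ^ n = mat x' * Dg ν l (m : Kˣ) ^ n := fun n => by
    induction n with
    | zero => exact ⟨1, by simp [mat_one]⟩
    | succ n ih =>
      obtain ⟨x', e⟩ := ih
      have := Dg_mat ν l m (RingEquiv.refl K) x'
      refine ⟨x * dg l m (RingEquiv.refl K) x', ?_⟩
      rw [pow_succ', e, mat_mul, pow_succ', mul_assoc, mul_assoc, ← mul_assoc _ (mat x'),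
        ← mul_assoc (mat (dg _ _ _ _)), ← this]
      simp
  obtain ⟨x', e⟩ := h1 (p ^ k)
  rw [e, Dg, diagonal_pow] at h
  rw [Dg, ← diagonal_one]
  congr 1
  ext i
  have h2 := congrFun (congrFun h i) i
  rw [mul_diagonal, one_apply_eq, Pi.pow_apply,
    show mat x' i i = 1 by fin_cases i <;> simp [mat], one_mul] at h2
  rw [← sub_eq_zero, ← pow_eq_zero_iff (pow_ne_zero k (Fact.out : p.Prime).ne_zero),
    sub_pow_char_pow, h2, one_pow, sub_self]

end Field

end Cfsg.Agent.U4.Md
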