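import Cfsg.Agent.Lib.U4.Mat
import Cfsg.Agent.Lib.U5.Model

/-! The model `SU₄(q) ⋊ H`. -/

set_option autoImplicit false
set_option linter.unusedSectionVars false

namespace Cfsg.Agent.U4

open Subgroup Matrix
open Cfsg.Agent.U5 (Uf map_star' sylow_of_norm)

universe v

namespace Md

variable {K : Type v} [Field K] [Fintype K] [Uf K]

/-- Field automorphisms act on invertible matrices. -/
def fa : RingAut K →* MulAut (GL (Fin 4) K) where
  toFun σ := Units.mapEquiv (RingEquiv.mapMatrix σ).toMulEquiv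
  map_one' := by ext; rfl
  map_mul' _ _ := by ext; rfl

@[simp] theorem fa_val (σ : RingAut K) (A : GL (Fin 4) K) :
    (fa σ A : Matrix (Fin 4) (Fin 4) K) = (A : Matrix (Fin 4) (Fin 4) K).map σ := rfl

variable (K) in
/-- The semilinear group. -/
abbrev SG : Type v := GL (Fin 4) K ⋊[fa] RingAut K

instance : Finite (SG K) :=
  Finite.of_injective (fun g => (g.left, g.right)) fun _ _ h =>
    SemidirectProduct.ext (congrArg Prod.fst h) (congrArg Prod.snd h)

theorem dg_mul_ra (l l' : Kˣ) (m m' : ku K) (σ σ' : RingAut K) : dg l m σ * dg l' m' σ' =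
    dg (l * Units.map (σ : K →* K) l') (m * kmap σ m') (σ * σ') := dg_mul ..

theorem dg_one_ra : dg 1 1 (1 : RingAut K) = 1 := dg_one

/-- The model as a submonoid. -/
def GM (H : Subgroup (MulAut (P K))) : Submonoid (SG K) where
  carrier := {g | ∃ (l : Kˣ) (m : ku K), dg l m g.right ∈ H ∧ IsU ((m : Kˣ) : K) g.left.1 ∧
    g.left.1.det * star (l : K) = l * (m : Kˣ) ^ 2}
  one_mem' := ⟨1, 1, by simp [dg_one_ra, H.one_mem], isU_one, by simp⟩
  mul_mem' := by
    rintro g g' ⟨l, m, h2, h1, h3⟩ ⟨l', m', h2', h1', h3'⟩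
    refine ⟨_, _, dg_mul_ra l l' m m' g.right g'.right ▸ H.mul_mem h2 h2', h1.mul (h1'.map g.right),
      ?_⟩
    have h4 := congrArg g.right h3'
    simp only [map_mul, map_pow, map_star', RingEquiv.map_det] at h4
    simp only [SemidirectProduct.mul_left, Units.val_mul, fa_val, det_mul, Units.coe_map,
      MonoidHom.coe_coe, star_mul', coe_mul, kmap_val]
    rw [RingEquiv.mapMatrix_apply] at h4
    linear_combination (g'.left.1.map g.right).det * star (g.right l') * h3 +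
      l * ((m : Kˣ) : K) ^ 2 * h4

/-- The model. -/
def GG (H : Subgroup (MulAut (P K))) : Subgroup (SG K) where
  toSubmonoid := GM H
  inv_mem' {g} hg := Submonoid.powers_le.2 hg (mem_powers_iff_mem_zpowers.2 (by simp))

theorem inl_mem (H : Subgroup (MulAut (P K))) {A : GL (Fin 4) K} (h : IsU 1 A.1)
    (h' : A.1.det = 1) : SemidirectProduct.inl A ∈ GG H :=
  ⟨1, 1, by simp [dg_one_ra, H.one_mem], h, by simp [h']⟩

/-- The embedding of the Sylow subgroup. -/
def emb (H : Subgroup (MulAut (P K))) : P K →* GG H :=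
  (SemidirectProduct.inl.comp gl).codRestrict _ fun x => inl_mem H (isU_mat x) (det_mat x)

theorem conj_iff {H : Subgroup (MulAut (P K))} (g : GG H) (y y' : P K) :
    g * emb H y * g⁻¹ = emb H y' ↔ g.1.left.1 * (mat y).map g.1.right = mat y' * g.1.left.1 := by
  rw [mul_inv_eq_iff_eq_mul, Subtype.ext_iff, SemidirectProduct.ext_iff, Units.ext_iff]
  simp [emb]

theorem map_mat (σ : RingAut K) (y : P K) : (mat y).map σ = mat (dg 1 1 σ y) := by
  have := Dg_mat 1 1 1 σ y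
  have h1 : Dg (1 : K) (1 : Kˣ) ((1 : ku K) : Kˣ) = 1 := by
    rw [Dg, ← diagonal_one]
    congr 1
    ext i
    fin_cases i <;> simp
  rwa [h1, one_mul, mul_one] at this

theorem dg_mem {H : Subgroup (MulAut (P K))} (he : ∀ ρ, eta ρ ∈ H) (hh' : ∀ μ, hh μ ∈ H) {ν : K}
    {l : Kˣ} {m : ku K} (hν : ν * star ν * (m : Kˣ) = 1)
    (h : star (l : K) = ν ^ 4 * (l * (m : Kˣ) ^ 2)) : dg l m (1 : RingAut K) ∈ H := by
  have n0 := left_ne_zero_of_mul (left_ne_zero_of_mul_eq_one hν)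
  have n1 := star_ne_zero.2 n0
  have hm : ((m : Kˣ) : K) = (ν * star ν)⁻¹ := eq_inv_of_mul_eq_one_right hν
  have hl := l.ne_zero
  let n := Units.mk0 _ n1
  have := H.mul_mem (hh' (l / n)) (he ⟨l / n ^ 2, by
    change star _ = _
    simp [n, h, hm]
    field_simp⟩)
  rw [hh, eta] at this
  erw [dg_mul_ra] at this
  convert this using 2
  · ext
    simp [n]
    field_simp
  · ext
    simp [n, h, hm]
    field_simp
  · rfl

theorem norm_dec {H : Subgroup (MulAut (P K))} (he : ∀ ρ, eta ρ ∈ H) (hh' : ∀ μ, hh μ ∈ H)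
    (g : GG H) (hg : ∀ y, ∃ y', g * emb H y * g⁻¹ = emb H y') : ∃ (x : P K) (ν : K) (l : Kˣ)
      (m : ku K), dg l m g.1.right ∈ H ∧ g.1.left.1 = mat x * Dg ν l (m : Kˣ) := by
  obtain ⟨l₀, m₀, h2, h1, h3⟩ := g.2
  obtain ⟨x, ν, l, m, hν, e⟩ := dec_of_norm h1 (Units.ne_zero _) (star_ku m₀) fun y => by
    obtain ⟨y', h⟩ := hg ((dg 1 1 g.1.right)⁻¹ y)
    rw [conj_iff, map_mat, MulAut.apply_inv_self] at h
    exact ⟨y', h⟩
  refine ⟨x, ν, l, m, ?_, e⟩
  have h4 := det_Dg ν l.ne_zero ((m : Kˣ) : K)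
  rw [e, det_mul, det_mat, one_mul] at h3
  have a1 := star_ne_zero.2 l₀.ne_zero
  have a3 := l₀.ne_zero
  have a4 := (m₀ : Kˣ).ne_zero
  have := H.mul_mem (dg_mem he hh' (ν := ν) (l := l / l₀) (m := m / m₀) ?_ ?_) h2
  · rw [dg_mul_ra, one_mul] at this
    convert this using 2 <;> exact (div_mul_cancel _ _).symm
  · simp only [coe_div, Units.val_div_eq_div_val]
    field_simp
    exact hν
  simp only [coe_div, Units.val_div_eq_div_val, star_div₀]
  field_simp
  linear_combination star (l₀ : K) * h4 - star (l : K) * h3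

theorem dg_pow (l : Kˣ) (m : ku K) (σ : RingAut K) (n : ℕ) :
    ∃ l' m', dg l m σ ^ n = dg l' m' (σ ^ n) := by
  induction n with
  | zero => exact ⟨1, 1, by rw [pow_zero, pow_zero, dg_one_ra]⟩
  | succ n ih =>
    obtain ⟨l', m', e⟩ := ih
    exact ⟨_, _, by rw [pow_succ, pow_succ, e, dg_mul_ra]⟩

theorem eq_one_of_dg {l : Kˣ} {m : ku K} {σ : RingAut K} (h : dg l m σ = 1) : σ = 1 := by
  have h1 : ∀ a, (l : K) * σ a = a := fun a => congrArg (fun β : MulAut (P K) =>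
    (β (xe a 0 0 (by simp))).a) h
  ext a
  simpa [show (l : K) = 1 by simpa using h1 1] using h1 a

theorem conj_ent {H : Subgroup (MulAut (P K))} (g : GG H) : ∃ (r : K) (A : Matrix (Fin 4) (Fin 4) K)
    (σ : K ≃+* K), r ≠ 0 ∧ star r = r ∧ ∀ y ∈ Z2 K, ∀ y', g * emb H y * g⁻¹ = emb H y' → ∀ i j,
      σ y.c * A i 0 * star (A j 1) + σ y.z * A i 0 * star (A j 0) -
        star (σ y.c) * A i 1 * star (A j 0) = r * ((mat y' * JJ K) i j - JJ K i j) := by
  obtain ⟨l, m, -, h, -⟩ := g.2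
  refine ⟨_, g.1.left.1, g.1.right, Units.ne_zero _, star_ku m, fun y hy y' e i j => ?_⟩
  rw [conj_iff, map_mat] at e
  simpa using h.conj (y := dg 1 1 g.1.right y) ⟨by simp [hy.1], by simp [hy.2]⟩ e i j

theorem std_Q {H : Subgroup (MulAut (P K))} (g : GG H) (f : P K → P K)
    (h : ∀ y ∈ Q K, f y ∈ Q K ∧ g * emb H y * g⁻¹ = emb H (f y)) :
    (∀ x ∈ Z2 K, f x ∈ Z2 K) ∨ ∃ s, ∀ x ∈ Z2 K, (s * f x * s⁻¹).c = 0 := by
  obtain ⟨r, A, σ, r0, hr, e⟩ := conj_ent g
  replace e := fun y hy => e y hy _ (h y (Z2_le_Q hy)).2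
  have ht : ∀ y ∈ Z2 K, (f y).t = 0 := fun y hy => (h y (Z2_le_Q hy)).1
  obtain ⟨ε, h0, hε⟩ := exists_eps K
  have e1 := e (xj 0 0 ε (by simp) hε) ⟨rfl, rfl⟩ 1 1
  have e2 := e (xj 0 0 ε (by simp) hε) ⟨rfl, rfl⟩ 2 2
  simp [mul4, mat, JJ, ht _ (show xj 0 0 ε (by simp) hε ∈ Z2 K from ⟨rfl, rfl⟩), h0] at e1 e2
  have ea : ∀ y ∈ Z2 K, r * (f y).a = σ y.c * A 0 0 * star (A 2 1) := fun y hy => by
    simpa [mul4, mat, JJ, e2] using (e y hy 0 2).symm
  have ec : ∀ y ∈ Z2 K, r * (f y).c = σ y.c * A 0 0 * star (A 1 1) := fun y hy => by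
    simpa [mul4, mat, JJ, e1] using (e y hy 0 1).symm
  by_cases h1 : A 0 0 * star (A 2 1) = 0
  · exact .inl fun x hx => ⟨mul_left_cancel₀ r0 (by rw [ea x hx, mul_assoc, h1]; simp), ht x hx⟩
  have n0 := left_ne_zero_of_mul h1
  have n1 := right_ne_zero_of_mul h1
  have n2 := star_ne_zero.1 n1
  refine .inr ⟨xj 0 (star (A 1 1) / star (A 2 1)) 0 ?_ (by simp), fun x hx => ?_⟩
  · have hy : xj (1 : K) 0 0 (by simp) (by simp) ∈ Z2 K := ⟨rfl, rfl⟩
    have a1 := ea _ hy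
    have a2 := ec _ hy
    have a3 := e _ hy 0 0
    have a4 := P.hz (f (xj (1 : K) 0 0 (by simp) (by simp)))
    generalize f _ = w at *
    simp [mul4, mat, JJ] at a1 a2 a3
    have b1 := congrArg star a1
    have b2 := congrArg star a2
    have b3 := congrArg star a3
    simp only [star_mul', star_sub, star_star, hr] at b1 b2 b3
    simp only [star_div₀, star_star]
    field_simp
    refine mul_left_cancel₀ (mul_ne_zero n0 (star_ne_zero.2 n0)) ?_
    linear_combination r ^ 2 * a4 + r * a3 + r * b3 - r * star w.c * a1 - r * w.c * b1 -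
      A 0 0 * star (A 2 1) * b2 - star (A 0 0) * A 2 1 * a2
  · refine mul_left_cancel₀ r0 ?_
    rw [conj_c, xj_a, xj_t, mul_sub, mul_add, ← mul_assoc r (f x).a, ea x hx, ec x hx]
    field_simp
    ring

theorem std_J {H : Subgroup (MulAut (P K))} (g : GG H) (f : P K → P K)
    (h : ∀ y ∈ J K, f y ∈ J K ∧ g * emb H y * g⁻¹ = emb H (f y)) :
    (∀ x ∈ Z K, f x ∈ Z K) ∨ ∃ s, ∀ x ∈ Z K, (s * f x * s⁻¹).c = 0 ∧ (s * f x * s⁻¹).z = 0 := by
  obtain ⟨r, A, σ, r0, hr, e⟩ := conj_ent g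
  replace e := fun y (hy : y ∈ Z K) => e y (Z_le_Z2 hy) _ (h y (Z_le_J hy)).2
  have ec : ∀ y ∈ Z K, r * (f y).c = σ y.z * A 0 0 * star (A 1 0) := fun y hy => by
    simpa [mul4, mat, JJ, hy.2.2] using (e y hy 0 1).symm
  have et : ∀ y ∈ Z K, r * (f y).t = σ y.z * A 1 0 * star (A 1 0) := fun y hy => by
    simpa [mul4, mat, JJ, hy.2.2] using (e y hy 1 1).symm
  have ez : ∀ y ∈ Z K, r * (f y).z = σ y.z * A 0 0 * star (A 0 0) := fun y hy => by
    simpa [mul4, mat, JJ, hy.2.2] using (e y hy 0 0).symm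
  by_cases h1 : A 1 0 = 0
  · exact .inl fun x hx => ⟨(h x (Z_le_J hx)).1, mul_left_cancel₀ r0 (by simp [et x hx, h1]),
      mul_left_cancel₀ r0 (by simp [ec x hx, h1])⟩
  obtain ⟨α, hα⟩ : ∃ α, α * A 1 0 = -A 0 0 := ⟨_, div_mul_cancel₀ _ h1⟩
  refine .inr ⟨xe α 0 0 (by simp), fun x hx => ?_⟩
  have a1 := ec x hx
  have a2 := et x hx
  have a3 := ez x hx
  have b1 := congrArg star a1
  simp only [star_mul', star_star, hr, ← map_star', star_z_J (Z_le_J hx), map_neg] at b1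
  refine ⟨mul_left_cancel₀ r0 ?_, mul_left_cancel₀ r0 ?_⟩
  · rw [conj_c, xe_a, xe_t]
    linear_combination a1 + α * a2 + σ x.z * star (A 1 0) * hα
  · rw [conj_z_J _ (h x (Z_le_J hx)).1, xe_a]
    linear_combination a3 + star α * a1 - α * b1 + α * star α * a2 +
      σ x.z * (star (A 0 0) + star α * star (A 1 0)) * hα

end Md

open Md in
theorem model : ModelStmt.{v} := by
  intro K _ _ _ p _ _ H hH hp he hh'
  have hi : Function.Injective (emb H) := fun x y h =>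
    gl_inj (SemidirectProduct.inl_injective (congrArg Subtype.val h))
  refine ⟨GG H, inferInstance, inferInstance, emb H, hi, ?_, fun g hg => ?_, fun h hh => ?_,
    fun ε h0 hε => ?_, ?_, std_Q, std_J⟩
  · refine sylow_of_norm ((pg K p).of_surjective _ (emb H).rangeRestrict_surjective) fun g hg k hk => ?_
    obtain ⟨x, ν, l, m, h1, e⟩ := norm_dec he hh' g fun y => by
      obtain ⟨y', h⟩ := (mem_normalizer_iff.1 hg _).1 ⟨y, rfl⟩
      exact ⟨y', h.symm⟩
    have hk' : g.1 ^ p ^ k = 1 := by simpa using congrArg Subtype.val hk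
    have h2 : g.1.right = 1 := by
      obtain ⟨l', m', e'⟩ := dg_pow l m g.1.right (Nat.card H)
      have a1 : dg l m g.1.right ^ Nat.card H = 1 :=
        congrArg Subtype.val (pow_card_eq_one' (x := (⟨_, h1⟩ : H)))
      have a2 : g.1.right ^ p ^ k = 1 := by
        have := congrArg SemidirectProduct.rightHom hk'
        rwa [map_pow] at this
      rw [← orderOf_eq_one_iff]
      exact Nat.eq_one_of_dvd_coprimes (((Nat.Prime.coprime_iff_not_dvd Fact.out).2 hp).pow_left k)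
        (orderOf_dvd_of_pow_eq_one a2) (orderOf_dvd_of_pow_eq_one (eq_one_of_dg (e' ▸ a1)))
    have h3 : g.1 = SemidirectProduct.inl g.1.left := by ext <;> simp [h2]
    rw [h3, ← map_pow, map_eq_one_iff _ SemidirectProduct.inl_injective, Units.ext_iff,
      Units.val_pow_eq_pow_val, e] at hk'
    rw [eq_mat_of_pow hk', mul_one] at e
    exact ⟨x, Subtype.ext (h3.trans (congrArg _ (Units.ext e))).symm⟩
  · obtain ⟨x, ν, l, m, h1, e⟩ := norm_dec he hh' g hg
    refine ⟨x, _, h1, fun y => ?_⟩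
    rw [conj_iff, e, mul_assoc, Dg_mat, ← mul_assoc, ← mul_assoc, ← mat_mul, ← mat_mul]
    simp
  · obtain ⟨l, m, σ, rfl⟩ := hH h hh
    have h1 := isU_Dg (1 : K) l.ne_zero (star_ku m)
    have h2 := det_Dg (1 : K) l.ne_zero ((m : Kˣ) : K)
    rw [one_pow, one_mul] at h2
    rw [star_one, one_mul, one_mul] at h1
    refine ⟨⟨⟨GeneralLinearGroup.mkOfDetNeZero _ (left_ne_zero_of_mul (h2.trans_ne (by simp))), σ⟩,
      l, m, hh, h1, h2⟩, fun y => ?_⟩
    rw [conj_iff]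
    exact Dg_mat 1 l m σ y
  · refine ⟨⟨_, inl_mem H (A := GeneralLinearGroup.mkOfDetNeZero _
      ((det_w1 h0).trans_ne one_ne_zero)) (isU_w1 h0 hε) (det_w1 h0)⟩, fun y hy => ?_⟩
    obtain ⟨y', h1, h2, h3⟩ := w1_mat h0 hε hy
    exact ⟨y', h1, (conj_iff _ _ _).2 h2, h3⟩
  · refine ⟨⟨_, inl_mem H (A := GeneralLinearGroup.mkOfDetNeZero _
      (det_w2.trans_ne one_ne_zero)) isU_w2 det_w2⟩, fun y hy => ?_⟩
    obtain ⟨y', h1, h2, h3⟩ := w2_mat hy
    exact ⟨y', h1, (conj_iff _ _ _).2 h2, h3⟩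

end Cfsg.Agent.U4
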