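import Cfsg.Agent.Lib.U4.Q2Defs
import Cfsg.Agent.Lib.U4.Cmp
import Cfsg.Agent.Lib.U4.L1
import Cfsg.Agent.Lib.U4.Ext

/-!
Rows Q2-ALP and Q2-ONE.
-/

set_option autoImplicit false

namespace Cfsg.Agent.U4.Q2

open Cfsg.Agent.Fus Cfsg.Agent.Fus2 Subgroup
open Cfsg.Agent.U5 (Uf)

namespace Al

variable {F F' : FusionSystem (⊤ : Subgroup (P K4))}

theorem nf (h : Inn F) : NF F := fun f hf =>
  (h f hf).imp fun _ e => ⟨1, 1, _, fun y => by rw [dg_one]; exact e y⟩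

theorem ea : ∀ a₀ a : K4, a₀ ≠ 0 → a * star a₀ = a₀ * star a → a = 0 ∨ a = a₀ := by decide

theorem cent : ∀ g y : P K4, g.a ≠ 0 → y.a = 0 → g * y * (g * y) = g * g →
    ¬ ∀ j : P K4, ¬ (j.a = 0 ∧ g * y = j * g * j⁻¹) := by decide +kernel

theorem not_J {a₀ : K4} (h0 : a₀ ≠ 0) {f : P K4 → P K4} (hf : Au F (Ea a₀) f) {x : P K4}
    (hx : x ∈ Ea a₀) (h : x.a ≠ 0) : (f x).a = a₀ :=
  (ea _ _ h0 (hf.2 x hx)).resolve_left fun e => by
    obtain ⟨y, hy, e'⟩ := hf.surj (J_le_Ea _) (fun _ => hf.J_of_Ea rfl h0) (show f x ∈ J K4 from e)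
    exact h (hf.1.inj _ (J_le_Ea _ hy) _ hx e' ▸ hy)

/-- The subgroup `{t = 0, a, c ∈ k c₀}`. -/
def N (c₀ : K4) : Subgroup (P K4) where
  carrier := {x | x.t = 0 ∧ (x.a = 0 ∨ x.a = c₀) ∧ (x.c = 0 ∨ x.c = c₀)}
  one_mem' := ⟨rfl, .inl rfl, .inl rfl⟩
  mul_mem' := fun {x y} ⟨h₁, h₂, h₃⟩ ⟨k₁, k₂, k₃⟩ => by
    have : ∀ a b : K4, a = 0 ∨ a = c₀ → b = 0 ∨ b = c₀ → a + b = 0 ∨ a + b = c₀ := by
      clear * -; revert c₀; decide
    exact ⟨by simp [h₁, k₁], this _ _ h₂ k₂, by simpa [k₁] using this _ _ h₃ k₃⟩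
  inv_mem' := fun {x} ⟨h₁, h₂, h₃⟩ => ⟨by simp [h₁], h₂, by simpa [h₁, CharTwo.neg_eq] using h₃⟩

theorem conj_N (c₀ : K4) (g : P K4) {x : P K4} (hx : x ∈ N c₀) : g * x * g⁻¹ ∈ N c₀ := by
  obtain ⟨h₁, h₂, h₃⟩ := hx
  have : ∀ a c t : K4, star t = -t → a = 0 ∨ a = c₀ → c = 0 ∨ c = c₀ →
      c - a * t = 0 ∨ c - a * t = c₀ := by clear * -; revert c₀; decide
  refine ⟨(conj_t ..).trans h₁, by rwa [conj_a], ?_⟩
  simpa only [conj_c, h₁, mul_zero, add_zero] using this _ _ _ g.star_t h₂ h₃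

theorem inv_N : ∀ (c₀ : K4) (y : P K4), c₀ ≠ 0 → y.a = c₀ →
    (y * y = 1 ↔ y.t = 0 ∧ (y.c = 0 ∨ y.c = c₀)) := by decide +kernel

end Al

open Al

/-- Row Q2-ALP. -/
theorem alp : LAlpStmt := by
  intro F F' hF hF' i i' m m' hJ
  have hM : ∀ {A B : FusionSystem (⊤ : Subgroup (P K4))}, Inn A → ∀ f, M A ⊤ f → M B ⊤ f :=
    fun {A B} h f hf => by
      obtain ⟨x, e⟩ := h f hf
      exact (M_conj B le_rfl (mem_top x)).congr fun y _ => (e y).symm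
  refine alperin_le (pg_top K4 2) hF ?_
  rintro E (rfl | hE)
  · exact fun α hα => (hM i _ (M_afn le_rfl hα)).mem_autGroup fun _ _ => rfl
  rcases ess hF hE with rfl | rfl | ⟨-, a₀, h0, rfl⟩
  · exact fun α hα => (cmp ext hF hF' (nf i) (fun f => ⟨hM i f, hM i' f⟩)
      (l1 ext hF (by decide) (nf i) m) (l1 ext hF' (by decide) (nf i') m') _
      (au_afn hα)).mem_autGroup fun _ _ => rfl
  · exact fun α hα => (hJ _ (au_afn hα)).mem_autGroup fun _ _ => rfl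
  intro α hα
  have hf := au_afn hα
  have hfJ := hf.res (J_le_Ea _) fun _ => hf.J_of_Ea rfl h0
  obtain ⟨ψ, hψ, e⟩ := receptive_ext (sat_receptive (pg_top K4 2) hF'
    (isFullyNormalized_of_normal le_top (normalizer_eq_top _).ge)) (hJ _ hfJ)
    (hfJ.1.img_eq_self hfJ.2) (R := Ea a₀) (fun g _ => ⟨trivial, (normalizer_eq_top _).ge trivial⟩)
    fun g hg => ⟨_, trivial, fun x hx => hf.1.map_conj hg (J_le_Ea _ hx)⟩
  replace hψ := hψ.mono le_sup_right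
  have he : xe a₀ 0 0 (by simp) ∈ Ea a₀ := by simp [mem_Ea]
  generalize hx : xe a₀ 0 0 (by simp) = u at he
  have hu : u.a = a₀ := hx ▸ rfl
  have hy : (afn α u)⁻¹ * ψ u ∈ J K4 := mem_J_of_comm fun y hy => by
    obtain ⟨x, hx, rfl⟩ := hfJ.surj le_rfl hfJ.2 (Z2_le_J hy)
    have := hψ.map_conj he (J_le_Ea _ hx)
    rw [e _ ((inferInstance : (J K4).Normal).conj_mem x hx u), e x hx,
      hf.1.map_conj he (J_le_Ea _ hx)] at this
    rw [mul_assoc, mul_inv_eq_iff_eq_mul.1 this.symm]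
    group
  have := cent _ _ (by rw [not_J h0 hf he (hu ▸ h0)]; exact h0) hy (by
    rw [mul_inv_cancel_left, ← hψ.map_mul he he, ← hf.1.map_mul he he]
    exact e _ (show u.a + u.a = 0 from CharTwo.add_self_eq_zero _))
  push Not at this
  obtain ⟨j, hj, ej⟩ := this
  rw [mul_inv_cancel_left] at ej
  refine (hψ.comp (M_conj F' le_rfl (mem_top j⁻¹)) fun _ _ => trivial).mem_autGroup fun x hx => ?_
  have k : ∀ x ∈ J K4, j⁻¹ * ψ x * j⁻¹⁻¹ = afn α x := fun x hx => by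
    rw [e x hx, conj_J (hfJ.2 x hx) (inv_mem hj)]
  rcases ea _ _ h0 hx with h | h
  · exact (k x h).symm
  have h' : u⁻¹ * x ∈ J K4 := by simp [mem_J, hu, h]
  rw [← mul_inv_cancel_left u x, hψ.map_mul he (J_le_Ea _ h'), hf.1.map_mul he (J_le_Ea _ h'),
    ← k _ h', ej]
  group

/-- Row Q2-ONE. -/
theorem one : LOneStmt := by
  intro F hF i m c h0 hD hZ hc
  have inn : ∀ f, Au F (Q K4) f → (∀ x ∈ Z2 K4, f x ∈ Z2 K4) → ∀ x ∈ N c, f x ∈ N c :=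
    fun f hf h x hx => by
      obtain ⟨g, hg, e⟩ := (ext hF).1 f hf h
      obtain ⟨y, e'⟩ := i g hg
      rw [← e x hx.1, e']
      exact conj_N c y hx
  have hD' : ∀ f, Au F (J K4) f → ∀ x ∈ J K4, x ∈ N c → f x ∈ J K4 ⊓ N c := fun f hf x hx hx' =>
    have := hD f hf x ⟨hx, hx'.1⟩ hx'.2.2
    ⟨this.1.1, this.1.2, .inl this.1.1, this.2⟩
  have key : ∀ E, E = ⊤ ∨ F.IsEssential 2 E → N c ≤ E ∧ ∀ f, Au F E f → ∀ x ∈ N c, f x ∈ N c := by
    rintro E (rfl | hE)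
    · refine ⟨le_top, fun f hf x hx => ?_⟩
      obtain ⟨y, e⟩ := i f hf.1
      exact e x ▸ conj_N c y hx
    rcases ess hF hE with rfl | rfl | ⟨-, a₀, ha, rfl⟩
    · refine ⟨fun _ h => h.1, fun f hf x hx => ?_⟩
      obtain ⟨-, hw, hB⟩ := l1 ext hF (by decide) (nf i) m
      obtain ⟨w, a, e⟩ := hw 1 one_ne_zero (by decide)
      refine (hB f hf).elim (fun h => inn f hf h x hx) fun ⟨s, h⟩ => ?_
      have hq : ∀ x ∈ Q K4, s * f x * s⁻¹ ∈ Q K4 := fun x hx =>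
        (inferInstance : (Q K4).Normal).conj_mem _ (hf.2 x hx) s
      obtain ⟨-, k₁, k₂⟩ := inn (fun x => w (s * f x * s⁻¹)) ⟨(hf.1.comp
        (M_conj F le_top (mem_top s)) hf.2).comp a.1 hq, fun x hx => a.2 _ (hq x hx)⟩
        (fun x hx => ⟨by rw [(e _ (hq x hx.2)).1, h x hx]; simp, a.2 _ (hq x hx.2)⟩) x hx
      rw [(e _ (hq x hx.1)).1, div_one, CharTwo.neg_eq] at k₁
      rw [(e _ (hq x hx.1)).2, one_mul] at k₂
      simpa [mul_assoc] using conj_N c s⁻¹ ⟨hq x hx.1, k₂, k₁⟩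
    · refine absurd (SP4.OB.le_of_chain (pg_top K4 2) hF hE (Q := Ea c) le_top
        le_normalizer_of_normal (le_refl (J K4 ⊓ N c)) (fun β hβ x hx h => hD' _ (au_afn hβ) x hx h.2)
        (fun β hβ x hx h => hD' _ (au_afn hβ) x hx h.2) (fun g hg x hx => ?_)
        (fun g hg x _ hx => mul_mem (inv_mem hx) ⟨(conj_a ..).trans hx.1, conj_N c g hx.2⟩)
        (fun g hg x _ hx => ?_) (show xe c 0 0 (by simp) ∈ Ea c by simp [mem_Ea])) h0
      · have : ∀ a t : K4, star t = -t → a = 0 ∨ a = c → a * t = 0 ∨ a * t = c := by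
          clear * -; revert c; decide
        exact ⟨icj_a .., icj_t .., .inl (icj_a ..), by
          simpa only [icj_c, mem_J.1 hx, zero_mul, sub_zero] using
            this _ _ x.star_t (ea _ _ h0 hg)⟩
      · rw [(Es.comm_Z2 ⟨hx.1, hx.2.1⟩).2, mul_inv_cancel_right]
        rcases hx.2.2.2 with h | h <;> rw [h]
        exacts [by simp, hg]
    have hu : xe a₀ 0 0 (by simp) ∈ Ea a₀ := by simp [mem_Ea]
    have res : ∀ f, Au F (Ea a₀) f → Au F (J K4) f := fun f hf =>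
      hf.res (J_le_Ea _) fun _ => hf.J_of_Ea rfl ha
    by_cases hac : a₀ = c
    · subst hac
      have hN : N a₀ ≤ Ea a₀ := fun x hx => by rcases hx.2.1 with h | h <;> simp [mem_Ea, h]
      refine ⟨hN, fun f hf x hx => hx.2.1.elim (fun h => (hD' f (res f hf) x h hx).2) fun h => ?_⟩
      have k := not_J ha hf (hN hx) (h ▸ ha)
      have := (inv_N _ _ ha k).1 (by
        rw [← hf.1.map_mul (hN hx) (hN hx), (inv_N _ _ ha h).2 ⟨hx.1, hx.2.2⟩, hf.1.map_one])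
      exact ⟨this.1, .inr k, this.2⟩
    refine (not_ch hF hE fun f hf => ?_).elim
    have h := hZ (xe a₀ 0 0 (by simp)) ha hac f (res f hf) fun x hx => by
      have k : (xe a₀ 0 0 (by simp))⁻¹ * f (xe a₀ 0 0 (by simp)) ∈ J K4 := by
        simp [mem_J, not_J ha hf hu ha]
      rw [hf.1.map_conj hu (J_le_Ea _ hx), ← mul_right_inj (xe a₀ 0 0 (by simp))⁻¹,
        ← mul_left_inj (xe a₀ 0 0 (by simp))]
      simpa [mul_assoc] using conj_J ((res f hf).2 x hx) k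
    exact ⟨h, fun x => (res f hf).Z2_of_J hF h⟩
  exact one_ne_zero (congrArg P.z (mem_bot.1 ((hc ▸ le_core (isNormal_of_essential (pg_top K4 2) hF
    fun E hE => ⟨(key E hE).1, fun α hα => (key E hE).2 _ (au_afn hα)⟩) : N c ≤ ⊥)
      (show xj 0 0 1 (by simp) (by decide) ∈ N c from ⟨rfl, .inl rfl, .inl rfl⟩))))

end Cfsg.Agent.U4.Q2
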