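import Cfsg.Agent.Lib.U4.Q2Defs

/-!
Row Q2-MODEL: the system of `GL₄(2)`.
-/

set_option autoImplicit false

namespace Cfsg.Agent.U4.Q2

open Cfsg.Agent.Fus Cfsg.Agent.Fus2 Subgroup Matrix

namespace Md

/-- The trace as an element of `ZMod 2`. -/
def bt (a : K4) : ZMod 2 := (a.val / 2 : ℕ)

/-- The corner entry. -/
def cn (x : P K4) : ZMod 2 :=
  (0x6ac000000536900900006ac090090536 >>> (x.a.val + 4 * x.c.val + 16 * x.z.val + 64 * x.t.val) % 2 : ℕ)

/-- The unitriangular matrix of an element. -/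
def mt (x : P K4) : Matrix (Fin 4) (Fin 4) (ZMod 2) :=
  !![1, bt x.a, bt x.c, cn x; 0, 1, x.t.val, bt ((x.c + x.a * x.t) * (om * om));
    0, 0, 1, bt (x.a * (om * om)); 0, 0, 0, 1]

theorem mt_aux : ∀ x y : P K4, bt (x * y).a = bt y.a + bt x.a ∧
    bt (x * y).c = bt y.c + bt x.a * y.t.val + bt x.c ∧
    cn (x * y) = cn y + bt x.a * bt ((y.c + y.a * y.t) * (om * om)) +
      bt x.c * bt (y.a * (om * om)) + cn x ∧ ((x * y).t.val : ZMod 2) = y.t.val + x.t.val ∧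
    bt (((x * y).c + (x * y).a * (x * y).t) * (om * om)) = bt ((y.c + y.a * y.t) * (om * om)) +
      x.t.val * bt (y.a * (om * om)) + bt ((x.c + x.a * x.t) * (om * om)) ∧
    bt ((x * y).a * (om * om)) = bt (y.a * (om * om)) + bt (x.a * (om * om)) := by
  decide +kernel

theorem mt_mul (x y : P K4) : mt (x * y) = mt x * mt y := by
  obtain ⟨h₁, h₂, h₃, h₄, h₅, h₆⟩ := mt_aux x y
  rw [mt, h₁, h₂, h₃, h₄, h₅, h₆]
  ext i j
  fin_cases i <;> fin_cases j <;> simp [mt, Matrix.mul_apply, Fin.sum_univ_four]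

theorem mt_inj : ∀ x : P K4, mt x = 1 → x = 1 := by decide +kernel

/-- The embedding into `GL₄(2)`. -/
def io : P K4 →* GL (Fin 4) (ZMod 2) :=
  MonoidHom.toHomUnits ⟨⟨mt, by decide +kernel⟩, mt_mul⟩

theorem io_inj : Function.Injective io :=
  (injective_iff_map_eq_one _).2 fun x h => mt_inj x (congrArg Units.val h)

/-- An involution as an element of `GL₄(2)`. -/
def un (g : Matrix (Fin 4) (Fin 4) (ZMod 2)) (h : g * g = 1) : GL (Fin 4) (ZMod 2) := ⟨g, g, h, h⟩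

theorem conj_un {g : Matrix (Fin 4) (Fin 4) (ZMod 2)} (h : g * g = 1) {x y : P K4}
    (e : mt y * g = g * mt x) : io y = un g h * io x * (un g h)⁻¹ :=
  eq_mul_inv_of_mul_eq (Units.ext e)

/-- The Weyl element on `Q`. -/
def wq (x : P K4) : P K4 := ⟨x.c, x.a, 0, x.z, by simp, by linear_combination x.hz⟩

theorem card_G : Nat.card (GL (Fin 4) (ZMod 2)) = 20160 := by
  rw [card_GL_field]; simp [Fin.prod_univ_four]

end Md

open Md in
theorem model : LModelStmt := by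
  have hc : Nat.card io.range = 2 ^ (Nat.card (GL (Fin 4) (ZMod 2))).factorization 2 := by
    rw [← Nat.card_congr (MonoidHom.ofInjective io_inj).toEquiv, card_P, card_G,
      show 20160 = 2 ^ 6 * 315 by norm_num, Nat.factorization_mul (by norm_num) (by norm_num),
      Finsupp.add_apply, Nat.factorization_pow_self Nat.prime_two,
      Nat.factorization_eq_zero_of_not_dvd (by norm_num)]
    rfl
  let T := Sylow.ofCard io.range hc
  obtain ⟨b, hb⟩ := exists_gIso (homOn_hom ⊤ io) (fun _ _ _ _ e => io_inj e) (S' := T)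
    (by rw [img_hom, ← MonoidHom.range_eq_map]; rfl)
  obtain ⟨E, hE⟩ := hb.symm.exists_isoM (groupFusionSystem (T : Subgroup (GL (Fin 4) (ZMod 2))))
  have hI := hE.symm
  have key : ∀ Q f, M E Q f ↔ ∃ g, ∀ x ∈ Q, io (f x) = g * io x * g⁻¹ := fun Q f => by
    rw [Asch.M_iff_of_realized hI.isRealizedBy.1]
    simp only [le_top, mem_top, implies_true, true_and, hI.hom.fn_toHom (mem_top _)]
  refine ⟨E, hE.saturated T.isPGroup' (group_isSaturated T),
    ⟨_, _, inferInstance, _, hI.isRealizedBy.1, T, hI.isRealizedBy.2.symm⟩,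
    ⟨wq, ⟨(key _ _).2 ⟨un !![1, 0, 0, 0; 0, 0, 1, 0; 0, 1, 0, 0; 0, 0, 0, 1] (by decide +kernel),
      fun x hx => conj_un _ ?_⟩, fun _ _ => rfl⟩, xj 1 0 0 (by decide) (by decide), ⟨rfl, rfl⟩,
      by decide⟩,
    ⟨(key _ _).2 ⟨un !![1, 0, 0, 0; 1, 1, 0, 0; 0, 0, 1, 1; 0, 0, 0, 1] (by decide +kernel),
      fun x hx => conj_un _ ?_⟩, fun _ _ => rfl⟩,
    ⟨(key _ _).2 ⟨un !![1, 1, 0, 0; 0, 1, 0, 0; 0, 0, 1, 0; 0, 0, 1, 1] (by decide +kernel),
      fun x hx => conj_un _ ?_⟩, fun _ _ => rfl⟩⟩ <;> revert x <;> decide +kernel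

end Cfsg.Agent.U4.Q2
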