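import Cfsg.Agent.Lib.U4.Q2J
import Cfsg.Agent.Lib.U4.Q2Alp
import Cfsg.Agent.Lib.U4.Q2Model
import Cfsg.Agent.Lib.U4.Nrm
import Cfsg.Agent.Lib.U4.Model
import Cfsg.Agent.Lib.U4.Final

/-!
Row Q2: the case `q = 2`.
-/

set_option autoImplicit false

namespace Cfsg.Agent.U4

open Cfsg.Agent.Fus Cfsg.Agent.Fus2 Subgroup JS
open Cfsg.Agent.U5 (Uf)

universe v

namespace Q2

variable {F F' : FusionSystem (⊤ : Subgroup (P K4))}

theorem sg_J (c : K4) (κ : Bool) (x : P K4) : sg c κ x ∈ J K4 := rfl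

theorem gm_iff {c : K4} {κ : Bool} (hc : c ≠ 0) :
    Gm (F.autGroup (J K4)) c κ ↔ Au F (J K4) (sg c κ) := by
  constructor
  · rintro ⟨-, σ, hσ, e⟩
    refine ⟨(au_afn hσ).1.congr fun x hx => ?_, fun x _ => sg_J c κ x⟩
    have := enc_sg c κ ⟨x, hx⟩
    rw [← e, ap_cd] at this
    rw [afn_apply _ hx]
    exact congrArg Subtype.val (enc_inj _ ⟨_, sg_J c κ x⟩ this.symm)
  · intro h
    obtain ⟨σ, hσ, e⟩ := h.1.exists_aut' h.2
    refine ⟨hc, σ, hσ, ?_⟩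
    rw [← cf_sg, cd, cf, ← e _ e1.2, ← e _ e2.2, ← e _ e3.2, ← e _ z0.2]
    simp only [afn_coe]

theorem inn (hF : F.IsSaturated 2) {c : K4} {κ : Bool} (hg : Gm (F.autGroup (J K4)) c κ) :
    Inn F := fun f hf => by
  have hf' : Au F ⊤ f := ⟨hf, fun _ _ => trivial⟩
  obtain ⟨α, hα, e⟩ := (hf.mono (le_top : J K4 ≤ ⊤)).exists_aut' fun x => hf'.J_of_top
  obtain ⟨g, -, eg⟩ := Fus2.mem_autInducedBy_iff.1 (st_le (hyp ext hF) hg hα
    (st_iff.2 fun x hx => by rw [e x (Z_le_J hx)]; exact hf'.Z_of_top hx))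
  obtain ⟨β, hβ, eβ⟩ := (hf.comp (M_conj F le_rfl (mem_top g⁻¹)) fun _ _ => trivial).exists_aut'
    fun _ _ => trivial
  have hJ : ∀ x ∈ J K4, afn β x = x := fun x hx => by
    rw [eβ x trivial, ← e x hx, eg x hx]; group
  have hm : ∀ x y, afn β (x * y) = afn β x * afn β y := fun x y => homOn_afn β x trivial y trivial
  have hy : ∀ x, x⁻¹ * afn β x ∈ J K4 := fun x => mem_J_of_comm fun y hy => by
    have h₁ : x * y * x⁻¹ ∈ J K4 := (inferInstance : (J K4).Normal).conj_mem y hy.1 x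
    have h₂ := hm (x * y * x⁻¹) x
    rw [hJ _ h₁, inv_mul_cancel_right, hm, hJ y hy.1] at h₂
    rw [mul_assoc, h₂]
    group
  have h3 : ∀ x : P K4, afn β (afn β x) = x := fun x => by
    have h₁ := hm x (x⁻¹ * afn β x)
    have h₂ : ∀ y ∈ J K4, y * y = 1 := by decide +kernel
    rw [mul_inv_cancel_left, hJ _ (hy x)] at h₁
    rw [h₁]
    calc _ = x * (x⁻¹ * afn β x * (x⁻¹ * afn β x)) := by group
      _ = _ := by rw [h₂ _ (hy x), mul_one]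
  have h2 : β ^ 2 ^ 1 = 1 := MulEquiv.ext fun x => Subtype.ext (by
    rw [pow_one, sq, ← afn_coe, afn_mul, h3]; rfl)
  have hT := sat_sylow_top (pg_top K4 2) hF
  have hz : IsPGroup 2 (zpowers β) := isPGroup_zpowers_of_pow h2
  haveI := innNormal (⊤ : Subgroup (P K4))
  obtain ⟨s, hs⟩ := (hT.eq_of_le (hT.isPGroup.to_sup_of_normal_left hz) le_sup_left
    (sup_le hT.le (zpowers_le.2 hβ))).le (mem_sup_right (mem_zpowers _))
  refine ⟨g * s, fun y => ?_⟩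
  have := congrArg Subtype.val (DFunLike.congr_fun hs ⟨y, mem_top y⟩)
  rw [← afn_apply β, eβ y trivial] at this
  change s * y * (s : P K4)⁻¹ = _ at this
  rw [show g * s * y * (g * s)⁻¹ = g * (s * y * (s : P K4)⁻¹) * g⁻¹ by group, this]
  group

theorem base (hF : F.IsSaturated 2) (hc : F.core = ⊥) (h₁ : Gm (F.autGroup (J K4)) 1 false)
    (h₂ : Gm (F.autGroup (J K4)) om true) : F.IsRealizable 2 := by
  obtain ⟨E, hE, hr, hQ, g₁, g₂⟩ := model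
  rw [← gm_iff (by decide)] at g₁ g₂
  have key : ∀ {F F' : FusionSystem (⊤ : Subgroup (P K4))}, F.IsSaturated 2 → F'.IsSaturated 2 →
      Gm (F.autGroup (J K4)) 1 false → Gm (F.autGroup (J K4)) om true →
      Gm (F'.autGroup (J K4)) 1 false → Gm (F'.autGroup (J K4)) om true → MvQ F → MvQ F' →
      F ≤ F' := fun {F F'} hF hF' h₁ h₂ g₁ g₂ q q' =>
    alp hF hF' (inn hF h₁) (inn hF' g₁) q q' fun f hf => by
      obtain ⟨α, hα, e⟩ := hf.1.exists_aut' hf.2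
      refine (M_afn le_top (le_of_gm (hyp ext hF) h₁ (hyp ext hF').syl.le
        (fun σ hσ c hc κ eσ => ?_) hα)).congr e
      cases κ
      · obtain rfl := gm_same (hyp ext hF) h₁ ⟨hc, σ, hσ, eσ⟩
        obtain ⟨-, σ', hσ', e'⟩ := g₁
        rwa [cd_inj (eσ.trans e'.symm)]
      · obtain rfl := gm_same (hyp ext hF) h₂ ⟨hc, σ, hσ, eσ⟩
        obtain ⟨-, σ', hσ', e'⟩ := g₂
        rwa [cd_inj (eσ.trans e'.symm)]
  have hQ' := (mv ess hF hc).1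
  rwa [fs_le_antisymm (key hF hE h₁ h₂ g₁ g₂ hQ' hQ) (key hE hF g₁ g₂ h₁ h₂ hQ hQ')]

/-- The restriction to `J`. -/
def res (θ : MulAut (P K4)) : MulAut (W K4) where
  toFun x := ⟨θ x, Nr.inv_J θ x.2⟩
  invFun x := ⟨θ⁻¹ x, Nr.inv_J θ⁻¹ x.2⟩
  left_inv x := Subtype.ext (θ.symm_apply_apply x)
  right_inv x := Subtype.ext (θ.apply_symm_apply x)
  map_mul' x y := Subtype.ext (θ.map_mul x y)

theorem gm_iso (hF : F'.IsSaturated 2) {θ : MulAut (P K4)} (hI : IsoM F F' θ θ.symm) {c d e : K4}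
    {κ κ' : Bool} (hd : d ≠ 0) (h : Gm (F.autGroup (J K4)) c κ)
    (he : ml (tm e) (ml (ml (cf θ) (sm c κ)) (cf θ.symm)) = sm d κ') :
    Gm (F'.autGroup (J K4)) d κ' := by
  obtain ⟨-, σ, hσ, eσ⟩ := h
  have hJ : ∀ x, θ x ∈ J K4 ↔ x ∈ J K4 := fun x =>
    ⟨fun h => by simpa using Nr.inv_J θ⁻¹ h, Nr.inv_J θ⟩
  have h₁ : res θ * σ * (res θ)⁻¹ ∈ F'.autGroup (J K4) :=
    ((au_of_iso hI hJ (f := fun x => θ (afn σ (θ.symm x)))).2
      (by simpa using au_afn hσ)).1.mem_autGroup fun x hx => by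
        rw [afn_apply _ hx, afn_apply _ (show θ.symm x ∈ J K4 from Nr.inv_J θ⁻¹ hx)]; rfl
  refine ⟨hd, _, mul_mem ((hyp ext hF).tau_A e) h₁, ?_⟩
  rw [cd_mul, cd_mul, cd_mul, cd_tau, eσ]
  exact he

/-- The normalising automorphisms. -/
def th (l : K4) (hl : l ≠ 0) (f e : Bool) : MulAut (P K4) :=
  cen (fun t => bif e then t else 0) (by cases e <;> simp) (by cases e <;> simp) *
    dg (Units.mk0 l hl) 1 (bif f then starRingAut else RingEquiv.refl K4)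

theorem norm : ∀ c ≠ 0, ∀ d ≠ 0, c ≠ d → ∃ l hl f e,
    (∃ a, ml (tm a) (ml (ml (cf (th l hl f e)) (sm c false)) (cf (th l hl f e).symm)) = sm 1 false) ∧
    ∃ a, ml (tm a) (ml (ml (cf (th l hl f e)) (sm d true)) (cf (th l hl f e).symm)) = sm om true := by
  decide +kernel

theorem two (hF : F.IsSaturated 2) (hc : F.core = ⊥) {c d : K4}
    (h₁ : Gm (F.autGroup (J K4)) c false) (h₂ : Gm (F.autGroup (J K4)) d true) :
    F.IsRealizable 2 := by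
  obtain ⟨l, hl, f, e, ⟨a, ha⟩, a', ha'⟩ := norm c h₁.1 d h₂.1 (by
    rintro rfl
    exact gm_two (hyp ext hF) h₁ h₂)
  obtain ⟨F', hI⟩ := exists_iso (th l hl f e) F
  have hF' := Iso.saturated ⟨_, hI⟩ hF
  exact Iso.real ⟨_, hI⟩ (base hF' (Iso.core ⟨_, hI⟩ hc) (gm_iso hF' hI (by decide) h₁ ha)
    (gm_iso hF' hI (by decide) h₂ ha'))

/-- The centre of `E_c`. -/
def Dc (c : K4) : Subgroup (W K4) where
  carrier := {x | tt x = 0 ∧ (cc x = 0 ∨ cc x = c)}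
  one_mem' := ⟨rfl, .inl rfl⟩
  mul_mem' := by
    rintro x y ⟨h₁, h₂⟩ ⟨h₃, h₄⟩
    refine ⟨by simp [h₁, h₃], ?_⟩
    rcases h₂ with h₂ | h₂ <;> rcases h₄ with h₄ | h₄ <;> simp [h₂, h₄, CharTwo.add_self_eq_zero]
  inv_mem' := by
    rintro x ⟨h₁, h₂⟩
    exact ⟨by simp [h₁], by simpa [CharTwo.neg_eq] using h₂⟩

theorem sg_Dc : ∀ c ≠ 0, ∀ κ, ∀ x y : W K4, enc y = ap (sm c κ) (enc x) →
    tt x = 0 ∧ (cc x = 0 ∨ cc x = c) → tt y = 0 ∧ (cc y = 0 ∨ cc y = c) := by decide +kernel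

theorem not_one (hF : F.IsSaturated 2) (hc : F.core = ⊥) {c : K4} {κ : Bool}
    (h : Gm (F.autGroup (J K4)) c κ) : ∃ d, Gm (F.autGroup (J K4)) d !κ := by
  by_contra hn
  have H := hyp ext hF
  have hu : ∀ {d κ'}, Gm (F.autGroup (J K4)) d κ' → d = c := fun {d κ'} h' => by
    by_cases e : κ' = κ
    · exact gm_same H (e ▸ h') h
    · exact absurd ⟨d, by rwa [← Bool.eq_not.2 e]⟩ hn
  refine one hF (inn hF h) (mv ess hF hc).1 c h.1 (fun f hf x hx hx' => ?_)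
    (fun g h₀ h₁ f hf e => ?_) hc
  · obtain ⟨α, hα, e⟩ := hf.1.exists_aut' hf.2
    have := le_of_gm H h (A' := Ess.stabSub (Dc c)) (fun τ hτ y hy => by
        obtain ⟨a, rfl⟩ := (H.mem _).1 hτ
        exact ⟨by simpa using hy.1, by simpa [hy.1] using hy.2⟩)
      (fun σ hσ d hd κ' eσ y hy => by
        obtain rfl := hu ⟨hd, σ, hσ, eσ⟩
        exact sg_Dc _ hd κ' y _ (by rw [← eσ, ap_cd]) hy) hα ⟨x, hx.1⟩ ⟨hx.2, hx'⟩
    rw [← e x hx.1, afn_apply _ hx.1]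
    exact ⟨⟨aa _, this.1⟩, this.2⟩
  · obtain ⟨α, hα, e'⟩ := hf.1.exists_aut' hf.2
    by_contra hs
    refine h₁ (hu (gm_of_cj H hα (fun h => hs fun x hx => e' x hx.1 ▸ st_iff.1 h x hx) h₀
      (b := g.a) ?_).choose_spec)
    rw [mul_assoc, inv_mul_eq_iff_eq_mul]
    refine MulEquiv.ext fun x => Subtype.ext ?_
    rw [← afn_coe, ← afn_coe, afn_mul, afn_mul, afn_tau g x.2, afn_tau g (afn_mem α x.2), e' _ x.2,
      e' _ ((inferInstance : (J K4).Normal).conj_mem _ x.2 g), e _ x.2]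

theorem real (hF : F.IsSaturated 2) (hc : F.core = ⊥) : F.IsRealizable 2 := by
  obtain ⟨F₁, i₁, n₁⟩ := nrm hF
  have s₁ := i₁.saturated hF
  have c₁ := i₁.core hc
  refine i₁.real ?_
  by_cases h : TI (F₁.autGroup (J K4)) (autInducedBy ⊤ (J K4))
  · obtain ⟨F₂, i₂, n₂, j₂⟩ := l2' ext s₁ (.inr h) n₁ (mv ess s₁ c₁).2
    have s₂ := i₂.saturated s₁
    exact i₂.real (std U4.model (U4.alp ess ext) (cmp ext) s₂ n₂ j₂
      (l1 ext s₂ (by decide) n₂ (mv ess s₂ (i₂.core c₁)).1))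
  obtain ⟨c, κ, g⟩ := gm_of_not_ti (hyp ext s₁) h
  obtain ⟨d, g'⟩ := not_one s₁ c₁ g
  cases κ
  exacts [two s₁ c₁ g g', two s₁ c₁ g' g]

end Q2

theorem q2 : Q2Stmt.{v} := fun hq hF hc =>
  real_of_field (K₀ := Q2.K4) hq (fun _ => Q2.real) hF hc

end Cfsg.Agent.U4
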