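import Cfsg.Agent.Lib.U4.Q2Defs
import Cfsg.Agent.Lib.U4.L2

/-!
The case `q = 2`: automorphisms of `J` as 16-bit codes.
-/

set_option autoImplicit false

namespace Cfsg.Agent.U4.Q2

open Cfsg.Agent.Fus Cfsg.Agent.Fus2 Subgroup JS

/-- The code of an element of `J`. -/
def enc (x : P K4) : ℕ := x.t.val + 2 * x.c.val + 8 * x.z.val

/-- The code with given digits. -/
def mk4 (a b c d : ℕ) : ℕ := a + 16 * b + 256 * c + 4096 * d

/-- Application of a code. -/
def ap (m v : ℕ) : ℕ := (v % 2 * (m % 16)) ^^^ (v / 2 % 2 * (m / 16 % 16)) ^^^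
  (v / 4 % 2 * (m / 256 % 16)) ^^^ (v / 8 % 2 * (m / 4096 % 16))

/-- Composition of codes. -/
def ml (m n : ℕ) : ℕ :=
  mk4 (ap m (n % 16)) (ap m (n / 16 % 16)) (ap m (n / 256 % 16)) (ap m (n / 4096 % 16))

/-- A basis of `J`. -/
def e1 : W K4 := wk 1 0 0 (by decide) (by decide)
/-- A basis of `J`. -/
def e2 : W K4 := wk 0 1 0 (by decide) (by decide)
/-- A basis of `J`. -/
def e3 : W K4 := wk 0 om 0 (by decide) (by decide)
/-- A basis of `J`. -/
def z0 : W K4 := wk 0 0 1 (by decide) (by decide)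

/-- The code of a map. -/
def cf (f : P K4 → P K4) : ℕ := mk4 (enc (f e1)) (enc (f e2)) (enc (f e3)) (enc (f z0))

/-- The code of an automorphism. -/
def cd (α : MulAut (W K4)) : ℕ := mk4 (enc (α e1)) (enc (α e2)) (enc (α e3)) (enc (α z0))

instance (Φ : W K4 → Prop) [DecidablePred Φ] : Decidable (∀ x, Φ x) :=
  decidable_of_iff (∀ c t z ht hz, Φ (wk t c z ht hz))
    ⟨fun h x => by
      rw [show x = wk (tt x) (cc x) (zz x) (star_tt x) (star_zz x) from wext rfl rfl rfl]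
      exact h .., fun h _ _ _ _ _ => h _⟩

theorem enc_lt : ∀ x : W K4, enc x < 16 := by decide +kernel

theorem enc_mul : ∀ x y : W K4, enc (x * y).1 = enc x ^^^ enc y := by decide +kernel

theorem enc_inj : ∀ x y : W K4, enc x = enc y → x = y := by decide +kernel

theorem dec : ∀ x : W K4, x = e1 ^ (enc x % 2) * e2 ^ (enc x / 2 % 2) * e3 ^ (enc x / 4 % 2) *
    z0 ^ (enc x / 8 % 2) := by decide +kernel

theorem enc_pow (x : W K4) (n : ℕ) : enc (x ^ (n % 2)).1 = n % 2 * enc x := by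
  rcases Nat.mod_two_eq_zero_or_one n with h | h <;> rw [h]
  · rw [pow_zero, zero_mul]; rfl
  · rw [pow_one, one_mul]

theorem dig {a b c d : ℕ} (ha : a < 16) (hb : b < 16) (hc : c < 16) (hd : d < 16) :
    mk4 a b c d % 16 = a ∧ mk4 a b c d / 16 % 16 = b ∧ mk4 a b c d / 256 % 16 = c ∧
      mk4 a b c d / 4096 % 16 = d := by
  unfold mk4; omega

theorem cd_dig (α : MulAut (W K4)) : cd α % 16 = enc (α e1) ∧ cd α / 16 % 16 = enc (α e2) ∧
    cd α / 256 % 16 = enc (α e3) ∧ cd α / 4096 % 16 = enc (α z0) :=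
  dig (enc_lt _) (enc_lt _) (enc_lt _) (enc_lt _)

theorem ap_cd (α : MulAut (W K4)) (x : W K4) : ap (cd α) (enc x) = enc (α x) := by
  obtain ⟨h₁, h₂, h₃, h₄⟩ := cd_dig α
  conv_rhs => rw [dec x]
  simp only [map_mul, map_pow, enc_mul, enc_pow, ap, h₁, h₂, h₃, h₄]

theorem cd_mul (α β : MulAut (W K4)) : cd (α * β) = ml (cd α) (cd β) := by
  obtain ⟨h₁, h₂, h₃, h₄⟩ := cd_dig β
  simp only [ml, h₁, h₂, h₃, h₄, ap_cd]
  rfl

theorem cd_inj {α β : MulAut (W K4)} (h : cd α = cd β) : α = β :=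
  MulEquiv.ext fun x => enc_inj _ _ (by rw [← ap_cd, ← ap_cd, h])

theorem cd_one : cd 1 = 0x8421 := by decide +kernel

/-- The codes of `r_a`. -/
def tm (a : K4) : ℕ := 0x8caf84ad8c2b8421 / 65536 ^ a.val % 65536

/-- The codes of `σ_{c,κ}`. -/
def sm (c : K4) (κ : Bool) : ℕ :=
  (bif κ then 0x65d148312f810001 else 0x6b3148f125810001) / 65536 ^ c.val % 65536

theorem cd_tau : ∀ a, cd (tau a) = tm a := by decide +kernel

theorem enc_sg : ∀ c κ, ∀ x : W K4, enc (sg c κ x) = ap (sm c κ) (enc x) := by decide +kernel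

theorem cf_sg : ∀ c κ, cf (sg c κ) = sm c κ := by decide +kernel

theorem mem_Zj' : ∀ x : W K4, tt x = 0 → cc x = 0 → x = 1 ∨ x = z0 := by decide +kernel

theorem st_z0 {α : MulAut (W K4)} : α ∈ St K4 ↔ α z0 = z0 := by
  refine ⟨fun h => ?_, fun h x hx => ?_⟩
  · obtain ⟨h₁, h₂⟩ := mem_Zj.1 (h z0 (mem_Zj.2 ⟨rfl, rfl⟩))
    exact (mem_Zj' _ h₁ h₂).resolve_left fun e => absurd (α.map_eq_one_iff.1 e) (by decide)
  · rcases mem_Zj' _ (mem_Zj.1 hx).1 (mem_Zj.1 hx).2 with rfl | rfl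
    exacts [by rw [map_one]; exact one_mem _, by rw [h]; exact hx]

theorem st_cd {α : MulAut (W K4)} : α ∈ St K4 ↔ cd α / 4096 % 16 = 8 := by
  rw [st_z0, (cd_dig α).2.2.2]
  exact ⟨fun h => by rw [h]; rfl, fun h => enc_inj _ _ h⟩

/-- A bounded universal quantifier. -/
def al (f : ℕ → Bool) : Bool := f 0 && f 1 && f 2 && f 3 && f 4 && f 5 && f 6 && f 7 && f 8 &&
  f 9 && f 10 && f 11 && f 12 && f 13 && f 14 && f 15

theorem al_sp {f : ℕ → Bool} (h : al f = true) {n : ℕ} (hn : n < 16) : f n = true := by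
  simp only [al, Bool.and_eq_true] at h
  interval_cases n <;> simp [h]

/-- The cube of `m r_{ωb}`. -/
def cb (b : K4) (m : ℕ) : ℕ :=
  ml (ml m (tm (om * b))) (ml (ml m (tm (om * b))) (ml m (tm (om * b))))

/-- The test for an involution commuting with `r_b`. -/
def c1 (b : K4) (m : ℕ) : Prop :=
  ap m (tm b / 256 % 16) = ap (tm b) (m / 256 % 16) → ml m (tm b) = ml (tm b) m →
    ml m m = 0x8421 → m / 4096 % 16 ≠ 8 → cb b m / 4096 % 16 = 8 ∧
      ml (cb b m) (cb b m) = 0x8421 ∧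
        ((∃ e, cb b m = tm e) → ∃ κ e e', ml (tm e) (ml m (tm e')) = sm b κ)

instance (b : K4) (m : ℕ) : Decidable (c1 b m) := by unfold c1; infer_instance

theorem c1_all : ∀ b ≠ 0, (al fun x => al fun y => al fun z => al fun w =>
    decide (c1 b (mk4 x y z w))) = true := by decide +kernel

/-- The test for an element normalising `T`. -/
def c4 (m : ℕ) : Prop := ∀ b ≠ 0, ml m (tm 1) = ml (tm b) m → ∀ b' ≠ 0, b ≠ b' →
  ml m (tm om) = ml (tm b') m → ml (ml m m) (ml m m) = 0x8421 ∨ b ≠ 1 ∧ b' = b * om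

instance (m : ℕ) : Decidable (c4 m) := by unfold c4; infer_instance

theorem c4_all : (al fun x => al fun y => al fun z => decide (c4 (mk4 x y z 8))) = true := by
  decide +kernel

theorem c2 : ∀ c ≠ 0, ml (sm c false) (sm c true) / 4096 % 16 = 8 ∧
    ml (ml (sm c false) (sm c true)) (ml (sm c false) (sm c true)) = 0x8421 ∧
    ∀ e, ml (sm c false) (sm c true) ≠ tm e := by decide +kernel

/-- A word in two involutions of the same type. -/
def wd (c d : K4) (κ : Bool) : ℕ :=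
  ml (sm c κ) (ml (sm d κ) (ml (sm c κ) (ml (tm c) (ml (sm d κ) (sm c κ)))))

theorem c3 : ∀ c ≠ 0, ∀ d ≠ 0, c ≠ d → ∀ κ,
    (wd c d κ / 4096 % 16 = 8 ∧ ml (wd c d κ) (wd c d κ) = 0x8421 ∧ ∀ e, wd c d κ ≠ tm e) ∨
    (wd d c κ / 4096 % 16 = 8 ∧ ml (wd d c κ) (wd d c κ) = 0x8421 ∧ ∀ e, wd d c κ ≠ tm e) := by
  decide +kernel

theorem sm_fact : ∀ c ≠ 0, ∀ κ, ml (sm c κ) (sm c κ) = 0x8421 ∧
    ml (sm c κ) (tm c) = ml (tm c) (sm c κ) ∧ sm c κ / 4096 % 16 = 2 * c.val := by decide +kernel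

end Cfsg.Agent.U4.Q2
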