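import Cfsg.Agent.Lib.U4.Basic

/-!
The case `q = 2`: the concrete field and the system of `L₄(2)`.
-/

set_option autoImplicit false

namespace Cfsg.Agent.U4.Q2

open Cfsg.Agent.Fus Cfsg.Agent.Fus2 Subgroup
open Cfsg.Agent.U5 (Uf)

/-- The field with four elements (`2 = ω`, `3 = ω²`). -/
def K4 : Type := Fin 4

instance : DecidableEq K4 := inferInstanceAs (DecidableEq (Fin 4))
instance : Fintype K4 := inferInstanceAs (Fintype (Fin 4))

/-- The code of an element. -/
def K4.val (a : K4) : ℕ := Fin.val a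
/-- The element with a given code. -/
def K4.mk (n : ℕ) : K4 := Fin.ofNat 4 n

instance : Zero K4 := ⟨.mk 0⟩
instance : One K4 := ⟨.mk 1⟩
instance : Add K4 := ⟨fun a b => .mk (a.val ^^^ b.val)⟩
instance : Neg K4 := ⟨fun a => a⟩
instance : Mul K4 := ⟨fun a b => .mk (0x9c78e400 >>> (8 * a.val + 2 * b.val))⟩
instance : Inv K4 := ⟨fun a => a * a⟩

instance : Field K4 := Field.ofMinimalAxioms K4 (by decide) (by decide) (by decide) (by decide)
  (by decide) (by decide) (by decide) (by decide) (by decide) (by decide)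

instance : Uf K4 where
  star a := a * a
  star_involutive := (by decide : ∀ a : K4, a * a * (a * a) = a)
  star_mul := by decide
  star_add := by decide
  q := 2
  star_eq a := (sq a).symm
  card_eq := rfl

instance : CharP K4 2 := CharTwo.of_one_ne_zero_of_two_eq_zero (by decide)
  (by rw [← one_add_one_eq_two]; decide)

/-- A primitive cube root of unity. -/
def om : K4 := .mk 2

instance : DecidableEq (P K4) := fun x y =>
  decidable_of_iff (x.a = y.a ∧ x.c = y.c ∧ x.t = y.t ∧ x.z = y.z)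
    ⟨fun h => P.ext h.1 h.2.1 h.2.2.1 h.2.2.2, fun h => h ▸ ⟨rfl, rfl, rfl, rfl⟩⟩

instance (Φ : P K4 → Prop) [DecidablePred Φ] : Decidable (∀ x, Φ x) :=
  decidable_of_iff (∀ a c t z ht hz, Φ ⟨a, c, t, z, ht, hz⟩)
    ⟨fun h x => h _ _ _ _ x.ht x.hz, fun h _ _ _ _ _ _ => h _⟩

instance : DecidablePred (· ∈ J K4) := fun x => inferInstanceAs (Decidable (x.a = 0))
instance : DecidablePred (· ∈ Q K4) := fun x => inferInstanceAs (Decidable (x.t = 0))
instance : DecidablePred (· ∈ Z2 K4) := fun x => inferInstanceAs (Decidable (x.a = 0 ∧ x.t = 0))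
instance : DecidablePred (· ∈ Z K4) := fun x =>
  inferInstanceAs (Decidable (x.a = 0 ∧ x.t = 0 ∧ x.c = 0))

/-- The trace to the prime field. -/
def tr (a : K4) : K4 := a + star a

/-- The involution `σ_{c,κ}` of `J` (`c ≠ 0`, `κ ∈ {0, 1}`): it commutes with `r_c`, swaps
`z₀ = (0,0,1)` and `d = (0,c,0)`, fixes `u = (1,0,0)` and maps `v = (0,ωc,0)` to `u v (d z₀)^κ`. -/
def sg (c : K4) (κ : Bool) (x : P K4) : P K4 :=
  xj (c * (x.z + (om + if κ then 1 else 0) * tr (x.c * star c))) (x.t + tr (x.c * star c))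
    (x.c * star c + (om + if κ then 1 else 0) * tr (x.c * star c))
    (by have := x.star_t; revert this; generalize x.t = t; generalize x.c = d; revert c t d; decide)
    (by generalize x.c = d; revert c d κ; decide)

/-- The automizer of `J` is the one of `L₄(2)`. -/
def LStd (F : FusionSystem (⊤ : Subgroup (P K4))) : Prop :=
  Au F (J K4) (sg 1 false) ∧ Au F (J K4) (sg om true)

/-- Row Q2-MODEL: the system of `L₄(2) = A₈`. -/
def LModelStmt : Prop :=
  ∃ E : FusionSystem (⊤ : Subgroup (P K4)), E.IsSaturated 2 ∧ E.IsRealizable 2 ∧ MvQ E ∧ LStd E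

/-- `Aut_F(S) = Inn(S)`. -/
def Inn (F : FusionSystem (⊤ : Subgroup (P K4))) : Prop :=
  ∀ f, M F ⊤ f → ∃ x : P K4, ∀ y, f y = x * y * x⁻¹

/-- Row Q2-ALP: a system with `Aut_F(S) = Inn(S)` is determined by `Aut_F(J)`. -/
def LAlpStmt : Prop :=
  ∀ {F F' : FusionSystem (⊤ : Subgroup (P K4))}, F.IsSaturated 2 → F'.IsSaturated 2 →
    Inn F → Inn F' → MvQ F → MvQ F' → (∀ f, Au F (J K4) f → M F' (J K4) f) → F ≤ F'

/-- Row Q2-ONE: if only `E_{c}` can move `Z`, then `N = {t = 0, a, c ∈ k c}` is normal in `F`. -/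
def LOneStmt : Prop :=
  ∀ {F : FusionSystem (⊤ : Subgroup (P K4))}, F.IsSaturated 2 → Inn F → MvQ F → ∀ c : K4, c ≠ 0 →
    (∀ f, Au F (J K4) f → ∀ x ∈ Z2 K4, x.c = 0 ∨ x.c = c →
      f x ∈ Z2 K4 ∧ ((f x).c = 0 ∨ (f x).c = c)) →
    (∀ g : P K4, g.a ≠ 0 → g.a ≠ c → ∀ f, Au F (J K4) f →
      (∀ x ∈ J K4, f (g * x * g⁻¹) = g * f x * g⁻¹) → ∀ x ∈ Z K4, f x ∈ Z K4) → F.core ≠ ⊥

end Cfsg.Agent.U4.Q2
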