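import Cfsg.Agent.Lib.U4.Q2C

/-!
The case `q = 2`: the automizer of `J` without trivial intersection.
-/

set_option autoImplicit false

namespace Cfsg.Agent.U4.Q2

open Cfsg.Agent.Fus Cfsg.Agent.Fus2 Subgroup JS

/-- `σ_{c,κ} ∈ A`. -/
def Gm (A : Subgroup (MulAut (W K4))) (c : K4) (κ : Bool) : Prop :=
  c ≠ 0 ∧ ∃ σ ∈ A, cd σ = sm c κ

theorem sq_cd {β : MulAut (W K4)} : β ^ 2 ^ 1 = 1 ↔ ml (cd β) (cd β) = 0x8421 := by
  rw [pow_one, sq, ← cd_mul, ← cd_one]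
  exact ⟨congrArg cd, cd_inj⟩

theorem tt01 : ∀ x : W K4, tt x = 0 ∨ tt x = 1 := by decide +kernel

theorem to_z0 : ∀ c ≠ 0, ∀ κ, ∀ x : W K4, tt x = 0 → cc x = c →
    ∃ e, ap (sm c κ) (ap (tm e) (enc x)) = 8 := by decide +kernel

theorem tri : ∀ c ≠ 0, ∀ x : W K4, enc x = 2 * c.val → tau (om * c) x = x * z0 := by decide +kernel

theorem three : ∀ c ≠ 0, ∀ b ≠ 0, b ≠ 1 → c ≠ b * c ∧ c ≠ b * (b * c) ∧ b * c ≠ b * (b * c) ∧
    b * c ≠ (0 : K4) ∧ (c = 1 ∨ c = om ∨ c = 1 + om) := by decide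

variable {A T : Subgroup (MulAut (W K4))} (h : Hyp0 2 A T)
include h

theorem pe_cd {β : MulAut (W K4)} (hβ : β ∈ A) (h₁ : cd β / 4096 % 16 = 8)
    (h₂ : ml (cd β) (cd β) = 0x8421) : ∃ e, cd β = tm e := by
  obtain ⟨e, rfl⟩ := (h.mem _).1 (h.pe hβ (st_cd.2 h₁) (sq_cd.2 h₂))
  exact ⟨e, cd_tau e⟩

theorem gm_of_inv {σ : MulAut (W K4)} (hσ : σ ∈ A) {b : K4} (hb : b ≠ 0)
    (h₁ : σ * tau b = tau b * σ) (h₂ : σ ^ 2 ^ 1 = 1) (h₃ : σ ∉ St K4) : ∃ κ, Gm A b κ := by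
  have hc : c1 b (cd σ) := of_decide_eq_true
    (al_sp (al_sp (al_sp (al_sp (c1_all b hb) (enc_lt _)) (enc_lt _)) (enc_lt _)) (enc_lt _))
  have e : cb b (cd σ) = cd (σ * tau (om * b) * (σ * tau (om * b) * (σ * tau (om * b)))) := by
    simp only [cb, cd_mul, cd_tau]
  have hm := mul_mem hσ (h.tau_A (om * b))
  obtain ⟨e₁, e₂, e₃⟩ := hc (by
      rw [← cd_tau, (cd_dig _).2.2.1, (cd_dig _).2.2.1, ap_cd, ap_cd, ← MulAut.mul_apply, h₁]; rfl)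
    (by rw [← cd_tau, ← cd_mul, ← cd_mul, h₁]) (sq_cd.1 h₂) (mt st_cd.2 h₃)
  rw [e] at e₁ e₂ e₃
  obtain ⟨κ, a, a', e₄⟩ := e₃ (pe_cd h (mul_mem hm (mul_mem hm hm)) e₁ e₂)
  exact ⟨κ, hb, tau a * (σ * tau a'), mul_mem (h.tau_A _) (mul_mem hσ (h.tau_A _)), by
    rw [cd_mul, cd_mul, cd_tau, cd_tau, e₄]⟩

theorem gm_of_cj {α : MulAut (W K4)} (hα : α ∈ A) (hs : α ∉ St K4) {a b : K4} (ha : a ≠ 0)
    (e : α⁻¹ * tau a * α = tau b) : ∃ κ, Gm A b κ := by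
  have hp : ∀ c : K4, (α⁻¹ * tau c * α) ^ 2 ^ 1 = 1 := fun c => by
    rw [show α⁻¹ * tau c * α = α⁻¹ * tau c * α⁻¹⁻¹ by simp, conj_pow, tau_char 2]; simp
  obtain ⟨c, hc⟩ : ∃ c, α⁻¹ * tau c * α ∉ St K4 := by
    by_contra hn
    push Not at hn
    refine hs fun x hx => mem_Zj_of_fix fun c => α⁻¹.injective ?_
    obtain ⟨d, hd⟩ := (h.mem _).1 (h.pe (h.cj_A hα c) (hn c) (hp c))
    have := tau_fix d hx
    rw [← hd] at this
    simpa using this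
  refine gm_of_inv h (h.cj_A hα c) ?_ ?_ (hp c) hc
  · rintro rfl
    rw [tau_zero] at e
    exact ha (tau_eq_one (by rw [show tau a = α * (α⁻¹ * tau a * α) * α⁻¹ by group, e]; simp))
  · rw [← e, show α⁻¹ * tau c * α * (α⁻¹ * tau a * α) = α⁻¹ * (tau c * tau a) * α by group,
      tau_comm]
    group

theorem gm_of_not_ti (hn : ¬ TI A T) : ∃ c κ, Gm A c κ := by
  simp only [TI, not_forall] at hn
  obtain ⟨α, hα, a, ha, hτ, hs⟩ := hn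
  obtain ⟨b, e⟩ := (h.mem _).1 hτ
  exact ⟨b, gm_of_cj h hα hs ha e⟩

theorem gm_two {c : K4} (h₁ : Gm A c false) (h₂ : Gm A c true) : False := by
  obtain ⟨hc, σ, hσ, e⟩ := h₁
  obtain ⟨-, σ', hσ', e'⟩ := h₂
  obtain ⟨e₁, e₂, e₃⟩ := c2 c hc
  rw [← e, ← e', ← cd_mul] at e₁ e₂ e₃
  obtain ⟨a, ha⟩ := pe_cd h (mul_mem hσ hσ') e₁ e₂
  exact e₃ a ha

theorem gm_same {c d : K4} {κ : Bool} (h₁ : Gm A c κ) (h₂ : Gm A d κ) : c = d := by
  have key : ∀ {c d}, Gm A c κ → Gm A d κ → ∃ β ∈ A, cd β = wd c d κ := by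
    rintro c d ⟨-, σ, hσ, e⟩ ⟨-, σ', hσ', e'⟩
    exact ⟨σ * (σ' * (σ * (tau c * (σ' * σ)))), mul_mem hσ (mul_mem hσ' (mul_mem hσ
      (mul_mem (h.tau_A c) (mul_mem hσ' hσ)))), by simp only [wd, cd_mul, cd_tau, e, e']⟩
  by_contra hne
  rcases c3 c h₁.1 d h₂.1 hne κ with ⟨e₁, e₂, e₃⟩ | ⟨e₁, e₂, e₃⟩
  · obtain ⟨β, hβ, e⟩ := key h₁ h₂
    rw [← e] at e₁ e₂ e₃
    exact (pe_cd h hβ e₁ e₂).elim e₃
  · obtain ⟨β, hβ, e⟩ := key h₂ h₁
    rw [← e] at e₁ e₂ e₃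
    exact (pe_cd h hβ e₁ e₂).elim e₃

theorem st_le {c : K4} {κ : Bool} (hg : Gm A c κ) {α : MulAut (W K4)} (hα : α ∈ A)
    (hs : α ∈ St K4) : α ∈ T := by
  have hn : ∀ a ≠ 0, ∃ b ≠ 0, α * tau a = tau b * α := fun a ha => by
    obtain ⟨b, e⟩ := (h.mem _).1 (h.nrm α hα hs a)
    refine ⟨b, ?_, by rw [← e]; group⟩
    rintro rfl
    rw [tau_zero] at e
    exact ha (tau_eq_one (by simpa using e))
  obtain ⟨b, hb, e⟩ := hn 1 one_ne_zero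
  obtain ⟨b', hb', e'⟩ := hn om (by decide)
  have hc : c4 (cd α) := by
    have := al_sp (al_sp (al_sp c4_all (enc_lt (α e1))) (enc_lt (α e2))) (enc_lt (α e3))
    rw [cd, st_z0.1 hs]
    exact of_decide_eq_true this
  rcases hc b hb (by rw [← cd_tau, ← cd_tau, ← cd_mul, ← cd_mul, e]) b' hb' (by
      rintro rfl
      have := congrArg cd (mul_left_cancel (e.trans e'.symm))
      rw [cd_tau, cd_tau] at this
      exact absurd this (by decide))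
    (by rw [← cd_tau, ← cd_tau, ← cd_mul, ← cd_mul, e']) with h₄ | ⟨h₁, rfl⟩
  · refine h.syl.le_of_le_normalizer (zpowers_le.2 hα) (isPGroup_zpowers_of_pow (k := 2) ?_)
      (zpowers_le.2 (mem_normalizer_iff.2 fun τ => ⟨fun hτ => ?_, fun hτ => ?_⟩)) (mem_zpowers α)
    · rw [← cd_mul, ← cd_mul, ← cd_one] at h₄
      rw [← cd_inj h₄]
      show α ^ 4 = _
      simp only [pow_succ, pow_zero, one_mul, mul_assoc]
    · obtain ⟨a, rfl⟩ := (h.mem _).1 hτ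
      exact h.nrm α hα hs a
    · obtain ⟨a, e⟩ := (h.mem _).1 hτ
      have := h.nrm _ (inv_mem hα) (inv_mem hs) a
      rwa [← e, show α⁻¹ * (α * τ * α⁻¹) * α⁻¹⁻¹ = τ by group] at this
  have step : ∀ {c κ}, Gm A c κ → ∃ κ', Gm A (b * c) κ' := by
    rintro c κ ⟨hc, σ, hσ, eσ⟩
    obtain ⟨-, -, -, h0, h3⟩ := three c hc b hb h₁
    have ec : α * tau c = tau (b * c) * α := by
      rcases h3 with rfl | rfl | rfl
      · rw [mul_one, e]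
      · exact e'
      · rw [tau_add, ← mul_assoc, e, mul_assoc, e', mul_add, mul_one, tau_add, mul_assoc]
    obtain ⟨f₁, f₂, f₃⟩ := sm_fact c hc κ
    rw [← eσ] at f₁ f₂ f₃
    rw [← cd_tau, ← cd_mul, ← cd_mul] at f₂
    refine gm_of_inv h (mul_mem (mul_mem hα hσ) (inv_mem hα)) h0 ?_
      (by rw [conj_pow, sq_cd.2 f₁]; simp) fun hs' => ?_
    · rw [show tau (b * c) = α * tau c * α⁻¹ by rw [ec]; group,
        show α * σ * α⁻¹ * (α * tau c * α⁻¹) = α * (σ * tau c) * α⁻¹ by group, cd_inj f₂]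
      group
    · have := st_cd.1 (mul_mem (mul_mem (inv_mem hs) hs') hs)
      rw [show α⁻¹ * (α * σ * α⁻¹) * α = σ by group, f₃] at this
      revert this
      generalize c = c
      revert c
      decide
  obtain ⟨κ₁, g₁⟩ := step hg
  obtain ⟨κ₂, g₂⟩ := step g₁
  obtain ⟨n₁, n₂, n₃, -⟩ := three c hg.1 b hb h₁
  exfalso
  cases κ <;> cases κ₁ <;> cases κ₂ <;>
    first | exact n₁ (gm_same h hg g₁) | exact n₂ (gm_same h hg g₂) | exact n₃ (gm_same h g₁ g₂)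

theorem le_of_gm {c : K4} {κ : Bool} (hg : Gm A c κ) {A' : Subgroup (MulAut (W K4))} (hT : T ≤ A')
    (hA : ∀ σ ∈ A, ∀ c ≠ 0, ∀ κ, cd σ = sm c κ → σ ∈ A') : A ≤ A' := fun α hα => by
  have key : ∀ β ∈ A, tt (β z0) = 0 → β ∈ A' := fun β hβ ht => by
    by_cases hs : β ∈ St K4
    · exact hT (st_le h hg hβ hs)
    have hc : cc (β z0) ≠ 0 := fun hc => hs (st_z0.2 ((mem_Zj' _ ht hc).resolve_left fun e =>
      absurd (β.map_eq_one_iff.1 e) (by decide)))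
    obtain ⟨b, e⟩ := (h.mem _).1 (st_le h hg (h.cj_A hβ (cc (β z0))) (st_z0.2 (by
      have : tau (cc (β z0)) (β z0) = β z0 := wext (by simp) (by simp [ht]) (by simp [ht])
      simp [this])))
    obtain ⟨κ', -, σ, hσ, eσ⟩ := gm_of_cj h (inv_mem hβ) (mt inv_mem_iff.1 hs) (a := b)
      (b := cc (β z0)) (by
        rintro rfl
        rw [tau_zero] at e
        exact hc (tau_eq_one (by
          rw [show tau (cc (β z0)) = β * (β⁻¹ * tau (cc (β z0)) * β) * β⁻¹ by group, e]; simp)))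
      (by rw [← e]; group)
    obtain ⟨a, ea⟩ := to_z0 _ hc κ' _ ht rfl
    rw [← eσ, ← cd_tau, ap_cd, ap_cd] at ea
    have := hT (st_le h hg (mul_mem hσ (mul_mem (h.tau_A a) hβ)) (st_z0.2 (enc_inj _ _ ea)))
    exact (mul_mem_cancel_left (hT (h.tau_T a))).1 ((mul_mem_cancel_left (hA σ hσ _ hc κ' eσ)).1 this)
  obtain ⟨hc, σ, hσ, eσ⟩ := hg
  have hσ' := hA σ hσ c hc κ eσ
  have e := tri c hc (σ z0) (by rw [← (cd_dig σ).2.2.2, eσ, (sm_fact c hc κ).2.2])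
  rcases tt01 (α z0) with h₁ | h₁
  · exact key α hα h₁
  rcases tt01 (α (σ z0)) with h₂ | h₂
  · exact (mul_mem_cancel_right hσ').1 (key _ (mul_mem hα hσ) h₂)
  refine (mul_mem_cancel_right (mul_mem (hT (h.tau_T (om * c))) hσ')).1
    (key _ (mul_mem hα (mul_mem (h.tau_A _) hσ)) ?_)
  rw [MulAut.mul_apply, MulAut.mul_apply, e, map_mul, tt_mul, h₁, h₂]
  decide

end Cfsg.Agent.U4.Q2
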