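import Cfsg.Agent.Lib.U4.Lee6
import Cfsg.Agent.Lib.U4.Final
import Cfsg.Agent.Lib.U4.Model
import Cfsg.Agent.Lib.U4.Ext
import Cfsg.Agent.Lib.U4.L2

/-!
Row Q3 of docs/U4_PLAN.md.
-/

set_option autoImplicit false

namespace Cfsg.Agent.U4

universe v

theorem q3 : Q3Stmt.{v} := N9.q3_of nrm (mv ess) (l2 ext) ext (alp ess ext)
  (std model (alp ess ext) (cmp ext)) Le.leech

end Cfsg.Agent.U4
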