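import Cfsg.Agent.Lib.U4.F9

/-!
Row Q3 of docs/U4_PLAN.md: arithmetic on the codes of vectors of `V` and the elements `Xf w`.
-/

set_option autoImplicit false

namespace Cfsg.Agent.U4.N9

open Cfsg.Agent.Fus Cfsg.Agent.Fus2 Subgroup Cfsg.Agent.PC Cfsg.Agent.U4.L1 Equiv

theorem three : (3 : ZMod 3) = 0 := rfl

def d0 (n : ℕ) : ℕ := Nat.mod n 3
def d1 (n : ℕ) : ℕ := Nat.mod (Nat.div n 3) 3
def d2 (n : ℕ) : ℕ := Nat.mod (Nat.div n 9) 3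
def d3 (n : ℕ) : ℕ := Nat.mod (Nat.div n 27) 3

theorem dv_eq (n : ℕ) : dv n = (⟨d2 n, d3 n⟩, ⟨d0 n, d1 n⟩) := rfl

def code4 (x0 x1 x2 x3 : ℕ) : ℕ := Nat.add (Nat.add (Nat.mod x0 3) (Nat.mul 3 (Nat.mod x1 3)))
  (Nat.add (Nat.mul 9 (Nat.mod x2 3)) (Nat.mul 27 (Nat.mod x3 3)))

theorem dv_code4 (x0 x1 x2 x3 : ℕ) : dv (code4 x0 x1 x2 x3) = (⟨x2, x3⟩, ⟨x0, x1⟩) := by
  have e : code4 x0 x1 x2 x3 = x0 % 3 + 3 * (x1 % 3) + (9 * (x2 % 3) + 27 * (x3 % 3)) := rfl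
  rw [dv, show code4 x0 x1 x2 x3 / 9 % 3 = x2 % 3 by omega,
    show code4 x0 x1 x2 x3 / 27 % 3 = x3 % 3 by omega, show code4 x0 x1 x2 x3 % 3 = x0 % 3 by omega,
    show code4 x0 x1 x2 x3 / 3 % 3 = x1 % 3 by omega]
  simp only [ZMod.natCast_mod]

theorem dv_mod (n : ℕ) : dv (n % 81) = dv n := by
  rw [dv, dv, show n % 81 / 9 % 3 = n / 9 % 3 by omega, show n % 81 / 27 % 3 = n / 27 % 3 by omega,
    show n % 81 % 3 = n % 3 by omega, show n % 81 / 3 % 3 = n / 3 % 3 by omega]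

/-- Equality of coded vectors. -/
def eqN (x y : ℕ) : Bool := Nat.beq (Nat.mod x 81) (Nat.mod y 81)

theorem eqN_iff {x y : ℕ} : eqN x y = true ↔ dv x = dv y := by
  have c : ∀ a b : ℕ, ((a % 3 : ℕ) : ZMod 3) = (b % 3 : ℕ) ↔ a % 3 = b % 3 := fun a b => by
    rw [ZMod.natCast_eq_natCast_iff', Nat.mod_mod, Nat.mod_mod]
  rw [eqN, Nat.beq_eq]
  refine ⟨fun h => by rw [← dv_mod x, ← dv_mod y]; exact congrArg dv h, fun h => ?_⟩
  simp only [dv, Prod.mk.injEq, QuadraticAlgebra.mk.injEq, c] at h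
  show x % 81 = y % 81
  omega

theorem exists_dv (v : V) : ∃ n < 81, dv n = v := by
  obtain ⟨⟨a, b⟩, ⟨c, d⟩⟩ := v
  refine ⟨code4 c.val d.val a.val b.val, ?_, by simp [dv_code4]⟩
  show c.val % 3 + 3 * (d.val % 3) + (9 * (a.val % 3) + 27 * (b.val % 3)) < 81
  omega

def cm1 (x b y b' y' : ℕ) : ℕ := Nat.add x (Nat.add (Nat.mul b y) (Nat.mul b' y'))

/-- `u + b w + b' w'`. -/
def cmb (u b w b' w' : ℕ) : ℕ := code4 (cm1 (d0 u) b (d0 w) b' (d0 w'))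
  (cm1 (d1 u) b (d1 w) b' (d1 w')) (cm1 (d2 u) b (d2 w) b' (d2 w')) (cm1 (d3 u) b (d3 w) b' (d3 w'))

theorem dv_cmb (u b w b' w' : ℕ) :
    dv (cmb u b w b' w') = dv u + (b : ZMod 3) • dv w + (b' : ZMod 3) • dv w' := by
  rw [cmb, dv_code4]
  ext <;> simp [dv_eq, cm1, add_assoc]

def b3N (u w : ℕ) : ℕ := Nat.mod (cm1 (Nat.add (Nat.mul (d2 u) (d1 w)) (Nat.mul (d0 u) (d3 w)))
  2 (Nat.mul (d3 u) (d0 w)) 2 (Nat.mul (d1 u) (d2 w))) 3

theorem b3N_cast (u w : ℕ) : (b3N u w : ZMod 3) = b3 (dv u) (dv w) := by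
  rw [b3N, show ∀ a, Nat.mod a 3 = a % 3 from fun _ => rfl, ZMod.natCast_mod]
  simp only [cm1, b3, dv_eq, Nat.add_eq, Nat.mul_eq]
  push_cast
  linear_combination ((d3 u : ZMod 3) * d0 w + d1 u * d2 w) * three

def XN (w w' u : ℕ) : ℕ := cmb u (b3N u w) w (b3N u w') w'

theorem dv_XN (w w' u : ℕ) : dv (XN w w' u) = Xf (dv w, dv w') (dv u) := by
  rw [XN, dv_cmb, b3N_cast, b3N_cast, Xf]

/-- The action of `dgO o` on `V`. -/
def omV (o : ℕ) (v : V) : V := (lO o * sO o v.1, lO o * mO o * sO o v.2)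

def om1 (l0 l1 m s u : ℕ) : ℕ := code4
  (Nat.mul m (cm1 0 l0 (d0 u) (Nat.mul 2 s) (Nat.mul l1 (d1 u))))
  (Nat.mul m (cm1 0 l1 (d0 u) s (Nat.mul l0 (d1 u))))
  (cm1 0 l0 (d2 u) (Nat.mul 2 s) (Nat.mul l1 (d3 u))) (cm1 0 l1 (d2 u) s (Nat.mul l0 (d3 u)))

def omN (o u : ℕ) : ℕ := om1 ((o % 8 + 1) % 3) ((o % 8 + 1) / 3 % 3) (o / 8 % 2 + 1) (o / 16 % 2 + 1) u

theorem dv_omN (o u : ℕ) : dv (omN o u) = omV o (dv u) := by
  rw [omN, om1, dv_code4, omV, lO, mO, sO, sO, df, dv_eq]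
  generalize (o % 8 + 1) % 3 = l0, (o % 8 + 1) / 3 % 3 = l1
  rcases Nat.mod_two_eq_zero_or_one (o / 8) with h | h <;>
    rcases Nat.mod_two_eq_zero_or_one (o / 16) with h' | h' <;>
    ext <;> simp [h, h', cm1] <;> ring_nf <;> simp only [show (2 : ZMod 3) = -1 from rfl,
      show (4 : ZMod 3) = 1 from rfl, show (8 : ZMod 3) = -1 from rfl] <;> ring

/-- `c ↦ c + τ i a`. -/
def rN (τ u : ℕ) : ℕ :=
  code4 (cm1 (d0 u) 2 (Nat.mul τ (d3 u)) 0 0) (cm1 (d1 u) τ (d2 u) 0 0) (d2 u) (d3 u)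

theorem dv_rN (τ u : ℕ) : dv (rN τ u) = rp ⟨0, τ⟩ (dv u) := by
  rw [rN, dv_code4]
  ext <;> simp [cm1, dv_eq]
  linear_combination ((τ : ZMod 3) * d3 u) * three

/-- `c ↦ c + g ā`. -/
def thN (g u : ℕ) : ℕ := code4 (cm1 (d0 u) (d0 g) (d2 u) (d1 g) (d3 u))
  (cm1 (d1 u) (d1 g) (d2 u) 2 (Nat.mul (d0 g) (d3 u))) (d2 u) (d3 u)

theorem dv_thN (g u : ℕ) : dv (thN g u) = ((dv u).1, (dv u).2 + df g * star (dv u).1) := by
  rw [thN, dv_code4, show df g = ⟨d0 g, d1 g⟩ from rfl]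
  ext <;> simp [cm1, dv_eq]
  linear_combination ((d0 g : ZMod 3) * d3 u) * three

theorem skew_cases (τ : F9) (h : star τ = -τ) : ∃ t < 3, τ = ⟨0, (t : ℕ)⟩ := by
  revert τ; decide +kernel

theorem bf_eq (u v : V) : bf u v = ⟨0, b3 u v⟩ := by
  ext <;> simp [bf, hf, b3]
  · ring
  · linear_combination (-(u.1.re * v.2.im - u.1.im * v.2.re + u.2.re * v.1.im - u.2.im * v.1.re)) *
      three

theorem basis (v : V) :
    v = v.2.re • dv 1 + v.2.im • dv 3 + v.1.re • dv 9 + v.1.im • dv 27 := by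
  ext <;> simp [dv]

theorem ext4 {f g : V → V} (hf : ∀ u v, f (u + v) = f u + f v) (hg : ∀ u v, g (u + v) = g u + g v)
    (h : ∀ u ∈ [1, 3, 9, 27], f (dv u) = g (dv u)) (v : V) : f v = g v := by
  have e : ∀ (k : ZMod 3) u, f (k • u) = k • f u := ZMod.map_smul (AddMonoidHom.mk' f hf)
  have e' : ∀ (k : ZMod 3) u, g (k • u) = k • g u := ZMod.map_smul (AddMonoidHom.mk' g hg)
  rw [basis v]
  simp only [hf, hg, e, e', h 1 (by simp), h 3 (by simp), h 9 (by simp), h 27 (by simp)]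

theorem b3_add (u u' v : V) : b3 (u + u') v = b3 u v + b3 u' v := by simp [b3]; ring
theorem b3_smul (k : ZMod 3) (u v : V) : b3 (k • u) v = k * b3 u v := by simp [b3]; ring
theorem b3_self (u : V) : b3 u u = 0 := by simp [b3]; ring
theorem b3_swap (u v : V) : b3 u v = -b3 v u := by simp [b3]; ring

/-- `A` contains `Xf w`. -/
def XA (A : Subgroup (Perm V)) (w : V × V) : Prop := ∃ α ∈ A, ∀ u, α u = Xf w u

/-- The pairs `w` for which `Xf w` is conjugate to a generator of `T`. -/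
def Val (w : V × V) : Prop := b3 w.1 w.2 = 0 ∧ w.1 ≠ 0 ∧ w.2 ≠ 0 ∧ w.2 ≠ w.1 ∧ w.2 ≠ -w.1

variable {A T : Subgroup (Perm V)} {Hd : MulAut (P F9) → Prop}

theorem XA_iff {w : V × V} (h : b3 w.1 w.2 = 0) {ε : ZMod 3} (hε : ε * ε = 1) :
    XA A w ↔ ∃ α ∈ A, ∀ u, α u = u + ε • (b3 u w.1 • w.1 + b3 u w.2 • w.2) := by
  have key : ∀ δ : ZMod 3, (∃ α ∈ A, ∀ u, α u = u + δ • (b3 u w.1 • w.1 + b3 u w.2 • w.2)) →
      ∃ α ∈ A, ∀ u, α u = u + (-δ) • (b3 u w.1 • w.1 + b3 u w.2 • w.2) := fun δ ⟨α, hα, e⟩ => by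
    refine ⟨α⁻¹, inv_mem hα, fun u => ?_⟩
    rw [Perm.inv_eq_iff_eq, e]
    have e1 : b3 (u + -δ • (b3 u w.1 • w.1 + b3 u w.2 • w.2)) w.1 = b3 u w.1 := by
      simp only [b3_add, b3_smul, b3_self, b3_swap w.2 w.1, h]; ring
    have e2 : b3 (u + -δ • (b3 u w.1 • w.1 + b3 u w.2 • w.2)) w.2 = b3 u w.2 := by
      simp only [b3_add, b3_smul, b3_self, h]; ring
    rw [e1, e2]
    module
  rcases (by decide : ∀ ε : ZMod 3, ε * ε = 1 → ε = 1 ∨ ε = -1) ε hε with rfl | rfl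
  · simp only [XA, Xf, one_smul, add_assoc]
  · exact ⟨fun h => key 1 (by simpa only [XA, Xf, one_smul, add_assoc] using h),
      fun h => by simpa only [XA, Xf, one_smul, add_assoc, neg_neg] using key _ h⟩

theorem XA_var {w : V × V} (h : b3 w.1 w.2 = 0) {a b c d : ZMod 3} (h₁ : a * b + c * d = 0)
    (h₂ : a * a + c * c = b * b + d * d) (h₃ : (a * a + c * c) * (a * a + c * c) = 1) :
    XA A w ↔ XA A (a • w.1 + b • w.2, c • w.1 + d • w.2) := by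
  rw [XA_iff h h₃, XA]
  refine exists_congr fun α => and_congr_right fun _ => forall_congr' fun u => ?_
  have e : ∀ a b : ZMod 3, b3 u (a • w.1 + b • w.2) = a * b3 u w.1 + b * b3 u w.2 := fun a b => by
    simp [b3]; ring
  rw [Xf, e, e]
  refine Eq.congr_right ?_
  linear_combination (norm := module) h₂ • (b3 u w.2 • w.2) -
    h₁ • (b3 u w.2 • w.1 + b3 u w.1 • w.2)

theorem Hyp_smul (H : Hyp 3 Hd A T) {α : Perm V} (hα : α ∈ A) (k : ZMod 3) (u : V) :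
    α (k • u) = k • α u := ZMod.map_smul (AddMonoidHom.mk' α (H.add α hα)) k u

theorem eps (H : Hyp 3 Hd A T) {α : Perm V} (hα : α ∈ A) :
    ∃ ε : ZMod 3, ε * ε = 1 ∧ ∀ u v, b3 (α u) (α v) = ε * b3 u v := by
  have key : ∀ u v, b3 (α u) (α v) = b3 (α (dv 9)) (α (dv 3)) * b3 u v := fun u v => by
    have := H.pres α hα u v (b3 u v • dv 9) (dv 3) (by rw [bf_eq, bf_eq]; simp [b3, dv])
    rw [Hyp_smul H hα, bf_eq, bf_eq] at this
    rw [(QuadraticAlgebra.mk.inj this).2]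
    simp [b3]; ring
  refine ⟨_, (by decide : ∀ ε : ZMod 3, ε ≠ 0 → ε * ε = 1) _ fun h => ?_, key⟩
  have := key (α⁻¹ (dv 9)) (α⁻¹ (dv 3))
  rw [h, zero_mul, ap_inv, ap_inv] at this
  revert this
  decide +kernel

theorem XA.conj (H : Hyp 3 Hd A T) {α : Perm V} (hα : α ∈ A) {w : V × V} (hv : Val w)
    (h : XA A w) : XA A (α w.1, α w.2) ∧ Val (α w.1, α w.2) := by
  obtain ⟨ε, hε, e⟩ := eps H hα
  have h0 : b3 (α w.1) (α w.2) = 0 := by rw [e, hv.1, mul_zero]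
  obtain ⟨β, hβ, e'⟩ := h
  refine ⟨(XA_iff (w := (α w.1, α w.2)) h0 hε).2 ⟨α * β * α⁻¹, mul_mem (mul_mem hα hβ)
    (inv_mem hα), fun u => ?_⟩, h0, fun h => hv.2.1 (α.injective (h.trans (H.zero hα).symm)),
    fun h => hv.2.2.1 (α.injective (h.trans (H.zero hα).symm)), fun h => hv.2.2.2.1 (α.injective h),
    fun h => hv.2.2.2.2 (α.injective (by rw [← zero_sub, H.sub hα, H.zero hα, zero_sub]; exact h))⟩
  obtain ⟨v, rfl⟩ := α.surjective u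
  simp only [Perm.mul_apply, Perm.coe_inv, symm_apply_apply, e', Xf, H.add α hα, Hyp_smul H hα, e,
    smul_add, smul_smul, ← mul_assoc, hε, one_mul, add_assoc]

end Cfsg.Agent.U4.N9
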