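import Cfsg.Agent.Lib.U4.Q3t

/-!
Row Q3 of docs/U4_PLAN.md: the possible sets of conjugates of `T` in `A`.
-/

set_option autoImplicit false
set_option maxRecDepth 100000

namespace Cfsg.Agent.U4.N9

open Cfsg.Agent.Fus Cfsg.Agent.Fus2 Subgroup Cfsg.Agent.PC Cfsg.Agent.U4.L1 Equiv

def p1 (k : ℕ) : ℕ := ap 14 ptsT k % 128
def p2 (k : ℕ) : ℕ := ap 14 ptsT k / 128
/-- The `k`-th pair. -/
def pts (k : ℕ) : V × V := (dv (p1 k), dv (p2 k))
def ixe (w w' : ℕ) : ℕ := ap 14 ixT (81 * (w % 81) + w' % 81)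
/-- The index of a pair. -/
def idx (w w' : ℕ) : ℕ := ixe w w' % 128
/-- The `i`-th set. -/
def SS (i : ℕ) : ℕ := ap 120 ssT i
def gI (i : ℕ) : ℕ := ap 11 gT i % 16
def jI (i : ℕ) : ℕ := ap 11 gT i / 16
/-- The group `Aut(S) / Inn(S)` of the `n`-th model. -/
def HY (n : ℕ) : ℕ := ap 32 hyT n
def ty (n : ℕ) : ℕ := ap 12 tyT n % 32
def jx (n : ℕ) : ℕ := ap 12 tyT n / 32
def os (i : ℕ) : ℕ := ap 13 selT i / 256
def sel (i : ℕ) (b : Bool) : ℕ := bif b then ap 13 selT i / 16 % 16 else ap 13 selT i % 16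

def valN (w w' : ℕ) : Bool := Nat.beq (b3N w w') 0 && !eqN w 0 && !eqN w' 0 && !eqN w' w &&
  !eqN w' (cmb 0 2 w 0 0)

theorem valN_iff {w w' : ℕ} : valN w w' = true ↔ Val (dv w, dv w') := by
  have e : b3N w w' = 0 ↔ b3 (dv w) (dv w') = 0 := by
    rw [← b3N_cast, ZMod.natCast_eq_zero_iff]
    exact ⟨fun h => by simp [h], fun h => Nat.eq_zero_of_dvd_of_lt h (Nat.mod_lt _ (by norm_num))⟩
  have e0 : dv 0 = 0 := rfl
  have e1 : dv (cmb 0 2 w 0 0) = -dv w := by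
    rw [dv_cmb, e0, show ((2 : ℕ) : ZMod 3) = -1 from rfl]; simp
  simp only [valN, Val, Bool.and_eq_true, Nat.beq_eq, Bool.not_eq_true', ← Bool.not_eq_true,
    eqN_iff, e, e0, e1, and_assoc, ne_eq]

noncomputable def lin (g w w' : ℕ) : Bool := (Nat.blt w 9 && Nat.blt w' 9) ||
  anyL (fun τ => Nat.beq (thN g (rN τ w) % 9) 0 && Nat.beq (thN g (rN τ w') % 9) 0) [0, 1, 2]

noncomputable def ixChk (w w' k a b c d : ℕ) : Bool := Nat.blt k 120 &&
  eqN (p1 k) (cmb 0 a w b w') && eqN (p2 k) (cmb 0 c w d w') && Nat.beq ((a * b + c * d) % 3) 0 &&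
  Nat.beq ((a * a + c * c) % 3) ((b * b + d * d) % 3) &&
  Nat.beq ((a * a + c * c) * (a * a + c * c) % 3) 1 && (Nat.blt 0 k || Nat.blt w 9 && Nat.blt w' 9) &&
  allN (fun i => !(SS i).testBit k || lin (gI i) w w') 10

theorem ix_ok : allN (fun w => allN (fun w' => !valN w w' || ixChk w w' (idx w w')
    (d0 (ixe w w' / 128)) (d1 (ixe w w' / 128)) (d2 (ixe w w' / 128)) (d3 (ixe w w' / 128))) 81) 81
    = true := by decide +kernel

theorem val_pts {k : ℕ} (hk : k < 120) : Val (pts k) :=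
  valN_iff.1 (allN_iff.1 (show allN (fun k => valN (p1 k) (p2 k)) 120 = true by decide +kernel) k hk)

theorem dv_lt {w : ℕ} (h : w < 9) : (dv w).1 = 0 := by
  rw [dv, show w / 9 % 3 = 0 by omega, show w / 27 % 3 = 0 by omega]; rfl

theorem dv_mod9 {w : ℕ} (h : w % 9 = 0) : (dv w).2 = 0 := by
  rw [dv, show w % 3 = 0 by omega, show w / 3 % 3 = 0 by omega]; rfl

theorem idx_spec {w w' : ℕ} (h : Val (dv w, dv w')) : idx w w' < 120 ∧
    (∀ A, XA A (dv w, dv w') ↔ XA A (pts (idx w w'))) ∧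
    (idx w w' = 0 → (dv w).1 = 0 ∧ (dv w').1 = 0) ∧
    ∀ i < 10, (SS i).testBit (idx w w') = true → (dv w).1 = 0 ∧ (dv w').1 = 0 ∨ ∃ τ : ℕ,
      ∀ v ∈ [dv w, dv w'], (rp ⟨0, τ⟩ v).2 + df (gI i) * star v.1 = 0 := by
  have e : ixe (w % 81) (w' % 81) = ixe w w' := by simp [ixe]
  have key := allN_iff.1 (allN_iff.1 ix_ok _ (Nat.mod_lt w (by norm_num))) _
    (Nat.mod_lt w' (by norm_num))
  rw [← dv_mod w, ← dv_mod w'] at h ⊢
  rw [valN_iff.2 h, show idx (w % 81) (w' % 81) = idx w w' by rw [idx, idx, e]] at key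
  simp only [Bool.not_true, Bool.false_or, ixChk, Bool.and_eq_true, Nat.blt_eq, Nat.beq_eq, eqN_iff,
    dv_cmb, allN_iff, Bool.or_eq_true, Bool.not_eq_true', lin, anyL_iff] at key
  obtain ⟨⟨⟨⟨⟨⟨⟨k1, k2⟩, k3⟩, k4⟩, k5⟩, k6⟩, k7⟩, k8⟩ := key
  refine ⟨k1, fun A => ?_, fun h0 => ?_, fun i hi hs => ?_⟩
  · rw [pts, k2, k3, show dv 0 = 0 from rfl, zero_add, zero_add]
    refine XA_var (w := (dv (w % 81), dv (w' % 81))) h.1 ?_ ?_ ?_
    · exact_mod_cast (ZMod.natCast_eq_natCast_iff' _ 0 3).2 k4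
    · exact_mod_cast (ZMod.natCast_eq_natCast_iff' _ _ 3).2 k5
    · exact_mod_cast (ZMod.natCast_eq_natCast_iff' _ 1 3).2 k6
  · exact (k7.resolve_left (by omega)).imp dv_lt dv_lt
  · refine ((k8 i hi).resolve_left (by simp [hs])).imp (And.imp dv_lt dv_lt) fun ⟨τ, _, h1, h2⟩ =>
      ⟨τ, ?_⟩
    have h1 := dv_mod9 h1
    have h2 := dv_mod9 h2
    rw [dv_thN, dv_rN] at h1 h2
    simpa using ⟨h1, h2⟩

/-- The action of a letter. -/
def appL (n u : ℕ) : ℕ := bif Nat.blt n 120 then XN (p1 n) (p2 n) u else omN (n - 120) u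
def cj (a b : ℕ) : ℕ := idx (appL a (p1 b)) (appL a (p2 b))
noncomputable def appW (w : List ℕ) (u : ℕ) : ℕ := List.rec u (fun a _ r => appL a r) w
noncomputable def mt (w : List ℕ) (o : ℕ) : Bool :=
  anyL (fun τ => allL (fun u => eqN (appW w u) (rN τ (omN o u))) [1, 3, 9, 27]) [0, 1, 2]
noncomputable def stb (m : ℕ) (w : List ℕ) (p : ℕ → Bool) : Bool := allL m.testBit w &&
  Nat.blt (appW w 1) 9 && Nat.blt (appW w 3) 9 && allN (fun o => !mt w o || p o) 32
noncomputable def run (m : ℕ) (l : List ℕ) : ℕ := List.rec (fun m => m) (fun e _ r m => r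
  (bif m.testBit (e / 128) && m.testBit (e % 128) && Nat.blt (e % 128) 120 then
    m ||| 1 <<< cj (e / 128) (e % 128) else m)) l m
def SH (i : ℕ) : ℕ := SS i ||| 1 <<< 133
noncomputable def repOk (i m i' : ℕ) (w : List ℕ) : Bool :=
  Nat.blt i i' && Nat.blt i' 19 && Nat.beq (m &&& SS i') (SS i') || stb m w fun _ => false
noncomputable def orbRun (i d : ℕ) (l : List ℕ) : ℕ := List.rec (fun d => d) (fun e _ r d => r
  (bif (SH i).testBit (e / 128) && Nat.blt (e % 128) 120 && d.testBit (cj (e / 128) (e % 128)) then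
    d ||| 1 <<< (e % 128) else d)) l d
noncomputable def chkI (i d : ℕ) : Bool := allN (fun j => (SS i).testBit j || d.testBit j) 120

theorem cls_ok : allN (fun i => chkI i (orbRun i (orL (fun r => repOk i
    (run (SH i ||| 1 <<< r.1) r.2.2.1) r.2.1 r.2.2.2) (fun r => 1 <<< r.1) (repT.getD i []))
    (orbT.getD i []))) 19 = true := by decide +kernel

/-- The properties of `A` used for `q = 3`. -/
structure Hyp9 (Hd : MulAut (P F9) → Prop) (A T : Subgroup (Perm V)) : Prop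
    extends Hyp 3 Hd A T where
  hom : ∀ o, Hd (dgO o) → ∃ α ∈ A, ∀ v, α v = omV o v
  h13 : Hd (dgO 13)
  hmul : ∀ x < 32, ∀ y < 32, Hd (dgO x) → Hd (dgO y) → Hd (dgO (mulO x y))

/-- The letter `n` is available. -/
def Ok (Hd : MulAut (P F9) → Prop) (A : Subgroup (Perm V)) (n : ℕ) : Prop :=
  if n < 120 then XA A (pts n) else Hd (dgO (n - 120))

/-- All letters of the mask `m` are available. -/
def Sub (Hd : MulAut (P F9) → Prop) (A : Subgroup (Perm V)) (m : ℕ) : Prop :=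
  ∀ k, m.testBit k = true → Ok Hd A k

variable {A T : Subgroup (Perm V)} {Hd : MulAut (P F9) → Prop}

theorem Sub.or {m m' : ℕ} (h : Sub Hd A m) (h' : Sub Hd A m') : Sub Hd A (m ||| m') :=
  fun k hk => by
    rw [Nat.testBit_or, Bool.or_eq_true] at hk
    exact hk.elim (h k) (h' k)

theorem Ok.sub {n : ℕ} (h : Ok Hd A n) : Sub Hd A (1 <<< n) :=
  fun _ hk => testBit_one_shl.1 hk ▸ h

theorem ok_iff {n : ℕ} (h : n < 120) : Ok Hd A n ↔ XA A (pts n) := by rw [Ok, if_pos h]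

theorem ok_om {o : ℕ} : Ok Hd A (120 + o) ↔ Hd (dgO o) := by
  rw [Ok, if_neg (by omega), Nat.add_sub_cancel_left]

theorem SS_lt {i k : ℕ} (h : (SS i).testBit k = true) : k < 120 := by
  by_contra hk
  rw [SS, ap, Nat.testBit_mod_two_pow] at h
  simp [hk] at h

variable (H : Hyp9 Hd A T)
include H

theorem Ok.act {n : ℕ} (h : Ok Hd A n) : ∃ α ∈ A, ∀ u, α (dv u) = dv (appL n u) := by
  unfold Ok at h
  split_ifs at h with hn
  · obtain ⟨α, hα, e⟩ := h
    exact ⟨α, hα, fun u => by rw [e, appL, show Nat.blt n 120 = true by simpa using hn, cond_true, dv_XN, pts]⟩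
  · obtain ⟨α, hα, e⟩ := H.hom _ h
    exact ⟨α, hα, fun u => by
      rw [e, appL, show Nat.blt n 120 = false from Bool.eq_false_iff.2 (by simpa using hn), cond_false, dv_omN]⟩

theorem Ok.cj {a b : ℕ} (ha : Ok Hd A a) (hb : Ok Hd A b) (h : b < 120) :
    cj a b < 120 ∧ Ok Hd A (cj a b) := by
  obtain ⟨α, hα, e⟩ := ha.act H
  obtain ⟨h1, h2⟩ := ((ok_iff h).1 hb).conj H.toHyp hα (val_pts h)
  simp only [pts, e] at h1 h2
  obtain ⟨k1, k2, -⟩ := idx_spec h2
  exact ⟨k1, (ok_iff k1).2 ((k2 A).1 h1)⟩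

theorem Sub.run {m : ℕ} (h : Sub Hd A m) (l : List ℕ) : Sub Hd A (run m l) := by
  induction l generalizing m with
  | nil => exact h
  | cons e l ih =>
    refine ih ?_
    cases hc : m.testBit (e / 128) && m.testBit (e % 128) && Nat.blt (e % 128) 120
    · exact h
    · simp only [Bool.and_eq_true, Nat.blt_eq] at hc
      exact h.or (((h _ hc.1.1).cj H (h _ hc.1.2) hc.2).2.sub)

theorem Sub.word {m : ℕ} (h : Sub Hd A m) {w : List ℕ} (hw : allL m.testBit w = true) :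
    ∃ α ∈ A, ∀ u, α (dv u) = dv (appW w u) := by
  rw [allL_iff] at hw
  induction w with
  | nil => exact ⟨1, one_mem _, fun _ => rfl⟩
  | cons a w ih =>
    obtain ⟨α, hα, e⟩ := (h a (hw a (by simp))).act H
    obtain ⟨β, hβ, e'⟩ := ih fun b hb => hw b (by simp [hb])
    exact ⟨α * β, mul_mem hα hβ, fun u => by rw [Perm.mul_apply, e', e]; rfl⟩

theorem Hyp9.stab {α : Perm V} (hα : α ∈ A) (h₁ : (α (dv 1)).1 = 0) (h₃ : (α (dv 3)).1 = 0) :
    StabL α := fun c => by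
  rw [show ((0 : F9), c) = c.re • dv 1 + c.im • dv 3 by ext <;> simp [dv], H.add α hα,
    Hyp_smul H.toHyp hα, Hyp_smul H.toHyp hα]
  simp [h₁, h₃]

theorem Hyp9.nf' {α : Perm V} (hα : α ∈ A) (h : StabL α) :
    ∃ o < 32, Hd (dgO o) ∧ ∃ t < 3, ∀ v, α v = rp ⟨0, (t : ℕ)⟩ (omV o v) := by
  obtain ⟨l, m, σ, τ, hd, hτ, e⟩ := H.nf α hα h
  obtain ⟨o, ho, e'⟩ := exists_dgO l m σ
  obtain ⟨t, ht, rfl⟩ := skew_cases τ hτ
  refine ⟨o, ho, e' ▸ hd, t, ht, fun v => ?_⟩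
  obtain ⟨x, -, rfl⟩ := exists_pr v
  rw [e, omV, pr, ← dgO_a, ← dgO_c, ← e']; rfl

theorem Sub.stb {m : ℕ} (h : Sub Hd A m) {w : List ℕ} {p : ℕ → Bool} (hw : stb m w p = true) :
    ∃ o < 32, Hd (dgO o) ∧ p o = true := by
  simp only [N9.stb, Bool.and_eq_true, Nat.blt_eq, allN_iff, Bool.or_eq_true,
    Bool.not_eq_true'] at hw
  obtain ⟨α, hα, e⟩ := h.word H hw.1.1.1
  obtain ⟨o, ho, hd, t, ht, e'⟩ := H.nf' hα (H.stab hα (e 1 ▸ dv_lt hw.1.1.2) (e 3 ▸ dv_lt hw.1.2))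
  refine ⟨o, ho, hd, (hw.2 o ho).resolve_left ?_⟩
  simp only [Bool.not_eq_false, mt, anyL_iff, allL_iff, eqN_iff, ← e, e', dv_rN, dv_omN]
  exact ⟨t, by simp only [List.mem_cons, List.not_mem_nil]; omega, fun _ _ => rfl⟩

theorem Sub.SH {i : ℕ} (h : Sub Hd A (SS i)) : Sub Hd A (SH i) := h.or ((ok_om (o := 13)).2 H.h13).sub

theorem classify : ∃ i < 19, ∀ k < 120, Ok Hd A k ↔ (SS i).testBit k = true := by
  have step : ∀ i < 19, Sub Hd A (SS i) → ∀ j < 120, Ok Hd A j → (SS i).testBit j = true ∨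
      ∃ i', i < i' ∧ i' < 19 ∧ Sub Hd A (SS i') := fun i hi h j hj ho => by
    have key : ∀ l d, (∀ j, d.testBit j = true → Ok Hd A j →
        ∃ i', i < i' ∧ i' < 19 ∧ Sub Hd A (SS i')) → ∀ j, (orbRun i d l).testBit j = true →
        Ok Hd A j → ∃ i', i < i' ∧ i' < 19 ∧ Sub Hd A (SS i') := fun l => by
      induction l with
      | nil => exact fun _ h => h
      | cons e l ih =>
        refine fun d hd => ih _ ?_
        cases hc : (SH i).testBit (e / 128) && Nat.blt (e % 128) 120 &&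
          d.testBit (cj (e / 128) (e % 128))
        · exact hd
        · simp only [Bool.and_eq_true, Nat.blt_eq] at hc
          intro j hj ho
          rw [cond_true, Nat.testBit_or, Bool.or_eq_true, testBit_one_shl] at hj
          rcases hj with hj | rfl
          · exact hd j hj ho
          · exact hd _ hc.2 ((h.SH H _ hc.1.1).cj H ho hc.1.2).2
    have := allN_iff.1 (allN_iff.1 cls_ok i hi) j hj
    rw [Bool.or_eq_true] at this
    refine this.imp_right fun h' => key _ _ (fun j hj ho => ?_) j h' ho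
    obtain ⟨r, -, hr, e⟩ := testBit_orL.1 hj
    obtain rfl := testBit_one_shl.1 e
    have hs := ((h.SH H).or ho.sub).run H r.2.2.1
    simp only [repOk, Bool.or_eq_true, Bool.and_eq_true, Nat.blt_eq, Nat.beq_eq] at hr
    rcases hr with ⟨⟨h1, h2⟩, h3⟩ | hr
    · refine ⟨_, h1, h2, fun k hk => hs k ?_⟩
      rw [← h3, Nat.testBit_and, Bool.and_eq_true] at hk
      exact hk.1
    · simpa using hs.stb H hr
  have main : ∀ n i, i + n = 18 → Sub Hd A (SS i) →
      ∃ i < 19, ∀ k < 120, Ok Hd A k ↔ (SS i).testBit k = true := fun n => by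
    induction n using Nat.strong_induction_on with
    | _ n ih =>
      intro i hi h
      by_cases h' : ∃ i', i < i' ∧ i' < 19 ∧ Sub Hd A (SS i')
      · obtain ⟨i', h1, h2, h3⟩ := h'
        exact ih (18 - i') (by omega) i' (by omega) h3
      · exact ⟨i, by omega, fun k hk => ⟨fun ho => (step i (by omega) h k hk ho).resolve_right h',
          h k⟩⟩
  refine main 18 0 rfl fun k hk => ?_
  rw [show SS 0 = 1 <<< 0 by decide +kernel, testBit_one_shl] at hk
  subst hk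
  refine (ok_iff (by norm_num)).2 ⟨rp ⟨0, 1⟩, H.rp_mem (by decide +kernel), fun u => ?_⟩
  rw [show pts 0 = (dv 1, dv 3) by decide +kernel]
  ext <;> simp [Xf, b3, dv]

end Cfsg.Agent.U4.N9
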