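import Cfsg.Agent.Lib.U4.Q3b

/-!
Row Q3 of docs/U4_PLAN.md: the types of `A`.
-/

set_option autoImplicit false
set_option maxRecDepth 100000

namespace Cfsg.Agent.U4.N9

open Cfsg.Agent.Fus Cfsg.Agent.Fus2 Subgroup Cfsg.Agent.PC Cfsg.Agent.U4.L1 Equiv

def wN (s u : ℕ) : ℕ := code4 (2 * s * d3 u) (s * d2 u) (2 * s * d1 u) (s * d0 u)

theorem dv_wN (s u : ℕ) : dv (wN s u) = (⟨0, s⟩ * (dv u).2, ⟨0, s⟩ * (dv u).1) := by
  rw [wN, dv_code4]
  ext <;> simp [dv_eq]
  · linear_combination ((s : ZMod 3) * d1 u) * three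
  · linear_combination ((s : ZMod 3) * d3 u) * three

noncomputable def wOk (i s : ℕ) (w : List ℕ) : Bool := allL (SS i).testBit w &&
  allL (fun u => eqN (thN (gI i) (appW w u)) (wN s (thN (gI i) u))) [1, 3, 9, 27]

theorem small_ok : allN (fun i => Nat.beq i 0 || wOk i 1 (wT.getD i ([], [])).1 &&
    wOk i 2 (wT.getD i ([], [])).2 && (SS i).testBit (jI i) && allN (fun o =>
      !(SS i).testBit (cj (120 + o) (jI i)) ||
        eqN (omN o (thN (gI i) 9)) (thN (gI i) (omN o 9))) 32) 10 = true := by decide +kernel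

noncomputable def clo (l : List ℕ) (n : ℕ) : ℕ := Nat.rec (orL (fun _ => true) (fun o => 1 <<< o) l)
  (fun _ r => r ||| orN (fun x => (r.testBit x).rec 0
    (orL (fun _ => true) (fun y => 1 <<< mulO x y) l)) 32) n

def gens (i : ℕ) (b : Bool) : List ℕ :=
  13 :: (bif b then [os i] else []) ++ (gwT.getD i []).map Prod.fst

noncomputable def moves (i o : ℕ) : Bool :=
  !allN (fun j => !(SS i).testBit j || (SS i).testBit (cj (120 + o) j)) 120

noncomputable def exo1 (i : ℕ) (b : Bool) (n K : ℕ) : Bool := Nat.blt n 13 && Nat.beq (ty n) i &&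
  allL (Nat.blt · 32) (gens i b) && allN (fun o => ((HY n).testBit o).rec (moves i o || !b &&
    !allN (fun x => !(K.testBit x && Nat.beq (mulO o x) (os i))) 32) (K.testBit o)) 32

theorem gw_ok : allN (fun i => allL (fun r => stb (SH i) r.2 (Nat.beq r.1)) (gwT.getD i [])) 19
    = true := by decide +kernel

theorem exo_ok : allN (fun i => Nat.blt i 10 || allL (fun b =>
    exo1 i b (sel i b) (clo (gens i b) 6)) [false, true]) 19 = true := by decide +kernel

theorem id_ok : allN (fun n => Nat.blt (jx n) 120 && allN (fun i => Nat.beq i (ty n) ||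
    !(SS i).testBit (jx n) || anyL (fun r => !(HY n).testBit r.1) (gwT.getD i []) ||
    !allN (fun o => !((HY n).testBit o && moves i o)) 32) 19) 13 = true := by decide +kernel

variable {A T A' T' : Subgroup (Perm V)} {Hd Hd' : MulAut (P F9) → Prop} (H : Hyp9 Hd A T)
include H

theorem xa0 : XA A (dv 1, dv 3) :=
  ⟨rp ⟨0, 1⟩, H.rp_mem (by decide +kernel), fun u => by ext <;> simp [Xf, b3, dv]⟩

theorem orbit {α : Perm V} (hα : α ∈ A) : ∃ w w', dv w = α (dv 1) ∧ dv w' = α (dv 3) ∧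
    Val (dv w, dv w') ∧ Ok Hd A (idx w w') := by
  obtain ⟨w, -, e⟩ := exists_dv (α (dv 1))
  obtain ⟨w', -, e'⟩ := exists_dv (α (dv 3))
  obtain ⟨h1, h2⟩ := (xa0 H).conj H.toHyp hα (valN_iff.1 (by decide +kernel))
  simp only [← e, ← e'] at h1 h2
  obtain ⟨k1, k2, -⟩ := idx_spec h2
  exact ⟨w, w', e, e', h2, (ok_iff k1).2 ((k2 A).1 h1)⟩

variable {i : ℕ} (hi : ∀ k < 120, Ok Hd A k ↔ (SS i).testBit k = true)
include hi

omit H in
theorem sub_of : Sub Hd A (SS i) := fun k hk => (hi k (SS_lt hk)).2 hk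

theorem stab_of_zero (h : i = 0) {α : Perm V} (hα : α ∈ A) : StabL α := by
  obtain ⟨w, w', e, e', hv, ho⟩ := orbit H hα
  obtain ⟨k1, -, k2, -⟩ := idx_spec hv
  rw [hi _ k1, h, show SS 0 = 1 <<< 0 by decide +kernel, testBit_one_shl] at ho
  exact H.stab hα (e ▸ (k2 ho.symm).1) (e' ▸ (k2 ho.symm).2)

theorem not_moves {o : ℕ} (h : Hd (dgO o)) : moves i o = false := by
  rw [moves, Bool.not_eq_false', allN_iff]
  intro j hj
  cases hs : (SS i).testBit j
  · rfl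
  · obtain ⟨k1, k2⟩ := (ok_om.2 h).cj H ((hi j hj).2 hs) hj
    simpa using (hi _ k1).1 k2

theorem small (h0 : i ≠ 0) (h10 : i < 10) : ∃ g : F9,
    (∀ s ∈ [1, 2], ∃ α ∈ A, ∀ v, ((α v).1, (α v).2 + g * star (α v).1) =
      (⟨0, (s : ℕ)⟩ * (v.2 + g * star v.1), ⟨0, (s : ℕ)⟩ * v.1)) ∧
    (∀ o < 32, Hd (dgO o) → lO o * mO o * sO o g = g * star (lO o)) ∧
    ∀ α ∈ A, StabL α ∨ ∃ τ : ℕ, ∀ c, (rp ⟨0, τ⟩ (α (0, c))).2 + g * star (α (0, c)).1 = 0 := by
  have key := allN_iff.1 small_ok i h10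
  simp only [Bool.or_eq_true, Nat.beq_eq, h0, false_or, Bool.and_eq_true, allN_iff,
    Bool.not_eq_true', eqN_iff, dv_thN, dv_omN] at key
  obtain ⟨⟨⟨k1, k2⟩, k3⟩, k4⟩ := key
  have hw : ∀ s w, wOk i s w = true → ∃ α ∈ A, ∀ v, ((α v).1, (α v).2 + df (gI i) * star (α v).1) =
      (⟨0, (s : ℕ)⟩ * (v.2 + df (gI i) * star v.1), ⟨0, (s : ℕ)⟩ * v.1) := fun s w h => by
    simp only [wOk, Bool.and_eq_true] at h
    obtain ⟨α, hα, e⟩ := (sub_of hi).word H h.1
    refine ⟨α, hα, ext4 (fun u v => ?_) (fun u v => ?_) fun u hu => ?_⟩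
    · simp only [H.add α hα, Prod.fst_add, Prod.snd_add, star_add, Prod.mk_add_mk]
      exact Prod.ext rfl (by ring)
    · simp only [Prod.fst_add, Prod.snd_add, star_add, Prod.mk_add_mk]
      exact Prod.ext (by ring) (by ring)
    · simpa only [eqN_iff, dv_thN, dv_wN, ← e] using allL_iff.1 h.2 u hu
  refine ⟨df (gI i), fun s hs => ?_, fun o ho h => ?_, fun α hα => ?_⟩
  · simp only [List.mem_cons, List.not_mem_nil, or_false] at hs
    rcases hs with rfl | rfl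
    exacts [hw _ _ k1, hw _ _ k2]
  · obtain ⟨c1, c2⟩ := (ok_om.2 h).cj H ((sub_of hi) _ k3) (SS_lt k3)
    have := congrArg Prod.snd ((k4 o ho).resolve_left (by simpa using (hi _ c1).1 c2))
    simpa [omV, show dv 9 = (1, 0) from rfl, ← sE_apply] using this
  · obtain ⟨w, w', e, e', hv, ho⟩ := orbit H hα
    obtain ⟨c1, -, -, c2⟩ := idx_spec hv
    refine (c2 i h10 ((hi _ c1).1 ho)).imp (fun h => H.stab hα (e ▸ h.1) (e' ▸ h.2))
      fun ⟨τ, h⟩ => ⟨τ, fun c => ?_⟩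
    have h1 := h _ (List.mem_cons_self ..)
    have h3 := h _ (List.mem_cons_of_mem _ (List.mem_cons_self ..))
    have s : ∀ (k : ZMod 3) (x : F9), star (k • x) = k • star x := fun k x => by ext <;> simp
    rw [show ((0 : F9), c) = c.re • dv 1 + c.im • dv 3 by ext <;> simp [dv], H.add α hα,
      Hyp_smul H.toHyp hα, Hyp_smul H.toHyp hα, ← e, ← e']
    simp only [rp_apply, Prod.fst_add, Prod.snd_add, Prod.smul_fst, Prod.smul_snd, star_add, s,
      mul_add, mul_smul_comm] at h1 h3 ⊢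
    linear_combination (norm := module) c.re • h1 + c.im • h3

theorem gw_mem (h19 : i < 19) {r : ℕ × List ℕ} (hr : r ∈ gwT.getD i []) : Hd (dgO r.1) := by
  obtain ⟨o, -, h, e⟩ := ((sub_of hi).SH H).stb H (allL_iff.1 (allN_iff.1 gw_ok i h19) r hr)
  exact Nat.eq_of_beq_eq_true e ▸ h

omit hi in
theorem clo_mem {l : List ℕ} (h : ∀ o ∈ l, o < 32 ∧ Hd (dgO o)) {n o : ℕ}
    (ho : (clo l n).testBit o = true) : Hd (dgO o) := by
  induction n generalizing o with
  | zero =>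
    obtain ⟨a, ha, -, e⟩ := (testBit_orL (p := fun _ => true) (f := fun o => 1 <<< o)).1 ho
    exact testBit_one_shl.1 e ▸ (h a ha).2
  | succ n ih =>
    rw [show clo l (n + 1) = clo l n ||| orN (fun x => ((clo l n).testBit x).rec 0
      (orL (fun _ => true) (fun y => 1 <<< mulO x y) l)) 32 from rfl, Nat.testBit_or,
      Bool.or_eq_true, testBit_orN] at ho
    rcases ho with ho | ⟨x, hx, ho⟩
    · exact ih ho
    · generalize hb : Nat.testBit _ x = b at ho
      cases b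
      · simp at ho
      · obtain ⟨a, ha, -, e⟩ := testBit_orL.1 ho
        exact testBit_one_shl.1 e ▸ H.hmul x hx a (h a ha).1 (ih hb) (h a ha).2

theorem exotic (h10 : 10 ≤ i) (h19 : i < 19) :
    ∃ n < 13, ty n = i ∧ ∀ o < 32, Hd (dgO o) ↔ (HY n).testBit o = true := by
  classical
  have key := allN_iff.1 exo_ok i h19
  rw [show Nat.blt i 10 = false from Bool.eq_false_iff.2 (by simpa using h10), Bool.false_or] at key
  obtain ⟨b, hb⟩ : ∃ b : Bool, b = true ↔ Hd (dgO (os i)) := ⟨decide _, decide_eq_true_iff⟩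
  have key := allL_iff.1 key b (by cases b <;> simp)
  simp only [exo1, Bool.and_eq_true, Nat.blt_eq, Nat.beq_eq, allL_iff] at key
  obtain ⟨⟨⟨k1, k2⟩, k3⟩, k4⟩ := key
  have hK : ∀ o, (clo (gens i b) 6).testBit o = true → Hd (dgO o) := fun o => clo_mem H fun o ho =>
    ⟨k3 o ho, by
      simp only [gens, List.cons_append, List.mem_cons, List.mem_append, List.mem_map] at ho
      rcases ho with rfl | ho | ⟨r, hr, rfl⟩
      · exact H.h13
      · cases b
        · simp at ho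
        · exact List.mem_singleton.1 ho ▸ hb.1 rfl
      · exact gw_mem H hi h19 hr⟩
  refine ⟨_, k1, k2, fun o ho => ?_⟩
  have k := allN_iff.1 k4 o ho
  cases hy : (HY (sel i b)).testBit o <;> rw [hy] at k
  · refine iff_of_false (fun h => ?_) Bool.false_ne_true
    simp only [not_moves H hi h, Bool.false_or, Bool.and_eq_true, Bool.not_eq_true',
      ← Bool.not_eq_true, allN_iff] at k
    refine k.2 fun x hx hx' => k.1 (hb.2 ?_)
    exact Nat.eq_of_beq_eq_true hx'.2 ▸ H.hmul o ho x hx h (hK x hx'.1)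
  · exact iff_of_true (hK o k) rfl

theorem ident (h19 : i < 19) {n : ℕ} (hn : n < 13) (hx : XA A (pts (jx n)))
    (hy : ∀ o < 32, Hd (dgO o) ↔ (HY n).testBit o = true) : i = ty n := by
  have key := allN_iff.1 id_ok n hn
  simp only [Bool.and_eq_true, Nat.blt_eq, allN_iff, Bool.or_eq_true, Nat.beq_eq, anyL_iff,
    Bool.not_eq_true', ← Bool.not_eq_true] at key
  rcases key.2 i h19 with ((h | h) | ⟨r, hr, h⟩) | h
  · exact h
  · exact absurd ((hi _ key.1).1 ((ok_iff key.1).2 hx)) h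
  · obtain ⟨o, ho, h', e⟩ := ((sub_of hi).SH H).stb H (allL_iff.1 (allN_iff.1 gw_ok i h19) r hr)
    exact absurd (Nat.eq_of_beq_eq_true e ▸ (hy o ho).1 h') h
  · exact absurd (fun o ho h' => by simpa [not_moves H hi ((hy o ho).2 h'.1)] using h'.2) h

omit hi in
theorem le_of (H' : Hyp9 Hd' A' T') (hk : ∀ k < 120, Ok Hd A k → Ok Hd' A' k)
    (ho : ∀ o < 32, Hd (dgO o) → Hd' (dgO o)) : A ≤ A' := fun α hα => by
  obtain ⟨w, w', e, e', hv, h⟩ := orbit H hα
  obtain ⟨k1, k2, -⟩ := idx_spec hv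
  obtain ⟨β, hβ, eβ⟩ := (k2 A').2 ((ok_iff k1).1 (hk _ k1 h))
  obtain ⟨ε, hε, eb⟩ := eps H.toHyp hα
  have hle : T ≤ A' := fun t ht => H'.syl.le ((H'.hT t).2 ((H.hT t).1 ht))
  have hS := SP4.sylow_conj H.syl hα
  have h1 : α * rp ⟨0, ε⟩ * α⁻¹ = β := Perm.ext fun u => by
    obtain ⟨v, rfl⟩ := α.surjective u
    rw [eβ, Xf, e, e', eb, eb, ← Hyp_smul H.toHyp hα, ← Hyp_smul H.toHyp hα, ← H.add α hα,
      ← H.add α hα]
    simp only [Perm.mul_apply, Perm.coe_inv, symm_apply_apply]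
    congr 1
    ext <;> simp [b3, dv]
  obtain ⟨g, hg, hc⟩ := (H.syl.of_le (le_inf H.syl.le hle) inf_le_left).exists_conj_mem hS.isPGroup
    (le_inf hS.le (by
      rintro _ ⟨t, ht, rfl⟩
      obtain ⟨τ, hτ, rfl⟩ := (H.hT t).1 ht
      obtain ⟨n, e⟩ : ∃ n : ℕ, rp τ = rp (⟨0, ε⟩ : F9) ^ n := by
        have key : ∀ (τ : F9) (ε : ZMod 3), star τ = -τ → ε * ε = 1 →
          τ = 0 ∨ τ = ⟨0, ε⟩ ∨ τ = ⟨0, ε⟩ + ⟨0, ε⟩ := by decide +kernel
        rcases key τ ε hτ hε with rfl | rfl | rfl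
        · exact ⟨0, Perm.ext fun u => by simp⟩
        · exact ⟨1, by simp⟩
        · exact ⟨2, Perm.ext fun u => by simp [sq, add_mul, add_assoc]⟩
      rw [e, map_pow]
      exact pow_mem (show α * _ * α⁻¹ ∈ A' from h1 ▸ hβ) n))
  obtain ⟨τ, -, e⟩ := (H.hT _).1 (hc _ ⟨_, (H.hT _).2 ⟨⟨0, 1⟩, by decide +kernel, rfl⟩, rfl⟩)
  have key : ∀ u, (g * α) (rp ⟨0, 1⟩ u) = rp τ ((g * α) u) := fun u => by simp [← e]
  have hτ : τ ≠ 0 := by
    rintro rfl
    have := (g * α).injective ((key (1, 0)).trans (show _ = (g * α) (1, 0) by simp))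
    revert this
    decide +kernel
  obtain ⟨o, h32, hd, t, -, eo⟩ := H.nf' (mul_mem hg.1 hα) fun c => by
    simpa [hτ] using congrArg Prod.snd (key (0, c))
  obtain ⟨δ, hδ, eδ⟩ := H'.hom o (ho o h32 hd)
  have : α = g⁻¹ * (rp ⟨0, (t : ℕ)⟩ * δ) := by
    rw [eq_inv_mul_iff_mul_eq]
    exact Perm.ext fun v => by rw [eo, Perm.mul_apply, eδ]
  rw [this]
  exact mul_mem (inv_mem hg.2) (mul_mem (H'.rp_mem (by ext <;> simp)) hδ)

end Cfsg.Agent.U4.N9
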