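import Cfsg.Agent.Lib.U4.Q3c
import Cfsg.Agent.Lib.U4.Ess1

/-!
Row Q3 of docs/U4_PLAN.md: assembly from the models of row LEECH.
-/

set_option autoImplicit false

namespace Cfsg.Agent.U4.N9

open Cfsg.Agent.Fus Cfsg.Agent.Fus2 Subgroup Cfsg.Agent.PC Cfsg.Agent.U4.L1 Equiv
open Cfsg.Agent.U5 (klin eq_zero_of_lin)

universe v

/-- Row LEECH: the thirteen models. -/
def LeechStmt : Prop := ∀ n < 13, ∃ E : FusionSystem (⊤ : Subgroup (P F9)), E.IsSaturated 3 ∧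
  E.IsRealizable 3 ∧ NF E ∧ JStd E ∧
  (∃ f, Au E (Q F9) f ∧ ∀ x ∈ Q F9, pr (f x) = Xf (pts (jx n)) (pr x)) ∧
  ∀ o < 32, M E ⊤ (dgO o) ↔ (HY n).testBit o = true

theorem three' : (3 : F9) = 0 := by decide +kernel

theorem form9 (f : F9 → F9) (hadd : ∀ x y, f (x + y) = f x + f y) (hs : ∀ x, star (f x) = -f x) :
    ∃ u, ∀ x, f x = x * star u - u * star x := by
  obtain ⟨f₁, f₂, e⟩ := klin f hadd fun l x hl => by
    have := map_neg (AddMonoidHom.mk' f hadd) x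
    rcases real_cases l hl with rfl | rfl | rfl
    · simpa using hadd 0 0
    · simp
    · simpa using this
  have := (eq_zero_of_lin (e := f₁ + star f₂) (e' := f₂ + star f₁) fun y => by
    have := hs y
    rw [e] at this
    simp only [star_add, star_mul', star_star] at this
    linear_combination this).1
  exact ⟨-f₂, fun x => by rw [e, star_neg]; linear_combination x * this⟩

/-- Automorphisms of `Q` trivial on `Q / Z` are inner. -/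
theorem inner {n : P F9 → P F9} (hm : ∀ x ∈ Q F9, ∀ y ∈ Q F9, n (x * y) = n x * n y)
    (hZ : ∀ x ∈ Q F9, x⁻¹ * n x ∈ Z F9) : ∃ g ∈ Q F9, ∀ x ∈ Q F9, n x = g * x * g⁻¹ := by
  obtain ⟨ζ, e, hZ⟩ : ∃ ζ : P F9 → P F9, (∀ x, n x = x * ζ x) ∧ ∀ x ∈ Q F9, ζ x ∈ Z F9 :=
    ⟨fun x => x⁻¹ * n x, by simp, hZ⟩
  have hζ : ∀ x ∈ Q F9, ∀ y ∈ Q F9, (ζ (x * y)).z = (ζ x).z + (ζ y).z := fun x hx y hy => by
    have : ζ (x * y) = ζ x * ζ y := by
      rw [← mul_right_inj (x * y), ← e, hm x hx y hy, e x, e y, mul_assoc, ← mul_assoc (ζ x),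
        comm_Z (hZ x hx) y]
      simp only [mul_assoc]
    obtain ⟨h₁, -, h₂⟩ := hZ x hx
    simp [this, h₁, h₂]
  have h1 : (ζ 1).z = 0 := by simpa using hζ 1 (one_mem _) 1 (one_mem _)
  have hi : ∀ x ∈ Q F9, (ζ x⁻¹).z = -(ζ x).z := fun x hx => by
    have := hζ _ (inv_mem hx) x hx
    rw [inv_mul_cancel, h1] at this
    linear_combination -this
  have hZ1 : ∀ z ∈ Z F9, (ζ z).z = 0 := fun z hz => by
    obtain ⟨y, hy, rfl⟩ := Es.exists_icj (x := xe 1 0 0 (by simp)) one_ne_zero hz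
    replace hy := Z2_le_Q hy
    have hg : xe (1 : F9) 0 0 (by simp) ∈ Q F9 := rfl
    rw [hζ _ (inv_mem hg) _ (mul_mem (mul_mem hy hg) (inv_mem hy)),
      hζ _ (mul_mem hy hg) _ (inv_mem hy), hζ _ hy _ hg, hi _ hy, hi _ hg]
    ring
  obtain ⟨u, hu⟩ := form9 (fun a => (ζ (xe a 0 0 (by simp))).z) (fun x y => by
    rw [← hζ _ rfl _ rfl]; congr 2; apply P.ext <;> simp) fun x => star_z_J (hZ _ rfl).1
  obtain ⟨r, hr⟩ := form9 (fun c => (ζ (xe 0 c 0 (by simp))).z) (fun x y => by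
    rw [← hζ _ rfl _ rfl]; congr 2; apply P.ext <;> simp) fun x => star_z_J (hZ _ rfl).1
  refine ⟨xe r u 0 (by simp), rfl, fun x hx => ?_⟩
  rw [e, eq_comm, ← inv_mul_eq_iff_eq_mul]
  refine eq_of_z (icj_Q rfl hx) (hZ x hx) ?_
  have := hζ (xe x.a 0 0 (by simp) * xe 0 x.c 0 (by simp)) (by simp [mem_Q])
    ((xe x.a 0 0 (by simp) * xe 0 x.c 0 (by simp))⁻¹ * x) (by simp [mem_Q, mem_Q.1 hx])
  rw [mul_inv_cancel_left, hZ1 (_⁻¹ * x) (by simp [mem_Z, mem_Q.1 hx]), hζ _ rfl _ rfl] at this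
  rw [this, hu, hr, icj_z]
  simp [mem_Q.1 hx]
  ring

/-- The underlying map of `tw`. -/
def twF (g : F9) (x : P F9) : P F9 where
  a := x.a
  c := x.c + g * star x.a
  t := x.t
  z := x.z + star g * x.a ^ 2 + g * star x.a ^ 2
  ht := x.ht
  hz := by
    simp only [star_add, star_mul', star_pow, star_star]
    linear_combination x.hz + (star g * x.a ^ 2 + g * star x.a ^ 2) * three'

/-- The automorphism `c ↦ c + g ā` of `S`. -/
def tw (g : F9) : MulAut (P F9) where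
  toFun := twF g
  invFun := twF (-g)
  left_inv x := by apply P.ext <;> simp only [twF, star_neg] <;> ring
  right_inv x := by apply P.ext <;> simp only [twF, star_neg] <;> ring
  map_mul' x y := by
    apply P.ext <;> simp only [twF, P.mul_a, P.mul_c, P.mul_t, P.mul_z, star_add, star_mul',
      star_star]
    · ring
    · linear_combination (star g * x.a * y.a + g * star x.a * star y.a) * three'

theorem tw_J (g : F9) {x : P F9} (hx : x ∈ J F9) : tw g x = x := by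
  apply P.ext <;> simp [tw, twF, mem_J.1 hx]

theorem tw_symm_J (g : F9) {x : P F9} (hx : x ∈ J F9) : (tw g).symm x = x := by
  rw [MulEquiv.symm_apply_eq, tw_J g hx]

theorem tw_dg {g : F9} {o : ℕ} (h : lO o * mO o * sO o g = g * star (lO o)) (x : P F9) :
    dgO o (tw g x) = tw g (dgO o x) := by
  have h' := congrArg star h
  simp only [← sE_apply, star_mul', star_mO, star_star, ← U5.map_star'] at h h'
  apply P.ext <;> simp only [tw, twF, MulEquiv.coe_mk, Equiv.coe_fn_mk, dgO_a, dgO_c, dgO_t, dgO_z,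
    ← sE_apply, map_add, map_mul, map_pow, star_mul', ← U5.map_star']
  · linear_combination sE o (star x.a) * h
  · linear_combination (lO o * sE o x.a ^ 2) * h' + (star (lO o) * sE o (star x.a) ^ 2) * h

variable {F E : FusionSystem (⊤ : Subgroup (P F9))}

theorem pack9 (hX : ExtStmt.{0}) (hF : F.IsSaturated 3) (hN : NF F) (hJ : JStd F) :
    ∃ A T : Subgroup (Perm V), Hyp9 (fun h => M F ⊤ h) A T ∧
      (∀ α ∈ A, ∃ f, Au F (Q F9) f ∧ ∀ x ∈ Q F9, α (pr x) = pr (f x)) ∧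
      ∀ f, Au F (Q F9) f → ∃ α ∈ A, ∀ x ∈ Q F9, α (pr x) = pr (f x) := by
  obtain ⟨A, T, H, h₁, h₂⟩ := pack hX hF hN
  refine ⟨A, T, ⟨H, fun o ho => ?_, hh_eq ▸ hJ.1 _, fun x hx y hy => M_mul hx hy⟩, h₁, h₂⟩
  obtain ⟨α, hα, e⟩ := h₂ (dgO o) ⟨ho.mono le_top, fun x hx => by
    rw [mem_Q, dgO_t, mem_Q.1 hx, ← sE_apply, map_zero, mul_zero]⟩
  refine ⟨α, hα, fun v => ?_⟩
  obtain ⟨x, hx, rfl⟩ := exists_pr v
  rw [e x hx, pr, dgO_a, dgO_c]; rfl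

theorem NF.cases (hN : NF F) {f : P F9 → P F9} (hf : M F ⊤ f) :
    ∃ x, ∃ o < 32, M F ⊤ (dgO o) ∧ ∀ y, f y = x * dgO o y * x⁻¹ := by
  obtain ⟨x, l, m, σ, e⟩ := hN f hf
  obtain ⟨o, ho, e'⟩ := exists_dgO l m σ
  exact ⟨x, o, ho, (hf.comp (M_conj F le_rfl (mem_top x⁻¹)) fun _ _ => trivial).congr fun y _ => by
    simp [e, e', mul_assoc], e' ▸ e⟩

theorem le_of9 (hA : AlpStmt.{0}) (hF : F.IsSaturated 3) (hN : NF F) (hJ : JStd F) (hJ' : JStd E)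
    (ho : ∀ o < 32, M F ⊤ (dgO o) → M E ⊤ (dgO o)) (h : ∀ f, Au F (Q F9) f →
      ∃ f', Au E (Q F9) f' ∧ ∀ x ∈ Q F9, pr (f x) = pr (f' x)) : F ≤ E := by
  refine hA hF hJ (fun f hf => ?_) hJ'.2.1 fun f hf => ?_
  · obtain ⟨x, o, h1, h2, e⟩ := NF.cases hN hf
    exact ((ho o h1 h2).comp (M_conj E le_rfl (mem_top x)) fun _ _ => trivial).congr
      fun y _ => (e y).symm
  obtain ⟨f', hf', e⟩ := h f hf
  obtain ⟨k, hk, -, e₁, hk', e₂⟩ := hf'.1.inv' (hf'.1.img_eq_self hf'.2)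
  obtain ⟨g, hg, eg⟩ := inner (n := fun x => k (f x)) (fun x hx y hy => by
      rw [hf.1.map_mul hx hy, hk.map_mul (hf.2 x hx) (hf.2 y hy)]) fun x hx =>
    mem_Z_of_pr hx (hk' _ (hf.2 x hx)) (by
      rw [pr_congr ⟨hk, hk'⟩ (hf.2 x hx) (hf'.2 x hx) (e x hx), e₁ x hx])
  exact ((M_conj E le_top (mem_top g)).comp hf'.1 fun x hx =>
    Normal.conj_mem inferInstance _ hx g).congr fun x hx => by
      rw [← eg x hx, e₂ _ (hf.2 x hx)]

theorem real_small (hS : StdStmt.{0}) (hF : F.IsSaturated 3) (hN : NF F) (hJ : JStd F) {g : F9}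
    (h₁ : ∀ s ∈ [1, 2], ∃ f, Au F (Q F9) f ∧ ∀ x ∈ Q F9, pr (tw g (f x)) =
      (⟨0, (s : ℕ)⟩ * (tw g x).c, ⟨0, (s : ℕ)⟩ * (tw g x).a))
    (h₂ : ∀ o < 32, M F ⊤ (dgO o) → lO o * mO o * sO o g = g * star (lO o))
    (h₃ : ∀ f, Au F (Q F9) f → (∀ x ∈ Z2 F9, f x ∈ Z2 F9) ∨
      ∃ τ : ℕ, ∀ x ∈ Z2 F9, (rp ⟨0, τ⟩ (pr (tw g (f x)))).2 = 0) : F.IsRealizable 3 := by
  obtain ⟨F', h⟩ := exists_iso (tw g) F
  have hI : Iso F F' := ⟨_, h⟩
  have hQ : ∀ x, tw g x ∈ Q F9 ↔ x ∈ Q F9 := fun _ => Iff.rfl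
  have hJ' : ∀ x, tw g x ∈ J F9 ↔ x ∈ J F9 := fun _ => Iff.rfl
  have hT : ∀ x, tw g x ∈ (⊤ : Subgroup (P F9)) ↔ x ∈ (⊤ : Subgroup (P F9)) := fun _ => Iff.rfl
  have hμ : ∀ μ, M F' ⊤ (hh μ) := fun μ => (M_of_iso h hT).2 (by
    obtain ⟨o, ho, e⟩ := hh_cases μ
    have h0 := hJ.1 μ
    rw [e] at h0 ⊢
    exact h0.congr fun x _ => by
      rw [tw_dg (h₂ o (by simp only [List.mem_cons, List.not_mem_nil, or_false] at ho; omega) h0),
        MulEquiv.symm_apply_apply])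
  refine hI.real (hS (hI.saturated hF) (fun f hf => ?_) ⟨hμ, ?_, fun f hf => ?_⟩
    ⟨fun ρ => ?_, fun ε h0 hε => ?_, fun f hf => ?_⟩)
  · obtain ⟨x, o, h1, h2, e⟩ := NF.cases hN ((M_of_iso h hT).1 hf)
    refine ⟨tw g x, _, _, _, fun y => (?_ : _ = _ * dgO o y * _)⟩
    obtain ⟨y, rfl⟩ := (tw g).surjective y
    rw [tw_dg (h₂ o h1 h2), ← map_inv, ← map_mul, ← map_mul, ← e, MulEquiv.apply_symm_apply]
  · obtain ⟨w, hw, e⟩ := hJ.2.1
    have e' : ∀ x ∈ J F9, w x = (tw g).symm (w (tw g x)) := fun x hx => by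
      rw [tw_J g hx, tw_symm_J g (hw.2 x hx)]
    exact ⟨w, (au_of_iso h hJ').2 ⟨hw.1.congr e', fun x hx => (e' x hx).subst (motive := (· ∈ J F9)) (hw.2 x hx)⟩, e⟩
  · have e' : ∀ x ∈ Z F9, (tw g).symm (f (tw g x)) = f x := fun x hx => by
      rw [tw_J g hx.1, tw_symm_J g (hf.2 x hx.1)]
    exact (hJ.2.2 _ ((au_of_iso h hJ').1 hf)).imp (fun k x hx => e' x hx ▸ k x hx)
      fun ⟨s, k⟩ => ⟨s, fun x hx => e' x hx ▸ k x hx⟩
  · obtain ⟨μ, h0, k1, k2, k3, k4⟩ := (by decide +kernel : ∀ ρ : F9, ρ ≠ 0 → star ρ = ρ →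
      ∃ μ : F9, μ ≠ 0 ∧ μ ^ 2 * ρ = 1 ∧ ρ * star μ = μ ∧ μ * star μ = 1 ∧ ρ ^ 2 = 1) _
      (ρ : F9ˣ).ne_zero (star_ku ρ)
    refine (hμ (Units.mk0 μ h0)).congr fun x _ => P.ext ?_ ?_ ?_ ?_
    · rw [hh_a, eta_a, eq_div_iff (ρ : F9ˣ).ne_zero, Units.val_mk0]
      linear_combination x.a * k1
    · rw [hh_c, eta_c, Units.val_mk0, (div_eq_iff (star_ne_zero.2 h0)).2 k2.symm]
    · rw [hh_t, eta_t, Units.val_mk0, k3, k4, div_one, one_mul]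
    · rw [hh_z, eta_z, Units.val_mk0, k3, one_mul]
  · obtain ⟨s, hs, rfl, k⟩ := (by decide +kernel : ∀ ε : F9, ε ≠ 0 → star ε = -ε →
      ∃ s ∈ [1, 2], ε = ⟨0, (s : ℕ)⟩ ∧ ε * ε = -1) ε h0 hε
    obtain ⟨f, hf, e⟩ := h₁ s hs
    refine ⟨fun x => tw g (f ((tw g).symm x)), (au_of_iso h hQ).2 (by simpa using hf),
      fun x hx => ?_⟩
    have := e ((tw g).symm x) hx
    rw [MulEquiv.apply_symm_apply, pr, Prod.mk.injEq] at this
    exact ⟨by rw [this.1, eq_div_iff h0]; linear_combination x.c * k, this.2⟩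
  · refine (h₃ _ ((au_of_iso h hQ).1 hf)).imp (fun k x hx => ?_) fun ⟨τ, k⟩ => ?_
    · have := k x hx
      rw [tw_J g hx.1] at this
      exact this
    · obtain ⟨s, hs⟩ : ∃ s : P F9, -s.t = ⟨0, τ⟩ :=
        ⟨xe 0 0 (-⟨0, τ⟩) (by ext <;> simp), neg_neg _⟩
      refine ⟨s, fun x hx => ?_⟩
      have := k x hx
      rw [MulEquiv.apply_symm_apply, tw_J g hx.1, ← hs, ← pr_conj s (hf.2 x hx.2)] at this
      exact this

theorem real9 (hX : ExtStmt.{0}) (hA : AlpStmt.{0}) (hS : StdStmt.{0}) (hL : LeechStmt)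
    (hF : F.IsSaturated 3) (hN : NF F) (hJ : JStd F) (hQ : MvQ F) : F.IsRealizable 3 := by
  obtain ⟨A, T, H, h₁, h₂⟩ := pack9 hX hF hN hJ
  obtain ⟨i, h19, hi⟩ := classify H
  by_cases h10 : i < 10
  · obtain ⟨φ, hφ, y, hy, hy'⟩ := hQ
    obtain ⟨γ, hγ, e⟩ := h₂ φ hφ
    obtain ⟨g, k₁, k₂, k₃⟩ := small H hi
      (fun h => hy' ((stabL_iff hφ e).1 (stab_of_zero H hi h hγ) y hy)) h10
    refine real_small hS hF hN hJ (g := g) (fun s hs => ?_) k₂ fun f hf => ?_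
    · obtain ⟨α, hα, e⟩ := k₁ s hs
      obtain ⟨f, hf, e'⟩ := h₁ α hα
      exact ⟨f, hf, fun x hx => by have := e (pr x); rw [e' x hx] at this; exact this⟩
    · obtain ⟨α, hα, e⟩ := h₂ f hf
      refine (k₃ α hα).imp (stabL_iff hf e).1 fun ⟨τ, k⟩ => ⟨τ, fun x hx => ?_⟩
      have := k x.c
      rw [← pr_Z2 hx, e x hx.2] at this
      rw [← this]
      simp only [rp_apply, pr, tw, twF, MulEquiv.coe_mk, Equiv.coe_fn_mk]
      ring
  obtain ⟨n, hn, rfl, hy⟩ := exotic H hi (not_lt.1 h10) h19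
  obtain ⟨E, hE, hR, hN', hJ', ⟨f, hf, e⟩, hy'⟩ := hL n hn
  obtain ⟨A', T', H', h₁', h₂'⟩ := pack9 hX hE hN' hJ'
  obtain ⟨i', h19', hi'⟩ := classify H'
  obtain rfl := ident H' hi' h19' hn (by
    obtain ⟨α, hα, e'⟩ := h₂' f hf
    refine ⟨α, hα, fun u => ?_⟩
    obtain ⟨x, hx, rfl⟩ := exists_pr u
    rw [e' x hx, e x hx]) hy'
  have o₁ := fun o ho h => (hy' o ho).2 ((hy o ho).1 h)
  have o₂ := fun o ho h => (hy o ho).2 ((hy' o ho).1 h)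
  obtain rfl : F = E := fs_le_antisymm (le_of9 hA hF hN hJ hJ' o₁ fun f hf => by
      obtain ⟨α, hα, e⟩ := h₂ f hf
      obtain ⟨f', hf', e'⟩ := h₁' α (le_of H H' (fun k hk h => (hi' k hk).2 ((hi k hk).1 h)) o₁ hα)
      exact ⟨f', hf', fun x hx => (e x hx).symm.trans (e' x hx)⟩)
    (le_of9 hA hE hN' hJ' hJ o₂ fun f hf => by
      obtain ⟨α, hα, e⟩ := h₂' f hf
      obtain ⟨f', hf', e'⟩ := h₁ α (le_of H' H (fun k hk h => (hi k hk).2 ((hi' k hk).1 h)) o₂ hα)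
      exact ⟨f', hf', fun x hx => (e x hx).symm.trans (e' x hx)⟩)
  exact hR

theorem q3_of (hN : NrmStmt.{0}) (hV : MvStmt.{0}) (h₂ : L2Stmt.{0}) (hX : ExtStmt.{0})
    (hA : AlpStmt.{0}) (hS : StdStmt.{0}) (hL : LeechStmt) : Q3Stmt.{v} := by
  intro K _ _ _ _ F hq hF hc
  refine real_of_field (K₀ := F9) hq (fun F hF hc => ?_) hF hc
  obtain ⟨F₁, i₁, n₁⟩ := hN hF
  obtain ⟨F₂, i₂, n₂, j₂⟩ := h₂ (i₁.saturated hF) (by decide) n₁
    (hV (i₁.saturated hF) (i₁.core hc)).2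
  have s₂ := (i₁.trans i₂).saturated hF
  exact (i₁.trans i₂).real (real9 hX hA hS hL s₂ n₂ j₂ (hV s₂ ((i₁.trans i₂).core hc)).1)

end Cfsg.Agent.U4.N9
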