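import Cfsg.Agent.Lib.U4.Mat
import Cfsg.Agent.Lib.Mat.Unitary

/-! Sylow subgroups of `PSU₄(q)`. -/

set_option autoImplicit false
set_option linter.unusedSectionVars false

namespace Cfsg.Agent.U4

open Subgroup Matrix
open Cfsg.Agent.U5 (Uf exists_norm exists_star_ne sylow_of_norm)

universe v

namespace Md

variable {K : Type v} [Field K] [Fintype K] [Uf K]

variable (K) in
theorem exists_base : ∃ C C' : Matrix (Fin 4) (Fin 4) K, C * Cᴴ = JJ K ∧ C * C' = 1 ∧ C' * C = 1 := by
  obtain ⟨e, he⟩ := exists_norm (y := (-1 : K)) (by simp)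
  obtain ⟨s, hs⟩ := exists_star_ne K
  have h0 : star s - s ≠ 0 := sub_ne_zero.2 hs
  have h1 : s - star s ≠ 0 := sub_ne_zero.2 hs.symm
  have : ∃ C : Matrix (Fin 4) (Fin 4) K, C * Cᴴ = JJ K := by
    refine ⟨!![1, 0, 0, e; 0, 1, e, 0; 0, star s / (star s - s), e * s / (star s - s), 0;
      star s / (star s - s), 0, 0, e * s / (star s - s)], ?_⟩
    rw [← Matrix.ext_iff]
    simp only [forall4, mul4, JJ, conjTranspose_apply, of_apply, cons_val, star_zero, star_one,
      star_div₀, star_sub, star_mul', star_star, mul_zero, zero_mul, add_zero, zero_add, true_and,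
      and_true, mul_one, one_mul]
    repeat' apply And.intro
    all_goals field_simp
    all_goals first
      | linear_combination he
      | linear_combination star s * he
      | linear_combination s * he
      | linear_combination s * star s * he
  obtain ⟨C, h⟩ := this
  have h2 : C * (Cᴴ * JJ K) = 1 := by rw [← mul_assoc, h, JJ_sq]
  exact ⟨C, _, h, h2, mul_eq_one_comm.1 h2⟩

theorem mem_SU {A : SpecialLinearGroup (Fin 4) K} : A ∈ SU 4 K (Uf.q K) ↔ A.1 * A.1ᴴ = 1 :=
  Mat.preserves_herm_iff (σ := starRingEnd K) (fun x => Uf.star_eq x) A.1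

variable (K) in
theorem exists_su : ∃ f : SU 4 K (Uf.q K) →* Matrix (Fin 4) (Fin 4) K, Function.Injective f ∧
    ∀ A, (∃ g, f g = A) ↔ IsU 1 A ∧ A.det = 1 := by
  obtain ⟨C, C', h, h1, h2⟩ := exists_base K
  have h1' : C'ᴴ * Cᴴ = 1 := by rw [← conjTranspose_mul, h1, conjTranspose_one]
  have h2' : Cᴴ * C'ᴴ = 1 := by rw [← conjTranspose_mul, h2, conjTranspose_one]
  have hd : C.det * C'.det = 1 := by rw [← det_mul, h1, det_one]
  refine ⟨⟨⟨fun g => C * g.1.1 * C', by simp [h1]⟩, fun g g' => ?_⟩, fun g g' e => ?_, fun A => ?_⟩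
  · change C * (g.1.1 * g'.1.1) * C' = _
    simp only [mul_assoc]
    rw [← mul_assoc C' C, h2, one_mul]
  · have := congrArg (fun X => C' * X * C) e
    simp only [MonoidHom.coe_mk, OneHom.coe_mk, ← mul_assoc, h2, one_mul] at this
    simp only [mul_assoc, h2, mul_one] at this
    exact Subtype.ext (Subtype.ext this)
  · constructor
    · rintro ⟨g, rfl⟩
      refine ⟨?_, ?_⟩
      · simp only [IsU, one_smul, MonoidHom.coe_mk, OneHom.coe_mk, ← h, conjTranspose_mul, mul_assoc]
        rw [← mul_assoc C' C, h2, one_mul, ← mul_assoc Cᴴ, h2', one_mul, ← mul_assoc g.1.1,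
          mem_SU.1 g.2, one_mul]
      · simp only [MonoidHom.coe_mk, OneHom.coe_mk, det_mul, g.1.2, mul_one, hd]
    · rintro ⟨hA, hA'⟩
      refine ⟨⟨⟨C' * A * C, by rw [det_mul, det_mul, hA', mul_one, mul_comm, hd]⟩, mem_SU.2 ?_⟩, ?_⟩
      · simp only [conjTranspose_mul, mul_assoc]
        rw [← mul_assoc C, h, ← mul_assoc (JJ K), ← mul_assoc A, ← mul_assoc A, hA, one_smul, ← h,
          mul_assoc C, h2', mul_one, h2]
      · simp only [MonoidHom.coe_mk, OneHom.coe_mk, ← mul_assoc, h1, one_mul]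
        rw [mul_assoc, h1, mul_one]

end Md

open Md in
theorem syl : SylStmt.{v} := by
  intro K _ _ _ p _ _ T
  obtain ⟨f, hf, hr⟩ := exists_su K
  choose j hj using fun x : P K => (hr (mat x)).2 ⟨isU_mat x, det_mat x⟩
  let ι : P K →* SU 4 K (Uf.q K) := MonoidHom.mk' j fun x y => hf (by simp [hj, mat_mul])
  have hι : ∀ x, f (ι x) = mat x := hj
  obtain ⟨T₀, h0⟩ := sylow_of_norm ((pg K p).of_surjective _ ι.rangeRestrict_surjective)
    fun g hg k hk => by
      obtain ⟨x, ν, l, m, -, e⟩ := dec_of_norm ((hr _).1 ⟨g, rfl⟩).1 one_ne_zero (star_one K) fun y => by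
        obtain ⟨y', h⟩ := (mem_normalizer_iff.1 hg _).1 ⟨y, rfl⟩
        exact ⟨y', by rw [← hι, ← hι, h, ← map_mul, ← map_mul, inv_mul_cancel_right]⟩
      have hk' := congrArg f hk
      rw [map_pow, map_one, e] at hk'
      rw [eq_mat_of_pow hk', mul_one] at e
      exact ⟨x, hf ((hι x).trans e.symm)⟩
  have hi : Function.Injective ((QuotientGroup.mk' (center _)).comp ι) := by
    refine (injective_iff_map_eq_one _).2 fun x hx => eq_one_of_JJ ?_
    obtain ⟨w, hw⟩ := (hr _).2 ⟨isU_JJ, det_JJ⟩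
    rw [← hw, ← hι, ← map_mul, ← map_mul,
      mem_center_iff.1 ((QuotientGroup.eq_one_iff _).1 hx) w]
  have h1 : ((T₀.mapSurjective (QuotientGroup.mk'_surjective (center _)) : Sylow p _) :
      Subgroup (PSU 4 K (Uf.q K))) = ((QuotientGroup.mk' (center _)).comp ι).range := by
    rw [Sylow.coe_mapSurjective, h0, MonoidHom.range_comp]
  exact ⟨((T.equiv _).trans (MulEquiv.subgroupCongr h1)).trans (MonoidHom.ofInjective hi).symm⟩

end Cfsg.Agent.U4
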